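import Cfsg.Agent.INV.HA.Bas2

/-!
Harada `E₁₆ · GL₄(2)`, case (c): assembly of the chart.
-/

set_option autoImplicit false
set_option maxHeartbeats 400000
set_option linter.unusedSectionVars false

namespace CL.HA
open Subgroup CL.MSS CL.PComp
open CL.SX (V vv e ZZ pc)

variable {G : Type*} [Group G] [Finite G] {s : P → G} {O : Subgroup G}

variable {c : V → G} {g0 g1 g2 r : G} {E0 : Subgroup G} {s2 : P → G}

namespace As

omit [Finite G] in
/-- extension of a homomorphism from a subgroup of index 2 -/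
theorem ext2 {H : Type*} [Group H] {K : Subgroup H} {y : H} (hy : y * y = 1) (hy' : y ∉ K)
    (hK : ∀ t, t ∉ K → t * y ∈ K) {f : H → G} (hf : ∀ m ∈ K, ∀ n ∈ K, f (m * n) = f m * f n) {ξ : G}
    (hξ : ξ * ξ = 1) (hc : ∀ t ∈ K, ξ * f t * ξ⁻¹ = f (y * t * y⁻¹)) :
    ∃ u : H →* G, (∀ t ∈ K, u t = f t) ∧ u y = ξ := by
  classical
  have yi : y⁻¹ = y := inv_eq_of_mul_eq_one_right hy
  have xi : ξ⁻¹ = ξ := inv_eq_of_mul_eq_one_right hξ
  have cj : ∀ t ∈ K, y * t * y⁻¹ ∈ K := fun t ht => by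
    rw [yi]; exact hK _ fun k => hy' ((K.mul_mem_cancel_right ht).1 k)
  have sw : ∀ t ∈ K, ξ * f t = f (y * t * y⁻¹) * ξ := fun t ht => by rw [← hc t ht]; group
  refine ⟨MonoidHom.mk' (fun t => if t ∈ K then f t else f (t * y) * ξ) fun m n => ?_,
    fun t ht => if_pos ht, ?_⟩
  · by_cases hm : m ∈ K <;> by_cases hn : n ∈ K
    · simp only [if_pos hm, if_pos hn, if_pos (mul_mem hm hn), hf m hm n hn]
    · have : m * n ∉ K := fun k => hn ((K.mul_mem_cancel_left hm).1 k)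
      simp only [if_pos hm, if_neg hn, if_neg this]
      rw [mul_assoc m, hf m hm _ (hK n hn), mul_assoc]
    · have : m * n ∉ K := fun k => hm ((K.mul_mem_cancel_right hn).1 k)
      simp only [if_neg hm, if_pos hn, if_neg this]
      rw [mul_assoc (f _), sw n hn, ← mul_assoc, ← hf _ (hK m hm) _ (cj n hn)]
      congr 2
      rw [yi, ← mul_assoc, ← mul_assoc, mul_assoc m y y, hy, mul_one]
    · have e : m * y * (y * (n * y) * y⁻¹) = m * n := by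
        rw [mul_assoc y, mul_assoc n, mul_inv_cancel, mul_one, ← mul_assoc, mul_assoc m, hy, mul_one]
      have : m * n ∈ K := e ▸ mul_mem (hK m hm) (cj _ (hK n hn))
      simp only [if_neg hm, if_neg hn, if_pos this]
      rw [mul_assoc (f _), ← mul_assoc ξ, sw _ (hK n hn), mul_assoc (f _), hξ, mul_one,
        ← hf _ (hK m hm) _ (cj _ (hK n hn)), e]
  · show (if y ∈ K then f y else f (y * y) * ξ) = ξ
    have : f 1 = 1 := (mhom hf).map_one
    rw [if_neg hy', hy, this, one_mul]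

theorem ts_dec : ∀ t : TS, ∃ t0, t0 ∈ A0 ∧ ∃ i j k l : Bool,
    t = t0 * (bif i then ts 10 else 1) * (bif j then ts 12 else 1) * (bif k then ts 32 else 1) *
      (bif l then ts 1 else 1) := by decide +kernel

theorem ts_ind {p : TS → Prop} (hm : ∀ t t', p t → p t' → p (t * t')) (h0 : ∀ t ∈ A0, p t) (h1 : p (ts 10))
    (h2 : p (ts 12)) (h3 : p (ts 32)) (h4 : p (ts 1)) (t : TS) : p t := by
  obtain ⟨t0, ht, i, j, k, l, rfl⟩ := ts_dec t
  have o : p 1 := h0 1 (one_mem _)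
  refine hm _ _ (hm _ _ (hm _ _ (hm _ _ (h0 _ ht) ?_) ?_) ?_) ?_
  · cases i; exacts [o, h1]
  · cases j; exacts [o, h2]
  · cases k; exacts [o, h3]
  · cases l; exacts [o, h4]

theorem dot_one : ∀ v, dot v 1 = false := by decide +kernel
theorem aS_Ev : ∀ t v, v ∈ Ev → aS t v ∈ Ev := by decide +kernel
theorem u1 : ∀ t, t ∉ U → t * ts 1 ∈ U := by decide +kernel
theorem u2 : ∀ t, t ∈ X0U → t ∈ X0 ∧ t ∈ U ∧ ts 1 * t * (ts 1)⁻¹ ∈ X0U := by decide +kernel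
theorem u3 : ∀ t, t ∈ U → t ∈ X0U ∨ t * ts 32 ∈ X0U ∧ t = t * ts 32 * ts 32 ∧
    ts 1 * t * (ts 1)⁻¹ = ts 1 * (t * ts 32) * (ts 1)⁻¹ * ts 32 := by decide +kernel
theorem u4 : ∀ t, t ∈ X0 → t ∈ X0U ∨ t * ts 1 ∈ X0U ∧ t = t * ts 1 * ts 1 := by decide +kernel
theorem u5 : ∀ t, t ∈ A0 → t ∈ U := by decide +kernel
theorem u6 : ∀ t : TS, (∀ v, v ∈ Ev → aS t v = v) → t = 1 := by decide +kernel
theorem ir_T0 {t : TS} (h : t ∈ U) : ir t ∈ T0 := ⟨one_mem _, h⟩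
theorem ir_RA {t : TS} (h : t ∈ X0U) : ir t ∈ RA := ⟨one_mem _, h⟩
theorem ir_DA {t : TS} (h : t ∈ X0) : ir t ∈ DA := ⟨one_mem _, h⟩
theorem x_DA : x ∈ DA := by decide +kernel

omit [Finite G] in
theorem tw0 {g : G} {c : V → G} {σ : V → V} (h : Tw g c σ 1) {v : V} (hv : v ∈ Ev) :
    g * c v * g⁻¹ = c (σ v) := by
  rw [h v hv, dot_one]; exact congrArg c (mul_one _)

end As
open As

/-- `u : TS → G`, `u t = s (ir t)` for `t ∈ U`, else `s (ir (t * ts 1)) * ξ`. `ξ = s2 x` is an involution that acts on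
`s (ir U)` as `x` (on `X0U` by the chart `s2`, on `e34` by `c34`, `U = X0U ⟨e34⟩`), so `u` is a homomorphism, and
`u t * c v * (u t)⁻¹ = c (aS t v)` for `v ∈ Ev` (generators `A0, e23, e24, e34, x`). It agrees with `s2 ∘ ir` on
`X0`. -/
theorem exists_u (h : N0 s O) (F : Fc s c g1 g2 false) (hD : Ds s c E0 g0 g1 s2) (hX : Xs s c E0 g1 (s2 x)) :
    ∃ u : TS →* G, (∀ t ∈ U, u t = s (ir t)) ∧ (∀ t ∈ X0, u t = s2 (ir t)) ∧
      ∀ t, ∀ v ∈ Ev, u t * c v * (u t)⁻¹ = c (aS t v) := by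
  have hs := h.ch
  have c0 : ∀ t ∈ X0U, s2 x * s (ir t) * (s2 x)⁻¹ = s (ir (ts 1 * t * (ts 1)⁻¹)) := fun t ht => by
    rw [← hD.ex1 _ (ir_RA ht), ← hD.ex1 _ (ir_RA (u2 t ht).2.2), hD.ch.conj x_DA (ir_DA (u2 t ht).1),
      map_mul, map_mul, map_inv]
    rfl
  have m0 : ∀ m ∈ U, ∀ n ∈ U, s (ir (m * n)) = s (ir m) * s (ir n) := fun m hm n hn => by
    rw [map_mul, hs.mul _ (ir_T0 hm) _ (ir_T0 hn)]
  have k32 : ts 32 ∈ U := by decide +kernel
  obtain ⟨u, h1, h2⟩ := ext2 (K := U) (y := ts 1) (by decide +kernel) (by decide +kernel) u1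
    (f := fun t => s (ir t)) m0 (ξ := s2 x)
    (by rw [← hD.ch.mul _ x_DA _ x_DA, show x * x = 1 by decide +kernel, hD.ch.one]) (fun t ht => by
      rcases u3 t ht with k | ⟨k, e1, e2⟩
      · exact c0 t k
      · have k' := u2 _ k
        rw [e2, m0 _ (u2 _ k'.2.2).2.1 _ k32, ← c0 _ k]
        conv_lhs => rw [e1, m0 _ k'.2.1 _ k32]
        have : s (ir (ts 32)) * s2 x = s2 x * s (ir (ts 32)) := hX.c34
        have : s (ir (ts 32)) * (s2 x)⁻¹ = (s2 x)⁻¹ * s (ir (ts 32)) :=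
          (Commute.inv_right this).eq
        rw [mul_assoc, mul_assoc, this, ← mul_assoc, ← mul_assoc])
  have h3 : ∀ t ∈ X0U, u t = s2 (ir t) := fun t ht => by
    rw [h1 t (u2 t ht).2.1, hD.ex1 _ (ir_RA ht)]
  refine ⟨u, h1, fun t ht => ?_, ts_ind (fun t t' k k' v hv => ?_) (fun t ht v hv => ?_)
    (fun v hv => ?_) (fun v hv => ?_) (fun v hv => ?_) (fun v hv => ?_)⟩
  · rcases u4 t ht with k | ⟨k, e1⟩
    · exact h3 t k
    · rw [e1, map_mul, h3 _ k, h2, map_mul ir (t * ts 1) (ts 1), hD.ch.mul _ (ir_DA (u2 _ k).1) (ir (ts 1)) x_DA]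
      rfl
  · rw [mul_aS, ← k _ (aS_Ev _ _ hv), ← k' v hv, map_mul]; group
  · rw [h1 t (u5 t ht)]; exact F.qa t ht v hv
  · rw [h1 _ (by decide +kernel)]; exact tw0 F.t23 hv
  · rw [h1 _ (by decide +kernel)]; exact tw0 F.t24 hv
  · rw [h1 _ k32]; exact tw0 F.t34 hv
  · rw [h2]; exact hX.act v hv

namespace As

theorem f1 : ∀ v, v ∈ RM → v ∈ Ev := by decide +kernel
theorem f2 : ∀ v, v ∈ ZZ → v ∈ Ev := by decide +kernel
theorem f3 : ∀ m ∈ DB, omg m ∈ S1 := forall_sd.2 (by decide +kernel)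
theorem f4 : ∀ m ∈ [z, e13, e14, a, e23, e24, d, x, b, HA.c], m ∈ DA ∧ omg m ∈ DA := by decide +kernel
theorem f5 : ∀ m ∈ [z, e13, e14, a, e23, e24, d, x, b, HA.c, e34], m ∈ DB := by decide +kernel
/-- the `TS`-component of `rh` -/
def rt (t : TS) : TS := ts (R1T >>> (7 * t.n))
def rt' (t : TS) : TS := ts (R2T >>> (7 * t.n))
theorem f6 : ∀ t, t ∈ X0U → rt t ∈ U ∧ rh (ir t) = ir (rt t) ∧ rt (t * ts 1) = rt t * ts 1 := by
  decide +kernel
theorem f7 : ∀ t, t ∈ X1 → t ∈ U ∧ rt' t ∈ U ∧ rh' (ir t) = ir (rt' t) := by decide +kernel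
theorem A'_T0 : A' ≤ T0 := fun _ hm => ⟨hm.1, by rw [mem_bot.1 hm.2]; exact one_mem _⟩
theorem R_T0 : R ≤ T0 := forall_sd.2 (by decide +kernel)
theorem D_DA : D ≤ DA := forall_sd.2 (by decide +kernel)

theorem cl_gen (h : N0 s O) (F : Fc s c g1 g2 false) (hE : Es s c g1 g2 E0) (hD : Ds s c E0 g0 g1 s2)
    (hX : Xs s c E0 g1 (s2 x)) {u : TS →* G} (h1 : ∀ t ∈ U, u t = s (ir t)) (h2 : ∀ t ∈ X0, u t = s2 (ir t))
    {W : Subgroup V} (hW : Ev ≤ W) {X : Subgroup P} (hX' : ∀ m, m ∈ X ↔ m.v ∈ W) {c' : V → G}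
    (cm : ∀ v ∈ W, ∀ w ∈ W, c' (v * w) = c' v * c' w) (ci : ∀ v ∈ W, c' v = 1 → v = 1)
    (ce : ∀ v ∈ Ev, c' v = c v) (cE : im c' W = E0) (hi : ∀ t, ∀ v ∈ W, aS t v ∈ W)
    (ca : ∀ t, ∀ v ∈ W, u t * c' v * (u t)⁻¹ = c' (aS t v))
    (c1 : ∀ v ∈ W, g1 * c' v * g1⁻¹ = c' (r1V v)) (c2 : ∀ v ∈ W, g2 * c' v * g2⁻¹ = c' (r2V v)) :
    Cl X (fun m => c' m.v * u m.t) O := by
  set s' : P → G := fun m => c' m.v * u m.t with hs'
  have le : S1 ≤ X := fun m hm => (hX' m).2 (hW hm.1)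
  have e0 : ∀ m ∈ T0, s m = s' m := fun m hm => by
    show s m = c' m.v * u m.t
    rw [ce _ (f1 _ hm.1), F.ext _ hm.1, h1 _ hm.2, ← h.ch.mul (il m.v) ⟨hm.1, one_mem _⟩ _ (ir_T0 hm.2),
      il_mul_ir]
  have e2 : ∀ m ∈ DA, s2 m = s' m := fun m hm => by
    show s2 m = c' m.v * u m.t
    rw [ce _ (f2 _ hm.1), ← hD.ex2 _ hm.1, h2 _ hm.2, ← hD.ch.mul (il m.v) ⟨hm.1, one_mem _⟩ _ (ir_DA hm.2),
      il_mul_ir]
  have ch : Ch X s' := ⟨fun m hm n hn => ?_, fun m hm k => ?_⟩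
  rotate_left
  · show c' (m.v * aS m.t n.v) * u (m.t * n.t) = c' m.v * u m.t * (c' n.v * u n.t)
    rw [cm _ ((hX' m).1 hm) _ (hi _ _ ((hX' n).1 hn)), ← ca _ _ ((hX' n).1 hn), map_mul]; group
  · have hv := (hX' m).1 hm
    have k' : u m.t = (c' m.v)⁻¹ := eq_inv_of_mul_eq_one_right k
    have ht : m.t = 1 := u6 _ fun v hv' => by
      have hw := hW hv'
      have : c' (aS m.t v) = c' v := by
        rw [← ca _ _ hw, k', inv_inv, mul_assoc, ← cm _ hw _ hv, mul_comm v, cm _ hv _ hw,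
          inv_mul_cancel_left]
      have := ci _ (mul_mem (hi m.t v hw) hw) (by
        rw [cm _ (hi _ _ hw) _ hw, this, ← cm _ hw _ hw, SX.V.mul_self]; exact (mhom cm).map_one)
      rw [← mul_one (aS m.t v), ← SX.V.mul_self v, ← mul_assoc, this, one_mul]
    have k2 : c' m.v * u m.t = 1 := k
    rw [ht, map_one, mul_one] at k2
    exact P.ext (ci _ hv k2) ht
  refine ⟨le, ch, h.congr e0, ?_, ?_, ⟨g0, ?_⟩, ⟨g1, fun m hm => ?_⟩, ⟨g2, fun m hm => ?_⟩⟩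
  · have : im s' (X ⊓ E) = im c' W := le_antisymm
      (im_le.2 fun m hm => by
        show c' m.v * u m.t ∈ _
        rw [mem_bot.1 hm.2.2, map_one, mul_one]; exact mem_im _ ((hX' m).1 hm.1))
      (im_le.2 fun v hv => by
        have : c' v = s' (il v) := by
          show c' v = c' v * u 1
          rw [map_one, mul_one]
        rw [this]; exact mem_im _ ⟨(hX' _).2 hv, trivial, rfl⟩)
    rw [this, cE, ← im_congr fun m hm => e0 m (A'_T0 hm)]
    exact hE.syl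
  · rw [← im_congr fun m hm => e0 m (R_T0 hm), ← im_congr fun m hm => e2 m (D_DA hm)]
    exact hD.syl
  · refine Ac.of_gen (Y := DB) ch (fun m hm => (hX' m).2 (hW (f2 _ hm.1))) (fun m hm => le (f3 m hm)) omg_mul f5 gen_DB
      fun m hm => ?_
    by_cases k : m = e34
    · subst k
      rw [← e0 _ (by decide +kernel), ← e0 _ (by decide +kernel)]
      exact hD.a0 _ (by decide +kernel)
    · have hm' : m ∈ [z, e13, e14, a, e23, e24, d, x, b, HA.c] := by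
        simp only [List.mem_cons, List.not_mem_nil, or_false] at hm ⊢
        tauto
      rw [← e2 _ (f4 m hm').1, ← e2 _ (f4 m hm').2]
      exact hD.a0' _ (f4 m hm').1
  · have k0 : ∀ t ∈ X0U, g1 * u t * g1⁻¹ = u (rt t) := fun t ht => by
      rw [h1 _ (u2 t ht).2.1, h1 _ (f6 t ht).1, ← (f6 t ht).2.1]
      exact F.a1 _ ⟨one_mem _, ht⟩
    have k : g1 * u m.t * g1⁻¹ = u (rt m.t) := by
      rcases u4 _ hm.2.2 with k | ⟨k, e1⟩
      · exact k0 _ k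
      · have : u (ts 1) = s2 x := h2 _ (by decide +kernel)
        rw [e1, (f6 _ k).2.2, map_mul _ _ (ts 1), map_mul _ (rt _), ← k0 _ k, this, mul_assoc (_ * _) g1⁻¹,
          ← (Commute.inv_left hX.c1).eq.symm]
        group
    show g1 * (c' m.v * u m.t) * g1⁻¹ = c' (r1V m.v) * u (rt m.t)
    rw [← k, ← c1 _ ((hX' m).1 hm.1)]; group
  · have k : g2 * u m.t * g2⁻¹ = u (rt' m.t) := by
      have ht := f7 _ hm.2.2
      rw [h1 _ ht.1, h1 _ ht.2.1, ← ht.2.2]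
      exact F.a2 _ ⟨one_mem _, hm.2.2⟩
    show g2 * (c' m.v * u m.t) * g2⁻¹ = c' (r2V m.v) * u (rt' m.t)
    rw [← k, ← c2 _ ((hX' m).1 hm.1)]; group

theorem g1' : ∀ v, v ∉ Ev → v * e 0 ∈ Ev := by decide +kernel
theorem g2' : ∀ v, v ∈ Ev → r1V v ∈ Ev ∧ r2V v ∈ Ev ∧ r1V (v * e 0) = r1V v * e 0 ∧
    r2V (v * e 0) = r2V v * e 0 := by decide +kernel
theorem g3' : ∀ t, e 0 * e (pS t 0) ∈ Ev := by decide +kernel

end As


/-- `s' m = c m.v * u m.t`. Injective: if `c v * u t = 1` then `u t ∈ F0` centralises `F0`, so `aS t` is trivial on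
`Ev`. `s' = s` on `T0` (`N0.congr`), `s' = s2` on `DA`. `om`: `Ac.of_gen` with `gen_DB`, `a0'`, `a0` (for `e34`).
`r1`: `S1 ⊓ DR` is generated by `F, T00, x`; `r2`: `S1 ⊓ DR'` by `F, T01`. -/
theorem cl_S1 (h : N0 s O) (F : Fc s c g1 g2 false) (hE : Es s c g1 g2 E0) (hD : Ds s c E0 g0 g1 s2)
    (hX : Xs s c E0 g1 (s2 x)) (e0 : E0 = im c Ev) : ∃ s' : P → G, Cl S1 s' O := by
  obtain ⟨u, h1, h2, h3⟩ := exists_u h F hD hX
  exact ⟨_, cl_gen h F hE hD hX h1 h2 le_rfl (X := S1) (fun _ => ⟨fun k => k.1, fun k => ⟨k, trivial⟩⟩) F.mul F.inj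
    (fun _ _ => rfl) e0.symm aS_Ev h3 (fun _ hv => tw0 F.t1 hv) (fun _ hv => tw0 F.t2 hv)⟩


/-- `c' v = c v` for even `v`, `c (v * e 0) * r` for odd `v`, a homomorphism on `V` with range `E0`, and
`u t * c' v * (u t)⁻¹ = c' (aS t v)` (for `v = e 0`: `Rr.qa`, `cU`, `cx`; `TS` is generated by `A0, U0, x`).
`φ m = c' m.v * u m.t`. -/
theorem cl_top (h : N0 s O) (F : Fc s c g1 g2 false) (hE : Es s c g1 g2 E0) (hD : Ds s c E0 g0 g1 s2)
    (hX : Xs s c E0 g1 (s2 x)) (hr : Rr s c E0 r) (hs : Rs s c g1 g2 (s2 x) r) :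
    ∃ φ : P →* G, Cl ⊤ φ O := by
  obtain ⟨u, h1, h2, h3⟩ := exists_u h F hD hX
  obtain ⟨c', k1, k2⟩ := ext2 (K := Ev) (y := e 0) (SX.V.mul_self _) (by decide +kernel) g1' F.mul hs.sq
    (fun v hv => by
      rw [hE.comm _ hr.mem _ (hE.le (mem_im c hv)), mul_inv_cancel_right, mul_comm (e 0), mul_inv_cancel_right])
  have sp : ∀ v : V, v ∈ Ev ∨ ∃ w ∈ Ev, v = w * e 0 := fun v => by
    by_cases hv : v ∈ Ev
    · exact Or.inl hv
    · exact Or.inr ⟨_, g1' v hv, by rw [mul_assoc, SX.V.mul_self, mul_one]⟩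
  have ac : ∀ (g : G) (σ : V → V), (∀ v ∈ Ev, σ v ∈ Ev) → (∀ v ∈ Ev, σ (v * e 0) = σ v * σ (e 0)) →
      (∀ v ∈ Ev, g * c v * g⁻¹ = c (σ v)) → g * r * g⁻¹ = c' (σ (e 0)) →
      ∀ v, g * c' v * g⁻¹ = c' (σ v) := fun g σ a1 a2 a3 a4 v => by
    rcases sp v with hv | ⟨w, hw, rfl⟩
    · rw [k1 _ hv, k1 _ (a1 _ hv), a3 _ hv]
    · rw [a2 _ hw, map_mul, map_mul, k1 _ hw, k1 _ (a1 _ hw), ← a3 _ hw, ← a4, k2]; group
  have ac' : ∀ t, u t * r * (u t)⁻¹ = c' (e (pS t 0)) → ∀ v, u t * c' v * (u t)⁻¹ = c' (aS t v) :=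
    fun t k => ac _ _ (aS_Ev t) (fun _ _ => aS_mul _ _ _) (h3 t) (by rw [k, aS_e])
  have cU : ∀ t ∈ U0, t ∈ U → pS t 0 = 0 → ∀ v, u t * c' v * (u t)⁻¹ = c' (aS t v) := fun t ht ht' k =>
    ac' t (by rw [k, k2, h1 t ht', hs.cU t ht, mul_inv_cancel_right])
  have ca : ∀ t v, u t * c' v * (u t)⁻¹ = c' (aS t v) := by
    refine ts_ind (fun t t' k k' v => ?_) (fun t ht => ac' t ?_)
      (cU _ (by decide +kernel) (by decide +kernel) (by decide +kernel))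
      (cU _ (by decide +kernel) (by decide +kernel) (by decide +kernel))
      (cU _ (by decide +kernel) (by decide +kernel) (by decide +kernel)) (ac' _ ?_)
    · rw [mul_aS, ← k, ← k', map_mul]; group
    · rw [h1 t (u5 t ht), hr.qa t ht, ← k1 _ (g3' t), ← k2, ← map_mul, ← mul_assoc, SX.V.mul_self, one_mul]
    · have : u (ts 1) = s2 x := h2 _ (by decide +kernel)
      rw [this, hs.cx, ← k1 _ (by decide +kernel), ← k2, ← map_mul]
      exact congrArg c' (by decide +kernel)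
  have H := cl_gen h F hE hD hX h1 h2 (W := ⊤) le_top (X := ⊤) (fun _ => Iff.rfl) (c' := c')
    (fun v _ w _ => map_mul c' v w) (fun v _ k => ?_) k1 ?_ (fun _ _ _ => trivial) (fun t v _ => ca t v)
    (fun v _ => ac _ _ (fun v hv => (g2' v hv).1) (fun v hv => (g2' v hv).2.2.1.trans (by
      congr 1)) (fun _ hv => tw0 F.t1 hv) (by
        rw [hs.c1, mul_inv_cancel_right, ← k2]; exact congrArg c' (by decide +kernel)) v)
    (fun v _ => ac _ _ (fun v hv => (g2' v hv).2.1) (fun v hv => (g2' v hv).2.2.2.trans (by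
      congr 1)) (fun _ hv => tw0 F.t2 hv) (by
        rw [hs.c2, mul_inv_cancel_right, ← k2]; exact congrArg c' (by decide +kernel)) v)
  · exact ⟨MonoidHom.mk' (fun m => c' m.v * u m.t) fun m n => H.ch.mul m trivial n trivial, H⟩
  · rcases sp v with hv | ⟨w, hw, rfl⟩
    · exact F.inj v hv (k1 v hv ▸ k)
    · rw [map_mul, k1 _ hw, k2] at k
      exact absurd (eq_inv_of_mul_eq_one_right k ▸ inv_mem (mem_im c hw)) hr.nmem
  · refine le_antisymm (im_le.2 fun v _ => ?_) fun g hg => ?_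
    · rcases sp v with hv | ⟨w, hw, rfl⟩
      · rw [k1 v hv]; exact hE.le (mem_im c hv)
      · rw [map_mul, k1 _ hw, k2]; exact mul_mem (hE.le (mem_im c hw)) hr.mem
    · have l : im c Ev ≤ im c' ⊤ := im_le.2 fun v hv => k1 v hv ▸ mem_im c' trivial
      rcases hr.idx g hg with k | k
      · exact l k
      · exact ((im c' ⊤).mul_mem_cancel_right (k2 ▸ mem_im c' trivial)).1 (l k)


end CL.HA
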