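import Cfsg.Agent.INV.HA.Bas
import Cfsg.Agent.SOLV.CoprimeSylow

/-!
Harada `E₁₆ · GL₄(2)`: facts on the model and on `N0`.
-/

set_option autoImplicit false
set_option maxHeartbeats 400000
set_option linter.unusedSectionVars false

namespace CL.HA
open Subgroup CL.MSS CL.PComp
open CL.SX (V vv e ZZ pc)

variable {G : Type*} [Group G] [Finite G] {s : P → G} {O : Subgroup G}

/-- quantifiers over a list must not run over all of `P` -/
instance (priority := high) decAllL (L : List P) (p : P → Prop) [DecidablePred p] :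
    Decidable (∀ m ∈ L, p m) := List.decidableBAll p L
instance (priority := high) decExL (L : List P) (p : P → Prop) [DecidablePred p] :
    Decidable (∃ m ∈ L, p m) := List.decidableBEx p L

theorem card_sg {H : Type*} [Group H] [Fintype H] (X : Subgroup H) [∀ v, Decidable (v ∈ X)] :
    Nat.card X = (Finset.univ.filter (· ∈ X)).card := Nat.subtype_card _ (by simp)

theorem card_Ev : Nat.card Ev = 128 := by
  rw [card_sg]; decide +kernel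
theorem card_RM : Nat.card RM = 16 := by
  rw [card_sg]; decide +kernel
theorem card_Z1 : Nat.card Z1 = 2 := by
  rw [card_sg]; decide +kernel
theorem card_ZZ : Nat.card ZZ = 16 := by
  rw [card_sg]; decide +kernel
theorem card_Zev : Nat.card Zev = 8 := by
  rw [card_sg]; decide +kernel
theorem card_RM0 : Nat.card RM0 = 8 := by
  rw [card_sg]; decide +kernel
theorem card_B0v : Nat.card B0v = 64 := by
  rw [card_sg]; decide +kernel
theorem card_A0 : Nat.card A0 = 8 := by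
  rw [card_sg]; decide +kernel
theorem card_U : Nat.card U = 64 := by
  rw [card_sg]; decide +kernel
theorem card_Lo : Nat.card Lo = 16 := by
  rw [card_sg]; decide +kernel
theorem card_LoU : Nat.card LoU = 8 := by
  rw [card_sg]; decide +kernel
theorem card_X0 : Nat.card X0 = 64 := by
  rw [card_sg]; decide +kernel
theorem card_X0U : Nat.card X0U = 32 := by
  rw [card_sg]; decide +kernel
theorem card_X1 : Nat.card X1 = 32 := by
  rw [card_sg]; decide +kernel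
theorem card_U0 : Nat.card U0 = 8 := by
  rw [card_sg]; decide +kernel

theorem rh_chk1 : ∀ t, t ∈ X0 → ∀ i, r1V (aS t (e i)) = aS (ts (R1T >>> (7 * t.n))) (r1V (e i)) := by
  decide +kernel
theorem rh_chk2 : ∀ t, t ∈ X0 → ∀ u, u ∈ X0 →
    ts (R1T >>> (7 * (t * u).n)) = ts (R1T >>> (7 * t.n)) * ts (R1T >>> (7 * u.n)) := by decide +kernel
theorem rh'_chk1 : ∀ t, t ∈ X1 → ∀ i, r2V (aS t (e i)) = aS (ts (R2T >>> (7 * t.n))) (r2V (e i)) := by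
  decide +kernel
theorem rh'_chk2 : ∀ t, t ∈ X1 → ∀ u, u ∈ X1 →
    ts (R2T >>> (7 * (t * u).n)) = ts (R2T >>> (7 * t.n)) * ts (R2T >>> (7 * u.n)) := by decide +kernel

theorem hom_aS (f : V →* V) {t u : TS} (h : ∀ i, f (aS t (e i)) = aS u (f (e i))) (v : V) :
    f (aS t v) = aS u (f v) := by
  have := SX.hom_ext (f := f.comp (acS t).toMonoidHom) (g := (acS u).toMonoidHom.comp f) fun i => by
    simpa using h i
  simpa using DFunLike.congr_fun this v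

/-- `τS (rh m).t = σ1 * τS m.t * σ1⁻¹` by `decide` over `X0`, then `pm` -/
theorem rh_mul : ∀ m ∈ DR, ∀ n ∈ DR, rh (m * n) = rh m * rh n := by
  intro m hm n hn
  refine P.ext ?_ (rh_chk2 _ hm.2 _ hn.2)
  show r1V (m.v * aS m.t n.v) = r1V m.v * aS _ (r1V n.v)
  rw [r1V, map_mul, hom_aS _ (rh_chk1 _ hm.2)]; rfl
theorem rh'_mul : ∀ m ∈ DR', ∀ n ∈ DR', rh' (m * n) = rh' m * rh' n := by
  intro m hm n hn
  refine P.ext ?_ (rh'_chk2 _ hm.2 _ hn.2)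
  show r2V (m.v * aS m.t n.v) = r2V m.v * aS _ (r2V n.v)
  rw [r2V, map_mul, hom_aS _ (rh'_chk1 _ hm.2)]; rfl
/-- the products of the sublists -/
def spl {H : Type*} [Group H] : List H → List H
  | [] => [1]
  | g :: L => spl L ++ (spl L).map (g * ·)

theorem spl_mem {H : Type*} [Group H] (K : Subgroup H) :
    ∀ L : List H, (∀ g ∈ L, g ∈ K) → ∀ g ∈ spl L, g ∈ K
  | [], _, g, hg => by rw [List.mem_singleton.1 hg]; exact one_mem _
  | a :: L, h, g, hg => by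
    have ih := spl_mem K L fun g hg => h g (List.mem_cons_of_mem _ hg)
    rcases List.mem_append.1 hg with k | k
    · exact ih g k
    · obtain ⟨y, hy, rfl⟩ := List.mem_map.1 k
      exact mul_mem (h a List.mem_cons_self) (ih y hy)

theorem sd_le {W : Subgroup V} {X : Subgroup TS} {h} {K : Subgroup P} (LV : List V) (LT : List TS)
    (h1 : ∀ v ∈ LV, il v ∈ K) (h2 : ∀ t ∈ LT, ir t ∈ K) (hV : ∀ v, v ∈ W → v ∈ spl LV)
    (hT : ∀ t, t ∈ X → t ∈ spl LT) : sd W X h ≤ K := fun m hm => by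
  have : m = il m.v * ir m.t := (il_mul_ir _ _).symm
  rw [this]
  exact mul_mem (spl_mem (K.comap il) LV h1 _ (hV _ hm.1)) (spl_mem (K.comap ir) LT h2 _ (hT _ hm.2))

theorem gen_sd {W : Subgroup V} {X : Subgroup TS} {h} {L : List P} (LV : List V) (LT : List TS)
    (k : (∀ v ∈ LV, il v ∈ L) ∧ (∀ t ∈ LT, ir t ∈ L) ∧ (∀ v, v ∈ W → v ∈ spl LV) ∧
      ∀ t, t ∈ X → t ∈ spl LT) : sd W X h ≤ closure {m | m ∈ L} :=
  sd_le LV LT (fun v hv => subset_closure (k.1 v hv)) (fun t ht => subset_closure (k.2.1 t ht))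
    k.2.2.1 k.2.2.2

theorem spl_ind {H : Type*} [Group H] (p : H → Prop) (h1 : p 1) (hm : ∀ a b, p a → p b → p (a * b)) :
    ∀ L : List H, (∀ g ∈ L, p g) → ∀ g ∈ spl L, p g :=
  fun L h => by
    induction L with
    | nil => intro g hg; rw [List.mem_singleton.1 hg]; exact h1
    | cons a L ih =>
      intro g hg
      have ih := ih fun g hg => h g (List.mem_cons_of_mem _ hg)
      rcases List.mem_append.1 hg with k | k
      · exact ih g k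
      · obtain ⟨y, hy, rfl⟩ := List.mem_map.1 k
        exact hm _ _ (h a List.mem_cons_self) (ih y hy)

/-- `omg (ir t)` -/
def omT (t : TS) : P := ir (ts (16 * (t.n / 16))) * ⟨zz t.n, ts (t.n % 16)⟩
theorem omg_eq (m : P) : omg m = ir (ts (nz m.v)) * omT m.t := mul_assoc _ _ _
theorem omg_c1 : ∀ v, v ∈ ZZ → ∀ w, w ∈ ZZ → ts (nz (v * w)) = ts (nz v) * ts (nz w) := by decide +kernel
theorem omg_c2 : ∀ g ∈ [ts 15, ts 10, ts 12, ts 1, ts 48, ts 64, ts 32],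
    (∀ t, omT (t * g) = omT t * omT g) ∧ ∀ w, w ∈ ZZ → aS g w ∈ ZZ ∧
      omT g * ir (ts (nz w)) = ir (ts (nz (aS g w))) * omT g := by decide +kernel
theorem TS_spl : ∀ t, t ∈ spl [ts 15, ts 10, ts 12, ts 1, ts 48, ts 64, ts 32] := by decide +kernel
theorem omg_c3 (g : TS) : (∀ t, omT (t * g) = omT t * omT g) ∧ ∀ w, w ∈ ZZ → aS g w ∈ ZZ ∧
      omT g * ir (ts (nz w)) = ir (ts (nz (aS g w))) * omT g := by
  have o : omT 1 = 1 := by decide +kernel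
  refine spl_ind (fun g => (∀ t, omT (t * g) = omT t * omT g) ∧ ∀ w, w ∈ ZZ → aS g w ∈ ZZ ∧
      omT g * ir (ts (nz w)) = ir (ts (nz (aS g w))) * omT g) ⟨fun t => by simp [o], fun w hw => ?_⟩
    (fun p q hp hq => ⟨fun t => ?_, fun w hw => ?_⟩) _ omg_c2 g (TS_spl g)
  · simpa [o, one_aS] using hw
  · rw [← mul_assoc, hq.1, hp.1, hq.1, mul_assoc]
  · rw [mul_aS, hq.1, mul_assoc, (hq.2 w hw).2, ← mul_assoc, (hp.2 _ (hq.2 w hw).1).2, mul_assoc]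
    exact ⟨(hp.2 _ (hq.2 w hw).1).1, rfl⟩

/-- check `omg (m * g) = omg m * omg g` for the generators `g` -/
theorem omg_mul : ∀ m ∈ DB, ∀ n ∈ DB, omg (m * n) = omg m * omg n := by
  intro m hm n hn
  have k := (omg_c3 m.t).2 _ hn.1
  rw [omg_eq, omg_eq, omg_eq, P.mul_v, P.mul_t, omg_c1 _ hm.1 _ k.1, (omg_c3 n.t).1, map_mul, mul_assoc,
    mul_assoc, ← mul_assoc (omT m.t), k.2, mul_assoc]

/-- `Ac` is closed under products -/
theorem Ac.of_gen {X Y : Subgroup P} (h : Ch X s) (hY : Y ≤ X) {f : P → P} (hf : ∀ m ∈ Y, f m ∈ X)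
    (hm : ∀ m ∈ Y, ∀ n ∈ Y, f (m * n) = f m * f n) {L : List P} (hL : ∀ m ∈ L, m ∈ Y)
    (hg : Y ≤ closure {m | m ∈ L}) {g : G} (k : ∀ m ∈ L, g * s m * g⁻¹ = s (f m)) : Ac g s Y f := by
  have key : ∀ n ∈ closure {m | m ∈ L}, n ∈ Y ∧ g * s n * g⁻¹ = s (f n) := fun n hn => by
    have f1 : f 1 = 1 := by
      have := hm 1 (one_mem _) 1 (one_mem _)
      rw [mul_one] at this
      exact left_eq_mul.1 this
    induction hn using closure_induction with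
    | mem p hp => exact ⟨hL p hp, k p hp⟩
    | one => exact ⟨one_mem _, by rw [f1, h.one]; simp⟩
    | mul p q _ _ hp hq =>
      refine ⟨mul_mem hp.1 hq.1, ?_⟩
      rw [hm p hp.1 q hq.1, h.mul _ (hf p hp.1) _ (hf q hq.1), h.mul _ (hY hp.1) _ (hY hq.1), ← hp.2, ← hq.2]
      group
    | inv p _ hp =>
      refine ⟨inv_mem hp.1, ?_⟩
      have e1 := hm _ (inv_mem hp.1) p hp.1
      rw [inv_mul_cancel, f1] at e1
      rw [eq_inv_of_mul_eq_one_left e1.symm, h.inv (hf p hp.1), h.inv (hY hp.1), ← hp.2]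
      group
  exact fun m hm => (key m (hg hm)).2

theorem gen_A : A ≤ closure {m | m ∈ [z, a, b, c]} := by
  exact gen_sd [vv 255] [ts 15, ts 48, ts 64] (by decide +kernel)
theorem gen_A' : A' ≤ closure {m | m ∈ [z, e12, e13, e14]} := by
  exact gen_sd [vv 255, vv 0xAA, vv 0xCC, vv 0xF0] [] (by decide +kernel)
theorem gen_Q : Q ≤ closure {m | m ∈ [z, e12, e13, e14, a, b, c]} := by
  exact gen_sd [vv 255, vv 0xAA, vv 0xCC, vv 0xF0] [ts 15, ts 48, ts 64] (by decide +kernel)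
theorem gen_R : R ≤ closure {m | m ∈ [z, e13, e14, a, e23, e24]} := by
  exact gen_sd [vv 255, vv 0xCC, vv 0xF0] [ts 15, ts 10, ts 12] (by decide +kernel)
theorem gen_RA : RA ≤ closure {m | m ∈ [z, e13, e14, a, e23, e24, b, c]} := by
  exact gen_sd [vv 255, vv 0xCC, vv 0xF0] [ts 15, ts 10, ts 12, ts 48, ts 64] (by decide +kernel)
theorem gen_T0 : T0 ≤ closure {m | m ∈ [e12, e23, e34, c]} := by
  have g : ∀ m ∈ [e12, e23, e34, c], m ∈ closure {m | m ∈ [e12, e23, e34, c]} := fun m hm => subset_closure hm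
  generalize closure {m | m ∈ [e12, e23, e34, c]} = K at g ⊢
  simp only [List.forall_mem_cons] at g
  obtain ⟨h0, h1, h2, h3, -⟩ := g
  have q {p q r : P} (hp : p ∈ K) (hq : q ∈ K) (e : r = p * q * p * q) : r ∈ K :=
    e ▸ mul_mem (mul_mem (mul_mem hp hq) hp) hq
  have h13 : e13 ∈ K := q h0 h1 (by decide +kernel)
  have h24 : e24 ∈ K := q h1 h2 (by decide +kernel)
  have hb : b ∈ K := q h2 h3 (by decide +kernel)
  have h14 : e14 ∈ K := q h0 h24 (by decide +kernel)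
  have ha : a ∈ K := q h1 hb (by decide +kernel)
  have hz : z ∈ K := q h0 ha (by decide +kernel)
  refine sd_le [vv 255, vv 0xAA, vv 0xCC, vv 0xF0] [ts 15, ts 10, ts 12, ts 48, ts 64, ts 32] ?_ ?_
    (by decide +kernel) (by decide +kernel)
  · simp only [List.forall_mem_cons]
    exact ⟨hz, h0, h13, h14, by simp⟩
  · simp only [List.forall_mem_cons]
    exact ⟨ha, h1, h24, hb, h3, h2, by simp⟩
theorem gen_D : D ≤ closure {m | m ∈ [z, e13, e14, a, e23, e24, d, x]} := by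
  exact gen_sd [vv 255, vv 0xCC, vv 0xF0, vv 3] [ts 15, ts 10, ts 12, ts 1] (by decide +kernel)
theorem gen_DA : DA ≤ closure {m | m ∈ [z, e13, e14, a, e23, e24, d, x, b, c]} := by
  exact gen_sd [vv 255, vv 0xCC, vv 0xF0, vv 3] [ts 15, ts 10, ts 12, ts 1, ts 48, ts 64] (by decide +kernel)
theorem gen_DB : DB ≤ closure {m | m ∈ [z, e13, e14, a, e23, e24, d, x, b, c, e34]} := by
  exact gen_sd [vv 255, vv 0xCC, vv 0xF0, vv 3] [ts 15, ts 10, ts 12, ts 1, ts 48, ts 64, ts 32]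
    (by decide +kernel)

theorem A_le_Q : A ≤ Q := forall_sd.2 (by decide +kernel)
theorem A'_le_Q : A' ≤ Q := forall_sd.2 (by decide +kernel)
theorem Q_le_T0 : Q ≤ T0 := forall_sd.2 (by decide +kernel)
theorem A_le_T0 : A ≤ T0 := A_le_Q.trans Q_le_T0
theorem A'_le_T0 : A' ≤ T0 := A'_le_Q.trans Q_le_T0
theorem A_le_RA : A ≤ RA := forall_sd.2 (by decide +kernel)
theorem RA_le_T0 : RA ≤ T0 := forall_sd.2 (by decide +kernel)
theorem A_le_T00 : A ≤ T00 := forall_sd.2 (by decide +kernel)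
theorem A_le_T01 : A ≤ T01 := forall_sd.2 (by decide +kernel)
theorem A_le_T02 : A ≤ T02 := forall_sd.2 (by decide +kernel)
theorem T00_T0 : ∀ m ∈ T00, m ∈ T0 ∧ rh m ∈ T00 := forall_sd.2 (by decide +kernel)
theorem T01_T0 : ∀ m ∈ T01, m ∈ T0 ∧ rh' m ∈ T01 := forall_sd.2 (by decide +kernel)
theorem T02_T0 : ∀ m ∈ T02, m ∈ T0 ∧ omg m ∈ T02 := forall_sd.2 (by decide +kernel)
theorem A_inv : ∀ m ∈ A, m * m = 1 ∧ omg m ∈ A ∧ rh m ∈ A ∧ rh' m ∈ A := forall_sd.2 (by decide +kernel)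
theorem nm_of_gen {X Y : Subgroup P} {L : List P} (hg : X ≤ closure {m | m ∈ L})
    (k : ∀ m ∈ L, ∀ n ∈ Y, m * n * m⁻¹ ∈ Y) : ∀ m ∈ X, ∀ n ∈ Y, m * n * m⁻¹ ∈ Y := fun _ hm _ hn =>
  SX.Hx.conj_mem ((closure_le (NN Y)).2 (fun l hl => SX.Hx.norm_of (k l hl)) (hg hm)) hn
theorem A_nm : ∀ m ∈ T0, ∀ n ∈ A, m * n * m⁻¹ ∈ A :=
  nm_of_gen gen_T0 fun m hm => forall_sd.2 (by revert m; decide +kernel)
theorem A'_nm : ∀ m ∈ T0, ∀ n ∈ A', m * n * m⁻¹ ∈ A' :=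
  nm_of_gen gen_T0 fun m hm => forall_sd.2 (by revert m; decide +kernel)
theorem cenQ_chk : ∀ m ∈ A, m * e12 = e12 * m → m * e13 = e13 * m → m * e14 = e14 * m → m = 1 ∨ m = z :=
  forall_sd.2 (by decide +kernel)
theorem cenRA_chk : ∀ m ∈ A, m * e13 = e13 * m → m * e14 = e14 * m → m ∈ [1, z, a, z * a] :=
  forall_sd.2 (by decide +kernel)
/-- every entry is `z` or an image of a later entry -/
def rch : List P → Bool
  | [] => true
  | m :: L => decide (m = z ∨ ∃ n ∈ L, m = omg n ∨ m = rh n ∨ m = rh' n) && rch L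
def orbL : List P := [(255, 127), (0, 127), (255, 79), (255, 112), (0, 79), (0, 112), (255, 63), (255, 64),
  (0, 63), (0, 64), (255, 48), (0, 48), (255, 15), (0, 15), (255, 0)].map fun p => ⟨vv p.1, ts p.2⟩
theorem trans_chk : ∀ m ∈ A, m ≠ 1 → m ∈ orbL := forall_sd.2 (by decide +kernel)
theorem rch_ind {p : P → Prop} (h : p z) (h0 : ∀ m, p m → p (omg m)) (h1 : ∀ m, p m → p (rh m))
    (h2 : ∀ m, p m → p (rh' m)) : ∀ L, rch L = true → ∀ m ∈ L, p m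
  | [], _, _, hm => absurd hm List.not_mem_nil
  | n :: L, k, m, hm => by
    rw [rch, Bool.and_eq_true, decide_eq_true_eq] at k
    have ih := rch_ind h h0 h1 h2 L k.2
    rcases List.mem_cons.1 hm with rfl | hm
    · rcases k.1 with e | ⟨q, hq, e | e | e⟩ <;> rw [e]
      exacts [h, h0 q (ih q hq), h1 q (ih q hq), h2 q (ih q hq)]
    · exact ih m hm

omit [Finite G] in
theorem Ac.congr {g : G} {X Y : Subgroup P} {f : P → P} (h : Ac g s Y f) {s' : P → G}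
    (e : ∀ m ∈ X, s m = s' m) (k : ∀ m ∈ Y, m ∈ X ∧ f m ∈ Y) : Ac g s' Y f := fun m hm => by
  rw [← e _ (k m hm).1, ← e _ (k _ (k m hm).2).1, h m hm]

namespace N0

omit [Finite G] in
theorem congr (h : N0 s O) {s' : P → G} (e : ∀ m ∈ T0, s m = s' m) : N0 s' O := by
  have i {X : Subgroup P} (k : X ≤ T0) : im s' X = im s X := im_congr fun m hm => (e m (k hm)).symm
  refine ⟨h.ch.congr e, h.odd, i A_le_T0 ▸ h.Ole, fun g hg => ?_, i A_le_T0 ▸ h.nO, ?_,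
    h.om.imp fun g k => k.congr e T02_T0, h.r1.imp fun g k => k.congr e T00_T0,
    h.r2.imp fun g k => k.congr e T01_T0, ?_, fun g hg => ?_⟩
  · obtain ⟨m, hm, o, ho, k⟩ := h.cen g (i A_le_T0 ▸ hg)
    exact ⟨m, hm, o, ho, e m (A_le_T0 hm) ▸ k⟩
  · rw [i A_le_T0, i le_rfl]; exact h.syl
  · rw [i A_le_T0, i Q_le_T0, i A'_le_T0]; exact h.n7
  · rw [← e _ (by decide +kernel), ← e _ (by decide +kernel)]
    exact h.ncj g (i A_le_T0 ▸ hg)

/-- write `g = s m * o`; an odd power of `g` is `s m` -/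
theorem cenX (h : N0 s O) {X : Subgroup P} (h1 : A ≤ X) (h2 : X ≤ T0) {g : G} (hg : g ∈ CC (im s X)) :
    ∃ m ∈ A, (∀ n ∈ X, m * n = n * m) ∧ ∃ o ∈ O, o ∈ CC (im s X) ∧ g = s m * o := by
  obtain ⟨m, hm, o, ho, k⟩ := h.cen g (centralizer_le (im_mono s h1) hg)
  have c : Commute (s m) o := h.Ole ho _ (mem_im s hm)
  have m2 : s m * s m = 1 := by rw [← h.ch.mul _ (A_le_T0 hm) _ (A_le_T0 hm), (A_inv m hm).1, h.ch.one]
  obtain ⟨j, hj⟩ := Nat.coprime_two_right.1 h.odd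
  have o1 : o ^ Nat.card O = 1 := orderOf_dvd_iff_pow_eq_one.1 (Subgroup.orderOf_dvd_natCard _ ho)
  have e : g ^ Nat.card O = s m := by
    rw [k, c.mul_pow, o1, mul_one, hj, pow_succ, pow_mul, sq, m2, one_pow, one_mul]
  have hs : s m ∈ CC (im s X) := e ▸ pow_mem hg _
  refine ⟨m, hm, fun n hn => (h.ch.comm (A_le_T0 hm) (h2 hn)).1 (mem_CC_im.1 hs n hn), o, ho, ?_, k⟩
  have := mul_mem (inv_mem hs) hg
  rwa [k, inv_mul_cancel_left] at this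

theorem cenQ (h : N0 s O) {g : G} (hg : g ∈ CC (im s Q)) :
    ∃ m, (m = 1 ∨ m = z) ∧ ∃ o ∈ O, o ∈ CC (im s Q) ∧ g = s m * o := by
  obtain ⟨m, hm, c, k⟩ := h.cenX A_le_Q Q_le_T0 hg
  exact ⟨m, cenQ_chk m hm (c _ (by decide +kernel)) (c _ (by decide +kernel)) (c _ (by decide +kernel)), k⟩

theorem cenRA (h : N0 s O) {g : G} (hg : g ∈ CC (im s RA)) :
    ∃ m ∈ [1, z, a, z * a], ∃ o ∈ O, o ∈ CC (im s RA) ∧ g = s m * o := by
  obtain ⟨m, hm, c, k⟩ := h.cenX A_le_RA RA_le_T0 hg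
  exact ⟨m, cenRA_chk m hm (c _ (by decide +kernel)) (c _ (by decide +kernel)), k⟩

/-- a 2-subgroup of `C(A)` lies in `A` -/
theorem two_cen (h : N0 s O) {Y : Subgroup G} (hY : IsPGroup 2 Y) {g : G} (hg : g ∈ Y)
    (hc : g ∈ CC (im s A)) : g ∈ im s A := by
  obtain ⟨m, hm, o, ho, k⟩ := h.cen g hc
  have c : Commute (s m) o := h.Ole ho _ (mem_im s hm)
  have m2 : s m ^ 2 = 1 := by rw [sq, ← h.ch.mul _ (A_le_T0 hm) _ (A_le_T0 hm), (A_inv m hm).1, h.ch.one]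
  obtain ⟨j, hj⟩ := hY ⟨g, hg⟩
  have e : g ^ 2 ^ j = 1 := congrArg Subtype.val hj
  have e2 : o ^ 2 ^ (j + 1) = 1 := by
    have : g ^ 2 ^ (j + 1) = 1 := by rw [pow_succ, pow_mul, e, one_pow]
    rwa [k, c.mul_pow, pow_succ' 2 j, pow_mul (s m), m2, one_pow, one_mul, ← pow_succ' 2 j] at this
  have o1 : orderOf o = 1 := Nat.eq_one_of_dvd_coprimes (h.odd.pow_right (j + 1))
    (Subgroup.orderOf_dvd_natCard _ ho) (orderOf_dvd_iff_pow_eq_one.2 e2)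
  rw [k, orderOf_eq_one_iff.1 o1, mul_one]
  exact mem_im s hm

/-- `N(A)` is transitive on `A #` (use `T0`, `om`, `r2`, `r1`) -/
theorem trans (h : N0 s O) {m : P} (hm : m ∈ A) (h1 : m ≠ 1) :
    ∃ g ∈ NN (im s A), g * s z * g⁻¹ = s m := by
  obtain ⟨g0, k0⟩ := h.om
  obtain ⟨g1, k1⟩ := h.r1
  obtain ⟨g2, k2⟩ := h.r2
  let p : P → Prop := fun m => m ∈ A ∧ ∃ g ∈ NN (im s A), g * s z * g⁻¹ = s m
  have st {g : G} {X : Subgroup P} {f : P → P} (k : Ac g s X f) (hX : A ≤ X) (hf : ∀ m ∈ A, f m ∈ A) {m : P}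
      (hp : p m) : p (f m) := by
    obtain ⟨hm, u, hu, e⟩ := hp
    refine ⟨hf m hm, g * u, mul_mem (k.norm hX hf) hu, ?_⟩
    rw [← k m (hX hm), ← e]; group
  exact (rch_ind (p := p) ⟨by decide +kernel, 1, one_mem _, by simp⟩
    (fun _ => st k0 A_le_T02 fun m hm => (A_inv m hm).2.1)
    (fun _ => st k1 A_le_T00 fun m hm => (A_inv m hm).2.2.1)
    (fun _ => st k2 A_le_T01 fun m hm => (A_inv m hm).2.2.2) orbL (by decide +kernel) m (trans_chk m hm h1)).2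

end N0

/-- one step down a flag -/
theorem flag_step {X : Subgroup P} (h : Ch X s) {N : Subgroup G} (hN : IsPGroup 2 N) (hT : im s X ≤ N)
    {W W' : Subgroup P} (hW : W ≤ X) (hW' : W' ≤ W) {f : P} (hf : f ∈ W) (hf' : f ≠ 1)
    (k1 : ∀ n ∈ W', ∃ t ∈ X, n = f * t * f⁻¹ * t⁻¹) (k2 : ∀ m ∈ W, m ∉ W' → ∀ n ∈ W, n ∉ W' → n * m⁻¹ ∈ W')
    (hn : N ≤ NN (im s W)) : N ≤ NN (im s W') ∧ ∀ g ∈ N, ∃ n ∈ W', g * s f * g⁻¹ = s (n * f) := by
  have lt := CL.commutator_lt_of_isPGroup (h.pg hW) hN hn fun e => hf' (h.inj f (hW hf)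
    (mem_bot.1 (e ▸ mem_im s hf)))
  have l1 : im s W' ≤ ⁅im s W, N⁆ := im_le.2 fun n hn => by
    obtain ⟨t, ht, e⟩ := k1 n hn
    rw [e, h.mul _ (mul_mem (mul_mem (hW hf) ht) (inv_mem (hW hf))) _ (inv_mem ht), ← h.conj (hW hf) ht,
      h.inv ht]
    exact commutator_mem_commutator (mem_im s hf) (hT (mem_im s ht))
  have l2 : ⁅im s W, N⁆ ≤ im s W' := fun y hy => by
    obtain ⟨m, hm, rfl⟩ := (h.mem_im hW).1 (lt.le hy)
    by_contra hm'
    refine lt.not_ge (im_le.2 fun n hn => ?_)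
    by_cases hn' : n ∈ W'
    · exact l1 (mem_im s hn')
    · have := mul_mem (l1 (mem_im s (k2 m hm (fun k => hm' (mem_im s k)) n hn hn'))) hy
      rwa [h.mul _ (hW hn) _ (inv_mem (hW hm)), h.inv (hW hm), inv_mul_cancel_right] at this
  have l3 : ∀ g ∈ N, ∀ y ∈ im s W, g * y * g⁻¹ * y⁻¹ ∈ im s W' := fun g hg y hy => by
    have := inv_mem (l2 (commutator_mem_commutator hy hg))
    rwa [commutatorElement_inv] at this
  refine ⟨fun g hg => SX.Hx.norm_of fun y hy => ?_, fun g hg => ?_⟩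
  · simpa using mul_mem (l3 g hg y (im_mono s hW' hy)) hy
  · obtain ⟨n, hn, e⟩ := (h.mem_im (hW'.trans hW)).1 (l3 g hg _ (mem_im s hf))
    exact ⟨n, hn, by rw [h.mul _ (hW (hW' hn)) _ (hW hf), e, inv_mul_cancel_right]⟩

theorem flag_fin {X : Subgroup P} (h : Ch X s) {W : Subgroup P} (hW : W ≤ X) {L : List P}
    (hL : ∀ l ∈ L, l ∈ W) (hg : W ≤ closure {m | m ∈ L}) (nm : ∀ m ∈ X, ∀ n ∈ W, m * n * m⁻¹ ∈ W) {m : P}
    (hm : m ∈ X) {g : G} (k : ∀ l ∈ L, g * s l * g⁻¹ = s (m * l * m⁻¹)) : g * (s m)⁻¹ ∈ CC (im s W) := by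
  have ac : Ac g s W fun n => m * n * m⁻¹ := Ac.of_gen h hW (fun n hn => hW (nm m hm n hn))
    (fun p _ q _ => by group) hL hg k
  refine mem_CC_im.2 fun n hn => ?_
  have := ac _ (nm _ (inv_mem hm) n hn)
  simp only [inv_inv, mul_assoc, mul_inv_cancel_left, mul_inv_cancel, mul_one] at this
  rw [h.mul _ (inv_mem hm) _ (mul_mem (hW hn) hm), h.mul _ (hW hn) _ hm, h.inv hm] at this
  calc g * (s m)⁻¹ * s n = g * ((s m)⁻¹ * (s n * s m) * g⁻¹) * (g * (s m)⁻¹) := by group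
    _ = _ := by rw [this]

/-- `⟨255, 0xF0⟩` -/
def Z2 : Subgroup V := SX.sgV (fun v => v.n == 0 || v.n == 255 || v.n == 0xF0 || v.n == 0x0F) (by decide +kernel)
/-- `⟨a⟩` -/
def A1 : Subgroup TS := sgS (fun t => t.n == 0 || t.n == 15) (by decide +kernel)
/-- `⟨a, b⟩` -/
def A2 : Subgroup TS := sgS (fun t => t.n == 0 || t.n == 15 || t.n == 48 || t.n == 63) (by decide +kernel)
instance (v : V) : Decidable (v ∈ Z2) := inferInstanceAs (Decidable (_ = true))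
instance (t : TS) : Decidable (t ∈ A1) := inferInstanceAs (Decidable (_ = true))
instance (t : TS) : Decidable (t ∈ A2) := inferInstanceAs (Decidable (_ = true))

/-- the finite checks for `flag_step` -/
def FS1 (W W' : Subgroup V) (X X' : Subgroup TS) (f : P) : Prop :=
  (∀ v, v ∈ W → v ∈ RM) ∧ (∀ t, t ∈ X → t ∈ U) ∧ (∀ v, v ∈ W' → v ∈ W) ∧ (∀ t, t ∈ X' → t ∈ X) ∧
    (f.v ∈ W ∧ f.t ∈ X) ∧ f ≠ 1
def FS2 (W' : Subgroup V) (X' : Subgroup TS) (f : P) (L : List P) : Prop :=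
  ∀ v, v ∈ W' → ∀ t, t ∈ X' → ∃ l ∈ L, l ∈ T0 ∧ (⟨v, t⟩ : P) = f * l * f⁻¹ * l⁻¹
def FS3 (W W' : Subgroup V) (X X' : Subgroup TS) : Prop :=
  ∀ v, v ∈ W → ∀ t, t ∈ X → ¬ (v ∈ W' ∧ t ∈ X') → ∀ w, w ∈ W → ∀ u, u ∈ X → ¬ (w ∈ W' ∧ u ∈ X') →
    ((⟨w, u⟩ : P) * (⟨v, t⟩ : P)⁻¹).v ∈ W' ∧ ((⟨w, u⟩ : P) * (⟨v, t⟩ : P)⁻¹).t ∈ X'
def FS (W W' : Subgroup V) (X X' : Subgroup TS) (f : P) (L : List P) : Prop :=
  FS1 W W' X X' f ∧ FS2 W' X' f L ∧ FS3 W W' X X'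

set_option synthInstance.maxSize 1024 in
instance (W W' : Subgroup V) (X X' : Subgroup TS) (f : P) (L : List P) [∀ v, Decidable (v ∈ W)]
    [∀ v, Decidable (v ∈ W')] [∀ v, Decidable (v ∈ X)] [∀ v, Decidable (v ∈ X')] :
    Decidable (FS W W' X X' f L) :=
  have : Decidable (FS1 W W' X X' f) := by unfold FS1; infer_instance
  have : Decidable (FS2 W' X' f L) := by unfold FS2; infer_instance
  have : Decidable (FS3 W W' X X') := by unfold FS3; infer_instance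
  inferInstanceAs (Decidable (_ ∧ _ ∧ _))

theorem flag_step' (h : Ch T0 s) {N : Subgroup G} (hN : IsPGroup 2 N) (hT : im s T0 ≤ N)
    {W W' : Subgroup V} {X X' : Subgroup TS} {q q'} (f : P) {L : List P} (k : FS W W' X X' f L)
    (hn : N ≤ NN (im s (sd W X q))) : N ≤ NN (im s (sd W' X' q')) ∧
      ∀ g ∈ N, ∃ n ∈ sd W' X' q', g * s f * g⁻¹ = s (n * f) :=
  flag_step (W := sd W X q) (W' := sd W' X' q') h hN hT (fun _ hm => ⟨k.1.1 _ hm.1, k.1.2.1 _ hm.2⟩)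
    (fun _ hm => ⟨k.1.2.2.1 _ hm.1, k.1.2.2.2.1 _ hm.2⟩) k.1.2.2.2.2.1 k.1.2.2.2.2.2
    (forall_sd.2 fun v hv t ht => (k.2.1 v hv t ht).imp fun _ k => k.2)
    (fun m hm hm' n hn hn' => k.2.2 m.v hm.1 m.t hm.2 hm' n.v hn.1 n.t hn.2 hn') hn

theorem fs1 : FS RM Zev ⊥ ⊥ e12 ([0, 3, 5, 6, 9, 10, 12, 15].map fun n => ir (ts n)) ∧
    FS Zev Z2 ⊥ ⊥ e13 [1, ir (ts 16), e34, b] ∧ FS Z2 Z1 ⊥ ⊥ e14 [1, c] ∧ FS Z1 ⊥ ⊥ ⊥ z [1] := by
  decide +kernel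
theorem fs2 : FS Z1 Z1 A0 A2 c (spl [il (vv 15), ir (ts 16), ir (ts 3)]) ∧
    FS Z1 Z1 A2 A1 b (spl [il (vv 51), ir (ts 5)]) ∧ FS Z1 Z1 A1 ⊥ a [1, il (vv 85)] := by decide +kernel
theorem fin1 : ∀ p, p ∈ Zev → ∀ q, q ∈ Z2 → ∀ r, r ∈ Z1 → ∃ t, t ∈ U ∧ aS t (vv 0xAA) = p * vv 0xAA ∧
    aS t (vv 0xCC) = q * vv 0xCC ∧ aS t (vv 0xF0) = r * vv 0xF0 := by
  decide +kernel
theorem fin2 : ∀ p, p ∈ Z1 → ∀ p', p' ∈ A2 → ∀ q, q ∈ Z1 → ∀ q', q' ∈ A1 → ∀ r, r ∈ Z1 →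
    ∃ v, v ∈ RM0 ∧ ∃ t, t ∈ U0 ∧ (⟨v, t⟩ : P) * c * (⟨v, t⟩ : P)⁻¹ = ⟨p, p'⟩ * c ∧
      (⟨v, t⟩ : P) * b * (⟨v, t⟩ : P)⁻¹ = ⟨q, q'⟩ * b ∧ (⟨v, t⟩ : P) * a * (⟨v, t⟩ : P)⁻¹ = il r * a ∧
      (⟨v, t⟩ : P) * z * (⟨v, t⟩ : P)⁻¹ = z := by
  decide +kernel
theorem CU_le_T0 : CU ≤ T0 := forall_sd.2 (by decide +kernel)

/-- The 2-group `Y ⊓ N(A')` fixes a flag of `A'`, which must be the only `T0`-invariant flag
`z < e14 < e13 < e12`, and `T0` induces all 64 automorphisms that fix this flag. (Or compare orders in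
`MulAut`.) -/
theorem flag' (h : Ch T0 s) {Y : Subgroup G} (hY : IsPGroup 2 Y) (hT : im s T0 ≤ Y) {g : G} (hg : g ∈ Y)
    (hn : g ∈ NN (im s A')) : ∃ m ∈ T0, g * (s m)⁻¹ ∈ CC (im s A') := by
  have hN : IsPGroup 2 (Y ⊓ NN (im s A') : Subgroup G) := hY.to_le inf_le_left
  have hT' : im s T0 ≤ Y ⊓ NN (im s A') := le_inf hT (im_le.2 fun m hm => h.norm A'_le_T0 hm (A'_nm m hm))
  obtain ⟨n1, k1⟩ := flag_step' h hN hT' (q' := by decide +kernel) e12 fs1.1 inf_le_right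
  obtain ⟨n2, k2⟩ := flag_step' h hN hT' (q' := by decide +kernel) e13 fs1.2.1 n1
  obtain ⟨n3, k3⟩ := flag_step' h hN hT' (q' := by decide +kernel) e14 fs1.2.2.1 n2
  obtain ⟨-, k4⟩ := flag_step' h hN hT' (q' := by decide +kernel) z fs1.2.2.2 n3
  obtain ⟨p, hp, e1⟩ := k1 g ⟨hg, hn⟩
  obtain ⟨q, hq, e2⟩ := k2 g ⟨hg, hn⟩
  obtain ⟨r, hr, e3⟩ := k3 g ⟨hg, hn⟩
  obtain ⟨u, hu, e4⟩ := k4 g ⟨hg, hn⟩
  obtain ⟨t, ht, f1, f2, f3⟩ := fin1 _ hp.1 _ hq.1 _ hr.1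
  have hm : ir t ∈ T0 := ⟨one_mem _, ht⟩
  refine ⟨ir t, hm, flag_fin h A'_le_T0 (by decide +kernel) gen_A' A'_nm hm ?_⟩
  simp only [List.forall_mem_cons]
  refine ⟨?_, ?_, ?_, ?_, by simp⟩
  · rw [e4, show u = 1 from P.ext hu.1 hu.2, one_mul, z, conj_il, ir_t, aS_255]
  · rw [e1, e12, conj_il, ir_t, f1, map_mul, ← eq_il hp.2]
  · rw [e2, e13, conj_il, ir_t, f2, map_mul, ← eq_il hq.2]
  · rw [e3, e14, conj_il, ir_t, f3, map_mul, ← eq_il hr.2]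

/-- the same for `A`, with the flag `z < a < b < c` -/
theorem flag (h : Ch T0 s) {Y : Subgroup G} (hY : IsPGroup 2 Y) (hT : im s T0 ≤ Y) {g : G} (hg : g ∈ Y)
    (hn : g ∈ NN (im s A)) : ∃ m ∈ T0, g * (s m)⁻¹ ∈ CC (im s A) := by
  have hN : IsPGroup 2 (Y ⊓ NN (im s A) : Subgroup G) := hY.to_le inf_le_left
  have hT' : im s T0 ≤ Y ⊓ NN (im s A) := le_inf hT (im_le.2 fun m hm => h.norm A_le_T0 hm (A_nm m hm))
  obtain ⟨n1, k1⟩ := flag_step' h hN hT' (q' := by decide +kernel) c fs2.1 inf_le_right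
  obtain ⟨n2, k2⟩ := flag_step' h hN hT' (q' := by decide +kernel) b fs2.2.1 n1
  obtain ⟨n3, k3⟩ := flag_step' h hN hT' (q' := by decide +kernel) a fs2.2.2 n2
  obtain ⟨-, k4⟩ := flag_step' h hN hT' (q' := by decide +kernel) z fs1.2.2.2 n3
  obtain ⟨p, hp, e1⟩ := k1 g ⟨hg, hn⟩
  obtain ⟨q, hq, e2⟩ := k2 g ⟨hg, hn⟩
  obtain ⟨r, hr, e3⟩ := k3 g ⟨hg, hn⟩
  obtain ⟨u, hu, e4⟩ := k4 g ⟨hg, hn⟩
  obtain ⟨v, hv, t, ht, f1, f2, f3, f4⟩ := fin2 _ hp.1 _ hp.2 _ hq.1 _ hq.2 _ hr.1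
  have hm : (⟨v, t⟩ : P) ∈ T0 := CU_le_T0 ⟨hv, ht⟩
  refine ⟨_, hm, flag_fin h A_le_T0 (by decide +kernel) gen_A A_nm hm ?_⟩
  simp only [List.forall_mem_cons]
  refine ⟨?_, ?_, ?_, ?_, by simp⟩
  · rw [f4, e4, show u = 1 from P.ext hu.1 hu.2, one_mul]
  · rw [f3, e3, ← eq_il hr.2]
  · rw [f2, e2]
  · rw [f1, e1]

end CL.HA
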