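import Cfsg.Agent.INV.HA.WC

/-!
Harada `E₁₆ · GL₄(2)`, type `S₁₆`: every involution is conjugate into `E`.
-/

set_option autoImplicit false
set_option maxHeartbeats 400000
set_option linter.unusedSectionVars false

namespace CL.HA
open Subgroup CL.MSS CL.PComp
open CL.SX (V vv e ZZ pc)

variable {G : Type*} [Group G] [Finite G] {φ : P →* G} {O : Subgroup G}

namespace Cls

/-- maps block `0` to block `i` -/
def nb (i : Fin 4) : P := (bif i.1.testBit 1 then c else 1) * (bif i.1.testBit 0 then b else 1)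
/-- remove block `i` -/
def off (i : Fin 4) (m : P) : P := ⟨vv (m.v.n &&& (255 ^^^ 3 * 4 ^ i.1)), ts (m.t.n &&& (15 ^^^ 2 ^ i.1))⟩
theorem t1 : ∀ i : Fin 4, nb i * d * (nb i)⁻¹ = zb i ∧ nb i * x * (nb i)⁻¹ = ab i ∧
    ab i * zb i * ab i = zb i := by decide +kernel
theorem t2 : ∀ i : Fin 4, ∀ v : V, v.n &&& (3 * 4 ^ i.1) = 0 → ∀ t, t ∈ Lo → t.n &&& 2 ^ i.1 = 0 →
    (nb i)⁻¹ * ⟨v, t⟩ * nb i ∈ J' := by decide +kernel
theorem t3 : ∀ i : Fin 4, ∀ t, t ∈ Lo → t.n.testBit i.1 = true → ∀ v : V, (⟨v, t⟩ : P) * ⟨v, t⟩ = 1 →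
    off i ⟨v, t⟩ ∈ J ∧ (off i ⟨v, t⟩).v.n &&& (3 * 4 ^ i.1) = 0 ∧ (off i ⟨v, t⟩).t.n &&& 2 ^ i.1 = 0 ∧
    ((⟨v, t⟩ : P) = off i ⟨v, t⟩ * ab i ∨ (⟨v, t⟩ : P) = off i ⟨v, t⟩ * (ab i * zb i)) ∧
    off i ⟨v, t⟩ * zb i ∈ J ∧ off i ⟨v, t⟩ * zb i * (off i ⟨v, t⟩ * zb i) = 1 ∧
    ev (off i ⟨v, t⟩ * zb i) = ev ⟨v, t⟩ ∧ (off i ⟨v, t⟩ * zb i).t.n < t.n := by decide +kernel
theorem t4 : ∀ t, t ∈ Lo → t ≠ 1 → (∃ i : Fin 4, t.n.testBit i.1 = true) ∧ ∀ v, 2 ≤ pc (ev ⟨v, t⟩) := by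
  decide +kernel
theorem t5 : ∀ v, ev (il v) = v := by decide +kernel

end Cls

open Cls

omit [Finite G] in
theorem phi_le_NE (φ : P →* G) : φ.range ≤ NN (E.map φ) := by
  rintro _ ⟨m, rfl⟩
  exact (in_phi φ m).norm

/-- conjugate `y` by `φ b ^ i * φ c ^ j` -/
theorem Y0.blk {y : G} (h : Y0 φ y) (i : Fin 4) : ∃ n : P, ∃ y', y' = φ n * y * (φ n)⁻¹ ∧
    y' * φ (zb i) * y'⁻¹ = φ (ab i) ∧ y' * φ (ab i) * y'⁻¹ = φ (ab i * zb i) ∧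
    ∀ m ∈ J, m.v.n &&& (3 * 4 ^ i.1) = 0 → m.t.n &&& 2 ^ i.1 = 0 → y' * φ m = φ m * y' := by
  have k : ∀ {p q : P}, y * φ p * y⁻¹ = φ q → φ (nb i) * y * (φ (nb i))⁻¹ * φ (nb i * p * (nb i)⁻¹) *
      (φ (nb i) * y * (φ (nb i))⁻¹)⁻¹ = φ (nb i * q * (nb i)⁻¹) := fun e => by
    simp only [map_mul, map_inv, ← e]; group
  refine ⟨nb i, _, rfl, ?_, ?_, fun m hm h1 h2 => ?_⟩
  · rw [← (t1 i).1, ← (t1 i).2.1]; exact k h.h1
  · rw [← (t1 i).1, ← (t1 i).2.1, conj_mul]; exact k h.h2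
  · have := k (mul_inv_eq_iff_eq_mul.2 (h.cen _ (t2 i m.v h1 m.t hm.2 h2)))
    rw [show nb i * ((nb i)⁻¹ * ⟨m.v, m.t⟩ * nb i) * (nb i)⁻¹ = m by group] at this
    exact mul_inv_eq_iff_eq_mul.1 this

/-- Block by block: if bit `i` of `m.t` is set then `m = m' * ab i` or `m' * (ab i * zb i)` with `m'` supported off block `i`
(`decide`), and `y'⁻¹` or `y'` replaces the last factor by `zb i`; `ev` does not change. -/
theorem Y0.cl1 {y : G} (h : Y0 φ y) {M : Subgroup G} (hP : φ.range ≤ M) (hy : y ∈ M) {m : P} (hm : m ∈ J)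
    (h2 : m * m = 1) : ∃ g ∈ M, g * φ m * g⁻¹ = φ (il (ev m)) := by
  induction hn : m.t.n using Nat.strong_induction_on generalizing m with
  | _ n ih =>
  by_cases h1 : m.t = 1
  · exact ⟨1, one_mem _, by rw [eq_il h1, t5]; simp⟩
  obtain ⟨i, hi⟩ := (t4 _ hm.2 h1).1
  obtain ⟨k1, k2, k3, k4, k5, k6, k7, k8⟩ := t3 i _ hm.2 hi m.v h2
  obtain ⟨n', y', e, f1, f2, f3⟩ := h.blk i
  have hy' : y' ∈ M := e ▸ mul_mem (mul_mem (hP ⟨_, rfl⟩) hy) (inv_mem (hP ⟨_, rfl⟩))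
  obtain ⟨g, hg, s⟩ := ih _ (hn ▸ k8) k5 k6 rfl
  have f4 := f3 _ k1 k2 k3
  change m = off i m * _ ∨ m = off i m * _ at k4
  change ev (off i m * _) = ev m at k7
  change y' * φ (off i m) = φ (off i m) * y' at f4
  change g * φ (off i m * _) * g⁻¹ = φ (il (ev (off i m * _))) at s
  rw [k7, map_mul] at s
  rw [← s]
  generalize off i m = u at k4 f4
  rcases k4 with rfl | rfl
  · refine ⟨g * y'⁻¹, mul_mem hg (inv_mem hy'), ?_⟩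
    rw [map_mul, ← f1]
    calc _ = g * y'⁻¹ * (φ u * y') * φ (zb i) * g⁻¹ := by group
      _ = _ := by rw [← f4]; group
  · refine ⟨g * y', mul_mem hg hy', ?_⟩
    conv_rhs => rw [← (t1 i).2.2, map_mul, ← f2, ← f1]
    rw [map_mul, map_mul, ← f1]
    calc _ = g * (y' * φ u) * y' * φ (zb i) * y'⁻¹ * φ (zb i) * y'⁻¹ * g⁻¹ := by group
      _ = _ := by rw [f4]; group

/-- `conj_Lo` and `pm` give `g` inducing `pm σ`, with `g φ(m) g⁻¹ φ(ir t')⁻¹ ∈ C(E) = E × O_E` (`sylE`, `cen_split`);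
`lift_syl` with `S1 = J.map φ`, `S2 = zpowers (g φ(m) g⁻¹)`, `O_E = opOf 2 (C(E))`. -/
theorem Fx.cl2 (h : Fx φ O) {m : P} (h2 : m * m = 1) : ∃ g σ, In φ g (HA.pm σ) ∧ ∃ m' ∈ J, g * φ m * g⁻¹ = φ m' ∧
    (m.t ≠ 1 → m'.t ≠ 1) := by
  obtain ⟨σ, t, ht, e⟩ := conj_Lo (t := m.t) (congrArg P.t h2)
  obtain ⟨g, hg⟩ : ∃ g, In φ g (HA.pm σ) := h.pm ⟨σ, rfl⟩
  have h1 := ((hg.mul (in_phi φ m)).mul hg.inv).mul (in_phi φ (ir t)).inv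
  rw [ir_t, ← pm_τS, ← pm_τS, ← e, map_mul, map_mul, map_inv, mul_inv_cancel] at h1
  obtain ⟨_, ⟨n, hn, rfl⟩, o, ho, f⟩ := cen_split h.sylE le_rfl (In.cen.1 h1)
  obtain ⟨o', ho', k, -⟩ := lift_syl (S1 := J.map φ) (S2 := zpowers (g * φ m * g⁻¹)) (opOf_coprime 2 (CC (E.map φ)))
    ((pgP J).map φ) (isPGroup_zpowers (k := 1) (by rw [conj_pow, ← map_pow, pow_one, pow_two, h2, map_one]; group))
    ((map_le_range _ _).trans ((phi_le_NE φ).trans ((normalizer_le_normalizer_centralizer _).trans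
      (normalizer_le_normalizer_opOf 2 _)))) (zpowers_le.2 (by
        rw [mul_inv_eq_iff_eq_mul.1 f]
        exact mul_mem (mul_mem_sup (mem_map_of_mem φ ⟨trivial, hn.2 ▸ one_mem _⟩) ho)
          (mem_sup_left (mem_map_of_mem φ ⟨trivial, ht⟩))))
  obtain ⟨m', hm', s⟩ := k (conj_mem_cj (mem_zpowers _))
  have h3 := (In.cen.2 (opOf_le 2 _ ho')).mul hg
  rw [one_mul] at h3
  have s' : o' * g * φ m * (o' * g)⁻¹ = φ m' := by rw [s]; group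
  refine ⟨o' * g, σ, h3, m', hm', s', fun n1 n2 => n1 (acS_inj ?_)⟩
  have := ((h3.mul (in_phi φ m)).mul h3.inv).unique h.inj (s' ▸ in_phi φ m')
  rw [n2, map_one, conj_eq_one_iff] at this
  rw [this, map_one]

/-- `cl2`, `cl1`; `2 ≤ pc (ev m')` if `m'.t ≠ 1` -/
theorem Fx.cl3 (h : Fx φ O) {y : G} (hy : Y0 φ y) {M : Subgroup G} (hE : NN (E.map φ) ≤ M) (hM : y ∈ M) {m : P}
    (h2 : m * m = 1) : ∃ g ∈ M, ∃ v, g * φ m * g⁻¹ = φ (il v) ∧ (m.t ≠ 1 → 2 ≤ pc v) := by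
  obtain ⟨g, σ, hg, m', hm', e, k⟩ := h.cl2 h2
  obtain ⟨g', hg', e'⟩ := hy.cl1 ((phi_le_NE φ).trans hE) hM hm' (h.inj (by
    rw [map_mul, ← e, conj_mul, ← map_mul, h2, map_one]; group))
  exact ⟨g' * g, mul_mem hg' (hE hg.norm), _, by rw [← e', ← e]; group, fun n => (t4 _ hm'.2 (k n)).2 m'.v⟩

end CL.HA
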