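import Cfsg.Agent.INV.HA.F1

/-!
Harada `E₁₆ · GL₄(2)`, case (c): normal form of the action on `F₀`.
-/

set_option autoImplicit false
set_option maxHeartbeats 400000
set_option linter.unusedSectionVars false
set_option linter.unusedVariables false

namespace CL.HA
open Subgroup CL.MSS CL.PComp
open CL.SX (V vv e ZZ pc)

variable {G : Type*} [Group G] [Finite G] {s : P → G} {O : Subgroup G}

variable {c : V → G} {g1 g2 : G}

open K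

namespace Fs
variable (F : Fs s c g1 g2) {v w : V}
include F

theorem one : c 1 = 1 := (mhom F.mul).map_one
theorem sq (hv : v ∈ Ev) : c v * c v = 1 := by rw [← F.mul v hv v hv, SX.V.mul_self, F.one]
theorem inv (hv : v ∈ Ev) : (c v)⁻¹ = c v := inv_eq_of_mul_eq_one_right (F.sq hv)
theorem eq_of (hv : v ∈ Ev) (hw : w ∈ Ev) (e : c v = c w) : v = w :=
  mul_inv_eq_one.1 (F.inj _ (mul_mem hv hw) (by rw [SX.V.inv_eq, F.mul v hv w hw, e, F.sq hw]))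
theorem comm (hv : v ∈ Ev) (hw : w ∈ Ev) : c v * c w = c w * c v := by
  rw [← F.mul v hv w hw, ← F.mul w hw v hv, mul_comm]
theorem mem {g : G} : g ∈ im c Ev ↔ ∃ v ∈ Ev, c v = g := mem_im_iff F.mul
theorem cz : c (vv 255) = s z := F.ext _ (by decide +kernel)
theorem ab : im c Ev ≤ CC (im c Ev) := im_le.2 fun _ hv => mem_CC_im.2 fun _ hw => F.comm hv hw
theorem nQ : im c Ev ≤ NN (im s Q) := F.syl.le.trans inf_le_left
theorem cA' : im c Ev ≤ CC (im s A') := F.syl.le.trans inf_le_right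

end Fs

/-- `g = s m * o` (`cenQ`); `[F0, o] ≤ F0 ⊓ C(Q) = ⟨z⟩` because `F0` normalises `Q`; `odd_cen`. For
`F0 ⊓ C(Q) = ⟨z⟩` use `qa`, `inj`: `aS t v = v` for all `t ∈ A0` gives `v ∈ Z1`. -/
theorem Fs.cQ (h : N0 s O) (F : Fs s c g1 g2) {g : G} (hn : g ∈ NN (im c Ev)) (hc : g ∈ CC (im s Q)) :
    g ∈ CC (im c Ev) := by
  obtain ⟨y, hy, o, ho, rfl⟩ := h.cenQ' hc
  have y1 : y ∈ im c Ev := by
    rcases hy with rfl | rfl
    exacts [one_mem _, F.cz ▸ mem_im c (by decide +kernel)]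
  have no : o ∈ NN (im c Ev) := by simpa using mul_mem (inv_mem (le_normalizer y1)) hn
  refine mul_mem (F.ab y1) (odd_cen (h.ch.pg Q_le_T0) (coprime_orderOf_of_mem h.odQ ho) ho.2 fun u hu => ?_)
  have k : o * u * o⁻¹ * u⁻¹ ∈ CC (im s Q) := by
    have oc : o ∈ CC (im s Q) := ho.2
    have := mul_mem oc (SX.Hx.conj_mem (normalizer_le_normalizer_centralizer _ (F.nQ hu)) (inv_mem oc))
    simpa only [mul_assoc] using this
  rcases h.cenQ2 F.syl.pgroup (mul_mem (SX.Hx.conj_mem no hu) (inv_mem hu)) k with e | e <;> rw [e]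
  exacts [one_mem _, mem_im s (A'_le_Q z_A')]

namespace K

theorem Ev_spl : ∀ v, v ∈ Ev → v ∈ spl [vv 255, vv 0xAA, vv 0xCC, vv 0xF0, vv 3, vv 5, vv 17] := by
  decide +kernel
theorem w_chk : ∀ u1, u1 ∈ Z1 → ∀ u2, u2 ∈ Z1 → ∀ u3, u3 ∈ Z1 → ∃ w, w ∈ RM0 ∧
    u1 = bc (dot (vv 3) w) (vv 255) ∧ u2 = bc (dot (vv 5) w) (vv 255) ∧ u3 = bc (dot (vv 17) w) (vv 255) := by
  decide +kernel

theorem Ev_ind {p : V → Prop} (hm : ∀ v ∈ Ev, ∀ w ∈ Ev, p v → p w → p (v * w)) (h0 : ∀ v ∈ RM, p v)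
    (h1 : p (vv 3)) (h2 : p (vv 5)) (h3 : p (vv 17)) : ∀ v ∈ Ev, p v := fun v hv =>
  (spl_ind (fun v => v ∈ Ev ∧ p v) ⟨one_mem _, h0 1 (one_mem _)⟩
    (fun a b ha hb => ⟨mul_mem ha.1 hb.1, hm a ha.1 b hb.1 ha.2 hb.2⟩) _ (by
      simp only [List.forall_mem_cons]
      exact ⟨⟨by decide +kernel, h0 _ (by decide +kernel)⟩, ⟨by decide +kernel, h0 _ (by decide +kernel)⟩,
        ⟨by decide +kernel, h0 _ (by decide +kernel)⟩, ⟨by decide +kernel, h0 _ (by decide +kernel)⟩,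
        ⟨by decide +kernel, h1⟩, ⟨by decide +kernel, h2⟩, ⟨by decide +kernel, h3⟩, by simp⟩) v (Ev_spl v hv)).2

theorem bc_Ev (p : Bool) : bc p (vv 255) ∈ Ev := RM_le (Z1_le (bc_Z1 p))

end K

theorem Fs.exists_tw' (F : Fs s c g1 g2) {g : G} (hn : g ∈ NN (im c Ev)) {σ : V → V}
    (hm : ∀ v w, σ (v * w) = σ v * σ w)
    {τ : TS → TS} (hσ : ∀ v ∈ Ev, σ v ∈ Ev) (hτ : ∀ t ∈ A0, τ t ∈ A0 ∧ ∀ v, σ (aS t v) = aS (τ t) (σ v))
    (hτ' : ∀ t ∈ A0, ∃ t' ∈ A0, τ t' = t)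
    (h1 : ∀ v ∈ RM, g * s (il v) * g⁻¹ = c (σ v))
    (h2 : ∀ t ∈ A0, ∀ v ∈ Ev, g * s (ir t) * g⁻¹ * c v * (g * s (ir t) * g⁻¹)⁻¹ = c (aS (τ t) v)) :
    ∃ w ∈ RM0, Tw g c σ w := by
  have k : ∀ v ∈ Ev, ∃ u ∈ Z1, g * c v * g⁻¹ = c (σ v * u) := fun v hv => by
    obtain ⟨v', hv', e⟩ := F.mem.1 (SX.Hx.conj_mem hn (mem_im c hv))
    have hu := mul_mem hv' (hσ v hv)
    have f : ∀ t ∈ A0, aS t (v' * σ v) = v' * σ v := fun t ht => by
      obtain ⟨t, ht', rfl⟩ := hτ' t ht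
      have m := com_A0 v hv t ht'
      have e1 : c (aS (τ t) v') = c (v' * σ (v * aS t v)) := by
        rw [← h2 t ht' v' hv', F.mul _ hv' _ (hσ _ (RM_le m)), ← h1 _ m, ← F.ext _ m,
          F.mul v hv _ (aS_Ev t hv), ← F.qa t ht' v hv, e]
        calc _ = g * (c v * c v) * (s (ir t) * c v * (s (ir t))⁻¹) * g⁻¹ := by rw [F.sq hv]; group
          _ = _ := by group
      have e2 := F.eq_of (aS_Ev _ hv') (mul_mem hv' (hσ _ (RM_le m))) e1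
      rw [aS_mul, e2, hm, (hτ t ht').2, mul_assoc, mul_assoc, SX.V.mul_self, mul_one]
    refine ⟨_, fix_A0 _ hu (f _ (by decide +kernel)) (f _ (by decide +kernel)) (f _ (by decide +kernel)), ?_⟩
    rw [mul_left_comm, SX.V.mul_self, mul_one, e]
  obtain ⟨u1, m1, e1⟩ := k (vv 3) (by decide +kernel)
  obtain ⟨u2, m2, e2⟩ := k (vv 5) (by decide +kernel)
  obtain ⟨u3, m3, e3⟩ := k (vv 17) (by decide +kernel)
  obtain ⟨w, hw, f1, f2, f3⟩ := w_chk _ m1 _ m2 _ m3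
  refine ⟨w, hw, Ev_ind (fun a ha b hb ka kb => ?_) (fun v hv => ?_) (f1 ▸ e1) (f2 ▸ e2) (f3 ▸ e3)⟩
  · rw [F.mul a ha b hb, ← conj_mul, ka, kb, ← F.mul _ (mul_mem (hσ a ha) (bc_Ev _)) _
      (mul_mem (hσ b hb) (bc_Ev _)), hm, dot_mul, bc_xor, mul_mul_mul_comm]
  · rw [dot_RM v hv w (RM0_le hw), F.ext v hv, h1 v hv]; simp [bc]

/-- Let `g` normalise `F0` and act on `Q` as `f`, where `f (il v) = il (σ v)`, and `f` is conjugation by a point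
permutation. For `v ∈ Ev` write `g c(v) g⁻¹ = c(v')`. Conjugating `qa` by `g` shows that `v'` and `σ v` have the
same commutators with `A0`, so `v' = σ v * bc (λ v) 255`; `λ` is additive and vanishes on `RM`, hence
`λ v = dot v w` with `w ∈ RM0`. -/
theorem Fs.exists_tw (h : N0 s O) (F : Fs s c g1 g2) {g : G} (hn : g ∈ NN (im c Ev)) {σ : MulAut V}
    {τ : TS → TS} (hσ : ∀ v ∈ Ev, σ v ∈ Ev) (hτ : ∀ t ∈ A0, τ t ∈ A0 ∧ ∀ v, σ (aS t v) = aS (τ t) (σ v))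
    (hτ' : ∀ t ∈ A0, ∃ t' ∈ A0, τ t' = t)
    (h1 : ∀ v ∈ RM, σ v ∈ RM ∧ g * s (il v) * g⁻¹ = s (il (σ v)))
    (h2 : ∀ t ∈ A0, g * s (ir t) * g⁻¹ = s (ir (τ t))) : ∃ w ∈ RM0, Tw g c σ w := by
  exact F.exists_tw' hn (map_mul σ) hσ hτ hτ' (fun v hv => by rw [(h1 v hv).2, F.ext _ (h1 v hv).1])
    fun t ht v hv => by rw [h2 t ht, F.qa _ (hτ t ht).1 v hv]

namespace K

/-- the twisted action -/
def tf (σ : V → V) (w v : V) : V := σ v * bc (dot v w) (vv 255)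
/-- `g` acts on `F0` as `f` -/
def Av (c : V → G) (g : G) (f : V → V) : Prop := ∀ v ∈ Ev, f v ∈ Ev ∧ g * c v * g⁻¹ = c (f v)
/-- equality on three vectors -/
def Eq3 (f f' : V → V) : Prop := f (vv 3) = f' (vv 3) ∧ f (vv 5) = f' (vv 5) ∧ f (vv 17) = f' (vv 17)
instance (f f' : V → V) : Decidable (Eq3 f f') := inferInstanceAs (Decidable (_ ∧ _ ∧ _))

theorem Av.mul {g g' : G} {f f' : V → V} (h : Av c g f) (k : Av c g' f') : Av c (g * g') fun v => f (f' v) :=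
  fun v hv => ⟨(h _ (k v hv).1).1, by rw [← (h _ (k v hv).1).2, ← (k v hv).2]; group⟩
theorem Av.eq (F : Fs s c g1 g2) {g g' : G} {f f' : V → V} (h : Av c g f) (k : Av c g' f') (e : g = g') :
    Eq3 f f' := by
  subst e
  have (v : V) (hv : v ∈ Ev) : f v = f' v := F.eq_of (h v hv).1 (k v hv).1 ((h v hv).2.symm.trans (k v hv).2)
  exact ⟨this _ (by decide +kernel), this _ (by decide +kernel), this _ (by decide +kernel)⟩
theorem Av.cen {g : G} (h : g ∈ CC (im c Ev)) : Av c g fun v => v :=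
  fun v hv => ⟨hv, by rw [mem_CC_im.1 h v hv, mul_inv_cancel_right]⟩
theorem av_of {g : G} {σ : V → V} {w : V} (h : Tw g c σ w) (hσ : ∀ v ∈ Ev, σ v ∈ Ev) : Av c g (tf σ w) :=
  fun v hv => ⟨mul_mem (hσ v hv) (bc_Ev _), h v hv⟩

/-- the change of coordinates brings `w` to `w'` -/
def Chg (μ : V) (σ : V → V) (w w' : V) : Prop :=
  ∀ v, v ∈ Ev → tf σ w (tf id μ v) = tf id μ (tf σ w' v)
instance (μ : V) (σ : V → V) (w w' : V) : Decidable (Chg μ σ w w') := inferInstanceAs (Decidable (∀ _, _))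

theorem co_chk : ∀ w2, w2 ∈ RM0 → Eq3 (fun v => tf r2V w2 (tf r2V w2 (tf r2V w2 v))) (fun v => v) →
    ∀ wb, wb ∈ RM0 → ∀ wc, wc ∈ RM0 →
    Eq3 (fun v => tf r2V w2 (tf (aS (ts 12)) wb v)) (fun v => tf (aS (ts 32)) wc (tf r2V w2 v)) →
    Eq3 (fun v => tf r2V w2 (tf (aS (ts 32)) wc v))
      (fun v => tf (aS (ts 12)) wb (tf (aS (ts 32)) wc (tf r2V w2 v))) → ∀ w1, w1 ∈ RM0 →
    Eq3 (fun v => tf (aS (ts 32)) wc (tf r1V w1 (tf (aS (ts 32)) wc (tf r1V w1 v)))) (fun v => v) →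
    ∀ wa, wa ∈ RM0 →
    Eq3 (fun v => tf r1V w1 (tf (aS (ts 12)) wb v)) (fun v => tf (aS (ts 10)) wa (tf r1V w1 v)) →
    Eq3 (fun v => tf r1V w1 (tf (aS (ts 10)) wa v))
      (fun v => tf (aS (ts 10)) wa (tf (aS (ts 12)) wb (tf r1V w1 v))) →
    ∃ μ, μ ∈ RM0 ∧ ∃ tw : Bool, Chg μ (aS (ts 10)) wa (bc tw (vv 0xf0)) ∧ Chg μ (aS (ts 12)) wb (bc tw (vv 0x3c)) ∧
      Chg μ (aS (ts 32)) wc (bc tw (vv 0xaa)) ∧ Chg μ r1V w1 1 ∧ Chg μ r2V w2 (bc tw (vv 0xaa)) := by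
  decide +kernel

theorem U_A0 : ∀ u, u ∈ U → ∀ t, t ∈ A0 → u * t * u⁻¹ ∈ A0 := by decide +kernel
theorem r_A0 : ∀ t, t ∈ A0 → (t ∈ X0 ∧ ts (R1T >>> (7 * t.n)) ∈ A0 ∧ ∃ t', t' ∈ A0 ∧ ts (R1T >>> (7 * t'.n)) = t) ∧
    t ∈ X1 ∧ ts (R2T >>> (7 * t.n)) ∈ A0 ∧ ∃ t', t' ∈ A0 ∧ ts (R2T >>> (7 * t'.n)) = t := by decide +kernel
theorem cg2_chk : ∀ m ∈ Q, e34 * rh (e34 * rh m * e34⁻¹) * e34⁻¹ = m := forall_sd.2 (by decide +kernel)
theorem tf_mu {μ : V} (hμ : μ ∈ RM0) {v : V} (hv : v ∈ Ev) : tf id μ v ∈ Ev ∧ tf id μ (tf id μ v) = v := by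
  refine ⟨mul_mem hv (bc_Ev _), ?_⟩
  simp only [tf, id, dot_mul, dot_RM _ (Z1_le (bc_Z1 _)) _ (RM0_le hμ), Bool.xor_false, mul_assoc,
    SX.V.mul_self, mul_one]
theorem tf_RM {μ : V} (hμ : μ ∈ RM0) {v : V} (hv : v ∈ RM) : tf id μ v = v := by
  simp [tf, dot_RM v hv _ (RM0_le hμ), bc]

end K

theorem Fs.tw_U (h : N0 s O) (F : Fs s c g1 g2) {u : TS} (hu : u ∈ U) : ∃ w ∈ RM0, Tw (s (ir u)) c (aS u) w := by
  have m : ir u ∈ T0 := ⟨one_mem _, hu⟩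
  refine F.exists_tw' (F.nT (mem_im s m)) (aS_mul u) (τ := fun t => u * t * u⁻¹) (fun v hv => aS_Ev u hv)
    (fun t ht => ⟨U_A0 u hu t ht, fun v => by rw [← mul_aS, ← mul_aS, inv_mul_cancel_right]⟩)
    (fun t ht => ⟨_, U_A0 _ (inv_mem hu) t ht, by group⟩) (fun v hv => ?_) fun t ht v hv => ?_
  · have := A'_nm _ m _ (il_A' hv)
    rw [conj_il] at this
    rw [h.ch.conj m (il_T0 hv), conj_il]; exact (F.ext _ this.1).symm
  · rw [h.ch.conj m (Q_le_T0 (ir_Q ht)), ← map_inv, ← map_mul, ← map_mul, F.qa _ (U_A0 u hu t ht) v hv]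

theorem Fs.tw_1 (F : Fs s c g1 g2) : ∃ w ∈ RM0, Tw g1 c r1V w :=
  F.exists_tw' F.n1 (map_mul (SX.lin _)) (τ := fun t => ts (R1T >>> (7 * t.n))) (fun v hv => (r_Ev v hv).1)
    (fun t ht => ⟨(r_A0 t ht).1.2.1, hom_aS _ (rh_chk1 t (r_A0 t ht).1.1)⟩) (fun t ht => (r_A0 t ht).1.2.2)
    (fun v hv => by
      rw [F.a1 _ (Q_le_T00 (A'_le_Q (il_A' hv))), rh_il]; exact (F.ext _ (rh_A' _ (il_A' hv)).1.1).symm)
    fun t ht v hv => by
      rw [F.a1 _ (Q_le_T00 (ir_Q ht)), show rh (ir t) = ir (ts (R1T >>> (7 * t.n))) from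
        P.ext (map_one (SX.lin _)) rfl, F.qa _ (r_A0 t ht).1.2.1 v hv]

theorem Fs.tw_2 (F : Fs s c g1 g2) : ∃ w ∈ RM0, Tw g2 c r2V w :=
  F.exists_tw' F.n2 (map_mul (SX.lin _)) (τ := fun t => ts (R2T >>> (7 * t.n))) (fun v hv => (r_Ev v hv).2)
    (fun t ht => ⟨(r_A0 t ht).2.2.1, hom_aS _ (rh'_chk1 t (r_A0 t ht).2.1)⟩) (fun t ht => (r_A0 t ht).2.2.2)
    (fun v hv => by
      rw [F.a2 _ (Q_le_T01 (A'_le_Q (il_A' hv))), rh'_il]; exact (F.ext _ (rh_A' _ (il_A' hv)).2.1).symm)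
    fun t ht v hv => by
      rw [F.a2 _ (Q_le_T01 (ir_Q ht)), show rh' (ir t) = ir (ts (R2T >>> (7 * t.n))) from
        P.ext (map_one (SX.lin _)) rfl, F.qa _ (r_A0 t ht).2.2.1 v hv]

/-- change of coordinates -/
theorem Fs.chg (F : Fs s c g1 g2) {μ : V} (hμ : μ ∈ RM0) : Fs s (fun v => c (tf id μ v)) g1 g2 := by
  have e : im (fun v => c (tf id μ v)) Ev = im c Ev := le_antisymm
    (im_le.2 fun v hv => mem_im c (tf_mu hμ hv).1) (im_le.2 fun v hv => by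
      have := mem_im (fun v => c (tf id μ v)) (tf_mu hμ hv).1
      rwa [(tf_mu hμ hv).2] at this)
  refine ⟨fun v hv w hw => ?_, fun v hv k => ?_, fun v hv => ?_, fun t ht v hv => ?_, e ▸ F.syl, e ▸ F.nT, F.a1,
    e ▸ F.n1, F.a2, e ▸ F.n2⟩
  · rw [← F.mul _ (tf_mu hμ hv).1 _ (tf_mu hμ hw).1]
    simp only [tf, id, dot_mul, bc_xor, mul_mul_mul_comm]
  · rw [← (tf_mu hμ hv).2, F.inj _ (tf_mu hμ hv).1 k, tf_RM hμ (one_mem _)]
  · rw [tf_RM hμ hv, F.ext v hv]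
  · have := dot_RM _ (com_A0 v hv t ht) _ (RM0_le hμ)
    rw [dot_mul] at this
    have : dot v μ = dot (aS t v) μ := by simpa using this
    rw [F.qa t ht _ (tf_mu hμ hv).1]
    simp only [tf, id, aS_mul, aS_bc, this]

/-- `exists_tw` for `s e23, s e24, s e34, g1, g2` gives `w23, w24, w34, w1, w2 ∈ RM0`. Relations for the actions
on `F0`: `e23² = e24² = e34² = 1`, `[e23, e24] = [e24, e34] = 1`, `e34 e23 e34 = e23 e24`;
`g1 e23 g1⁻¹ = e23 e24`, `g1 e24 g1⁻¹ = e23`, `g2 e24 g2⁻¹ = e34`, `g2 e34 g2⁻¹ = e24 e34` (exact, `a1`, `a2`);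
`(e34 g1)²`, `g1³`, `(e23 g2)²`, `g2³` centralise `s Q`, hence `F0` (`cQ`). FINITE FACT (computer checked): 16 of
the `8⁵` tuples satisfy them (test on `v ∈ [3, 5, 17]`, in stages), and replacing `c v` by
`c (v * bc (dot v μ) 255)`, `μ ∈ RM0`, which changes the functional of `(g, σ)` by
`dot v μ + dot (σ v) μ`, brings them to `(0,0,0,0,0)` or `(f0,3c,aa,0,aa)`. The two orbits are
`00000, 000cc0, (0,0,f0,3c,aa), (0,0,f0,f0,aa), (cc,f0,0,0,66), (cc,f0,0,cc,66), (cc,f0,f0,3c,cc), (cc,f0,f0,f0,cc)` and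
`(3c,cc,5a,3c,66), (3c,cc,5a,f0,66), (3c,cc,aa,0,cc), (3c,cc,aa,cc,cc), (f0,3c,5a,3c,0), (f0,3c,5a,f0,0),
(f0,3c,aa,0,aa), (f0,3c,aa,cc,aa)`. The new `c` satisfies `Fs` again (`dot (aS t v) μ = dot v μ` for `t ∈ A0`). -/
theorem Fs.co (h : N0 s O) (F : Fs s c g1 g2) : ∃ c' tw, Fc s c' g1 g2 tw := by
  obtain ⟨wa, ma, ta⟩ := F.tw_U h (u := ts 10) (by decide +kernel)
  obtain ⟨wb, mb, tb⟩ := F.tw_U h (u := ts 12) (by decide +kernel)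
  obtain ⟨wc, mc, tc⟩ := F.tw_U h (u := ts 32) (by decide +kernel)
  obtain ⟨w1, m1, t1⟩ := F.tw_1
  obtain ⟨w2, m2, t2⟩ := F.tw_2
  have A := av_of ta fun v hv => aS_Ev _ hv
  have B := av_of tb fun v hv => aS_Ev _ hv
  have C := av_of tc fun v hv => aS_Ev _ hv
  have G1 := av_of t1 fun v hv => (r_Ev v hv).1
  have G2 := av_of t2 fun v hv => (r_Ev v hv).2
  have n34 : e34 ∈ T0 := by decide +kernel
  have z1 : g2 * (g2 * g2) ∈ CC (im s Q) := mem_CC_im.2 fun m hm => by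
    have q1 := (rh_Q m hm).2
    have q2 := (rh_Q _ q1).2
    have e := F.a2 _ (Q_le_T01 q2)
    rw [(rh_cube m hm).2, ← F.a2 _ (Q_le_T01 q1), ← F.a2 _ (Q_le_T01 hm)] at e
    conv_rhs => rw [← e]
    group
  have z2 : s e34 * (g1 * (s e34 * g1)) ∈ CC (im s Q) := mem_CC_im.2 fun m hm => by
    have q1 := (rh_Q m hm).1
    have q2 := Q_nm _ n34 _ q1
    have e := h.ch.conj n34 (Q_le_T0 (rh_Q _ q2).1)
    rw [cg2_chk m hm, ← F.a1 _ (Q_le_T00 q2), ← h.ch.conj n34 (Q_le_T0 q1), ← F.a1 _ (Q_le_T00 hm)] at e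
    conv_rhs => rw [← e]
    group
  have N34 := F.nT (mem_im s n34)
  obtain ⟨μ, hμ, tw, k1, k2, k3, k4, k5⟩ := co_chk w2 m2
    ((G2.mul (G2.mul G2)).eq F (Av.cen (F.cQ h (mul_mem F.n2 (mul_mem F.n2 F.n2)) z1)) rfl) wb mb wc mc
    ((G2.mul B).eq F (C.mul G2) (mul_inv_eq_iff_eq_mul.1 ((F.a2 e24 (by decide +kernel)).trans
      (congrArg s (by decide +kernel)))))
    ((G2.mul C).eq F (B.mul (C.mul G2)) (by
      rw [← mul_assoc, ← h.ch.mul _ (by decide +kernel) _ (by decide +kernel)]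
      exact mul_inv_eq_iff_eq_mul.1 ((F.a2 e34 (by decide +kernel)).trans (congrArg s (by decide +kernel)))))
    w1 m1 ((C.mul (G1.mul (C.mul G1))).eq F
      (Av.cen (F.cQ h (mul_mem N34 (mul_mem F.n1 (mul_mem N34 F.n1))) z2)) rfl) wa ma
    ((G1.mul B).eq F (A.mul G1) (mul_inv_eq_iff_eq_mul.1 ((F.a1 e24 (by decide +kernel)).trans
      (congrArg s (by decide +kernel)))))
    ((G1.mul A).eq F (A.mul (B.mul G1)) (by
      rw [← mul_assoc, ← h.ch.mul _ (by decide +kernel) _ (by decide +kernel)]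
      exact mul_inv_eq_iff_eq_mul.1 ((F.a1 e23 (by decide +kernel)).trans (congrArg s (by decide +kernel)))))
  have f {g : G} {σ : V → V} {w w' : V} (t : Tw g c σ w) (k : Chg μ σ w w') :
      Tw g (fun v => c (tf id μ v)) σ w' := fun v hv => (t _ (tf_mu hμ hv).1).trans (congrArg c (k v hv))
  exact ⟨_, tw, F.chg hμ, f ta k1, f tb k2, f tc k3, f t1 k4, f t2 k5⟩

end CL.HA
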