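import Cfsg.Agent.INV.HA.D1a

/-!
Harada `E₁₆ · GL₄(2)`, case (c): the Sylow 2-subgroup of `C(R)`.
-/

set_option autoImplicit false
set_option maxHeartbeats 400000
set_option linter.unusedSectionVars false

namespace CL.HA
open Subgroup CL.MSS CL.PComp
open CL.SX (V vv e ZZ pc)

variable {G : Type*} [Group G] [Finite G] {s : P → G} {O : Subgroup G}

variable {c : V → G} {g1 g2 : G} {tw : Bool} {E0 : Subgroup G}

/-- FINITE FACT: an automorphism of `RA` that is trivial on `R` is conjugation by an element of `D`. -/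
theorem autRA : ∀ u ∈ R, (b * u) * (b * u) = 1 → ∀ w ∈ R, (HA.c * w) * (HA.c * w) = 1 →
    (b * u) * (HA.c * w) = (HA.c * w) * (b * u) → ∃ k ∈ D, k * b * k⁻¹ = b * u ∧ k * HA.c * k⁻¹ = HA.c * w :=
  fun u hu h w hw => D1.coc u (D1.R_D hu) h w (D1.R_D hw)

/-- FINITE FACT: `H¹(⟨b, c⟩, D) = 0`. -/
theorem cocD : ∀ u ∈ D, (b * u) * (b * u) = 1 → ∀ w ∈ D, (HA.c * w) * (HA.c * w) = 1 →
    (b * u) * (HA.c * w) = (HA.c * w) * (b * u) → ∃ k ∈ D, k * b * k⁻¹ = b * u ∧ k * HA.c * k⁻¹ = HA.c * w :=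
  D1.coc

namespace D1

omit [Finite G] in
theorem im_gen {X Y : Subgroup P} (h : Ch X s) {L : List P} (hL : ∀ m ∈ L, m ∈ X)
    (hg : Y ≤ closure {m | m ∈ L}) {K : Subgroup G} (k : ∀ m ∈ L, s m ∈ K) : im s Y ≤ K := by
  have key : ∀ n ∈ closure {m | m ∈ L}, n ∈ X ∧ s n ∈ K := fun n hn => by
    induction hn using closure_induction with
    | mem p hp => exact ⟨hL p hp, k p hp⟩
    | one => exact ⟨one_mem _, h.one ▸ one_mem _⟩
    | mul p q _ _ hp hq => exact ⟨mul_mem hp.1 hq.1, h.mul _ hp.1 _ hq.1 ▸ mul_mem hp.2 hq.2⟩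
    | inv p _ hp => exact ⟨inv_mem hp.1, h.inv hp.1 ▸ inv_mem hp.2⟩
  exact im_le.2 fun m hm => (key m (hg hm)).2

theorem nR (h : Ch T0 s) : im s T0 ≤ NN (im s R) := im_le.2 fun m hm => h.norm R_T0 hm (R_nm0 m hm)
theorem nRA (h : Ch T0 s) : im s T0 ≤ NN (im s RA) := im_le.2 fun m hm => h.norm RA_le_T0 hm (RA_nm0 m hm)
theorem R_cen (h : Ch T0 s) : im s R ≤ CC (im s R) := im_le.2 fun _ hm => mem_CC_im.2 fun _ hn =>
  (h.comm (R_T0 hm) (R_T0 hn)).2 (D_comm (R_D hm) (R_D hn))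
theorem nX {g : G} (k1 : g ∈ NN (im s R)) (k2 : g ∈ NN (im s RA)) : g ∈ NN (CC (im s R) ⊓ NN (im s RA)) :=
  inf_normalizer_le_normalizer_inf ⟨normalizer_le_normalizer_centralizer _ k1, le_normalizer k2⟩

/-- the chart on `D A` -/
theorem chart (h : Ch T0 s) {δ ξ : G} (d2 : δ * δ = 1) (x2 : ξ * ξ = 1) (cm : ξ * δ = δ * ξ) (md : Mu s δ d)
    (mx : Mu s ξ x) : ∃ s2 : P → G, Ch DA s2 ∧ (∀ m ∈ RA, s2 m = s m) ∧ s2 d = δ ∧ s2 x = ξ := by
  obtain ⟨u, um, ue, ud⟩ := ext2 (K := RA) (L := RAd) (y := d) (by decide +kernel) (by decide +kernel)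
    (RA_nm d (D_DA d_D)) (fun t ht => (ix1 t ht).2.2) (h.mono RA_le_T0).mul d2 md.2
  have inj {X : Subgroup P} (h1 : RA ≤ X) (h2 : X ≤ DA) {f : P → G} (fm : ∀ m ∈ X, ∀ n ∈ X, f (m * n) = f m * f n)
      (fe : ∀ m ∈ RA, f m = s m) : Ch X f := ⟨fm, fun m hm e => by
    have k (n : P) (hn : n ∈ RA) : m * n = n * m := by
      have q := RA_nm m (h2 hm) n hn
      have := fm _ (h1 q) m hm
      rw [inv_mul_cancel_right, fm m hm n (h1 hn), e, one_mul, mul_one, fe n hn, fe _ q] at this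
      exact mul_inv_eq_iff_eq_mul.1 (h.eq_of (RA_le_T0 hn) (RA_le_T0 q) this).symm
    have := cenRA_chk' m (h2 hm) (k _ (R_RA e13_R)) (k _ (R_RA e14_R)) (k _ b_RA) (k _ c_RA)
    exact h.inj m (R_T0 this) (by rw [← fe m (R_RA this), e])⟩
  have cu := inj RA_RAd (fun t ht => (ix1 t ht).1) um ue
  have ac : Ac ξ u RAd fun t => x * t * x⁻¹ := by
    refine Ac.of_gen cu le_rfl (fun t ht => (ix1 t ht).2.1) (fun p _ q _ => by group) (by decide +kernel)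
      gen_RAd ?_
    have f (w : P) (hw : w ∈ RA) : ξ * u w * ξ⁻¹ = u (x * w * x⁻¹) := by
      rw [ue w hw, ue _ (RA_nm x (D_DA x_D) w hw), mx.2 w hw]
    simp only [List.forall_mem_cons]
    exact ⟨f _ (by decide +kernel), f _ (by decide +kernel), f _ (by decide +kernel), f _ (by decide +kernel),
      f _ (by decide +kernel), f _ (by decide +kernel), f _ b_RA, f _ c_RA,
      by rw [D_comm x_D d_D, mul_inv_cancel_right, ud, cm, mul_inv_cancel_right], by simp⟩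
  obtain ⟨w, wm, we, wx⟩ := ext2 (K := RAd) (L := DA) (y := x) (by decide +kernel) (by decide +kernel)
    (fun t ht => (ix1 t ht).2.1) ix2 um x2 ac
  have ex : ∀ m ∈ RA, w m = s m := fun m hm => by rw [we m (RA_RAd hm), ue m hm]
  exact ⟨w, inj RA_DA le_rfl wm ex, ex, by rw [we d (by decide +kernel), ud], wx⟩

theorem mu_ch {s2 : P → G} (h : Ch DA s2) (ex : ∀ m ∈ RA, s2 m = s m) {k : P} (hk : k ∈ D) : Mu s (s2 k) k :=
  ⟨hk, fun m hm => by
    rw [← ex m hm, h.conj (D_DA hk) (RA_DA hm), ex _ (RA_nm k (D_DA hk) m hm)]⟩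

theorem main1 (h : N0 s O) {δ : G} (d2 : δ * δ = 1) (md : Mu s δ d) {S : Subgroup G}
    (sy : SylIn 2 S (CC (im s R) ⊓ NN (im s RA))) (nT : im s T0 ≤ NN S) (hδ : δ ∈ S) :
    ∃ g0 s2, Ch DA s2 ∧ (∀ m ∈ RA, s2 m = s m) ∧ s2 d = δ ∧ im s2 D = S ∧ Ac g0 s T02 omg ∧
      Ac g0 s2 DA omg := by
  set X := CC (im s R) ⊓ NN (im s RA) with hX
  have RS : im s R ≤ S := sy.le_of_normalizes (h.ch.pg R_T0)
    (le_inf (R_cen h.ch) ((im_mono s R_T0).trans (nRA h.ch))) ((im_mono s R_T0).trans nT)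
  have mu {g : G} (hg : g ∈ X) : ∃ k, Mu s g k := exists_mu h.ch hg.2 hg.1
  obtain ⟨g, ac⟩ := h.om
  have gX : g ∈ NN X := nX (ac.norm (R_RA.trans RA_T02) fun m hm => (omg_R m hm).1)
    (ac.norm RA_T02 fun m hm => (omg_RA m hm).2.1)
  have od : omg d = x := by decide +kernel
  have onX : ∀ k ∈ D, ∃ g ∈ X, Mu s g k := fun k hk => by
    have p {k : P} (hk : k ∈ R) : ∃ g ∈ X, Mu s g k := ⟨_, sy.le (RS (mem_im s hk)), Mu.of_R h.ch hk⟩
    have q {k l : P} (hl : ∃ g ∈ X, Mu s g l) (hk : ∃ g ∈ X, Mu s g (k * l)) : ∃ g ∈ X, Mu s g k := by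
      obtain ⟨u, hu, a⟩ := hl
      obtain ⟨w, hw, b⟩ := hk
      have := b.mul a
      rw [mul_assoc, (omg_D l a.1).2.1, mul_one] at this
      exact ⟨_, mul_mem hw hu, this⟩
    have pd : ∃ g ∈ X, Mu s g d := ⟨δ, sy.le hδ, md⟩
    have px : ∃ g ∈ X, Mu s g x := ⟨_, SX.Hx.conj_mem gX (sy.le hδ), od ▸ md.om ac⟩
    rcases ix3 k hk with e | e | e | e
    exacts [p e, q pd (p e), q px (p e), q pd (q px (p e))]
  have on : ∀ k ∈ D, ∃ u ∈ S, Mu s u k := fun k hk => by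
    obtain ⟨g, hg, q⟩ := onX k hk
    obtain ⟨i, n, ⟨j, rfl⟩, e⟩ := Nat.exists_eq_two_pow_mul_odd (orderOf_pos g).ne'
    obtain ⟨y, hy, le⟩ := sy.exists_conj_le (isPGroup_zpowers (x := g ^ (2 * j + 1)) (k := i)
      (by rw [← pow_mul, mul_comm, ← e, pow_orderOf_eq_one])) (zpowers_le.2 (pow_mem hg _))
    obtain ⟨w, hw⟩ := mu hy
    refine ⟨_, le (conj_mem_cj (mem_zpowers _)), ?_⟩
    have := (hw.mul (q.pow j)).mul hw.inv
    rwa [D_comm hw.1 hk, mul_assoc k, (omg_D w hw.1).2.1, mul_one] at this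
  have hXS : X ≤ S ⊔ OR s O := fun g hg => by
    obtain ⟨k, q⟩ := mu hg
    obtain ⟨u, hu, q'⟩ := on k q.1
    obtain ⟨m, hm, o, ho, e⟩ := cenRA' h (q'.div q)
    rw [inv_mul_eq_iff_eq_mul.1 e]
    exact mul_mem (mem_sup_left hu) (mul_mem (mem_sup_left (RS (mem_im s hm))) (mem_sup_right ho))
  obtain ⟨o, ho, gS⟩ := lift (O := OR s O) (T := im s T02) (coprime_card_of_le inf_le_left h.odd) sy hXS
    (isPGroup_sup_of_normalizes' sy.pgroup (h.ch.pg T02_le) ((im_mono s T02_le).trans nT))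
    ((sup_le (sy.le.trans inf_le_right) ((im_mono s T02_le).trans (nRA h.ch))).trans (nOR h))
    (fun o ho => mem_inf.2 ⟨centralizer_le (im_mono s R_RA) ho.2, centralizer_le_normalizer _ ho.2⟩)
    (ac.norm le_rfl fun m hm => (T02_T0 m hm).2) gX
  have a0 := ac_mul ac (fun m hm => (T02_T0 m hm).2) ho
  generalize o * g = γ at gS a0
  have c3 : γ * (γ * γ) ∈ CC S := cen_S h sy.pgroup (sy.le.trans inf_le_left) (sy.le.trans inf_le_right) RS
    (mul_mem gS (mul_mem gS gS)) (mem_CC_im.2 fun m hm => by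
      have e1 := a0 m (RA_T02 hm)
      have e2 := a0 _ (RA_T02 (omg_RA m hm).2.1)
      have e3 := a0 _ (RA_T02 (omg_RA _ (omg_RA m hm).2.1).2.1)
      rw [(omg_RA m hm).2.2, ← e2, ← e1] at e3
      rw [← mul_inv_eq_iff_eq_mul]
      exact Eq.trans (by group) e3)
  have mx : Mu s (γ * δ * γ⁻¹) x := od ▸ md.om a0
  have ox : omg x = d * x := by decide +kernel
  have mx' : Mu s (γ * (γ * δ * γ⁻¹) * γ⁻¹) (d * x) := ox ▸ mx.om a0
  have xS := SX.Hx.conj_mem gS hδ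
  have e3 : γ * (γ * (γ * δ * γ⁻¹) * γ⁻¹) * γ⁻¹ = δ := by
    calc _ = γ * (γ * γ) * δ * (γ * (γ * γ))⁻¹ := by group
      _ = δ := by rw [← c3 δ hδ, mul_inv_cancel_right]
  have x2 : γ * δ * γ⁻¹ * (γ * δ * γ⁻¹) = 1 := by rw [conj_mul, d2]; simp
  generalize hξ : γ * δ * γ⁻¹ = ξ at mx mx' xS e3 x2
  have y2 : γ * ξ * γ⁻¹ * (γ * ξ * γ⁻¹) = 1 := by rw [conj_mul, x2]; simp
  obtain ⟨m, hm, em⟩ := cenRA2 h sy.pgroup (mul_mem (mul_mem hδ xS) (SX.Hx.conj_mem gS xS))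
    (Mu.cen ((omg_D _ (mul_mem d_D x_D)).2.1 ▸ (md.mul mx).mul mx'))
  have m1 : m = 1 := by
    have cRA : s m ∈ CC (im s RA) := em ▸ Mu.cen ((omg_D _ (mul_mem d_D x_D)).2.1 ▸ (md.mul mx).mul mx')
    have cm (n : P) (hn : n ∈ RA) := (h.ch.comm (R_T0 hm) (RA_le_T0 hn)).1 (mem_CC_im.1 cRA n hn)
    refine omg_fix m hm (cm _ b_RA) (cm _ c_RA) (h.ch.eq_of (R_T0 (omg_R m hm).1) (R_T0 hm) ?_)
    rw [← a0 m (RA_T02 (R_RA hm))]
    calc γ * s m * γ⁻¹ = γ * δ * γ⁻¹ * (γ * ξ * γ⁻¹) * (γ * (γ * ξ * γ⁻¹) * γ⁻¹) := by rw [em]; group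
      _ = δ⁻¹ * (s m * δ) := by rw [e3, hξ, em]; group
      _ = s m := by rw [(sy.le hδ).1 _ (mem_im s hm), inv_mul_cancel_left]
  rw [m1, h.ch.one] at em
  have di := inv_eq_of_mul_eq_one_right d2
  have xi := inv_eq_of_mul_eq_one_right x2
  have ey : γ * ξ * γ⁻¹ = ξ * δ := by rw [eq_inv_of_mul_eq_one_right em.symm, mul_inv_rev, di, xi]
  have cm : ξ * δ = δ * ξ := by
    rw [ey] at y2
    rw [← inv_eq_of_mul_eq_one_right y2, mul_inv_rev, di, xi]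
  obtain ⟨s2, ch, ex, ed, ex'⟩ := chart h.ch d2 x2 cm md mx
  have r {n : P} (hn : n ∈ R) : s2 n ∈ S := ex n (R_RA hn) ▸ RS (mem_im s hn)
  have le : im s2 D ≤ S := im_gen ch (by decide +kernel) gen_D (by
    simp only [List.forall_mem_cons]
    exact ⟨r (by decide +kernel), r e13_R, r e14_R, r (by decide +kernel), r (by decide +kernel),
      r (by decide +kernel), ed ▸ hδ, ex' ▸ xS, by simp⟩)
  refine ⟨γ, s2, ch, ex, ed, le_antisymm le fun u hu => ?_, a0, Ac.of_gen ch le_rfl omg_DA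
    (fun m hm n hn => omg_mul m (DA_DB hm) n (DA_DB hn)) (by decide +kernel) gen_DA ?_⟩
  · obtain ⟨k, q⟩ := mu (sy.le hu)
    obtain ⟨n, hn, e⟩ := cenRA2 h sy.pgroup (mul_mem (inv_mem (le (mem_im s2 q.1))) hu)
      ((mu_ch ch ex q.1).div q)
    rw [inv_mul_eq_iff_eq_mul.1 e.symm, ← ex n (R_RA hn)]
    exact mul_mem (mem_im s2 q.1) (mem_im s2 (R_D hn))
  · have f (w : P) (hw : w ∈ RA) : γ * s2 w * γ⁻¹ = s2 (omg w) := by
      rw [ex w hw, ex _ (omg_RA w hw).2.1, a0 w (RA_T02 hw)]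
    simp only [List.forall_mem_cons]
    exact ⟨f _ (by decide +kernel), f _ (by decide +kernel), f _ (by decide +kernel), f _ (by decide +kernel),
      f _ (by decide +kernel), f _ (by decide +kernel), by rw [od, ed, ex', hξ],
      by rw [ox, ch.mul _ (D_DA d_D) _ (D_DA x_D), ed, ex', ey, cm], f _ b_RA, f _ c_RA, by simp⟩

theorem main2 (h : N0 s O) {s2 : P → G} (ch : Ch DA s2) (ex : ∀ m ∈ RA, s2 m = s m) :
    SylIn 2 (im s2 D) (CC (im s R)) := by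
  have i {X : Subgroup P} (k : X ≤ RA) : im s2 X = im s X := im_congr fun m hm => ex m (k hm)
  have nY : im s2 DA ≤ NN (CC (im s R)) := i R_RA ▸ le_normalizer_centralizer
    (im_le.2 fun m hm => ch.norm (R_RA.trans RA_DA) hm (R_nm m hm))
  obtain ⟨S, sy, nS, lS, pS⟩ := inv_syl (ch.pg le_rfl) nY
  have cD : im s2 D ≤ CC (im s R) := i R_RA ▸ im_le.2 fun _ hm => mem_CC_im.2 fun _ hn =>
    (ch.comm (D_DA hm) (D_DA (R_D hn))).2 (D_comm hm (R_D hn))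
  have key : S ≤ im s2 DA := by
    by_contra ne
    obtain ⟨y, hy, n, hn, -⟩ := step_up (K := S ⊔ im s2 DA) (ch.pg le_rfl) le_sup_right
      fun k => ne (k.eq_of_isPGroup pS ▸ le_sup_left)
    obtain ⟨y, yS, t, ht, rfl⟩ := (mem_sup_of_normalizes_left nS).1 hy
    have n' : y ∈ NN (im s2 DA) := by simpa using mul_mem n (inv_mem (le_normalizer ht))
    have cy : y ∈ CC (im s R) := sy.le yS
    obtain ⟨k, hk, -, -, e1, e2⟩ := exists_k ch RA_DA le_rfl n' ((i R_RA).symm ▸ cy)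
    rw [ex _ b_RA, ex _ (RA_nm k (D_DA hk) _ b_RA)] at e1
    rw [ex _ c_RA, ex _ (RA_nm k (D_DA hk) _ c_RA)] at e2
    have kY := mem_im s2 (D_DA hk)
    obtain ⟨m, hm, e⟩ := cenRA2 h pS (mul_mem (inv_mem (mem_sup_right kY)) (mem_sup_left yS))
      ((mu_ch ch ex hk).div (mu_of h.ch hk cy e1 e2))
    rw [inv_mul_eq_iff_eq_mul.1 e.symm, ← ex m (R_RA hm)] at hn
    exact hn (mul_mem (mul_mem kY (mem_im s2 (D_DA (R_D hm)))) ht)
  have : im s2 D = S := le_antisymm (le_trans (le_inf (im_mono s2 D_DA) cD) lS) fun u hu => by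
    obtain ⟨m, hm, rfl⟩ := (ch.mem_im le_rfl).1 (key hu)
    have c (n : P) (hn : n ∈ R) : m * n = n * m := (ch.comm hm (D_DA (R_D hn))).1
      (mem_CC_im.1 (i R_RA ▸ sy.le hu : s2 m ∈ CC (im s2 R)) n hn)
    exact mem_im s2 (cenR_chk m hm (c _ e13_R) (c _ e14_R))
  exact this ▸ sy

theorem tw_chk : ∀ tw : Bool, aS (ts 10) (vv 3) * bc (dot (vv 3) (bc tw (vv 0xf0))) (vv 255) = vv 3 ∧
    aS (ts 12) (vv 3) * bc (dot (vv 3) (bc tw (vv 0x3c))) (vv 255) = vv 3 ∧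
    aS (ts 32) (vv 3) * bc (dot (vv 3) (bc tw (vv 0xaa))) (vv 255) ∈ ZZ := by decide +kernel
theorem e3 : vv 3 ∈ Ev := by decide +kernel

end D1
open D1

/-- `δ = c (vv 3)` centralises `s R` and acts on `s b, s c` as `d`.
(1) `main1`: a `T`-invariant Sylow subgroup `D1 ∋ δ` of `X = C(R) ⊓ N(RA)` carries a chart. (2) `main2`: it is Sylow
in `C(R)`. (3) `K = C(R ⟨δ⟩)` has a normal 2-complement (Burnside); an `E0 T`-invariant Sylow subgroup `D0` of `K` is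
conjugate to `D1` under `C(T)`, so (1) applies to it; adjust `g1`. -/
theorem Fc.d1 (h : N0 s O) (F : Fc s c g1 g2 tw) (hE : Es s c g1 g2 E0) :
    ∃ g0 g1' s2, Fc s c g1' g2 tw ∧ Es s c g1' g2 E0 ∧ Ds s c E0 g0 g1' s2 := by
  have c1 : c 1 = 1 := (mhom F.mul).map_one
  have d2 : c (vv 3) * c (vv 3) = 1 := by rw [← F.mul _ e3 _ e3, SX.V.mul_self, c1]
  have di := inv_eq_of_mul_eq_one_right d2
  have cv {v : V} (hv : v ∈ RM) : s (il v) * c (vv 3) * (s (il v))⁻¹ = c (vv 3) := by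
    rw [← F.ext v hv, ← F.mul _ (K.RM_le hv) _ e3, mul_comm, F.mul _ e3 _ (K.RM_le hv), mul_inv_cancel_right]
  have q23 : s e23 * c (vv 3) * (s e23)⁻¹ = c (vv 3) := by rw [F.t23 _ e3, (tw_chk tw).1]
  have dR : c (vv 3) ∈ CC (im s R) := by
    refine le_centralizer_iff.1 (im_gen (K := CC (zpowers (c (vv 3)))) h.ch (fun m hm => R_T0 (mR m hm)) gen_R ?_)
      (mem_zpowers _)
    have f {g : G} (e : g * c (vv 3) * g⁻¹ = c (vv 3)) : g ∈ CC (zpowers (c (vv 3))) := by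
      rintro _ ⟨i, rfl⟩
      exact (Commute.zpow_right (mul_inv_eq_iff_eq_mul.1 e) i).symm
    simp only [List.forall_mem_cons]
    exact ⟨f (cv (by decide +kernel)), f (cv (by decide +kernel)), f (cv (by decide +kernel)),
      f ((F.qa (ts 15) (by decide +kernel) _ e3).trans (congrArg c (by decide +kernel))), f q23,
      f (by rw [F.t24 _ e3, (tw_chk tw).2.1]), by simp⟩
  have sw {t : TS} (ht : t ∈ A0) : c (vv 3) * s (ir t) * (c (vv 3))⁻¹ = s (d * ir t * d⁻¹) := by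
    have k := K.com_A0 _ e3 t ht
    rw [d, K.il_conj, ir_t, h.ch.mul _ (K.il_T0 k) _ (Q_le_T0 (K.ir_Q ht)), ← F.ext _ k,
      F.mul _ e3 _ (K.aS_Ev t e3), ← F.qa t ht _ e3, di]
    group
  have md : Mu s (c (vv 3)) d := mu_of h.ch d_D dR (sw (by decide +kernel)) (sw (by decide +kernel))
  set R1 := im s R ⊔ zpowers (c (vv 3)) with hR1
  have cz {v : V} (hv : v ∈ Zev) : c v ∈ im s R := F.ext v (Zev_RM v hv) ▸ mem_im s ⟨hv, one_mem _⟩
  have cz' {v : V} (hv : v ∈ ZZ) : c v = c (v * vv 3) * c (vv 3) := by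
    rw [F.mul _ (ix4 v hv).1 _ e3, mul_assoc, d2, mul_one]
  have dR1 : c (vv 3) ∈ R1 := mem_sup_right (mem_zpowers _)
  have cZ : im c ZZ ≤ R1 := im_le.2 fun v hv => by
    rcases (ix4 v hv).2 with k | k
    · exact mem_sup_left (cz k)
    · exact cz' hv ▸ mul_mem (mem_sup_left (cz k)) dR1
  have nR1 {g : G} (k1 : ∀ m ∈ R, g * s m * g⁻¹ ∈ R1) (k2 : g * c (vv 3) * g⁻¹ ∈ R1) : g ∈ NN R1 :=
    SX.Hx.norm_of fun y hy => (show R1 ≤ R1.comap (MulAut.conj g).toMonoidHom from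
      sup_le (im_le.2 k1) (zpowers_le.2 k2)) hy
  have nR1' {g : G} (k1 : g ∈ NN (im s R)) (k2 : g * c (vv 3) * g⁻¹ ∈ R1) : g ∈ NN R1 :=
    nR1 (fun m hm => mem_sup_left (SX.Hx.conj_mem k1 (mem_im s hm))) k2
  have TR1 : im s T0 ≤ NN R1 := im_gen h.ch (by decide +kernel) gen_T0 (by
    have f {m : P} (hm : m ∈ T0) (k : s m * c (vv 3) * (s m)⁻¹ ∈ R1) := nR1' (nR h.ch (mem_im s hm)) k
    simp only [List.forall_mem_cons]
    exact ⟨f (by decide +kernel) ((cv (v := vv 0xAA) (by decide +kernel)).symm ▸ dR1),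
      f (by decide +kernel) (q23.symm ▸ dR1),
      f (by decide +kernel) ((F.t34 _ e3).symm ▸ cZ (mem_im c (tw_chk tw).2.2)),
      f (by decide +kernel) ((F.qa (ts 64) (by decide +kernel) _ e3).symm ▸ cZ (mem_im c (by decide +kernel))),
      by simp⟩)
  have dE : c (vv 3) ∈ E0 := hE.le (mem_im c e3)
  have ER1 : E0 ≤ NN R1 := fun u hu => nR1
    (fun m hm => by simpa using mul_mem (cZ (hE.cR u hu m hm)) (mem_sup_left (mem_im s hm)))
    (by rw [hE.comm u hu _ dE, mul_inv_cancel_right]; exact dR1)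
  have gR1 : g1 ∈ NN R1 := nR1' (F.a1.norm (fun m hm => (omg_R m hm).2.2.1) fun m hm => (omg_R m hm).2.1)
    ((F.t1 _ e3).symm ▸ cZ (mem_im c (by decide +kernel)))
  have KR : CC R1 ≤ CC (im s R) := centralizer_le (le_sup_left : im s R ≤ R1)
  have dK : c (vv 3) ∈ CC R1 := le_centralizer_iff.1 (show R1 ≤ CC (zpowers (c (vv 3))) from
    sup_le (le_centralizer_iff.1 (zpowers_le.2 dR)) (zpowers_le.2 (by
      rintro _ ⟨i, rfl⟩
      exact ((Commute.refl _).zpow_right i).symm))) (mem_zpowers _)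
  -- step (1), (2)
  obtain ⟨S, sy, nS, lS, -⟩ := inv_syl (X := CC (im s R) ⊓ NN (im s RA)) (Y := im s T0 ⊔ zpowers (c (vv 3)))
    ((isPGroup_sup_of_normalizes (h.ch.pg le_rfl) F.syl.pgroup F.nT).to_le
      (sup_le_sup_left (zpowers_le.2 (mem_im c e3)) _))
    (sup_le (fun g hg => nX (nR h.ch hg) (nRA h.ch hg)) (zpowers_le.2 (le_normalizer ⟨dR, md.norm⟩)))
  have dS : c (vv 3) ∈ S := lS ⟨mem_sup_right (mem_zpowers _), dR, md.norm⟩
  obtain ⟨-, s1, ch, ex, ed, eS, -, -⟩ := main1 h d2 md sy (le_sup_left.trans nS) dS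
  have sR := main2 h ch ex
  have ab : ∀ u ∈ S, ∀ w ∈ S, u * w = w * u := fun u hu w hw => by
    rw [← eS] at hu hw
    obtain ⟨m, hm, rfl⟩ := (ch.mem_im D_DA).1 hu
    obtain ⟨n, hn, rfl⟩ := (ch.mem_im D_DA).1 hw
    exact (ch.comm (D_DA hm) (D_DA hn)).2 (D_comm hm hn)
  have r1 {m : P} (hm : m ∈ R) : s1 m ∈ R1 := ex m (R_RA hm) ▸ mem_sup_left (mem_im s hm)
  have R1S : R1 ≤ S := sup_le (im_le.2 fun m hm => eS ▸ ex m (R_RA hm) ▸ mem_im s1 (R_D hm)) (zpowers_le.2 dS)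
  have xS : s1 x ∈ S := eS ▸ mem_im s1 x_D
  have sq : ∀ u ∈ S, u * u = 1 := fun u hu => by
    rw [← eS] at hu
    obtain ⟨m, hm, rfl⟩ := (ch.mem_im D_DA).1 hu
    rw [← ch.mul _ (D_DA hm) _ (D_DA hm), (omg_D m hm).2.1, ch.one]
  have two : ∀ u ∈ S, u ∈ R1 ∨ u * s1 x ∈ R1 := fun u hu => by
    rw [← eS] at hu
    obtain ⟨m, hm, rfl⟩ := (ch.mem_im D_DA).1 hu
    have f {n : P} (hn : n ∈ D) (k : n * d ∈ R) : s1 n ∈ R1 := by
      have := mul_mem (r1 k) dR1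
      rwa [ch.mul _ (D_DA hn) _ (D_DA d_D), ed, mul_assoc, d2, mul_one] at this
    rw [← ch.mul _ (D_DA hm) _ (D_DA x_D)]
    rcases ix3 m hm with k | k | k | k
    exacts [.inl (r1 k), .inl (f hm k), .inr (r1 k),
      .inr (f (mul_mem hm x_D) (by rwa [mul_assoc, D_comm x_D d_D, ← mul_assoc]))]
  rw [eS] at sR
  have sK : SylIn 2 S (CC R1) := sR.of_le (fun u hu y hy => ab y (R1S hy) u hu) KR
  -- step (3)
  have bK : CC R1 ≤ S ⊔ opOf 2 (CC R1) := D1.burn sK fun g hg hn => by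
    refine cen_of_ab sK ab sK.pgroup sK.le hg hn fun u hu => ?_
    have k {w : G} (hw : w ∈ S) (e : g * w * g⁻¹ * w ∈ R1) : w * (g * g) = g * g * w := by
      have e1 := hg _ e
      have e2 := sq w hw
      have e3 := sq _ (SX.Hx.conj_mem hn hw)
      have e4 := ab _ (SX.Hx.conj_mem hn hw) w hw
      calc w * (g * g) = (g * w * g⁻¹ * (g * w * g⁻¹)) * w * g * g := by rw [e3]; group
        _ = g * w * g⁻¹ * (g * (g * w * g⁻¹ * w)) * g := by rw [← e1]; group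
        _ = g * (w * (g * w * g⁻¹) * w) * g := by group
        _ = g * g * w := by rw [← e4, mul_assoc _ w w, e2]; group
    by_cases k1 : u ∈ R1
    · exact mul_mem hg hg u k1
    · have k2 : g * u * g⁻¹ ∉ R1 := fun q => k1 (by
        have := hg _ q
        rwa [show u = g * u * g⁻¹ from mul_left_cancel (a := g) (by rw [← this]; group)])
      have := mul_mem ((two _ (SX.Hx.conj_mem hn hu)).resolve_left k2) ((two u hu).resolve_left k1)
      rw [ab u hu _ xS, mul_assoc, ← mul_assoc (s1 x), sq _ xS, one_mul] at this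
      exact k hu this
  have nK : NN R1 ≤ NN (CC R1) := normalizer_le_normalizer_centralizer _
  have nO : NN (CC R1) ≤ NN (opOf 2 (CC R1)) := normalizer_le_normalizer_opOf 2 _
  obtain ⟨S0, sy0, nS0, lS0, pS0⟩ := inv_syl (X := CC R1) (Y := E0 ⊔ im s T0)
    (isPGroup_sup_of_normalizes' hE.syl.pgroup (h.ch.pg le_rfl) hE.nT) ((sup_le ER1 TR1).trans nK)
  have bK0 : CC R1 ≤ S0 ⊔ opOf 2 (CC R1) := by
    obtain ⟨y, hy, e⟩ := sK.exists_conj sy0
    have := cj_mono y bK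
    rwa [cj_eq_of_mem hy, cj_sup, e, cj_eq_of_mem_normalizer (le_normalizer_opOf 2 _ hy)] at this
  have p0 : IsPGroup 2 (S0 ⊔ im s T0 : Subgroup G) := pS0.to_le (sup_le_sup_left le_sup_right _)
  obtain ⟨o, ho, k1, k2⟩ := lift_syl (S1 := S0 ⊔ im s T0) (S2 := S ⊔ im s T0) (opOf_coprime 2 (CC R1)) p0
    (isPGroup_sup_of_normalizes' sy.pgroup (h.ch.pg le_rfl) (le_sup_left.trans nS))
    ((sup_le (sy0.le.trans le_normalizer) (TR1.trans nK)).trans nO)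
    (sup_le (sK.le.trans (bK0.trans (sup_le_sup_right le_sup_left _))) (le_sup_right.trans le_sup_left))
  have oK := opOf_le 2 _ ho
  have e0 : S0 = o •ᶜ S := (sK.cj_of_mem oK).max _ sy0.pgroup (le_of_le_of_eq
    (le_inf ((cj_mono o le_sup_left).trans k1) (cj_le_of_mem sK.le oK))
    (sy0.max (_ ⊓ CC R1) (p0.to_le inf_le_left) (le_inf le_sup_left sy0.le) inf_le_right)) sy0.le
  have sX : SylIn 2 S0 (CC (im s R) ⊓ NN (im s RA)) := e0 ▸ sy.cj_of_mem (mem_inf.2 ⟨KR oK,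
    centralizer_le_normalizer _ fun y hy => (k2 y (mem_sup_right (im_mono s RA_le_T0 hy))
      (mem_sup_right (im_mono s RA_le_T0 hy))).symm⟩)
  obtain ⟨g0, s2, ch2, ex2, ed2, eS2, a0, a0'⟩ := main1 h d2 md sX (le_sup_right.trans nS0)
    (lS0 ⟨mem_sup_left dE, dK⟩)
  obtain ⟨o1, ho1, n1⟩ := D1.lift (T := E0 ⊔ im s T00) (opOf_coprime 2 (CC R1)) sy0 bK0
    (pS0.to_le (sup_le_sup_left (sup_le_sup_left (im_mono s K.T00_le) _) _))
    ((sup_le (sy0.le.trans le_normalizer) ((sup_le ER1 ((im_mono s K.T00_le).trans TR1)).trans nK)).trans nO)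
    (opOf_le 2 _) (le_normalizer_sup (zpowers_le.2 hE.n1)
      (zpowers_le.2 (F.a1.norm le_rfl fun m hm => (T00_T0 m hm).2)) (mem_zpowers g1)) (nK gR1)
  have oE : o1 ∈ CC E0 := centralizer_le (le_sup_left : E0 ≤ E0 ⊔ im s T00) ho1
  refine ⟨g0, o1 * g1, s2, ⟨⟨F.mul, F.inj, F.ext, F.qa, F.syl, F.nT, ac_mul F.a1 (fun m hm => (T00_T0 m hm).2)
    (centralizer_le (le_sup_right : im s T00 ≤ E0 ⊔ im s T00) ho1),
    mul_mem (centralizer_le_normalizer _ (centralizer_le hE.le oE)) F.n1, F.a2, F.n2⟩, F.t23, F.t24, F.t34,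
    fun v hv => ?_, F.t2⟩, ⟨hE.syl, hE.le, hE.comm, hE.nT, mul_mem (centralizer_le_normalizer _ oE) hE.n1, hE.n2,
    hE.cR, hE.cQ, hE.alt⟩, ch2, ex2, fun v hv => ?_, main2 h ch2 ex2, a0, a0', eS2 ▸ le_sup_right.trans nS0,
    eS2 ▸ le_sup_left.trans nS0, eS2 ▸ n1, fun g k1 k2 => ?_⟩
  · have := oE _ (SX.Hx.conj_mem hE.n1 (hE.le (mem_im c hv)))
    rw [← F.t1 v hv]
    calc o1 * g1 * c v * (o1 * g1)⁻¹ = o1 * (g1 * c v * g1⁻¹) * o1⁻¹ := by group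
      _ = _ := by rw [← this, mul_inv_cancel_right]
  · have f {w : V} (hw : w ∈ Zev) : s2 (il w) = c w := by
      rw [ex2 _ (R_RA ⟨hw, one_mem _⟩), F.ext w (Zev_RM w hw)]
    rcases (ix4 v hv).2 with k | k
    · exact f k
    · rw [cz' hv, ← f k, ← ed2, ← ch2.mul _ (D_DA (R_D ⟨k, one_mem _⟩)) _ (D_DA d_D), d, ← map_mul, mul_assoc,
        SX.V.mul_self, mul_one]
  · rw [eS2] at k1 ⊢
    exact cen_S h sX.pgroup (sX.le.trans inf_le_left) (sX.le.trans inf_le_right)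
      (im_le.2 fun m hm => eS2 ▸ ex2 m (R_RA hm) ▸ mem_im s2 (R_D hm)) k1 k2

end CL.HA
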