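import Cfsg.Agent.INV.HA.Nu

/-!
Harada `E₁₆ · GL₄(2)`, case (c): helpers for the Sylow 2-subgroup of `C(R)`.
-/

set_option autoImplicit false
set_option maxHeartbeats 400000
set_option linter.unusedSectionVars false

namespace CL.HA
open Subgroup CL.MSS CL.PComp
open CL.SX (V vv e ZZ pc)

variable {G : Type*} [Group G] [Finite G] {s : P → G} {O : Subgroup G}

namespace D1

theorem coc_chk : ∀ v, v ∈ ZZ → ∀ t, t ∈ Lo → (b * ⟨v, t⟩) * (b * ⟨v, t⟩) = 1 → ∀ v', v' ∈ ZZ → ∀ t', t' ∈ Lo →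
    (c * ⟨v', t'⟩) * (c * ⟨v', t'⟩) = 1 → (b * ⟨v, t⟩) * (c * ⟨v', t'⟩) = (c * ⟨v', t'⟩) * (b * ⟨v, t⟩) →
    ∃ k, k ∈ ZZ ∧ (il k * b * il k).v = (b * ⟨v, t⟩).v ∧ (il k * c * il k).v = (c * ⟨v', t'⟩).v ∧
    ∃ l, l ∈ Lo ∧ (⟨k, l⟩ : P) * b * (⟨k, l⟩ : P)⁻¹ = b * ⟨v, t⟩ ∧
      (⟨k, l⟩ : P) * c * (⟨k, l⟩ : P)⁻¹ = c * ⟨v', t'⟩ := by
  decide +kernel

theorem coc : ∀ u ∈ D, (b * u) * (b * u) = 1 → ∀ w ∈ D, (c * w) * (c * w) = 1 →
    (b * u) * (c * w) = (c * w) * (b * u) → ∃ k ∈ D, k * b * k⁻¹ = b * u ∧ k * c * k⁻¹ = c * w :=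
  fun u hu h1 w hw h2 h3 => by
    obtain ⟨k, hk, -, -, l, hl, e⟩ := coc_chk u.v hu.1 u.t hu.2 h1 w.v hw.1 w.t hw.2 h2 h3
    exact ⟨⟨k, l⟩, ⟨hk, hl⟩, e⟩

theorem R_nm : ∀ m ∈ DA, ∀ n ∈ R, m * n * m⁻¹ ∈ R :=
  nm_of_gen gen_DA fun m hm => forall_sd.2 (by revert m; decide +kernel)
theorem R_nm0 : ∀ m ∈ T0, ∀ n ∈ R, m * n * m⁻¹ ∈ R :=
  nm_of_gen gen_T0 fun m hm => forall_sd.2 (by revert m; decide +kernel)
theorem RA_nm0 : ∀ m ∈ T0, ∀ n ∈ RA, m * n * m⁻¹ ∈ RA :=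
  nm_of_gen gen_T0 fun m hm => forall_sd.2 (by revert m; decide +kernel)
theorem RA_nm : ∀ m ∈ DA, ∀ n ∈ RA, m * n * m⁻¹ ∈ RA :=
  nm_of_gen gen_DA fun m hm => forall_sd.2 (by revert m; decide +kernel)
theorem cenR_chk : ∀ m ∈ DA, m * e13 = e13 * m → m * e14 = e14 * m → m ∈ D :=
  forall_sd.2 (by decide +kernel)
theorem cenRA_chk' : ∀ m ∈ DA, m * e13 = e13 * m → m * e14 = e14 * m → m * b = b * m → m * c = c * m →
    m ∈ R := forall_sd.2 (by decide +kernel)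
theorem omg_RA : ∀ m ∈ RA, m ∈ T02 ∧ omg m ∈ RA ∧ omg (omg (omg m)) = m := forall_sd.2 (by decide +kernel)
theorem omg_R : ∀ m ∈ R, omg m ∈ R ∧ rh m ∈ R ∧ m ∈ T00 ∧ m ∈ RA ∧ m ∈ D := forall_sd.2 (by decide +kernel)
theorem omg_D : ∀ m ∈ D, omg m ∈ D ∧ m * m = 1 ∧ m ∈ DA := forall_sd.2 (by decide +kernel)
theorem omg_DA : ∀ m ∈ DA, omg m ∈ DA := forall_sd.2 (by decide +kernel)
theorem omg_fix : ∀ m ∈ R, m * b = b * m → m * c = c * m → omg m = m → m = 1 := forall_sd.2 (by decide +kernel)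
theorem AR_chk : ∀ m ∈ A, m * e13 = e13 * m → m * e14 = e14 * m → m ∈ R := forall_sd.2 (by decide +kernel)
theorem RA_DA : RA ≤ DA := forall_sd.2 (by decide +kernel)
theorem DA_DB : DA ≤ DB := fun _ h => ⟨h.1, trivial⟩
theorem R_RA : R ≤ RA := fun m h => (omg_R m h).2.2.2.1
theorem R_D : R ≤ D := fun m h => (omg_R m h).2.2.2.2
theorem D_DA : D ≤ DA := fun m h => (omg_D m h).2.2
theorem R_T0 : R ≤ T0 := R_RA.trans RA_le_T0
theorem RA_T02 : RA ≤ T02 := fun m h => (omg_RA m h).1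
theorem T02_le : T02 ≤ T0 := fun m h => (T02_T0 m h).1
theorem D_inv {k : P} (h : k ∈ D) : k⁻¹ = k := inv_eq_of_mul_eq_one_right (omg_D k h).2.1
theorem D_comm {k l : P} (h : k ∈ D) (h' : l ∈ D) : k * l = l * k := by
  rw [← D_inv (mul_mem h h'), mul_inv_rev, D_inv h, D_inv h']
theorem mRA : ∀ m ∈ [z, e13, e14, a, e23, e24, b, c], m ∈ RA := by decide +kernel
theorem mR : ∀ m ∈ [z, e13, e14, a, e23, e24], m ∈ R := by decide +kernel
theorem b_RA : b ∈ RA := by decide +kernel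
theorem c_RA : c ∈ RA := by decide +kernel
theorem e13_R : e13 ∈ R := by decide +kernel
theorem e14_R : e14 ∈ R := by decide +kernel
theorem d_D : d ∈ D := by decide +kernel
theorem x_D : x ∈ D := by decide +kernel

/-- `R A ⟨d⟩` -/
@[reducible] def RAd : Subgroup P := sd ZZ X0U
theorem ix1 : ∀ m ∈ RAd, m ∈ DA ∧ x * m * x⁻¹ ∈ RAd ∧ (m ∉ RA → m * d ∈ RA) := forall_sd.2 (by decide +kernel)
theorem ix2 : ∀ m ∈ DA, m ∉ RAd → m * x ∈ RAd := forall_sd.2 (by decide +kernel)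
theorem RA_RAd : RA ≤ RAd := forall_sd.2 (by decide +kernel)
theorem gen_RAd : RAd ≤ closure {m | m ∈ [z, e13, e14, a, e23, e24, b, c, d]} :=
  gen_sd [vv 255, vv 0xCC, vv 0xF0, vv 3] [ts 15, ts 10, ts 12, ts 48, ts 64] (by decide +kernel)
theorem ix3 : ∀ m ∈ D, m ∈ R ∨ m * d ∈ R ∨ m * x ∈ R ∨ m * d * x ∈ R := forall_sd.2 (by decide +kernel)
theorem ix4 : ∀ v, v ∈ ZZ → v ∈ Ev ∧ (v ∈ Zev ∨ v * vv 3 ∈ Zev) := by decide +kernel
theorem Zev_RM : ∀ v, v ∈ Zev → v ∈ RM := by decide +kernel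

omit [Finite G] in
/-- extension over a subgroup of index 2 -/
theorem ext2 {K L : Subgroup P} {y : P} (hy : y * y = 1) (hy' : y ∉ K) (cj : ∀ t ∈ K, y * t * y⁻¹ ∈ K)
    (hK : ∀ t ∈ L, t ∉ K → t * y ∈ K) {f : P → G} (hf : ∀ m ∈ K, ∀ n ∈ K, f (m * n) = f m * f n) {ξ : G}
    (hξ : ξ * ξ = 1) (hc : ∀ t ∈ K, ξ * f t * ξ⁻¹ = f (y * t * y⁻¹)) :
    ∃ u : P → G, (∀ m ∈ L, ∀ n ∈ L, u (m * n) = u m * u n) ∧ (∀ t ∈ K, u t = f t) ∧ u y = ξ := by
  classical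
  have yi : y⁻¹ = y := inv_eq_of_mul_eq_one_right hy
  have sw : ∀ t ∈ K, ξ * f t = f (y * t * y⁻¹) * ξ := fun t ht => by rw [← hc t ht]; group
  refine ⟨fun t => if t ∈ K then f t else f (t * y) * ξ, fun m lm n ln => ?_, fun t ht => if_pos ht, ?_⟩
  · by_cases hm : m ∈ K <;> by_cases hn : n ∈ K
    · simp only [if_pos hm, if_pos hn, if_pos (mul_mem hm hn), hf m hm n hn]
    · have : m * n ∉ K := fun k => hn ((K.mul_mem_cancel_left hm).1 k)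
      simp only [if_pos hm, if_neg hn, if_neg this]
      rw [mul_assoc m, hf m hm _ (hK n ln hn), mul_assoc]
    · have : m * n ∉ K := fun k => hm ((K.mul_mem_cancel_right hn).1 k)
      simp only [if_neg hm, if_pos hn, if_neg this]
      rw [mul_assoc (f _), sw n hn, ← mul_assoc, ← hf _ (hK m lm hm) _ (cj n hn)]
      congr 2
      rw [yi, ← mul_assoc, ← mul_assoc, mul_assoc m y y, hy, mul_one]
    · have e : m * y * (y * (n * y) * y⁻¹) = m * n := by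
        rw [mul_assoc y, mul_assoc n, mul_inv_cancel, mul_one, ← mul_assoc, mul_assoc m, hy, mul_one]
      have : m * n ∈ K := e ▸ mul_mem (hK m lm hm) (cj _ (hK n ln hn))
      simp only [if_neg hm, if_neg hn, if_pos this]
      rw [mul_assoc (f _), ← mul_assoc ξ, sw _ (hK n ln hn), mul_assoc (f _), hξ, mul_one,
        ← hf _ (hK m lm hm) _ (cj _ (hK n ln hn)), e]
  · have : f 1 = 1 := (mhom hf).map_one
    simp only [if_neg hy', hy, this, one_mul]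

/-- Burnside -/
theorem burn {S K : Subgroup G} (h : SylIn 2 S K) (hc : ∀ g ∈ K, g ∈ NN S → g ∈ CC S) : K ≤ S ⊔ opOf 2 K := by
  have hP : normalizer (h.toSylow : Set K) ≤ centralizer (h.toSylow : Set K) := fun g hg y hy =>
    Subtype.ext (hc g g.2 (SX.Hx.norm_of fun u hu =>
      (mem_normalizer_iff.1 (show g ∈ normalizer ((S.subgroupOf K : Subgroup K) : Set K) from hg)
        ⟨u, h.le hu⟩).1 hu) y hy)
  have h2 : (MonoidHom.transferSylow h.toSylow hP).ker ≤ Cfsg.pPrimeCore 2 K :=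
    le_pPrimeCore (coprime_card_iff_not_dvd.2 (MonoidHom.not_dvd_card_ker_transferSylow _ hP))
  have h3 : (h.toSylow : Subgroup K) ⊔ Cfsg.pPrimeCore 2 K = ⊤ := eq_top_iff.2
    ((MonoidHom.ker_transferSylow_isComplement' _ hP).symm.sup_eq_top.ge.trans (sup_le_sup_left h2 _))
  have h4 := congrArg (Subgroup.map K.subtype) h3
  rw [Subgroup.map_sup, h.map_toSylow, ← opOf_def, ← MonoidHom.range_eq_map, range_subtype] at h4
  exact h4.ge

/-- adjust `g` by an element of `O` that centralises `T` so that it normalises `S` -/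
theorem lift {O X S T : Subgroup G} (hO : Od O) (hS : SylIn 2 S X) (hX : X ≤ S ⊔ O)
    (hp : IsPGroup 2 (S ⊔ T : Subgroup G)) (hn : S ⊔ T ≤ NN O) (oX : O ≤ X) {g : G} (gT : g ∈ NN T)
    (gX : g ∈ NN X) : ∃ o ∈ CC T, o * g ∈ NN S := by
  have e : g •ᶜ (S ⊔ T) = g •ᶜ S ⊔ T := by rw [cj_sup, cj_eq_of_mem_normalizer gT]
  obtain ⟨o, ho, k1, k2⟩ := lift_syl hO hp (isPGroup_cj g hp) hn (by
    rw [e]
    exact sup_le ((cj_le_of_mem_normalizer hS.le gX).trans (hX.trans (sup_le_sup_right le_sup_left _)))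
      (le_sup_right.trans le_sup_left))
  refine ⟨o, fun y hy => (k2 y (mem_sup_right hy) (e ▸ mem_sup_right hy)).symm, mem_normalizer_of_cj_le ?_⟩
  have q := hS.max (_ ⊓ X) (hp.to_le inf_le_left) (le_inf le_sup_left hS.le) inf_le_right
  exact le_of_le_of_eq (le_inf (by rw [cj_mul]; exact (cj_mono o (cj_mono g le_sup_left)).trans k1)
    (cj_le_of_mem_normalizer hS.le (mul_mem (le_normalizer (oX ho)) gX))) q

omit [Finite G] in
theorem ac_mul {g o : G} {Y : Subgroup P} {f : P → P} (h : Ac g s Y f) (hf : ∀ m ∈ Y, f m ∈ Y)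
    (ho : o ∈ CC (im s Y)) : Ac (o * g) s Y f := fun m hm => by
  calc o * g * s m * (o * g)⁻¹ = o * (g * s m * g⁻¹) * o⁻¹ := by group
    _ = _ := by rw [h m hm, mem_CC_im.1 ho _ (hf m hm), mul_inv_cancel_right]

/-- an element that normalises `s X` and centralises `s R` acts on `b, c` as an element of `D` -/
theorem exists_k {X : Subgroup P} (h : Ch X s) (h1 : RA ≤ X) (h2 : X ≤ DA) {g : G} (k1 : g ∈ NN (im s X))
    (k2 : g ∈ CC (im s R)) :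
    ∃ k ∈ D, k * b * k⁻¹ ∈ X ∧ k * c * k⁻¹ ∈ X ∧ g * s b * g⁻¹ = s (k * b * k⁻¹) ∧
      g * s c * g⁻¹ = s (k * c * k⁻¹) := by
  obtain ⟨α, m1, ac, mu, -, -⟩ := h.exists_aut k1
  have hR : R ≤ X := R_RA.trans h1
  have fx : ∀ m ∈ R, α m = m := fun m hm => h.eq_of (m1 m (hR hm)) (hR hm) (by
    rw [← ac m (hR hm), mem_CC_im.1 k2 m hm, mul_inv_cancel_right])
  have kk : ∀ m ∈ X, m⁻¹ * α m ∈ D := fun m hm => by
    have cm (v : P) (hv : v ∈ R) : m⁻¹ * α m * v = v * (m⁻¹ * α m) := by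
      have n := R_nm m (h2 hm) _ hv
      have e1 := mu _ (hR n) m hm
      rw [inv_mul_cancel_right, mu m hm _ (hR hv), fx _ n, fx _ hv] at e1
      rw [mul_assoc, e1]; group
    exact cenR_chk _ (h2 (mul_mem (inv_mem hm) (m1 m hm))) (cm _ e13_R) (cm _ e14_R)
  have a1 : α 1 = 1 := fx 1 (one_mem _)
  have qb : b ∈ X := h1 b_RA
  have qc : c ∈ X := h1 c_RA
  obtain ⟨k, hk, e1, e2⟩ := coc _ (kk b qb)
    (by rw [mul_inv_cancel_left, ← mu _ qb _ qb, show b * b = 1 by decide +kernel, a1]) _ (kk c qc)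
    (by rw [mul_inv_cancel_left, ← mu _ qc _ qc, show c * c = 1 by decide +kernel, a1])
    (by rw [mul_inv_cancel_left, mul_inv_cancel_left, ← mu _ qb _ qc, ← mu _ qc _ qb,
      show b * c = c * b by decide +kernel])
  rw [mul_inv_cancel_left] at e1 e2
  exact ⟨k, hk, e1 ▸ m1 b qb, e2 ▸ m1 c qc, e1 ▸ ac b qb, e2 ▸ ac c qc⟩

/-- `g` acts on `R A` as `k ∈ D` -/
def Mu (s : P → G) (g : G) (k : P) : Prop := k ∈ D ∧ Ac g s RA fun m => k * m * k⁻¹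

theorem mu_of (h : Ch T0 s) {g : G} {k : P} (hk : k ∈ D) (k2 : g ∈ CC (im s R))
    (e1 : g * s b * g⁻¹ = s (k * b * k⁻¹)) (e2 : g * s c * g⁻¹ = s (k * c * k⁻¹)) : Mu s g k := by
  refine ⟨hk, Ac.of_gen h RA_le_T0 (fun m hm => RA_le_T0 (RA_nm k (D_DA hk) m hm)) (fun p _ q _ => by group)
    mRA gen_RA ?_⟩
  have f (w : P) (hw : w ∈ R) : g * s w * g⁻¹ = s (k * w * k⁻¹) := by
    rw [D_comm hk (R_D hw), mul_inv_cancel_right, mem_CC_im.1 k2 _ hw, mul_inv_cancel_right]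
  simp only [List.forall_mem_cons]
  exact ⟨f _ (by decide +kernel), f _ e13_R, f _ e14_R, f _ (by decide +kernel), f _ (by decide +kernel),
    f _ (by decide +kernel), e1, e2, by simp⟩

theorem exists_mu (h : Ch T0 s) {g : G} (k1 : g ∈ NN (im s RA)) (k2 : g ∈ CC (im s R)) : ∃ k, Mu s g k := by
  obtain ⟨k, hk, -, -, e1, e2⟩ := exists_k (h.mono RA_le_T0) le_rfl RA_DA k1 k2
  exact ⟨k, mu_of h hk k2 e1 e2⟩

namespace Mu
variable {g g' : G} {k l : P}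

theorem mul (h : Mu s g k) (q : Mu s g' l) : Mu s (g * g') (k * l) :=
  ⟨mul_mem h.1 q.1, fun m hm => by
    have := h.2 _ (RA_nm l (D_DA q.1) m hm)
    beta_reduce at this ⊢
    rw [← q.2 m hm] at this
    rw [show k * l * m * (k * l)⁻¹ = k * (l * m * l⁻¹) * k⁻¹ by group, ← this]
    group⟩
theorem pow (h : Mu s g k) (n : ℕ) : Mu s (g ^ (2 * n + 1)) k := by
  induction n with
  | zero => simpa using h
  | succ n ih =>
    have := (ih.mul h).mul h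
    rwa [(omg_D k h.1).2.1, one_mul, ← pow_succ, ← pow_succ] at this
theorem cen (h : Mu s g 1) : g ∈ CC (im s RA) := mem_CC_im.2 fun m hm => by
  have := h.2 m hm
  simp only [one_mul, inv_one, mul_one] at this
  exact mul_inv_eq_iff_eq_mul.1 this
theorem of_R (hc : Ch T0 s) (hk : k ∈ R) : Mu s (s k) k :=
  ⟨R_D hk, fun _ hm => hc.conj (R_T0 hk) (RA_le_T0 hm)⟩
theorem inv (h : Mu s g k) : Mu s g⁻¹ k := ⟨h.1, fun m hm => by
  have := h.2 _ (RA_nm k (D_DA h.1) m hm)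
  beta_reduce at this ⊢
  rw [show k * (k * m * k⁻¹) * k⁻¹ = (k * k) * m * (k * k)⁻¹ by group, (omg_D k h.1).2.1, one_mul, inv_one,
    mul_one] at this
  rw [← this]; group⟩
theorem div (h : Mu s g k) (q : Mu s g' k) : g⁻¹ * g' ∈ CC (im s RA) :=
  cen ((omg_D k h.1).2.1 ▸ h.inv.mul q)
theorem norm (h : Mu s g k) : g ∈ NN (im s RA) := h.2.norm le_rfl (RA_nm k (D_DA h.1))
theorem om (h : Mu s g k) {γ : G} (ac : Ac γ s T02 omg) : Mu s (γ * g * γ⁻¹) (omg k) :=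
  ⟨(omg_D k h.1).1, fun m km => by
    have k2 := (omg_RA _ (omg_RA m km).2.1).2.1
    have iv : k ∈ DB := DA_DB (D_DA h.1)
    have q := DA_DB (RA_DA k2)
    have e1 := ac _ (RA_T02 (RA_nm k (D_DA h.1) _ k2))
    rw [← h.2 _ k2, D_inv h.1, omg_mul _ (mul_mem iv q) _ iv, omg_mul _ iv _ q, (omg_RA m km).2.2] at e1
    have e2 := ac _ (RA_T02 k2)
    rw [(omg_RA m km).2.2] at e2
    beta_reduce
    rw [D_inv (omg_D k h.1).1, ← e1, ← e2]; group⟩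

end Mu

/-- `O(C(R A))` -/
def OR (s : P → G) (O : Subgroup G) : Subgroup G := O ⊓ CC (im s RA)

theorem cenRA' (h : N0 s O) {g : G} (hg : g ∈ CC (im s RA)) : ∃ m ∈ R, ∃ o ∈ OR s O, g = s m * o := by
  obtain ⟨m, hm, c, o, ho, hc, e⟩ := h.cenX A_le_RA RA_le_T0 hg
  exact ⟨m, AR_chk m hm (c _ (R_RA e13_R)) (c _ (R_RA e14_R)), o, ⟨ho, hc⟩, e⟩

theorem sR2 (h : Ch T0 s) {m : P} (hm : m ∈ R) : s m * s m = 1 := by
  rw [← h.mul _ (R_T0 hm) _ (R_T0 hm), (omg_D m (R_D hm)).2.1, h.one]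

theorem nOR (h : N0 s O) : NN (im s RA) ≤ NN (OR s O) := fun g hg => SX.Hx.norm_of fun o ho => by
  obtain ⟨m, hm, o', ho', e⟩ := cenRA' h (SX.Hx.conj_mem (normalizer_le_normalizer_centralizer _ hg) ho.2)
  obtain ⟨j, hj⟩ := Nat.coprime_two_right.1 h.odd
  have c : Commute (s m) o' := ho'.2 _ (mem_im s (R_RA hm))
  have k := congrArg (· ^ Nat.card O) e
  simp only [conj_pow, c.mul_pow, orderOf_dvd_iff_pow_eq_one.1 (Subgroup.orderOf_dvd_natCard _ ho.1),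
    orderOf_dvd_iff_pow_eq_one.1 (Subgroup.orderOf_dvd_natCard _ ho'.1)] at k
  rw [hj, pow_succ, pow_mul, sq, sR2 h.ch hm] at k
  rw [e, show s m = 1 by simpa using k.symm, one_mul]
  exact ho'

/-- a 2-element that centralises `R A` -/
theorem cenRA2 (h : N0 s O) {Y : Subgroup G} (hY : IsPGroup 2 Y) {g : G} (hg : g ∈ Y)
    (hc : g ∈ CC (im s RA)) : ∃ m ∈ R, s m = g := by
  obtain ⟨m, hm, rfl⟩ := (h.ch.mem_im A_le_T0).1 (h.two_cen hY hg (centralizer_le (im_mono s A_le_RA) hc))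
  have c : ∀ n ∈ RA, m * n = n * m := fun n hn =>
    (h.ch.comm (A_le_T0 hm) (RA_le_T0 hn)).1 (mem_CC_im.1 hc n hn)
  exact ⟨m, AR_chk m hm (c _ (R_RA e13_R)) (c _ (R_RA e14_R)), rfl⟩

theorem cen_S (h : N0 s O) {S : Subgroup G} (hS : IsPGroup 2 S) (h1 : S ≤ CC (im s R)) (h2 : S ≤ NN (im s RA))
    (h3 : im s R ≤ S) {g : G} (hn : g ∈ NN S) (hc : g ∈ CC (im s RA)) : g ∈ CC S := by
  obtain ⟨m, hm, o, ho, rfl⟩ := cenRA' h hc
  have mS : s m ∈ S := h3 (mem_im s hm)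
  have on : o ∈ NN S := by simpa using mul_mem (inv_mem (le_normalizer mS)) hn
  refine mul_mem (fun y hy => (h1 hy _ (mem_im s hm)).symm)
    (odd_cen (W := S ⊓ CC (im s RA)) (hS.to_le inf_le_left) (coprime_orderOf_of_mem h.odd ho.1)
      (fun y hy => ?_) fun u hu => mem_inf.2 ⟨mul_mem (SX.Hx.conj_mem on hu) (inv_mem hu), ?_⟩)
  · obtain ⟨n, hn, rfl⟩ := cenRA2 h hS hy.1 hy.2
    exact ho.2 _ (mem_im s (R_RA hn))
  · have k := (mem_inf.1 ho).2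
    have := mul_mem k (SX.Hx.conj_mem (normalizer_le_normalizer_centralizer _ (h2 hu)) (inv_mem k))
    simpa only [mul_assoc] using this

end D1

end CL.HA
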