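import Cfsg.Agent.INV.HA.Co

/-!
Harada `E₁₆ · GL₄(2)`, case (c): the Sylow 2-subgroup of `C(A')`.
-/

set_option autoImplicit false
set_option maxHeartbeats 400000
set_option linter.unusedSectionVars false

namespace CL.HA
open Subgroup CL.MSS CL.PComp
open CL.SX (V vv e ZZ pc)

variable {G : Type*} [Group G] [Finite G] {s : P → G} {O : Subgroup G}

variable {c : V → G} {g1 g2 : G} {tw : Bool}

/-- FINITE FACT: `H¹`. The complements to `F` in `FQ` are conjugate under `E`. -/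
theorem cocF : ∀ u ∈ Ev, aS (ts 15) u = u → ∀ v ∈ Ev, aS (ts 48) v = v → il u * a * (il v * b) = il v * b * (il u * a) →
    ∀ w ∈ Ev, aS (ts 64) w = w → il u * a * (il w * HA.c) = il w * HA.c * (il u * a) →
    il v * b * (il w * HA.c) = il w * HA.c * (il v * b) →
    ∃ k, k * aS (ts 15) k = u ∧ k * aS (ts 48) k = v ∧ k * aS (ts 64) k = w := by
  decide +kernel

open K

namespace K

theorem com_Ev (t : TS) (k : V) : k * aS t k ∈ Ev := by
  show (!par (k * aS t k)) = true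
  rw [par_mul, par_aS]; simp
theorem odd_mul {k k' : V} (h : k ∉ Ev) (h' : k' ∉ Ev) : k * k' ∈ Ev := by
  have h : ¬ (!par k) = true := h
  have h' : ¬ (!par k') = true := h'
  show (!par (k * k')) = true
  rw [par_mul]; simp_all
theorem odd_com : ∀ k, k ∉ Ev → ∀ t, t ∈ A0 → k * aS t k ∈ Z1 → t = 1 := by decide +kernel
theorem A0_sq : ∀ t, t ∈ A0 → t * t = 1 := by decide +kernel
theorem w_fix : ∀ w, w ∈ RM0 → ∀ tw : Bool,
    Eq3 (fun v => tf r1V 1 (tf id w v)) (fun v => tf id w (tf r1V 1 v)) →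
    Eq3 (fun v => tf r2V (bc tw (vv 0xaa)) (tf id w v)) (fun v => tf id w (tf r2V (bc tw (vv 0xaa)) v)) →
    w = 1 := by decide +kernel
theorem com_RM : ∀ k, k ∈ Ev → k * aS (ts 15) k ∈ Z1 → k * aS (ts 48) k ∈ Z1 → k * aS (ts 64) k ∈ Z1 →
    k ∈ RM := by decide +kernel
theorem ZZ_le : ZZ ≤ Ev := show ∀ v, v ∈ ZZ → v ∈ Ev by decide +kernel
theorem Z1_ZZ : Z1 ≤ ZZ := show ∀ v, v ∈ Z1 → v ∈ ZZ by decide +kernel
theorem lo_chk : ∀ l ∈ [ts 10, ts 12], l ∈ U ∧ l * l = 1 ∧ aS l (e 0) = e 0 ∧ (∀ v, v * aS l v ∈ ZZ) ∧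
    ∀ k, k ∈ RM → aS l k = k → k ∈ ZZ := by decide +kernel
theorem a_ZZ : ∀ v, v * aS (ts 15) v ∈ ZZ := by decide +kernel
theorem Q_le_FQ : Q ≤ FQ := fun _ hm => ⟨RM_le hm.1, hm.2⟩
theorem R_le_T0 : R ≤ T0 := forall_sd.2 (by decide +kernel)

/-- the chart on `F Q` -/
def fq (s : P → G) (c : V → G) (m : P) : G := c m.v * s (ir m.t)

/-- `g` acts on `Q` as `il k` -/
def Mu (s : P → G) (c : V → G) (g : G) (k : V) : Prop :=
  ∀ m ∈ Q, g * s m * g⁻¹ = c (k * aS m.t k) * s m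

/-- the group `Y` -/
def YY (s : P → G) (c : V → G) : Subgroup G := CC (im s A') ⊓ NN (im c Ev) ⊓ NN (im c Ev ⊔ im s Q)

theorem t_one (h : Ch T0 s) {m : P} (hm : m ∈ Q) (k : s m ∈ CC (im s A')) : m ∈ A' := by
  have (v : V) (hv : v ∈ RM) : aS m.t v = v := il_inj (by
    rw [← conj_il, (h.comm (Q_le_T0 hm) (il_T0 hv)).1 (mem_CC_im.1 k _ (il_A' hv)), mul_inv_cancel_right])
  exact ⟨hm.1, cen_RM _ hm.2 (this _ (by decide +kernel)) (this _ (by decide +kernel))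
    (this _ (by decide +kernel))⟩

theorem im_le_gen {X Y : Subgroup P} (h : Ch X s) (hY : Y ≤ X) {L : List P} (hL : ∀ m ∈ L, m ∈ Y)
    (hg : Y ≤ closure {m | m ∈ L}) {K : Subgroup G} (k : ∀ m ∈ L, s m ∈ K) : ∀ m ∈ Y, s m ∈ K := by
  have key : ∀ n ∈ closure {m | m ∈ L}, n ∈ Y ∧ s n ∈ K := fun n hn => by
    induction hn using closure_induction with
    | mem p hp => exact ⟨hL p hp, k p hp⟩
    | one => exact ⟨one_mem _, h.one ▸ one_mem _⟩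
    | mul p q _ _ hp hq => exact ⟨mul_mem hp.1 hq.1, h.mul _ (hY hp.1) _ (hY hq.1) ▸ mul_mem hp.2 hq.2⟩
    | inv p _ hp => exact ⟨inv_mem hp.1, h.inv (hY hp.1) ▸ inv_mem hp.2⟩
  exact fun m hm => (key m (hg hm)).2

/-- the elements of `N(Z)` whose commutator with `u` lies in `Z` -/
def cmK (Z : Subgroup G) (u : G) : Subgroup G where
  carrier := {g | g ∈ NN Z ∧ u * g * u⁻¹ * g⁻¹ ∈ Z}
  one_mem' := ⟨one_mem _, by simp⟩
  mul_mem' := fun {p q} hp hq => ⟨mul_mem hp.1 hq.1, by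
    have := mul_mem hp.2 (SX.Hx.conj_mem hp.1 hq.2)
    rwa [show u * p * u⁻¹ * p⁻¹ * (p * (u * q * u⁻¹ * q⁻¹) * p⁻¹) = u * (p * q) * u⁻¹ * (p * q)⁻¹ by group] at this⟩
  inv_mem' := fun {p} hp => ⟨inv_mem hp.1, by
    have := SX.Hx.conj_mem (inv_mem hp.1) (inv_mem hp.2)
    rwa [show p⁻¹ * (u * p * u⁻¹ * p⁻¹)⁻¹ * p⁻¹⁻¹ = u * p⁻¹ * u⁻¹ * p⁻¹⁻¹ by group] at this⟩

theorem lift' {O' X S : Subgroup G} (hO : Od O') (hS : SylIn 2 S X) (hX : X ≤ S ⊔ O') {T : Subgroup P}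
    (p1 : IsPGroup 2 (S ⊔ im s T : Subgroup G)) (hn : S ⊔ im s T ≤ NN O') {g : G} {f : P → P}
    (ac : Ac g s T f) (hf : ∀ m ∈ T, f m ∈ T) (gX : g ∈ NN X) (oX : O' ≤ NN X) :
    ∃ o ∈ O', o * g ∈ NN S ∧ Ac (o * g) s T f := by
  have e : g •ᶜ (S ⊔ im s T) = g •ᶜ S ⊔ im s T := by
    rw [cj_sup, cj_eq_of_mem_normalizer (ac.norm le_rfl hf)]
  obtain ⟨o, ho, k1, k2⟩ := lift_syl hO p1 (isPGroup_cj g p1) hn (by
      rw [e]
      exact sup_le ((cj_le_of_mem_normalizer hS.le gX).trans (hX.trans (sup_le_sup_right le_sup_left _)))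
        (le_sup_right.trans le_sup_left))
  refine ⟨o, ho, mem_normalizer_of_cj_le ?_, fun m hm => ?_⟩
  · conv_rhs => rw [← hS.max (_ ⊓ X) (p1.to_le inf_le_left) (le_inf le_sup_left hS.le) inf_le_right]
    exact le_inf (by rw [cj_mul]; exact (cj_mono o (cj_mono g le_sup_left)).trans k1)
      (cj_le_of_mem_normalizer hS.le (mul_mem (oX ho) gX))
  · have m1 : s (f m) ∈ im s T := mem_im s (hf m hm)
    have := k2 _ (mem_sup_right m1) (e ▸ mem_sup_right m1)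
    calc o * g * s m * (o * g)⁻¹ = o * (g * s m * g⁻¹) * o⁻¹ := by group
      _ = _ := by rw [ac m hm, this, mul_inv_cancel_right]

theorem odd_OQ (h : N0 s O) {g : G} (hg : g ∈ CC (im s Q)) (e : g ^ Nat.card O = 1) : g ∈ OQ s O := by
  obtain ⟨y, hy, o, ho, rfl⟩ := h.cenQ' hg
  rcases hy with rfl | rfl
  · rwa [one_mul]
  · obtain ⟨j, hj⟩ := Nat.coprime_two_right.1 h.odd
    have c : Commute (s z) o := ho.2 _ (mem_im s (A'_le_Q z_A'))
    rw [c.mul_pow, orderOf_dvd_iff_pow_eq_one.1 (Subgroup.orderOf_dvd_natCard _ ho.1), hj, pow_succ, pow_mul, sq,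
      h.ch.sz.1] at e
    exact absurd (by simpa using e) h.ch.sz.2

end K

namespace Fs
variable (F : Fs s c g1 g2) (h : Ch T0 s)
include F h

theorem fq_Q {m : P} (hm : m ∈ Q) : fq s c m = s m := by
  rw [fq, F.ext _ hm.1, ← h.mul _ (il_T0 hm.1) _ (Q_le_T0 (ir_Q hm.2)), il_mul_ir]

theorem actQ {m : P} (hm : m ∈ Q) {v : V} (hv : v ∈ Ev) : s m * c v * (s m)⁻¹ = c (aS m.t v) := by
  rw [← F.fq_Q h hm, fq]
  calc _ = c m.v * (s (ir m.t) * c v * (s (ir m.t))⁻¹) * (c m.v)⁻¹ := by group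
    _ = _ := by rw [F.qa _ hm.2 v hv, F.comm (RM_le hm.1) (aS_Ev _ hv), mul_inv_cancel_right]

theorem A'_le : im s A' ≤ im c Ev := im_le.2 fun m hm => by
  rw [eq_il hm.2, ← F.ext _ hm.1]; exact mem_im c (RM_le hm.1)

theorem chq : Ch FQ (fq s c) := by
  refine ⟨fun m hm n hn => ?_, fun m hm e => ?_⟩
  · simp only [fq, P.mul_v, P.mul_t, map_mul]
    rw [F.mul _ hm.1 _ (aS_Ev _ hn.1), ← F.qa _ hm.2 _ hn.1,
      h.mul _ (Q_le_T0 (ir_Q hm.2)) _ (Q_le_T0 (ir_Q hn.2))]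
    group
  · have t1 : m.t = 1 := (t_one h (ir_Q hm.2) (by
      rw [eq_inv_of_mul_eq_one_right e]; exact inv_mem (F.cA' (mem_im c hm.1)))).2
    rw [fq, t1, map_one, h.one, mul_one] at e
    exact P.ext (F.inj _ hm.1 e) t1

theorem inf_C {S : Subgroup G} (h1 : im c Ev ≤ S) (h2 : S ≤ CC (im s A')) (h3 : im s Q ≤ NN S) {g : G}
    (hg : g ∈ S ⊔ im s Q) (hc : g ∈ CC (im s A')) : g ∈ S := by
  obtain ⟨u, hu, y, hy, rfl⟩ := (mem_sup_of_normalizes_left h3).1 hg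
  obtain ⟨m, hm, rfl⟩ := (h.mem_im Q_le_T0).1 hy
  exact mul_mem hu (h1 (F.A'_le h (mem_im s (t_one h hm ((mul_mem_cancel_left (h2 hu)).1 hc)))))

theorem mu_c {v : V} (hv : v ∈ Ev) : Mu s c (c v) v := fun m hm => by
  rw [F.mul v hv _ (aS_Ev _ hv), ← F.actQ h hm hv, F.inv hv]; group

theorem exists_mu {g : G} (hc : g ∈ CC (im s A'))
    (k : ∀ t ∈ A0, g * s (ir t) * g⁻¹ * (s (ir t))⁻¹ ∈ im c Ev) : ∃ k, Mu s c g k := by
  have q := F.chq h
  have k' (t : TS) (ht : t ∈ A0) : ∃ u ∈ Ev, il u * ir t ∈ FQ ∧ g * s (ir t) * g⁻¹ = fq s c (il u * ir t) ∧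
      aS t u = u := by
    obtain ⟨u, hu, e⟩ := F.mem.1 (k t ht)
    have m : il u * ir t ∈ FQ := il_mul_ir u t ▸ ⟨hu, ht⟩
    have e' : g * s (ir t) * g⁻¹ = fq s c (il u * ir t) := by rw [il_mul_ir, fq, e, inv_mul_cancel_right]
    have := congrArg P.v (q.inj _ (mul_mem m m) (by
      rw [q.mul _ m _ m, ← e', conj_mul, ← h.mul _ (Q_le_T0 (ir_Q ht)) _ (Q_le_T0 (ir_Q ht)), ← map_mul,
        A0_sq t ht, map_one, h.one, mul_one, mul_inv_cancel]))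
    rw [il_mul_ir] at this
    exact ⟨u, hu, m, e', eq_inv_of_mul_eq_one_right this⟩
  have cm {t t' : TS} (ht : t ∈ A0) (ht' : t' ∈ A0) (e : t * t' = t' * t) {m m' : P} (hm : m ∈ FQ) (hm' : m' ∈ FQ)
      (e1 : g * s (ir t) * g⁻¹ = fq s c m) (e2 : g * s (ir t') * g⁻¹ = fq s c m') : m * m' = m' * m :=
    (q.comm hm hm').1 (by
      rw [← e1, ← e2, conj_mul, conj_mul, (h.comm (Q_le_T0 (ir_Q ht)) (Q_le_T0 (ir_Q ht'))).2
        (by rw [← map_mul, e, map_mul])])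
  have ta : ts 15 ∈ A0 := by decide +kernel
  have tb : ts 48 ∈ A0 := by decide +kernel
  have tc : ts 64 ∈ A0 := by decide +kernel
  obtain ⟨u, hu, m1, e1, f1⟩ := k' _ ta
  obtain ⟨v, hv, m2, e2, f2⟩ := k' _ tb
  obtain ⟨w, hw, m3, e3, f3⟩ := k' _ tc
  obtain ⟨k, k1, k2, k3⟩ := cocF u hu f1 v hv f2 (cm ta tb (by decide +kernel) m1 m2 e1 e2) w hw f3
    (cm ta tc (by decide +kernel) m1 m3 e1 e3) (cm tb tc (by decide +kernel) m2 m3 e2 e3)
  have mq {m : P} (hm : m ∈ Q) : il (k * aS m.t k) ∈ FQ := ⟨com_Ev _ _, one_mem _⟩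
  have ac : Ac g (fq s c) Q fun m => il k * m * (il k)⁻¹ := by
    refine Ac.of_gen q Q_le_FQ (fun m hm => by rw [il_conj]; exact mul_mem (mq hm) (Q_le_FQ hm))
      (fun p _ q _ => by group) (by decide +kernel) gen_Q ?_
    have f (w : V) (hw : w ∈ RM) : g * fq s c (il w) * g⁻¹ = fq s c (il k * il w * (il k)⁻¹) := by
      rw [conj_il, il_t, one_aS, F.fq_Q h (A'_le_Q (il_A' hw)), mem_CC_im.1 hc _ (il_A' hw), mul_inv_cancel_right]
    have f' {t : TS} (ht : t ∈ A0) {u : V} (e : g * s (ir t) * g⁻¹ = fq s c (il u * ir t)) (e' : k * aS t k = u) :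
        g * fq s c (ir t) * g⁻¹ = fq s c (il k * ir t * (il k)⁻¹) := by
      rw [F.fq_Q h (ir_Q ht), e, il_conj, ir_t, e']
    simp only [List.forall_mem_cons]
    exact ⟨f _ (by decide +kernel), f _ (by decide +kernel), f _ (by decide +kernel), f _ (by decide +kernel),
      f' ta e1 k1, f' tb e2 k2, f' tc e3 k3, by simp⟩
  refine ⟨k, fun m hm => ?_⟩
  have := ac m hm
  beta_reduce at this
  rw [il_conj, q.mul _ (mq hm) _ (Q_le_FQ hm), F.fq_Q h hm] at this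
  rw [this, fq, il_v, il_t, map_one, h.one, mul_one]

theorem mu_Y {g : G} (hg : g ∈ YY s c) : ∃ k, Mu s c g k := F.exists_mu h hg.1.1 fun t ht => by
  have m := mem_im s (Q_le_T0 (ir_Q ht))
  have m' : s (ir t) ∈ im c Ev ⊔ im s Q := mem_sup_right (mem_im s (ir_Q ht))
  refine F.inf_C h le_rfl F.cA' ((im_mono s Q_le_T0).trans F.nT) (mul_mem (SX.Hx.conj_mem hg.2 m') (inv_mem m')) ?_
  have gc : g ∈ CC (im s A') := hg.1.1
  have := mul_mem gc (SX.Hx.conj_mem (normalizer_le_normalizer_centralizer _ (h.nA' m)) (inv_mem gc))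
  simpa only [mul_assoc] using this

end Fs

namespace K
namespace Mu
variable {g g' : G} {k k' : V}

theorem mul (F : Fs s c g1 g2) (hc : g ∈ CC (im c Ev)) (h : Mu s c g k) (h' : Mu s c g' k') :
    Mu s c (g * g') (k * k') := fun m hm => by
  calc g * g' * s m * (g * g')⁻¹ = g * (g' * s m * g'⁻¹) * g⁻¹ := by group
    _ = g * c (k' * aS m.t k') * s m * g⁻¹ := by rw [h' m hm, ← mul_assoc]
    _ = c (k' * aS m.t k') * (g * s m * g⁻¹) := by rw [mem_CC_im.1 hc _ (com_Ev _ _)]; group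
    _ = _ := by
      rw [h m hm, ← mul_assoc, ← F.mul _ (com_Ev _ _) _ (com_Ev _ _), aS_mul, mul_mul_mul_comm, mul_comm k',
        mul_comm (aS _ k')]
theorem inv (F : Fs s c g1 g2) (hc : g ∈ CC (im c Ev)) (h : Mu s c g k) : Mu s c g⁻¹ k := fun m hm => by
  have e := h m hm
  have e' := mem_CC_im.1 (inv_mem hc) _ (com_Ev m.t k)
  calc g⁻¹ * s m * g⁻¹⁻¹ = g⁻¹ * c (k * aS m.t k) * (c (k * aS m.t k) * s m) * g := by
        rw [mul_assoc g⁻¹ (c _), ← mul_assoc (c _), F.sq (com_Ev _ _), one_mul, inv_inv]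
    _ = c (k * aS m.t k) * g⁻¹ * (g * s m * g⁻¹) * g := by rw [e', e]
    _ = _ := by group
theorem pow (F : Fs s c g1 g2) (hc : g ∈ CC (im c Ev)) (h : Mu s c g k) (n : ℕ) :
    Mu s c (g ^ (2 * n + 1)) k := by
  induction n with
  | zero => simpa using h
  | succ n ih =>
    have := h.mul F hc (h.mul F hc ih)
    rwa [← mul_assoc k, SX.V.mul_self, one_mul, ← pow_succ', ← pow_succ'] at this
theorem cen (h : Mu s c g k) (h' : Mu s c g' k) : g'⁻¹ * g ∈ CC (im s Q) := mem_CC_im.2 fun m hm => by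
  calc g'⁻¹ * g * s m = g'⁻¹ * (g * s m * g⁻¹) * g := by group
    _ = _ := by rw [h m hm, ← h' m hm]; group
theorem adj (F : Fs s c g1 g2) (hs : Ch T0 s) (h : Mu s c g k) (e : k * k' ∈ Ev) :
    Mu s c (c (k * k') * g) k' := by
  have := (F.mu_c hs e).mul F (F.ab (mem_im c e)) h
  rwa [mul_right_comm, SX.V.mul_self, one_mul] at this

end Mu

theorem nY {γ : G} (h1 : γ ∈ NN (im s A')) (h2 : γ ∈ NN (im c Ev)) (h3 : γ ∈ NN (im s Q)) : γ ∈ NN (YY s c) :=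
  inf_normalizer_le_normalizer_inf ⟨inf_normalizer_le_normalizer_inf
    ⟨normalizer_le_normalizer_centralizer _ h1, le_normalizer h2⟩,
    le_normalizer (normalizer_inf_normalizer_le_normalizer_sup _ _ ⟨h2, h3⟩)⟩
theorem nY1 (F : Fs s c g1 g2) : g1 ∈ NN (YY s c) :=
  nY (F.a1.norm (A'_le_Q.trans Q_le_T00) fun m hm => (rh_A' m hm).1) F.n1
    (F.a1.norm Q_le_T00 fun m hm => (rh_Q m hm).1)
theorem nY2 (F : Fs s c g1 g2) : g2 ∈ NN (YY s c) :=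
  nY (F.a2.norm (A'_le_Q.trans Q_le_T01) fun m hm => (rh_A' m hm).2) F.n2
    (F.a2.norm Q_le_T01 fun m hm => (rh_Q m hm).2)

/-- `Y` centralises `F0` -/
theorem cen_Y (h : N0 s O) (F : Fc s c g1 g2 tw) {g : G} (hg : g ∈ YY s c) : g ∈ CC (im c Ev) := by
  have F' := F.toFs
  have ev {g : G} (hg : g ∈ YY s c) {k : V} (hk : Mu s c g k) (e : k ∈ Ev) : g ∈ CC (im c Ev) :=
    (mul_mem_cancel_left (inv_mem (F'.ab (mem_im c e)))).1
      (F'.cQ h (mul_mem (inv_mem (le_normalizer (mem_im c e))) hg.1.2) (hk.cen (F'.mu_c h.ch e)))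
  by_contra hn
  obtain ⟨k, hk⟩ := F'.mu_Y h.ch hg
  obtain ⟨w, hw, t⟩ := F'.exists_tw' hg.1.2 (σ := id) (fun _ _ => rfl) (τ := id) (fun _ hv => hv)
    (fun _ ht => ⟨ht, fun _ => rfl⟩) (fun t ht => ⟨t, ht, rfl⟩)
    (fun v hv => by rw [mem_CC_im.1 hg.1.1 _ (il_A' hv), mul_inv_cancel_right, id, F'.ext v hv])
    fun t ht v hv => by
      rw [hk _ (ir_Q ht), ir_t]
      calc _ = c (k * aS t k) * (s (ir t) * c v * (s (ir t))⁻¹) * (c (k * aS t k))⁻¹ := by group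
        _ = _ := by rw [F'.qa t ht v hv, F'.comm (com_Ev _ _) (aS_Ev _ hv), mul_inv_cancel_right, id]
  have A := av_of t fun _ hv => hv
  have key {γ : G} (n1 : γ ∈ NN (YY s c)) (n2 : γ ∈ NN (im c Ev)) {f : V → V} (B : Av c γ f) :
      Eq3 (fun v => f (tf id w v)) (fun v => tf id w (f v)) := by
    have hg' := SX.Hx.conj_mem n1 hg
    obtain ⟨k', hk'⟩ := F'.mu_Y h.ch hg'
    have e := odd_mul (k := k') (k' := k) (fun e => hn (by
      simpa [mul_assoc] using SX.Hx.conj_mem (inv_mem (normalizer_le_normalizer_centralizer _ n2))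
        (ev hg' hk' e))) fun e => hn (ev hg hk e)
    have m := mem_im c e
    have z := F'.cQ h (mul_mem (inv_mem hg.1.2) (mul_mem (le_normalizer m) hg'.1.2)) ((hk'.adj F' h.ch e).cen hk)
    exact (B.mul A).eq F' ((Av.cen (inv_mem (F'.ab m))).mul (A.mul ((Av.cen z).mul B))) (by group)
  have := w_fix w hw tw (key (nY1 F') F.n1 (av_of F.t1 fun v hv => (r_Ev v hv).1))
    (key (nY2 F') F.n2 (av_of F.t2 fun v hv => (r_Ev v hv).2))
  subst this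
  exact hn (mem_CC_im.2 fun v hv => by
    have := t v hv
    rw [dot_one, bc, cond_false, mul_one, id] at this
    exact mul_inv_eq_iff_eq_mul.1 this)

theorem F_le_Y (F : Fs s c g1 g2) : im c Ev ≤ YY s c :=
  le_inf (le_inf F.cA' le_normalizer) (le_sup_left.trans le_normalizer)
theorem T_nY (h : N0 s O) (F : Fs s c g1 g2) : im s T0 ≤ NN (YY s c) :=
  fun _ hg => nY (h.ch.nA' hg) (F.nT hg) (h.ch.nQ hg)
theorem z_F (F : Fs s c g1 g2) {y : G} (hy : y = 1 ∨ y = s z) : y ∈ im c Ev := by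
  rcases hy with rfl | rfl
  exacts [one_mem _, F.cz ▸ mem_im c (by decide +kernel)]

section
variable (h : N0 s O) (F : Fc s c g1 g2 tw) {E1 : Subgroup G} (sy : SylIn 2 E1 (YY s c))
include h F sy

theorem e_le : im c Ev ≤ E1 :=
  sy.le_of_normalized F.syl.pgroup (F_le_Y F.toFs) (sy.le.trans (inf_le_left.trans inf_le_right))
theorem e_cen {u : G} (hu : u ∈ E1) : u ∈ CC (im c Ev) := cen_Y h F (sy.le hu)
theorem e_two {S : Subgroup G} (hS : IsPGroup 2 S) (le : E1 ≤ S) {u r : G} (hu : u ∈ S) (hr : r ∈ E1) {k k' : V}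
    (h1 : Mu s c u k) (h2 : Mu s c r k') (e : k * k' ∈ Ev) : ∃ f ∈ im c Ev, u = r * f := by
  have m := mem_im c e
  have z := z_F F.toFs (h.cenQ2 hS (mul_mem (inv_mem (le hr)) (mul_mem (le (e_le h F sy m)) hu))
    ((h1.adj F.toFs h.ch e).cen h2))
  refine ⟨_, mul_mem (inv_mem m) z, ?_⟩
  rw [← mul_assoc, ← e_cen h F sy hr _ (inv_mem m)]; group
theorem e_ev {S : Subgroup G} (hS : IsPGroup 2 S) (le : E1 ≤ S) {u : G} (hu : u ∈ S) {k : V}
    (h1 : Mu s c u k) (e : k ∈ Ev) : u ∈ im c Ev := by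
  obtain ⟨f, hf, rfl⟩ := e_two h F sy hS le hu (e_le h F sy (mem_im c e)) h1 (F.mu_c h.ch e) (mul_mem e e)
  exact mul_mem (mem_im c e) hf
theorem e_idx {u r : G} (hu : u ∈ E1) (hr : r ∈ E1) (h1 : u ∉ im c Ev) (h2 : r ∉ im c Ev) :
    ∃ f ∈ im c Ev, u = r * f := by
  obtain ⟨k, hk⟩ := F.mu_Y h.ch (sy.le hu)
  obtain ⟨k', hk'⟩ := F.mu_Y h.ch (sy.le hr)
  exact e_two h F sy sy.pgroup le_rfl hu hr hk hk' (odd_mul (fun e => h1 (e_ev h F sy sy.pgroup le_rfl hu hk e))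
    fun e => h2 (e_ev h F sy sy.pgroup le_rfl hr hk' e))
theorem e_comm : ∀ u ∈ E1, ∀ w ∈ E1, u * w = w * u := fun u hu w hw => by
  by_cases h1 : u ∈ im c Ev
  · exact e_cen h F sy hw _ h1
  by_cases h2 : w ∈ im c Ev
  · exact (e_cen h F sy hu _ h2).symm
  obtain ⟨f, hf, rfl⟩ := e_idx h F sy hu hw h1 h2
  rw [mul_assoc, e_cen h F sy hw _ hf]
theorem e_sq {u : G} (hu : u ∈ E1) : u * u = 1 ∨ u * u = s z := by
  obtain ⟨k, hk⟩ := F.mu_Y h.ch (sy.le hu)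
  have := hk.mul F.toFs (e_cen h F sy hu) hk
  rw [SX.V.mul_self] at this
  have := this.cen (F.mu_c h.ch (one_mem _))
  rw [F.one, inv_one, one_mul] at this
  exact h.cenQ2 sy.pgroup (mul_mem hu hu) this
theorem e_r (hn : ¬ E1 ≤ im c Ev) : ∃ r ∈ E1, r ∉ im c Ev ∧ Mu s c r (e 0) := by
  obtain ⟨r, hr, hr'⟩ := SetLike.not_le_iff_exists.1 hn
  obtain ⟨k, hk⟩ := F.mu_Y h.ch (sy.le hr)
  have e := odd_mul (k := k) (k' := e 0) (fun e => hr' (e_ev h F sy sy.pgroup le_rfl hr hk e)) (by decide +kernel)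
  exact ⟨_, mul_mem (e_le h F sy (mem_im c e)) hr, fun q => hr' ((mul_mem_cancel_left (mem_im c e)).1 q),
    hk.adj F.toFs h.ch e⟩
theorem e_alt : E1 = im c Ev ∨ ∃ r, Rr s c E1 r := by
  by_cases hn : E1 ≤ im c Ev
  · exact Or.inl (le_antisymm hn (e_le h F sy))
  obtain ⟨r, hr, hr', hk⟩ := e_r h F sy hn
  refine Or.inr ⟨r, hr, hr', fun u hu => or_iff_not_imp_left.2 fun hu' => ?_, e_sq h F sy hr, fun t ht => ?_⟩
  · obtain ⟨f, hf, rfl⟩ := e_idx h F sy hu hr hu' hr'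
    rw [mul_assoc, e_cen h F sy hr _ hf, ← mul_assoc]
    exact mul_mem (z_F F.toFs (e_sq h F sy hr)) hf
  · have e1 := hk _ (ir_Q ht)
    have m := com_Ev t (e 0)
    rw [ir_t, aS_e] at e1
    rw [aS_e] at m
    rw [← e_cen h F sy hr _ (mem_im c m), ← F.inv m, eq_inv_mul_iff_mul_eq, ← mul_assoc, ← mul_assoc, ← e1]
    group
theorem e_sup : YY s c ≤ E1 ⊔ (OQ s O ⊓ CC (im c Ev)) := fun g hg => by
  obtain ⟨k, hk⟩ := F.mu_Y h.ch hg
  obtain ⟨i, n, ⟨j, rfl⟩, e⟩ := Nat.exists_eq_two_pow_mul_odd (orderOf_pos g).ne'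
  obtain ⟨y, hy, le⟩ := sy.exists_conj_le (isPGroup_zpowers (x := g ^ (2 * j + 1)) (k := i)
    (by rw [← pow_mul, mul_comm, ← e, pow_orderOf_eq_one])) (zpowers_le.2 (pow_mem hg _))
  obtain ⟨w, hw⟩ := F.mu_Y h.ch hy
  have hu := le (conj_mem_cj (mem_zpowers _))
  have cy := cen_Y h F hy
  have cg := cen_Y h F hg
  have k' := (hw.mul F.toFs cy (hk.pow F.toFs cg j)).mul F.toFs (mul_mem cy (pow_mem cg _)) (hw.inv F.toFs cy)
  rw [mul_right_comm, SX.V.mul_self, one_mul] at k'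
  generalize y * g ^ (2 * j + 1) * y⁻¹ = u at hu k'
  obtain ⟨y', hy', o, ho, e'⟩ := h.cenQ' (hk.cen k')
  have zf := z_F F.toFs hy'
  rw [inv_mul_eq_iff_eq_mul.1 e']
  refine mul_mem (mem_sup_left hu) (mul_mem (mem_sup_left (e_le h F sy zf)) (mem_sup_right ⟨ho, ?_⟩))
  exact (mul_mem_cancel_left (F.ab zf)).1 (e' ▸ mul_mem (inv_mem (e_cen h F sy hu)) cg)
theorem e_cQ {g : G} (hn : g ∈ NN E1) (hc : g ∈ CC (im s Q)) : g ∈ CC E1 := by
  obtain ⟨y, hy, o, ho, rfl⟩ := h.cenQ' hc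
  have y1 := e_le h F sy (z_F F.toFs hy)
  have no : o ∈ NN E1 := (mul_mem_cancel_left (le_normalizer y1)).1 hn
  have e : E1 ⊓ NN (im s Q) = im c Ev := F.syl.max _ (sy.pgroup.to_le inf_le_left) (le_inf (e_le h F sy) F.nQ)
    (le_inf inf_le_right (inf_le_left.trans (sy.le.trans (inf_le_left.trans inf_le_left))))
  have nF : o ∈ NN (im c Ev) :=
    e ▸ inf_normalizer_le_normalizer_inf ⟨no, le_normalizer (centralizer_le_normalizer _ ho.2)⟩
  refine mul_mem (fun u hu => e_comm h F sy u hu y y1) (odd_cen F.syl.pgroup (coprime_orderOf_of_mem h.odQ ho)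
    (F.cQ h nF ho.2) fun u hu => ?_)
  by_cases h1 : u ∈ im c Ev
  · exact mul_mem (SX.Hx.conj_mem nF h1) (inv_mem h1)
  obtain ⟨f, hf, e'⟩ := e_idx h F sy (SX.Hx.conj_mem no hu) hu
    (fun q => h1 (by simpa [mul_assoc] using SX.Hx.conj_mem (inv_mem nF) q)) h1
  rwa [e', ← e_cen h F sy hu _ hf, mul_inv_cancel_right]

variable (nT : im s T0 ≤ NN E1)
include nT

theorem e_syl : SylIn 2 E1 (CC (im s A')) := by
  have eC : E1 ≤ CC (im s A') := sy.le.trans (inf_le_left.trans inf_le_left)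
  have nQ : im s Q ≤ NN E1 := (im_mono s Q_le_T0).trans nT
  have nC : im s Q ≤ NN (CC (im s A')) := le_normalizer_centralizer ((im_mono s Q_le_T0).trans h.ch.nA')
  have pW : IsPGroup 2 (E1 ⊔ im s Q : Subgroup G) := isPGroup_sup_of_normalizes' sy.pgroup (h.ch.pg Q_le_T0) nQ
  obtain ⟨E, sE, nE, lE, pE⟩ := inv_syl (X := CC (im s A')) pW (sup_le (eC.trans le_normalizer) nC)
  have le : E1 ≤ E := (le_inf le_sup_left eC).trans lE
  have inf {g : G} (hg : g ∈ E1 ⊔ im s Q) (hc : g ∈ CC (im s A')) : g ∈ E1 :=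
    F.inf_C h.ch (e_le h F sy) eC nQ hg hc
  suffices E ≤ E1 by rwa [le_antisymm le this]
  by_contra hn
  obtain ⟨y0, ⟨q1, q2⟩, q3⟩ := SetLike.exists_of_lt (lt_inf_normalizer_of_lt pE (lt_of_le_not_ge le_sup_right
    fun q => hn fun g hg => inf (q (mem_sup_left hg)) (sE.le hg)))
  obtain ⟨y, hy, w, hw, rfl⟩ := (mem_sup_of_normalizes_left nE).1 q1
  have yW : y ∈ NN (E1 ⊔ im s Q) := (mul_mem_cancel_right (le_normalizer hw)).1 q2
  have yC := sE.le hy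
  refine q3 (mul_mem (mem_sup_left ?_) hw)
  by_cases hF : E1 ≤ im c Ev
  · have e := le_antisymm hF (e_le h F sy)
    have nE1 : y ∈ NN E1 := SX.Hx.norm_of fun u hu =>
      inf (SX.Hx.conj_mem yW (mem_sup_left hu)) (mul_mem (mul_mem yC (eC hu)) (inv_mem yC))
    exact sy.le_of_normalizes (sE.pgroup.to_le (zpowers_le.2 hy)) (zpowers_le.2 ⟨⟨yC, e ▸ nE1⟩, e ▸ yW⟩)
      (zpowers_le.2 nE1) (mem_zpowers y)
  obtain ⟨r, hr, hr', kr⟩ := e_r h F sy hF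
  obtain ⟨k, hk⟩ := F.exists_mu h.ch yC fun t ht => by
    have m : s (ir t) ∈ im s Q := mem_im s (ir_Q ht)
    have uE : y * s (ir t) * y⁻¹ * (s (ir t))⁻¹ ∈ E1 :=
      inf (mul_mem (SX.Hx.conj_mem yW (mem_sup_right m)) (inv_mem (mem_sup_right m))) (by
        simpa only [mul_assoc] using mul_mem yC (SX.Hx.conj_mem (nC m) (inv_mem yC)))
    have a2 : s (ir t) * s (ir t) = 1 := by
      rw [← h.ch.mul _ (Q_le_T0 (ir_Q ht)) _ (Q_le_T0 (ir_Q ht)), ← map_mul, A0_sq t ht, map_one, h.ch.one]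
    have u2 : y * s (ir t) * y⁻¹ * (s (ir t))⁻¹ * s (ir t) * (y * s (ir t) * y⁻¹ * (s (ir t))⁻¹ * s (ir t)) = 1 := by
      rw [inv_mul_cancel_right, conj_mul, a2, mul_one, mul_inv_cancel]
    obtain rfl | t1 := eq_or_ne t 1
    · rw [map_one, h.ch.one]; simp
    generalize y * s (ir t) * y⁻¹ * (s (ir t))⁻¹ = u at uE u2
    obtain ⟨k, hk⟩ := F.mu_Y h.ch (sy.le uE)
    refine e_ev h F sy sy.pgroup le_rfl uE hk (by_contra fun q => t1 (odd_com k q t ht ?_))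
    have e1 := hk _ (ir_Q ht)
    have e2 : s (ir t) * (u * u) * (s (ir t))⁻¹ = u * u := by
      rcases e_sq h F sy uE with e | e <;> rw [e]
      · simp
      · rw [← F.cz, F.qa t ht _ (by decide +kernel), aS_255]
    have e3 : c (k * aS t k) * (u * u) = 1 := by
      rw [ir_t] at e1
      calc _ = c (k * aS t k) * (s (ir t) * (u * u) * (s (ir t))⁻¹) * (s (ir t) * s (ir t)) := by
            rw [e2, a2, mul_one]
        _ = c (k * aS t k) * s (ir t) * (u * u) * s (ir t) := by group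
        _ = _ := by rw [← e1, ← u2]; group
    rcases e_sq h F sy uE with e | e <;> rw [e] at e3
    · rw [F.inj _ (com_Ev _ _) (by simpa using e3)]; exact one_mem _
    · rw [← F.cz, ← F.mul _ (com_Ev _ _) _ (by decide +kernel)] at e3
      rw [eq_inv_of_mul_eq_one_left (F.inj _ (mul_mem (com_Ev _ _) (by decide +kernel)) e3)]
      decide +kernel
  by_cases hk' : k ∈ Ev
  · exact e_le h F sy (e_ev h F sy sE.pgroup le hy hk hk')
  obtain ⟨f, hf, rfl⟩ := e_two h F sy sE.pgroup le hy hr hk kr (odd_mul hk' (by decide +kernel))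
  exact mul_mem hr (e_le h F sy hf)

theorem e_lo {l : TS} (hl : l ∈ [ts 10, ts 12]) {w : V} (hw : w ∈ RM) (t : Tw (s (ir l)) c (aS l) w) {u : G}
    (hu : u ∈ E1) : s (ir l) ∈ cmK (im c ZZ) u := by
  obtain ⟨lU, l2, l0, lz, lk⟩ := lo_chk l hl
  have lT : ir l ∈ T0 := ⟨one_mem _, lU⟩
  have bz (p : Bool) := Z1_ZZ (bc_Z1 p)
  have zF : im c ZZ ≤ im c Ev := im_mono c ZZ_le
  have mZ {g : G} : g ∈ im c ZZ ↔ ∃ v ∈ ZZ, c v = g :=
    mem_im_iff fun v hv w hw => F.mul v (ZZ_le hv) w (ZZ_le hw)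
  refine ⟨SX.Hx.norm_of fun y hy => ?_, ?_⟩
  · obtain ⟨v, hv, rfl⟩ := mZ.1 hy
    rw [t v (ZZ_le hv)]
    exact mem_im c (mul_mem ((mul_mem_cancel_left hv).1 (lz v)) (bz _))
  set g := s (ir l) with hg
  have f1 {f : G} (hf : f ∈ im c Ev) : f * g * f⁻¹ * g⁻¹ ∈ im c ZZ := by
    obtain ⟨v, hv, rfl⟩ := F.mem.1 hf
    rw [F.inv hv, mul_assoc (c v), mul_assoc (c v), t v hv, ← F.mul v hv _ (mul_mem (aS_Ev _ hv) (bc_Ev _)),
      ← mul_assoc]
    exact mem_im c (mul_mem (lz v) (bz _))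
  by_cases h1 : u ∈ im c Ev
  · exact f1 h1
  obtain ⟨r, hr, hr', kr⟩ := e_r h F sy fun q => h1 (q hu)
  have nF := F.nT (mem_im s lT)
  obtain ⟨f', hf', e'⟩ := e_idx h F sy (SX.Hx.conj_mem (nT (mem_im s lT)) hr) hr
    (fun q => hr' (by simpa [mul_assoc] using SX.Hx.conj_mem (inv_mem nF) q)) hr'
  obtain ⟨κ, hκ, rfl⟩ := F.mem.1 hf'
  rw [← hg] at e'
  have rc := e_cen h F sy hr
  have k1 (t' : TS) (ht' : t' ∈ A0) : κ * aS t' κ ∈ Z1 := by
    have m := U_A0 _ (inv_mem lU) t' ht'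
    have e1 := (kr.mul F.toFs rc (F.mu_c h.ch hκ)) _ (ir_Q ht')
    have e2 := kr _ (ir_Q m)
    have e3 : g * s (ir (l⁻¹ * t' * l⁻¹⁻¹)) * g⁻¹ = s (ir t') := by
      rw [h.ch.conj lT (Q_le_T0 (ir_Q m)), ← map_inv, ← map_mul, ← map_mul]; congr 2; group
    have e4 : c (e 0 * κ * aS t' (e 0 * κ)) = g * c (e 0 * aS (l⁻¹ * t' * l⁻¹⁻¹) (e 0)) * g⁻¹ := by
      rw [ir_t] at e1 e2
      rw [eq_mul_inv_of_mul_eq e1.symm, eq_mul_inv_of_mul_eq e2.symm, ← e', ← e3]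
      generalize s (ir (l⁻¹ * t' * l⁻¹⁻¹)) = y
      group
    rw [t _ (com_Ev _ _)] at e4
    have e5 := F.eq_of (com_Ev _ _) (mul_mem (aS_Ev _ (com_Ev _ _)) (bc_Ev _)) e4
    rw [aS_mul, aS_mul, ← mul_aS, l0, show l * (l⁻¹ * t' * l⁻¹⁻¹) = t' * l by group, mul_aS, l0,
      mul_mul_mul_comm, mul_right_inj] at e5
    rw [e5]; exact bc_Z1 _
  have k2 := com_RM κ hκ (k1 _ (by decide +kernel)) (k1 _ (by decide +kernel)) (k1 _ (by decide +kernel))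
  have g2 : g * g = 1 := by rw [← h.ch.mul _ lT _ lT, ← map_mul, l2, map_one, h.ch.one]
  have k3 : g * c κ * g⁻¹ = c κ := by
    have : r = r * c κ * (g * c κ * g⁻¹) := by
      calc r = g * g * r * (g * g)⁻¹ := by rw [g2]; simp
        _ = g * (g * r * g⁻¹) * g⁻¹ := by group
        _ = g * r * g⁻¹ * (g * c κ * g⁻¹) := by nth_rewrite 1 [e']; group
        _ = _ := by rw [e']
    rw [mul_assoc, left_eq_mul] at this
    rw [eq_inv_of_mul_eq_one_right this, F.inv hκ]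
  rw [t κ hκ, dot_RM _ k2 _ hw, bc, cond_false, mul_one] at k3
  have k4 := mem_im c (lk κ k2 (F.eq_of (aS_Ev _ hκ) hκ k3))
  obtain ⟨f, hf, rfl⟩ := e_idx h F sy hu hr h1 hr'
  have : r * f * g * (r * f)⁻¹ * g⁻¹ = r * (f * g * f⁻¹ * g⁻¹) * (g * r * g⁻¹)⁻¹ := by group
  rw [this, e', ← rc _ (zF (f1 hf)), ← rc _ (mem_im c hκ)]
  simpa [mul_assoc] using mul_mem (f1 hf) (inv_mem k4)

theorem e_cR {u : G} (hu : u ∈ E1) : ∀ m ∈ R, s m ∈ cmK (im c ZZ) u := by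
  have f (v : V) (hv : v ∈ RM) : s (il v) ∈ cmK (im c ZZ) u :=
    ⟨centralizer_le_normalizer _ (centralizer_le (im_mono c ZZ_le) (F.ab (F.A'_le h.ch (mem_im s (il_A' hv))))), by
      rw [mem_CC_im.1 (sy.le hu).1.1 _ (il_A' hv)]; simp⟩
  have ta : ts 15 ∈ A0 := by decide +kernel
  refine im_le_gen h.ch R_le_T0 (by decide +kernel) gen_R ?_
  simp only [List.forall_mem_cons]
  refine ⟨f _ (by decide +kernel), f _ (by decide +kernel), f _ (by decide +kernel), ⟨?_, ?_⟩,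
    e_lo h F sy nT (l := ts 10) (by simp) (by cases tw <;> decide +kernel) F.t23 hu,
    e_lo h F sy nT (l := ts 12) (by simp) (by cases tw <;> decide +kernel) F.t24 hu, by simp⟩
  · refine SX.Hx.norm_of fun y hy => ?_
    obtain ⟨v, hv, rfl⟩ := (mem_im_iff fun v hv w hw => F.mul v (ZZ_le hv) w (ZZ_le hw)).1 hy
    rw [a, F.qa _ ta v (ZZ_le hv)]
    exact mem_im c ((mul_mem_cancel_left hv).1 (a_ZZ v))
  · obtain ⟨k, hk⟩ := F.mu_Y h.ch (sy.le hu)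
    rw [a, hk _ (ir_Q ta), mul_inv_cancel_right]
    exact mem_im c (a_ZZ k)

end

end K

/-- Notation: `F0 = im c Ev`, `â = s (ir t)` for `t ∈ A0`, `FQ₀ = F0 ⊔ s Q` (chart `(v, t) ↦ c v * s (ir t)` on
`FQ`), `Y = C(A') ⊓ N(FQ₀)`; `C_{FQ₀}(A') = F0`, so `Y ≤ N(F0)`.
(1) For `g ∈ Y`, `g â g⁻¹ = c(u_t) â` (same action on `A'`), so by `cocF` there is `k ∈ V` with
`u_t = k * aS t k`. If `k` is even, `(c k)⁻¹ g ∈ C(Q) = ⟨z⟩ × O_Q`. If `k` is odd, `r = (c (k * e 0))⁻¹ g` has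
`r â r⁻¹ = c(e 0 * e (pS t 0)) â`. Such an `r` centralises `F0`: as in `exists_tw` (with `σ = 1`; `r â r⁻¹` acts on
`F0` as `â`) `r c(v) r⁻¹ = c(v) z ^ (λ v)`, `λ` additive, zero on `RM`; `λ` does not depend on the choice of
`g ∈ Y` with `k` odd (`cQ`), and `T, g1, g2` normalise `Y` and preserve the parity of `k`, so `λ` is invariant under
`r1V, r2V`, hence zero. Then `r² ∈ C(Q)`.
(2) `inv_syl` with the 2-group `T ⊔ F0` gives `E1` Sylow in `Y`, `T`-invariant, `F0 ≤ E1`; by (1) `E1 = F0` or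
`E1 = F0 ⟨r⟩` with `r² ∈ ⟨z⟩` (`E1 ⊓ C(Q) = ⟨z⟩`), `E1` is abelian, `Y ≤ E1 ⊔ O_Q`; `Rr.qa` follows from
`r â r⁻¹ = c(k_t) â` (`r⁻¹ = r z ^ i`). `lift_syl` (`S1 = E1 ⊔ s T00`, `S2 = g1 •ᶜ S1`, `O_Q`) adjusts `g1`, `g2` by
elements that centralise `F0` and `s T00`, `s T01`.
(3) `E1` is Sylow in `C(A')`: otherwise `step_up` for `E1 ⊔ s Q` in `E ⊔ s Q` (`E ≥ E1` a `Q`-invariant Sylow
subgroup of `C(A')`, `inv_syl`) gives `y ∈ E ∖ E1` normalising `E1 Q`, hence `E1 = C_{E1 Q}(A')`;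
`y â y⁻¹ = u â` with `u ∈ E1`, `u â u â = 1`. If `u = r c(v)` then `1 = r² c(k_t * v * aS t v)`, impossible for
`t ≠ 1`: `k_t * v * aS t v ∉ Z1` for `v ∈ Ev` (`decide`). So `u ∈ F0`, and `cocF` gives `k' ∈ E1` with
`k'⁻¹ y ∈ C(Q) ⊓ E = ⟨z⟩` if `E1 ≠ F0`; if `E1 = F0` then `y ∈ Y` and `⟨E1, y⟩` is a 2-subgroup of `Y`.
(4) `cQ`: `g = z ^ i o`, `[E1, o] ≤ E1 ⊓ C(FQ₀)`… precisely: `o` centralises `F0` (`Fs.cQ`) and `Q`; `o r o⁻¹ r⁻¹ ∈ E1`
centralises `Q`, so lies in `⟨z⟩`; `odd_cen`.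
(5) `cR`: on `F0` by `qa, t23, t24` (`v * aS t v ∈ ZZ`); `[r, a] = c 3`; for `g = e23, e24`:
`g r g⁻¹ = r c(k)`; conjugating `Rr.qa` by `g` gives `k * aS t k ∈ Z1` for `t ∈ A0`, so `k ∈ RM`; `g² = 1` gives
`g c(k) g⁻¹ = c k`, so `k ∈ Zev`. `R` is generated by `Zev, a, e23, e24` and normalises `im c ZZ`. -/
theorem Fc.e1 (h : N0 s O) (F : Fc s c g1 g2 tw) :
    ∃ g1' g2' E0, Fc s c g1' g2' tw ∧ Es s c g1' g2' E0 := by
  obtain ⟨E1, sy, nT, -, pE⟩ := inv_syl (h.ch.pg le_rfl) (T_nY h F.toFs)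
  have od : Od (OQ s O ⊓ CC (im c Ev)) := coprime_card_of_le inf_le_left h.odQ
  have nO : E1 ⊔ im s T0 ≤ NN (OQ s O ⊓ CC (im c Ev)) := by
    refine (sup_le (sy.le.trans inf_le_right) (MSS.le_normalizer_sup F.nT h.ch.nQ)).trans fun g hg =>
      SX.Hx.norm_of fun o ho => ?_
    have k : o ∈ CC (im c Ev ⊔ im s Q) :=
      le_centralizer_iff.1 (sup_le (le_centralizer_iff.1 (zpowers_le.2 ho.2))
        (le_centralizer_iff.1 (zpowers_le.2 ho.1.2))) (mem_zpowers o)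
    have k' := SX.Hx.conj_mem (normalizer_le_normalizer_centralizer _ hg) k
    exact ⟨odd_OQ h (centralizer_le (SetLike.coe_subset_coe.2 le_sup_right) k') (by
      rw [conj_pow, orderOf_dvd_iff_pow_eq_one.1 (Subgroup.orderOf_dvd_natCard _ ho.1.1)]; simp),
      centralizer_le (SetLike.coe_subset_coe.2 le_sup_left) k'⟩
  have oY : OQ s O ⊓ CC (im c Ev) ≤ NN (YY s c) := fun o ho =>
    nY (centralizer_le_normalizer _ (centralizer_le (im_mono s A'_le_Q) ho.1.2)) (centralizer_le_normalizer _ ho.2)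
      (centralizer_le_normalizer _ ho.1.2)
  obtain ⟨o1, m1, n1, a1⟩ := lift' od sy (e_sup h F sy) (pE.to_le (sup_le_sup_left (im_mono s T00_le) _))
    ((sup_le_sup_left (im_mono s T00_le) _).trans nO) F.a1 (fun m hm => (T00_T0 m hm).2) (nY1 F.toFs) oY
  obtain ⟨o2, m2, n2, a2⟩ := lift' od sy (e_sup h F sy) (pE.to_le (sup_le_sup_left (im_mono s T01_le) _))
    ((sup_le_sup_left (im_mono s T01_le) _).trans nO) F.a2 (fun m hm => (T01_T0 m hm).2) (nY2 F.toFs) oY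
  have tw' {o g : G} (ho : o ∈ CC (im c Ev)) {σ : V → V} (hσ : ∀ v ∈ Ev, σ v ∈ Ev) {w : V} (t : Tw g c σ w) :
      Tw (o * g) c σ w := fun v hv => by
    calc o * g * c v * (o * g)⁻¹ = o * (g * c v * g⁻¹) * o⁻¹ := by group
      _ = _ := by rw [t v hv, mem_CC_im.1 ho _ (mul_mem (hσ v hv) (bc_Ev _)), mul_inv_cancel_right]
  exact ⟨o1 * g1, o2 * g2, E1, ⟨⟨F.mul, F.inj, F.ext, F.qa, F.syl, F.nT, a1,
    mul_mem (centralizer_le_normalizer _ m1.2) F.n1, a2, mul_mem (centralizer_le_normalizer _ m2.2) F.n2⟩,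
    F.t23, F.t24, F.t34, tw' m1.2 (fun v hv => (r_Ev v hv).1) F.t1, tw' m2.2 (fun v hv => (r_Ev v hv).2) F.t2⟩,
    e_syl h F sy nT, e_le h F sy, e_comm h F sy, nT, n1, n2, fun u hu m hm => (e_cR h F sy nT hu m hm).2,
    fun g => e_cQ h F sy, e_alt h F sy⟩

end CL.HA
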