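import Cfsg.Agent.INV.HA.Cls
import Cfsg.Agent.INV.ThompsonTransfer

/-!
Harada `E₁₆ · GL₄(2)`, type `S₁₆`: the automiser of `E` is `S₉`.
-/

set_option autoImplicit false
set_option maxHeartbeats 400000

namespace CL.HA
open Subgroup CL.MSS CL.PComp
open CL.SX (V vv e ZZ pc)

variable {G : Type*} [Group G] [Finite G] {φ : P →* G} {O : Subgroup G}

namespace ExA
open CL.SX (mkAut mkAut_apply lin cv hom_ext aut_ext)

theorem ev_pc : ∀ v, v ∈ Ev → pc v ≠ 1 := by decide +kernel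

theorem idx_S1 : S1.index = 2 := by
  have := S1.card_mul_index
  rw [card_sd, card_Ev, card_top, TS.card, P.card] at this
  omega

omit [Finite G] in
theorem act_of {j : V →* G} {g : G} {ψ : MulAut V} (h : ∀ i, g * j (e i) * g⁻¹ = j (ψ (e i))) : ψ ∈ Au j :=
  ⟨g, fun v => DFunLike.congr_fun (hom_ext (f := (MulAut.conj g).toMonoidHom.comp j) (g := j.comp ψ.toMonoidHom) h) v⟩

/-- the images of the basis under a transvection -/
def tf (c w : ℕ) (i : Fin 8) : V := e i * bc (dot (e i) (vv w)) (vv c)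
def tc : Fin 4 → ℕ := ![0xfe, 0xd6, 0x5e, 0x76]
def tw : Fin 4 → ℕ := ![0xfd, 0xe9, 0xad, 0xb9]
def TT (k : Fin 4) : MulAut V := mkAut (tf (tc k) (tw k)) (tf (tc k) (tw k)) (by revert k; decide +kernel)
theorem TT_apply (k : Fin 4) (v : V) : TT k v = lin (tf (tc k) (tw k)) v := rfl
theorem TT_tv (k : Fin 4) : IsTv (TT k) (vv (tc k)) (vv (tw k)) := by
  unfold IsTv
  simp only [TT_apply]
  revert k
  decide +kernel

def rk : Fin 4 → ℕ := ![0x8040201008040201, 0x804020100c080201, 0x8040302008040201, 0xc080201008040201]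
def rk' : Fin 4 → ℕ := ![0x8040201008040201, 0x80402010040c0201, 0x8040103008040201, 0x40c0201008040201]
def ρ (k : Fin 4) : MulAut V := mkAut (cv (rk k)) (cv (rk' k)) (by revert k; decide +kernel)
theorem ρ_apply (k : Fin 4) (v : V) : ρ k v = lin (cv (rk k)) v := rfl

theorem TT_cj : ρ 1 * ρ 2 * TT 0 = TT 1 * (ρ 1 * ρ 2) ∧ ρ 2 * ρ 3 * TT 0 = TT 2 * (ρ 2 * ρ 3) ∧
    ρ 1 * ρ 3 * TT 0 = TT 3 * (ρ 1 * ρ 3) := by
  refine ⟨aut_ext ?_, aut_ext ?_, aut_ext ?_⟩ <;>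
  · simp only [MulAut.mul_apply, TT_apply, ρ_apply]
    decide +kernel

theorem ρ_chk : ∀ i : Fin 4, i ≠ 0 → ∀ k : Fin 8,
    jf 14 (e k) = ab i ∧ jf 14 (lin (cv (rk i)) (e k)) = ab i * zb i ∨
    jf 14 (e k) = ab i * zb i ∧ jf 14 (lin (cv (rk i)) (e k)) = ab i * zb i * ab i ∨
    jf 14 (e k) ∈ J ∧ (jf 14 (e k)).v.n &&& (3 * 4 ^ i.1) = 0 ∧ (jf 14 (e k)).t.n &&& 2 ^ i.1 = 0 ∧
      jf 14 (lin (cv (rk i)) (e k)) = jf 14 (e k) := by decide +kernel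

theorem ρ_mem {y : G} (h : Y0 φ y) {i : Fin 4} (hi : i ≠ 0) : ρ i ∈ Au (φ.comp (jI 14)) := by
  obtain ⟨n, y', -, h1, h2, h3⟩ := h.blk i
  refine act_of (g := y') fun k => ?_
  simp only [MonoidHom.comp_apply, jI_apply, ρ_apply]
  rcases ρ_chk i hi k with ⟨a, b⟩ | ⟨a, b⟩ | ⟨a, b, c, d⟩
  · rw [a, b, h2]
  · rw [a, b, map_mul φ (ab i * zb i) (ab i), map_mul φ (ab i) (zb i), ← conj_mul, h1, h2, map_mul]
  · rw [d, h3 _ a b c, mul_inv_cancel_right]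

/-- the transvection with centre `0xfe` and axis `e 0` -/
def τf (v : V) : V := v * bc (dot v (e 0)) (e 0 * vv 255)

theorem τ_comm : ∀ t, t ∈ Lo' → ∀ i, τf (aS t (e i)) = aS t (τf (e i)) := by decide +kernel

theorem v_chk : ∀ i : Fin 4, i ≠ 0 → (ab i * z ∈ J ∧ ab i * z * (ab i * z) = 1 ∧ ev (ab i * z) = vv 255 ∧
    ts (2 ^ i.1) ∈ Lo') ∧ ∀ v, (⟨v, ts (2 ^ i.1)⟩ * il (τf (vv 255)) : P) ∈ J ∧
    ((⟨v, ts (2 ^ i.1)⟩ * il (τf (vv 255)) : P) * (⟨v, ts (2 ^ i.1)⟩ * il (τf (vv 255))) = 1 →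
    pc (ev (⟨v, ts (2 ^ i.1)⟩ * il (τf (vv 255)))) = 8 ∨ pc (ev (⟨v, ts (2 ^ i.1)⟩ * il (τf (vv 255)))) = 1 →
    ∃ b : Bool, v = vv 0xfe * bc b (vv (3 * 4 ^ i.1))) := by decide +kernel

theorem adj : ∀ b1 b2 b3 : Bool, ∃ u : V,
    il u * ⟨vv 0xfe * bc b1 (vv 12), ts 2⟩ * (il u)⁻¹ = ⟨vv 0xfe, ts 2⟩ ∧
    il u * ⟨vv 0xfe * bc b2 (vv 48), ts 4⟩ * (il u)⁻¹ = ⟨vv 0xfe, ts 4⟩ ∧
    il u * ⟨vv 0xfe * bc b3 (vv 192), ts 8⟩ * (il u)⁻¹ = ⟨vv 0xfe, ts 8⟩ := by decide +kernel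

theorem T_chk : ∀ k : Fin 8, ∃ v, jf 14 (e k) = il v ∧ jf 14 (lin (tf (tc 0) (tw 0)) (e k)) = il (τf v) ∨
    ∃ i : Fin 4, i ≠ 0 ∧ jf 14 (e k) = ab i * il v ∧
      jf 14 (lin (tf (tc 0) (tw 0)) (e k)) = ⟨vv 0xfe, ts (2 ^ i.1)⟩ * il (τf v) := by decide +kernel

theorem fin_chk : ∀ a b c d : Fin 4, a ≠ b → a ≠ c → a ≠ d →
    vv (3 * 4 ^ a.1) * vv (3 * 4 ^ b.1) * vv (3 * 4 ^ c.1) * vv (3 * 4 ^ d.1) ≠ 1 := by decide +kernel

/-- an element inducing `τ` that normalises `E Lo'` -/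
theorem exists_g (h : Fx φ O) {τ : MulAut V} (hτ : τ ∈ Au (φ.comp il)) (hc : ∀ t ∈ Lo', τ * acS t * τ⁻¹ = acS t) :
    ∃ g, In φ g τ ∧ ∀ t ∈ Lo', ∃ v, g * φ (ir t) * g⁻¹ = φ ⟨v, t⟩ := by
  obtain ⟨g, hg⟩ : ∃ g, In φ g τ := hτ
  let Y : Subgroup P := sd ⊤ Lo' fun _ _ _ _ => trivial
  have hY : IsPGroup 2 (Y.map φ) := (pgP Y).map φ
  have key : ∀ {g}, In φ g τ → ∀ m ∈ Y, In φ (g * φ m * g⁻¹) (acS m.t) := fun hg m hm => by
    rw [← hc m.t hm.2]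
    exact (hg.mul (in_phi φ m)).mul hg.inv
  obtain ⟨o, ho, hle, -⟩ := lift_syl (O := opOf 2 (CC (E.map φ))) (opOf_coprime 2 _) hY (isPGroup_cj g hY) (by
    rintro _ ⟨m, -, rfl⟩
    exact normalizer_le_normalizer_opOf 2 _ (normalizer_le_normalizer_centralizer _ (in_phi φ m).norm)) (by
    rw [cj_le_iff_forall]
    rintro _ ⟨m, hm, rfl⟩
    have := (key hg m hm).mul (in_phi φ m).inv
    rw [mul_inv_cancel, In.cen] at this
    obtain ⟨δ, hδ, o, ho, e1⟩ := cen_split h.sylE le_rfl this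
    rw [mul_inv_eq_iff_eq_mul.1 e1]
    refine mul_mem (mul_mem (mem_sup_left (map_mono (fun n hn => ?_) hδ)) (mem_sup_right ho))
      (mem_sup_left (mem_map_of_mem φ hm))
    exact ⟨trivial, by rw [mem_bot.1 hn.2]; exact one_mem _⟩)
  have hg' : In φ (o * g) τ := by
    have := (In.cen.2 (opOf_le 2 _ ho)).mul hg
    rwa [one_mul] at this
  refine ⟨o * g, hg', fun t ht => ?_⟩
  have hm : ir t ∈ Y := ⟨trivial, ht⟩
  rw [← cj_mul] at hle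
  obtain ⟨m, -, e1⟩ := hle (conj_mem_cj (mem_map_of_mem φ hm))
  have e2 := key hg' _ hm
  rw [← e1] at e2
  have e3 : m.t = t := acS_inj ((in_phi φ m).unique h.inj e2)
  exact ⟨m.v, by rw [← e1, ← e3]⟩

end ExA
open ExA

/-- Thompson's lemma (`CL.ThompsonTransfer.exists_conj_mem`, `S1.map φ` has index 2 in `φ.range`): `φ (ε 0)` is conjugate to
`φ m`, `m ∈ S1`. If `m.t = 1` then `m.v` has even weight, else `cl3` (`M = ⊤`) gives `v` of weight `≥ 2`; `ctrl1`, `pc_pm`. -/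
theorem Fy.ne_pm (h : Fy φ O) (h2 : ∀ H : Subgroup G, H.index ≠ 2) : Au (φ.comp il) ≠ pm.range := by
  intro e0
  obtain ⟨y, hy⟩ := h.y0
  have key : ∀ v, IsConj (φ (ε 0)) (φ (il v)) → pc v = 1 := fun v hv => by
    obtain ⟨ψ, hψ, rfl⟩ := h.toFx.ctrl1 hv
    rw [e0] at hψ
    obtain ⟨σ, rfl⟩ := hψ
    rw [pc_pm]
    decide +kernel
  have u2 : φ (ε 0) * φ (ε 0) = 1 := by rw [← map_mul, ε, ← map_mul, SX.V.mul_self, map_one, map_one]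
  obtain ⟨g, m, hm, e1⟩ := CL.ThompsonTransfer.exists_conj_mem h2 h.syl.toSylowTop (Q := S1.map φ) (map_le_range φ S1) (by
    rw [SylIn.coe_toSylowTop, MonoidHom.range_eq_map, relIndex_map_map_of_injective _ _ h.toFx.inj, relIndex_top_right,
      idx_S1]) u2
  have m2 : m * m = 1 := h.toFx.inj (by
    rw [map_mul, e1, map_one, conj_mul, u2, mul_one, mul_inv_cancel])
  by_cases ht : m.t = 1
  · exact ev_pc _ hm.1 (key m.v (isConj_iff.2 ⟨g, by rw [← e1, ← eq_il ht]⟩))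
  · obtain ⟨k, -, v, e2, hv⟩ := h.toFx.cl3 hy (M := ⊤) le_top trivial m2
    have := key v (isConj_iff.2 ⟨k * g, by rw [← e2, e1]; group⟩)
    have := hv ht
    omega

/-- Let `g` induce `τ = pm9' (swap 0 8)`, the transvection with centre `0xfe` and axis `e 0` (`tv_swap9'`); `τ` commutes with
`acS t`, `t ∈ Lo'`. With `Y = (sd ⊤ Lo').map φ`, `g •ᶜ Y ≤ Y ⊔ O_E`, `lift_syl` makes `g` normalise `Y`, and
`g φ(ab i) g⁻¹ = φ ⟨vᵢ, 2 ^ i⟩` (`i = 1, 2, 3`). `ab i * z` is conjugate to `z` (`cl1`), so is its image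
`⟨vᵢ * e 0, 2 ^ i⟩` (`τ 255 = e 0`), whose `ev` has weight `≥ 2` and lies in the orbit of `255` (`ctrl1`, `pc_orb'`): it is `255`,
so `vᵢ ∈ {0xfe, 0xfe * zb i}`. Multiply `g` by `φ (ε (2 i))` when needed (it centralises `E`): `vᵢ = 0xfe`. Now `g` acts
on `EI 14` in the coordinates `jI 14` as the transvection `(c, w) = (0xfe, 0xfd)`. The elements `y'` of `Y0.blk` (`i = 1, 2, 3`) act on
`EI 14` by `e (2i) ↦ e (2i+1) ↦ e (2i) * e (2i+1)`; conjugating by `y₁ y₂`, `y₂ y₃`, `y₁ y₃` gives the transvections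
`(0xd6, 0xe9), (0x5e, 0xad), (0x76, 0xb9)`. The four commute (computer checked), their centres are distinct with product 1,
while by `Sy2.indep` (`sy2 14`) the product would correspond to `255`. -/
theorem Fy.ne_pm9' (h : Fy φ O) : Au (φ.comp il) ≠ pm9'.range := by
  intro e0
  obtain ⟨y, hy⟩ := h.y0
  have hi := h.toFx.inj
  obtain ⟨τ, hτ, tf⟩ : ∃ τ ∈ Au (φ.comp il), ∀ v, τ v = τf v :=
    ⟨_, by rw [e0]; exact ⟨_, rfl⟩, (tv_swap9' 0).2.2.2⟩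
  obtain ⟨g, hg, hv⟩ := exists_g h.toFx hτ fun t ht => by
    rw [mul_inv_eq_iff_eq_mul]
    exact SX.aut_ext fun i => by simp only [MulAut.mul_apply, acS_apply, tf, τ_comm t ht i]
  have key : ∀ i : Fin 4, i ≠ 0 → ∃ b : Bool,
      g * φ (ab i) * g⁻¹ = φ ⟨vv 0xfe * bc b (vv (3 * 4 ^ i.1)), ts (2 ^ i.1)⟩ := fun i i0 => by
    obtain ⟨⟨a1, a2, a3, a4⟩, a5⟩ := v_chk i i0
    obtain ⟨v, e1⟩ := hv _ a4
    obtain ⟨a6, a7⟩ := a5 v
    have e2 : g * φ (ab i * z) * g⁻¹ = φ (⟨v, ts (2 ^ i.1)⟩ * il (τf (vv 255))) := by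
      rw [map_mul, map_mul, ← e1, ← tf, ← hg, conj_mul]
      rfl
    have m2 : (⟨v, ts (2 ^ i.1)⟩ * il (τf (vv 255)) : P) * (⟨v, ts (2 ^ i.1)⟩ * il (τf (vv 255))) = 1 := hi (by
      rw [map_mul, ← e2, conj_mul, ← map_mul, a2, map_one, mul_one, mul_inv_cancel])
    obtain ⟨k1, -, e3⟩ := hy.cl1 (M := ⊤) le_top trivial a1 a2
    obtain ⟨k2, -, e4⟩ := hy.cl1 (M := ⊤) le_top trivial a6 m2
    rw [a3] at e3
    obtain ⟨ψ, hψ, e5⟩ := h.toFx.ctrl1 (u := vv 255) (v := ev (⟨v, ts (2 ^ i.1)⟩ * il (τf (vv 255))))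
      (isConj_iff.2 ⟨k2 * g * k1⁻¹, by rw [← e3, ← e4, ← e2]; group⟩)
    rw [e0] at hψ
    obtain ⟨σ, rfl⟩ := hψ
    obtain ⟨b, rfl⟩ := a7 m2 (e5 ▸ pc_orb' σ)
    exact ⟨b, e1⟩
  obtain ⟨b1, c1⟩ := key 1 (by decide)
  obtain ⟨b2, c2⟩ := key 2 (by decide)
  obtain ⟨b3, c3⟩ := key 3 (by decide)
  obtain ⟨u, d1, d2, d3⟩ := adj b1 b2 b3
  have hg' : In φ (φ (il u) * g) τ := by
    have := (in_phi φ (il u)).mul hg
    rwa [il_t, map_one, one_mul] at this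
  have k2 : ∀ {m n n' : P}, g * φ m * g⁻¹ = φ n → il u * n * (il u)⁻¹ = n' →
      φ (il u) * g * φ m * (φ (il u) * g)⁻¹ = φ n' := fun a b => by
    rw [← b, map_mul, map_mul, map_inv, ← a]
    group
  have k3 : ∀ i : Fin 4, i ≠ 0 → φ (il u) * g * φ (ab i) * (φ (il u) * g)⁻¹ = φ ⟨vv 0xfe, ts (2 ^ i.1)⟩ := by
    intro i i0
    fin_cases i
    · exact absurd rfl i0
    · exact k2 c1 d1
    · exact k2 c2 d2
    · exact k2 c3 d3
  have T0 : TT 0 ∈ Au (φ.comp (jI 14)) := by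
    refine act_of (g := φ (il u) * g) fun k => ?_
    simp only [MonoidHom.comp_apply, jI_apply, TT_apply]
    obtain ⟨v, ⟨a, b⟩ | ⟨i, i0, a, b⟩⟩ := T_chk k
    · rw [a, b, ← tf]
      exact hg' v
    · rw [a, b, ← tf, map_mul φ (ab i), map_mul φ _ (il (τ v)), ← k3 i i0, ← hg' v, conj_mul]
  have r1 := ρ_mem hy (i := 1) (by decide)
  have r2 := ρ_mem hy (i := 2) (by decide)
  have r3 := ρ_mem hy (i := 3) (by decide)
  have cj : ∀ {α T : MulAut V}, α ∈ Au (φ.comp (jI 14)) → α * TT 0 = T * α → T ∈ Au (φ.comp (jI 14)) := fun a b => by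
    rw [← mul_inv_eq_iff_eq_mul.2 b]
    exact mul_mem (mul_mem a T0) (inv_mem a)
  obtain ⟨α, f, f1, f2⟩ := (h.toFx.sy2 14).indep (ψ := TT) (fun i => by
    fin_cases i
    exacts [T0, cj (mul_mem r1 r2) TT_cj.1, cj (mul_mem r2 r3) TT_cj.2.1, cj (mul_mem r1 r3) TT_cj.2.2])
    TT_tv (by decide +kernel)
  refine fin_chk (f 0) (f 1) (f 2) (f 3) (fun a => absurd (f2 _ _ a).1 (by decide +kernel))
    (fun a => absurd (f2 _ _ a).1 (by decide +kernel)) (fun a => absurd (f2 _ _ a).1 (by decide +kernel)) ?_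
  rw [← f1, ← f1, ← f1, ← f1, ← map_mul, ← map_mul, ← map_mul,
    show vv (tc 0) * vv (tc 1) * vv (tc 2) * vv (tc 3) = 1 by decide +kernel, map_one]

/-- `Sy2.tri` with `sy2 0`, `jI_zero` -/
theorem Fy.ex (h : Fy φ O) (h2 : ∀ H : Subgroup G, H.index ≠ 2) : Fz φ O := by
  have s0 := h.toFx.sy2 0
  rw [jI_zero] at s0
  rcases s0.tri h.pm with e | e | e
  · exact absurd e (h.ne_pm h2)
  · exact ⟨h, e⟩
  · exact absurd e h.ne_pm9'

end CL.HA
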