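import Cfsg.Agent.INV.HA.Nu

/-!
Harada `E₁₆ · GL₄(2)`, case (c): the group `F₀` of order 128.
-/

set_option autoImplicit false
set_option maxHeartbeats 400000
set_option linter.unusedSectionVars false

namespace CL.HA
open Subgroup CL.MSS CL.PComp
open CL.SX (V vv e ZZ pc)

variable {G : Type*} [Group G] [Finite G] {s : P → G} {O : Subgroup G}

open K

namespace K

theorem autQ_chk : ∀ p, p ∈ RM → (a * il p) * (a * il p) = 1 → ∀ q, q ∈ RM → (b * il q) * (b * il q) = 1 →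
    (a * il p) * (b * il q) = (b * il q) * (a * il p) → ∀ r, r ∈ RM → (c * il r) * (c * il r) = 1 →
    (a * il p) * (c * il r) = (c * il r) * (a * il p) → (b * il q) * (c * il r) = (c * il r) * (b * il q) →
    ∃ v, v ∈ Ev ∧ aS (ts 15) v = p * v ∧ aS (ts 48) v = q * v ∧ aS (ts 64) v = r * v := by
  decide +kernel

theorem il_conj' {v p : V} {t : TS} (h2 : t * t = 1) (h : aS t v = p * v) :
    il v * ir t * (il v)⁻¹ = ir t * il p := by
  have : aS t p = v * aS t v := by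
    have := congrArg (aS t) h
    rw [← mul_aS, h2, one_aS, aS_mul] at this
    rw [eq_mul_inv_iff_mul_eq.2 this.symm]; rfl
  rw [il_conj]
  exact P.ext (by simp [aS_one, one_aS, this]) (by simp)

end K

/-- FINITE FACT: an automorphism `α` of `Q` that is trivial on `A'` is conjugation by some `il v`, `v ∈ Ev`
(unique modulo `255`). It is determined by `α a = a k₁`, `α b = b k₂`, `α c = c k₃` with `kᵢ ∈ A'` (since
`α m m⁻¹` centralises `A'`), and these three are commuting involutions; 64 solutions. -/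
theorem autQ : ∀ k1 ∈ A', ∀ k2 ∈ A', ∀ k3 ∈ A', (a * k1) * (a * k1) = 1 → (b * k2) * (b * k2) = 1 →
    (c * k3) * (c * k3) = 1 → (a * k1) * (b * k2) = (b * k2) * (a * k1) →
    (a * k1) * (c * k3) = (c * k3) * (a * k1) → (b * k2) * (c * k3) = (c * k3) * (b * k2) →
    ∃ v ∈ Ev, il v * a * (il v)⁻¹ = a * k1 ∧ il v * b * (il v)⁻¹ = b * k2 ∧ il v * c * (il v)⁻¹ = c * k3 := by
  intro k1 m1 k2 m2 k3 m3 h1 h2 h3 h4 h5 h6
  rw [eq_il m1.2] at h1 h4 h5 ⊢
  rw [eq_il m2.2] at h2 h4 h6 ⊢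
  rw [eq_il m3.2] at h3 h5 h6 ⊢
  obtain ⟨v, hv, e1, e2, e3⟩ := autQ_chk _ m1.1 h1 _ m2.1 h2 h4 _ m3.1 h3 h5 h6
  exact ⟨v, hv, il_conj' (by decide +kernel) e1, il_conj' (by decide +kernel) e2,
    il_conj' (by decide +kernel) e3⟩

namespace K

/-- `g` acts on `Q` as `il v` -/
def Nu (s : P → G) (g : G) (v : V) : Prop := v ∈ Ev ∧ Ac g s Q fun m => il v * m * (il v)⁻¹

theorem cjv_Q {v : V} (hv : v ∈ Ev) {m : P} (hm : m ∈ Q) : il v * m * (il v)⁻¹ ∈ Q := by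
  rw [il_conj]
  exact mul_mem (A'_le_Q (il_A' (com_A0 v hv _ hm.2))) hm
theorem cen_RM : ∀ t, t ∈ A0 → aS t (vv 0xAA) = vv 0xAA → aS t (vv 0xCC) = vv 0xCC →
    aS t (vv 0xF0) = vv 0xF0 → t = 1 := by decide +kernel
theorem rh_cube : ∀ m ∈ Q, rh (rh (rh m)) = m ∧ rh' (rh' (rh' m)) = m := forall_sd.2 (by decide +kernel)

namespace Nu
variable {g g' : G} {v w : V}

theorem one : Nu s 1 1 := ⟨one_mem _, fun m _ => by simp⟩
theorem mul (h : Nu s g v) (k : Nu s g' w) : Nu s (g * g') (v * w) :=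
  ⟨mul_mem h.1 k.1, fun m hm => by
    have := h.2 _ (cjv_Q k.1 hm)
    beta_reduce at this ⊢
    rw [← k.2 m hm] at this
    rw [map_mul, show il v * il w * m * (il v * il w)⁻¹ = il v * (il w * m * (il w)⁻¹) * (il v)⁻¹ by group,
      ← this]
    group⟩
theorem pow (h : Nu s g v) (n : ℕ) : Nu s (g ^ (2 * n + 1)) v := by
  induction n with
  | zero => simpa using h
  | succ n ih =>
    have := (ih.mul h).mul h
    rwa [SX.V.mul_self, one_mul, ← pow_succ, ← pow_succ] at this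
theorem cen (h : Nu s g v) (hv : v ∈ Z1) : g ∈ CC (im s Q) := mem_CC_im.2 fun m hm => by
  have := h.2 m hm
  beta_reduce at this
  rw [il_conj, aS_Z1 _ hv, SX.V.mul_self, map_one, one_mul] at this
  exact mul_inv_eq_iff_eq_mul.1 this
theorem z1 (hc : Ch T0 s) (h : Nu s g v) (k : g ∈ CC (im s Q)) : v ∈ Z1 := by
  have (t : TS) (ht : t ∈ A0) : aS t v = v := by
    have e := h.2 _ (ir_Q ht)
    beta_reduce at e
    rw [mem_CC_im.1 k _ (ir_Q ht), mul_inv_cancel_right] at e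
    have := congrArg P.v (hc.eq_of (Q_le_T0 (ir_Q ht)) (Q_le_T0 (cjv_Q h.1 (ir_Q ht))) e)
    rw [il_conj] at this
    simp only [P.mul_v, il_v, il_t, ir_v, ir_t, aS_one, mul_one] at this
    exact (eq_inv_of_mul_eq_one_right this.symm)
  exact fix_A0 v h.1 (this _ (by decide +kernel)) (this _ (by decide +kernel)) (this _ (by decide +kernel))
theorem of_RM (hc : Ch T0 s) (hw : w ∈ RM) : Nu s (s (il w)) w :=
  ⟨RM_le hw, fun _ hm => hc.conj (il_T0 hw) (Q_le_T0 hm)⟩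
theorem inv (h : Nu s g v) : Nu s g⁻¹ v := ⟨h.1, fun m hm => by
  have := h.2 _ (cjv_Q h.1 hm)
  beta_reduce at this ⊢
  rw [show il v * (il v * m * (il v)⁻¹) * (il v)⁻¹ = (il v * il v) * m * (il v * il v)⁻¹ by group, ← map_mul,
    SX.V.mul_self, map_one, one_mul, inv_one, mul_one] at this
  rw [← this]; group⟩
theorem conj (h : Nu s g v) {γ : G} {X : Subgroup P} {f : P → P} (ac : Ac γ s Q f) (hX : E ≤ X) (hQ : Q ≤ X)
    (hm : ∀ m ∈ X, ∀ n ∈ X, f (m * n) = f m * f n) (hf : ∀ m ∈ Q, f m ∈ Q ∧ f (f (f m)) = m)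
    (e : f (il v) = il w) (hw : w ∈ Ev) : Nu s (γ * g * γ⁻¹) w := ⟨hw, fun m km => by
  have k2 := (hf _ (hf m km).1).1
  have iv : il v ∈ X := hX ⟨trivial, rfl⟩
  have e1 := ac _ (cjv_Q h.1 k2)
  rw [← h.2 _ k2, il_inv, hm _ (mul_mem iv (hQ k2)) _ iv, hm _ iv _ (hQ k2), e, (hf m km).2] at e1
  have e2 := ac _ k2
  rw [(hf m km).2] at e2
  beta_reduce
  rw [il_inv, ← e1, ← e2]; group⟩
theorem c1 (h : Nu s g v) {γ : G} (ac : Ac γ s T00 rh) : Nu s (γ * g * γ⁻¹) (r1V v) :=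
  h.conj (X := DR) (ac.mono Q_le_T00) (fun _ k => ⟨trivial, k.2 ▸ one_mem _⟩)
    (fun _ k => ⟨trivial, (show ∀ t, t ∈ A0 → t ∈ X0 by decide +kernel) _ k.2⟩) rh_mul
    (fun m hm => ⟨(rh_Q m hm).1, (rh_cube m hm).1⟩) (rh_il v) (r_Ev v h.1).1
theorem c2 (h : Nu s g v) {γ : G} (ac : Ac γ s T01 rh') : Nu s (γ * g * γ⁻¹) (r2V v) :=
  h.conj (X := DR') (ac.mono Q_le_T01) (fun _ k => ⟨trivial, k.2 ▸ one_mem _⟩)
    (fun _ k => ⟨trivial, (show ∀ t, t ∈ A0 → t ∈ X1 by decide +kernel) _ k.2⟩) rh'_mul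
    (fun m hm => ⟨(rh_Q m hm).2, (rh_cube m hm).2⟩) (rh'_il v) (r_Ev v h.1).2

end Nu

theorem exists_nu (h : Ch T0 s) {g : G} (h1 : g ∈ NN (im s Q)) (h2 : g ∈ CC (im s A')) : ∃ v, Nu s g v := by
  obtain ⟨α, m1, ac, mu, -, -⟩ := (h.mono Q_le_T0).exists_aut h1
  have fx : ∀ m ∈ A', α m = m := fun m hm => h.eq_of (Q_le_T0 (m1 m (A'_le_Q hm))) (A'_le_T0 hm) (by
    rw [← ac m (A'_le_Q hm), mem_CC_im.1 h2 m hm, mul_inv_cancel_right])
  have kk : ∀ m ∈ Q, m⁻¹ * α m ∈ A' := fun m hm => by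
    have k := mul_mem (inv_mem hm) (m1 m hm)
    have cm (v : V) (hv : v ∈ RM) : aS (m⁻¹ * α m).t v = v := by
      have n := A'_nm m (Q_le_T0 hm) _ (il_A' hv)
      have e1 := mu _ (A'_le_Q n) m hm
      rw [inv_mul_cancel_right, mu m hm _ (A'_le_Q (il_A' hv)), fx _ n, fx _ (il_A' hv)] at e1
      refine il_inj ?_
      rw [← conj_il]
      calc _ = m⁻¹ * (α m * il v) * (α m)⁻¹ * m := by group
        _ = _ := by rw [e1]; group
    exact ⟨k.1, cen_RM _ k.2 (cm _ (by decide +kernel)) (cm _ (by decide +kernel)) (cm _ (by decide +kernel))⟩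
  have a1 : α 1 = 1 := fx 1 (one_mem _)
  have qa : a ∈ Q := by decide +kernel
  have qb : b ∈ Q := by decide +kernel
  have qc : c ∈ Q := by decide +kernel
  obtain ⟨v, hv, e1, e2, e3⟩ := autQ _ (kk a qa) _ (kk b qb) _ (kk c qc)
    (by rw [mul_inv_cancel_left, ← mu _ qa _ qa, show a * a = 1 by decide +kernel, a1])
    (by rw [mul_inv_cancel_left, ← mu _ qb _ qb, show b * b = 1 by decide +kernel, a1])
    (by rw [mul_inv_cancel_left, ← mu _ qc _ qc, show c * c = 1 by decide +kernel, a1])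
    (by rw [mul_inv_cancel_left, mul_inv_cancel_left, ← mu _ qa _ qb, ← mu _ qb _ qa,
      show a * b = b * a by decide +kernel])
    (by rw [mul_inv_cancel_left, mul_inv_cancel_left, ← mu _ qa _ qc, ← mu _ qc _ qa,
      show a * c = c * a by decide +kernel])
    (by rw [mul_inv_cancel_left, mul_inv_cancel_left, ← mu _ qb _ qc, ← mu _ qc _ qb,
      show b * c = c * b by decide +kernel])
  rw [mul_inv_cancel_left] at e1 e2 e3
  refine ⟨v, hv, Ac.of_gen h Q_le_T0 (fun m hm => Q_le_T0 (cjv_Q hv hm)) (fun p _ q _ => by group)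
    (by decide +kernel) gen_Q ?_⟩
  have f (w : V) (hw : w ∈ RM) : g * s (il w) * g⁻¹ = s (il v * il w * (il v)⁻¹) := by
    rw [conj_il, il_t, one_aS, mem_CC_im.1 h2 _ (il_A' hw), mul_inv_cancel_right]
  simp only [List.forall_mem_cons]
  exact ⟨f _ (by decide +kernel), f _ (by decide +kernel), f _ (by decide +kernel), f _ (by decide +kernel),
    e1 ▸ ac a qa, e2 ▸ ac b qb, e3 ▸ ac c qc, by simp⟩

theorem irr_chk : ∀ v, v ∈ Ev → v ∉ RM → ∃ r ∈ [3, 5, 17, 6, 18, 20, 23], v * vv r ∈ RM := by decide +kernel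

/-- the seven nontrivial cosets of `RM` in `Ev` are permuted transitively -/
theorem irr {p : V → Prop} (h1 : ∀ v, p v → p (r1V v)) (h2 : ∀ v, p v → p (r2V v))
    (h3 : ∀ v, p v → ∀ w ∈ RM, p (v * w)) {u : V} (hu : u ∈ Ev) (hu' : u ∉ RM) (h : p u) {v : V} (hv : v ∈ Ev)
    (hv' : v ∉ RM) : p v := by
  have st {v w : V} (k : p v) (e : v * w ∈ RM) : p w := by simpa [← mul_assoc] using h3 v k _ e
  have a (m n : ℕ) (e : r1V (vv m) * vv n ∈ RM) (k : p (vv m)) : p (vv n) := st (h1 _ k) e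
  have b (m n : ℕ) (e : r2V (vv m) * vv n ∈ RM) (k : p (vv m)) : p (vv n) := st (h2 _ k) e
  have t6 := b 6 3 (by decide +kernel)
  have t5 := fun k => t6 (b 5 6 (by decide +kernel) k)
  have t20 := fun k => t5 (a 20 5 (by decide +kernel) k)
  have p3 : p (vv 3) := by
    obtain ⟨r, hr, e⟩ := irr_chk u hu hu'
    have k := st h e
    simp only [List.mem_cons, List.not_mem_nil, or_false] at hr
    rcases hr with rfl | rfl | rfl | rfl | rfl | rfl | rfl
    exacts [k, t5 k, t20 (a 17 20 (by decide +kernel) k), t6 k, t20 (b 18 20 (by decide +kernel) k), t20 k,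
      t6 (a 23 6 (by decide +kernel) k)]
  have p5 := b 3 5 (by decide +kernel) p3
  have p6 := b 5 6 (by decide +kernel) p5
  have p17 := a 5 17 (by decide +kernel) p5
  have p18 := a 6 18 (by decide +kernel) p6
  obtain ⟨r, hr, e⟩ := irr_chk v hv hv'
  refine st (v := vv r) ?_ (mul_comm v _ ▸ e)
  simp only [List.mem_cons, List.not_mem_nil, or_false] at hr
  rcases hr with rfl | rfl | rfl | rfl | rfl | rfl | rfl
  exacts [p3, p5, p17, p6, p18, a 17 20 (by decide +kernel) p17, a 18 23 (by decide +kernel) p18]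

/-- elements whose products all have the same square -/
theorem anti {ζ u w : G} (hz : ζ * ζ = 1) (h1 : u * u = ζ) (h2 : w * w = ζ) (h3 : u * w * (u * w) = ζ) :
    w * u = ζ * (u * w) := by
  have i1 : u⁻¹ = ζ * u := inv_eq_of_mul_eq_one_left (by rw [mul_assoc, h1, hz])
  have i2 : w⁻¹ = ζ * w := inv_eq_of_mul_eq_one_left (by rw [mul_assoc, h2, hz])
  calc w * u = u⁻¹ * (u * w * (u * w)) * w⁻¹ := by group
    _ = ζ * u * (ζ * ζ) * w := by rw [h3, i1, i2]; simp only [mul_assoc]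
    _ = _ := by rw [hz, mul_one, mul_assoc]

/-- `u` or `1` -/
def bg (p : Bool) (u : G) : G := bif p then u else 1
theorem bg_xor {u : G} (h : u * u = 1) (p q : Bool) : bg (xor p q) u = bg p u * bg q u := by
  cases p <;> cases q <;> simp [bg, h]
theorem bg_mem {Y : Subgroup G} {u : G} (h : u ∈ Y) (p : Bool) : bg p u ∈ Y := by
  cases p
  exacts [one_mem _, h]
theorem Nu.bg {u : G} {v : V} (h : Nu s u v) (p : Bool) : Nu s (bg p u) (bc p v) := by
  cases p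
  exacts [Nu.one, h]
/-- the component in `RM` -/
def rmc (v : V) : V := v * bc (dot v (vv 0xAA)) (vv 3) * bc (dot v (vv 0xCC)) (vv 5) * bc (dot v (vv 0xF0)) (vv 17)
theorem rmc_mem : ∀ v, v ∈ Ev → rmc v ∈ RM := by decide +kernel
theorem rmc_mul (v w : V) : rmc (v * w) = rmc v * rmc w := by
  simp only [rmc, dot_mul, bc_xor]; ac_rfl
theorem rmc_eq (v : V) : rmc v * bc (dot v (vv 0xAA)) (vv 3) * bc (dot v (vv 0xCC)) (vv 5) *
    bc (dot v (vv 0xF0)) (vv 17) = v := by revert v; decide +kernel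
theorem mul8 {Y : Subgroup G} (hc : ∀ u ∈ Y, ∀ w ∈ Y, u * w = w * u) {a b c d a' b' c' d' : G} (ha : a ∈ Y)
    (hb : b ∈ Y) (hc' : c ∈ Y) (hd : d ∈ Y) (ka : a' ∈ Y) (kb : b' ∈ Y) (kc : c' ∈ Y) (kd : d' ∈ Y) :
    a * a' * (b * b') * (c * c') * (d * d') = a * b * c * d * (a' * b' * c' * d') := by
  let : CommGroup Y := { (inferInstance : Group Y) with mul_comm := fun u w => Subtype.ext (hc _ u.2 _ w.2) }
  have : ∀ a b c d a' b' c' d' : Y, a * a' * (b * b') * (c * c') * (d * d') =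
    a * b * c * d * (a' * b' * c' * d') := fun _ _ _ _ _ _ _ _ => by ac_rfl
  exact congrArg Subtype.val (this ⟨a, ha⟩ ⟨b, hb⟩ ⟨c, hc'⟩ ⟨d, hd⟩ ⟨a', ka⟩ ⟨b', kb⟩ ⟨c', kc⟩ ⟨d', kd⟩)

end K

/-- Let `X = N(Q) ⊓ C(A') ∋ δ`, `T = im s T0`. `inv_syl` gives `F0` Sylow in `X`, normalised by `T`, with
`A' ≤ F0`. By `autQ` each `g ∈ X` acts on `Q` as `il (ν g)`, `ν g ∈ Ev` unique modulo `255`, `ν` is a
homomorphism modulo `255` with kernel `C(Q) = ⟨z⟩ × O_Q` (`cenQ`, `O_Q = O ⊓ C(Q)` is normal in `N(Q)`: it is the set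
of elements of odd order of `C(Q)`). `ν δ ∉ RM` as `δ ∉ N(A)`. For `g ∈ T` or a lift `g1, g2` (they normalise `Q`,
`A'`, hence `X`), `ν (g u g⁻¹) = σ (ν u)` modulo `255`; `Ev / RM` is irreducible under `r1V, r2V, aS`, so `ν X = Ev`,
`X = F0 O_Q` (index: `X / O_Q` is a 2-group), `|F0| = 128`, `F0 ⊓ C(Q) = ⟨z⟩`.
Lifts: `g1 •ᶜ (F0 ⊔ s T00) ≤ (F0 ⊔ s T00) ⊔ O_Q`; `lift_syl` gives `o ∈ O_Q` centralising `s T00` with
`o g1 ∈ N(F0)`; the same for `g2`.
`F0` is elementary abelian: `F0 / ⟨z⟩ ≅ Ev / 255` is elementary, so squares and commutators are in `⟨z⟩`,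
`A'` is central; `q u = [u² = z]` is constant on cosets of `A'` and invariant under `g1, g2, T`, which are
transitive on the seven nontrivial cosets; if `q = 1` on all of them then for `u, w` in independent cosets
`(u w)² = u² w² [u, w]` gives `[u, w] = z`, and for `u₁, u₂, u₃` independent `[u₁, u₂ u₃] = z z = 1 ≠ z`. So all
squares are 1.
Coordinates: choose `c (vv 3), c (vv 5), c (vv 17) ∈ F0` with these values of `ν` and extend multiplicatively
over `RM` (`Ev = RM × ⟨3, 5, 17⟩`). `qa`: for `t ∈ A0`, `c v * s(ir t) * (c v)⁻¹ = s (il v * ir t * (il v)⁻¹)`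
`= s (il (v * aS t v)) * s (ir t)`. -/
theorem N0.f1 (h : N0 s O) {δ : G} (h1 : δ ∈ NN (im s Q)) (h2 : δ ∈ CC (im s A')) (h3 : δ ∉ NN (im s A)) :
    ∃ c g1 g2, Fs s c g1 g2 := by
  set X := NN (im s Q) ⊓ CC (im s A') with hX
  have nX {g : G} (k1 : g ∈ NN (im s Q)) (k2 : g ∈ NN (im s A')) : g ∈ NN X :=
    inf_normalizer_le_normalizer_inf ⟨le_normalizer k1, normalizer_le_normalizer_centralizer _ k2⟩
  obtain ⟨F0, sy, nT, lT, pF⟩ := inv_syl (X := X) (h.ch.pg le_rfl) fun g hg => nX (h.ch.nQ hg) (h.ch.nA' hg)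
  have mA {w : V} (hw : w ∈ RM) : s (il w) ∈ F0 :=
    lT ⟨mem_im s (il_T0 hw), h.ch.nQ (mem_im s (il_T0 hw)), h.ch.A'_cen (mem_im s (il_A' hw))⟩
  have mz : s z ∈ F0 := mA (by decide +kernel)
  have cA {u : G} (hu : u ∈ F0) {w : V} (hw : w ∈ RM) : u * s (il w) = s (il w) * u :=
    mem_CC_im.1 (sy.le hu).2 _ (il_A' hw)
  have cz {u : G} (hu : u ∈ F0) : u * s z = s z * u := cA hu (by decide +kernel)
  have nu {g : G} (hg : g ∈ X) : ∃ v, Nu s g v := exists_nu h.ch hg.1 hg.2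
  have ker {u : G} (hu : u ∈ F0) (k : Nu s u 1) : u = 1 ∨ u = s z :=
    h.cenQ2 sy.pgroup hu (k.cen (one_mem _))
  obtain ⟨g1, a1⟩ := h.r1
  obtain ⟨g2, a2⟩ := h.r2
  have n1 : g1 ∈ NN X := nX (a1.norm Q_le_T00 fun m hm => (rh_Q m hm).1)
    (a1.norm (A'_le_Q.trans Q_le_T00) fun m hm => (rh_A' m hm).1)
  have n2 : g2 ∈ NN X := nX (a2.norm Q_le_T01 fun m hm => (rh_Q m hm).2)
    (a2.norm (A'_le_Q.trans Q_le_T01) fun m hm => (rh_A' m hm).2)
  have onX : ∀ v ∈ Ev, ∃ g ∈ X, Nu s g v := fun v hv => by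
    by_cases hv' : v ∈ RM
    · exact ⟨_, sy.le (mA hv'), Nu.of_RM h.ch hv'⟩
    obtain ⟨u, hu⟩ := nu ⟨h1, h2⟩
    exact irr (p := fun v => ∃ g ∈ X, Nu s g v)
      (fun v ⟨g, hg, k⟩ => ⟨_, SX.Hx.conj_mem n1 hg, k.c1 a1⟩)
      (fun v ⟨g, hg, k⟩ => ⟨_, SX.Hx.conj_mem n2 hg, k.c2 a2⟩)
      (fun v ⟨g, hg, k⟩ w hw => ⟨_, mul_mem hg (sy.le (mA hw)), k.mul (Nu.of_RM h.ch hw)⟩) hu.1
      (fun k => h3 (hu.2.norm A_le_Q (A_nm _ (il_T0 k)))) ⟨δ, ⟨h1, h2⟩, hu⟩ hv hv'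
  have on : ∀ v ∈ Ev, ∃ u ∈ F0, Nu s u v := fun v hv => by
    obtain ⟨g, hg, k⟩ := onX v hv
    obtain ⟨i, n, ⟨j, rfl⟩, e⟩ := Nat.exists_eq_two_pow_mul_odd (orderOf_pos g).ne'
    obtain ⟨y, hy, le⟩ := sy.exists_conj_le (isPGroup_zpowers (x := g ^ (2 * j + 1)) (k := i)
      (by rw [← pow_mul, mul_comm, ← e, pow_orderOf_eq_one])) (zpowers_le.2 (pow_mem hg _))
    obtain ⟨w, hw⟩ := nu hy
    refine ⟨_, le (conj_mem_cj (mem_zpowers _)), ?_⟩
    have := (hw.mul (k.pow j)).mul hw.inv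
    rwa [mul_right_comm, SX.V.mul_self, one_mul] at this
  have hXF : X ≤ F0 ⊔ OQ s O := fun g hg => by
    obtain ⟨v, k⟩ := nu hg
    obtain ⟨u, hu, k'⟩ := on v k.1
    obtain ⟨y, hy, o, ho, e⟩ := h.cenQ' ((k'.inv.mul k).cen (by rw [SX.V.mul_self]; exact one_mem _))
    rw [inv_mul_eq_iff_eq_mul.1 e]
    refine mul_mem (mem_sup_left hu) (mul_mem (mem_sup_left ?_) (mem_sup_right ho))
    rcases hy with rfl | rfl
    exacts [one_mem _, mz]
  have oX : ∀ o ∈ OQ s O, o ∈ NN X := fun o ho =>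
    le_normalizer ⟨centralizer_le_normalizer _ ho.2, centralizer_le (im_mono s A'_le_Q) ho.2⟩
  obtain ⟨o1, m1, b1, -⟩ := h.lift sy hXF T00_le pF (sy.le.trans inf_le_left) a1
    (fun m hm => (T00_T0 m hm).2) n1 fun o ho _ => oX o ho
  obtain ⟨o2, m2, b2, -⟩ := h.lift sy hXF T01_le pF (sy.le.trans inf_le_left) a2
    (fun m hm => (T01_T0 m hm).2) n2 fun o ho _ => oX o ho
  generalize o1 * g1 = k1 at m1 b1
  generalize o2 * g2 = k2 at m2 b2
  have z2 := h.ch.sz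
  have sA {w : V} (hw : w ∈ RM) : s (il w) * s (il w) = 1 := by
    rw [← h.ch.mul _ (il_T0 hw) _ (il_T0 hw), ← map_mul, SX.V.mul_self, map_one, h.ch.one]
  have same {u u' : G} {v : V} (hu : u ∈ F0) (hu' : u' ∈ F0) (k : Nu s u v) (k' : Nu s u' v) :
      u' * u' = u * u := by
    rcases ker (mul_mem (inv_mem hu) hu') (SX.V.mul_self v ▸ k.inv.mul k') with e | e
    · rw [← inv_mul_eq_one.1 e]
    · rw [inv_mul_eq_iff_eq_mul.1 e, mul_assoc, ← mul_assoc (s z), ← cz hu, mul_assoc, z2.1, mul_one]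
  have sq : ∀ u ∈ F0, u * u = 1 := fun u hu => by
    obtain ⟨v, k⟩ := nu (sy.le hu)
    refine (ker (mul_mem hu hu) (SX.V.mul_self v ▸ k.mul k)).resolve_right fun e => ?_
    have hv : v ∉ RM := fun hv => z2.2 (by rw [← e, same (mA hv) hu (Nu.of_RM h.ch hv) k, sA hv])
    have all {v' : V} (k1' : v' ∈ Ev) (k2' : v' ∉ RM) {u' : G} (hu' : u' ∈ F0) (k' : Nu s u' v') :
        u' * u' = s z := by
      obtain ⟨y, hy, q, e'⟩ := irr (p := fun v => ∃ u ∈ F0, Nu s u v ∧ u * u = s z)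
        (fun v ⟨g, hg, k, e⟩ => ⟨_, SX.Hx.conj_mem m1 hg, k.c1 b1, by
          rw [conj_mul, e, b1 z (Q_le_T00 (A'_le_Q z_A')), rh_z.1]⟩)
        (fun v ⟨g, hg, k, e⟩ => ⟨_, SX.Hx.conj_mem m2 hg, k.c2 b2, by
          rw [conj_mul, e, b2 z (Q_le_T01 (A'_le_Q z_A')), rh_z.2]⟩)
        (fun v ⟨g, hg, k, e⟩ w hw => ⟨_, mul_mem hg (mA hw), k.mul (Nu.of_RM h.ch hw), by
          rw [mul_assoc, ← mul_assoc (s (il w)), ← cA hg hw, mul_assoc, sA hw, mul_one, e]⟩)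
        k.1 hv ⟨u, hu, k, e⟩ k1' k2'
      rw [same hy hu' q k', e']
    obtain ⟨u1, c1, q1⟩ := on (vv 3) (by decide +kernel)
    obtain ⟨u2, c2, q2⟩ := on (vv 5) (by decide +kernel)
    obtain ⟨u3, c3, q3⟩ := on (vv 17) (by decide +kernel)
    have s1 := all (by decide +kernel) (by decide +kernel) c1 q1
    have s2 := all (by decide +kernel) (by decide +kernel) c2 q2
    have s3 := all (by decide +kernel) (by decide +kernel) c3 q3
    have e12 := anti z2.1 s1 s2 (all (by decide +kernel) (by decide +kernel) (mul_mem c1 c2) (q1.mul q2))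
    have e13 := anti z2.1 s1 s3 (all (by decide +kernel) (by decide +kernel) (mul_mem c1 c3) (q1.mul q3))
    have e123 := anti z2.1 s1 (all (by decide +kernel) (by decide +kernel) (mul_mem c2 c3) (q2.mul q3))
      (all (by decide +kernel) (by decide +kernel) (mul_mem c1 (mul_mem c2 c3)) (q1.mul (q2.mul q3)))
    rw [mul_assoc, e13, ← mul_assoc, cz c2, mul_assoc, ← mul_assoc u2, e12, ← mul_assoc, ← mul_assoc, z2.1,
      one_mul, mul_assoc] at e123
    exact z2.2 (right_eq_mul.1 e123)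
  have cm : ∀ u ∈ F0, ∀ w ∈ F0, u * w = w * u := fun u hu w hw => by
    rw [← inv_eq_of_mul_eq_one_right (sq _ (mul_mem hu hw)), mul_inv_rev, inv_eq_of_mul_eq_one_right (sq _ hu),
      inv_eq_of_mul_eq_one_right (sq _ hw)]
  obtain ⟨u1, c1, q1⟩ := on (vv 3) (by decide +kernel)
  obtain ⟨u2, c2, q2⟩ := on (vv 5) (by decide +kernel)
  obtain ⟨u3, c3, q3⟩ := on (vv 17) (by decide +kernel)
  let c : V → G := fun v => s (il (rmc v)) * bg (dot v (vv 0xAA)) u1 * bg (dot v (vv 0xCC)) u2 *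
    bg (dot v (vv 0xF0)) u3
  have cF {v : V} (hv : v ∈ Ev) : c v ∈ F0 :=
    mul_mem (mul_mem (mul_mem (mA (rmc_mem v hv)) (bg_mem c1 _)) (bg_mem c2 _)) (bg_mem c3 _)
  have cN {v : V} (hv : v ∈ Ev) : Nu s (c v) v := by
    have := (((Nu.of_RM h.ch (rmc_mem v hv)).mul (q1.bg (dot v (vv 0xAA)))).mul (q2.bg (dot v (vv 0xCC)))).mul
      (q3.bg (dot v (vv 0xF0)))
    rwa [rmc_eq] at this
  have cmul : ∀ v ∈ Ev, ∀ w ∈ Ev, c (v * w) = c v * c w := fun v hv w hw => by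
    simp only [c, rmc_mul, map_mul, dot_mul, bg_xor (sq _ c1), bg_xor (sq _ c2), bg_xor (sq _ c3),
      h.ch.mul _ (il_T0 (rmc_mem v hv)) _ (il_T0 (rmc_mem w hw))]
    exact mul8 cm (mA (rmc_mem v hv)) (bg_mem c1 _) (bg_mem c2 _) (bg_mem c3 _) (mA (rmc_mem w hw))
      (bg_mem c1 _) (bg_mem c2 _) (bg_mem c3 _)
  have cext : ∀ v ∈ RM, c v = s (il v) := fun v hv => by
    simp only [c, rmc, dot_RM v hv _ (show vv 0xAA ∈ RM by decide +kernel),
      dot_RM v hv _ (show vv 0xCC ∈ RM by decide +kernel), dot_RM v hv _ (show vv 0xF0 ∈ RM by decide +kernel),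
      bg, bc, cond_false, mul_one]
  have eF : im c Ev = F0 := le_antisymm (im_le.2 fun v hv => cF hv) fun u hu => by
    obtain ⟨v, k⟩ := nu (sy.le hu)
    have : u * (c v)⁻¹ ∈ im c Ev := by
      rcases ker (mul_mem hu (inv_mem (cF k.1))) (SX.V.mul_self v ▸ k.mul (cN k.1).inv) with e | e <;> rw [e]
      exacts [one_mem _, cext _ (show vv 255 ∈ RM by decide +kernel) ▸ mem_im c (by decide +kernel)]
    simpa using mul_mem this (mem_im c k.1)
  refine ⟨c, k1, k2, cmul, fun v hv e => ?_, cext, fun t ht v hv => ?_, eF ▸ sy, eF ▸ nT, b1, eF ▸ m1, b2,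
    eF ▸ m2⟩
  · have k := Z1_le ((cN hv).z1 h.ch (e ▸ one_mem _))
    exact il_inj (by rw [map_one]; exact h.ch.inj _ (il_T0 k) (by rw [← cext v k, e]))
  · have e := (cN hv).2 _ (ir_Q ht)
    beta_reduce at e
    rw [il_conj, ir_t, h.ch.mul _ (il_T0 (com_A0 v hv t ht)) _ (Q_le_T0 (ir_Q ht)), ← cext _ (com_A0 v hv t ht),
      cmul v hv _ (aS_Ev t hv), inv_eq_of_mul_eq_one_right (sq _ (cF hv)), mul_assoc (c v),
      mul_assoc (c v), mul_right_inj] at e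
    rw [e, mul_inv_cancel_right]

end CL.HA
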