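import Cfsg.Agent.INV.HA.Cls

/-!
Harada `E₁₆ · GL₄(2)`, type `S₁₆`: `E` is strongly closed with respect to `C(z)`.
-/

set_option autoImplicit false
set_option maxHeartbeats 400000
set_option linter.unusedSectionVars false

namespace CL.HA
open Subgroup CL.MSS CL.PComp
open CL.SX (V vv e ZZ pc)

variable {G : Type*} [Group G] [Finite G] {φ : P →* G} {O : Subgroup G}

namespace Hs1

theorem wA : ∀ u, w9 u + w9 (u * vv 255) = bif par u then 5 else 4 := by decide +kernel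
theorem wB : ∀ t, t ∈ Lo → t ≠ 1 → ∀ v : V, (⟨v, t⟩ : P) * ⟨v, t⟩ = 1 → (⟨v, t⟩ : P) * z ∈ J ∧
    5 ≤ w9 (ev ⟨v, t⟩) + w9 (ev (⟨v, t⟩ * z)) ∧
    (w9 (ev ⟨v, t⟩) + w9 (ev (⟨v, t⟩ * z)) = 5 → ∃ i : Fin 4, t = ts (2 ^ i.1)) := by decide +kernel
theorem wC : ∀ i : Fin 4, ts (2 ^ i.1) ≠ 1 ∧ par (vv (3 * 4 ^ i.1)) = false ∧
    aS (ts (2 ^ i.1)) (vv (3 * 4 ^ i.1)) = vv (3 * 4 ^ i.1) ∧
    ∀ w, w * aS (ts (2 ^ i.1)) w = 1 ∨ w * aS (ts (2 ^ i.1)) w = vv (3 * 4 ^ i.1) := by decide +kernel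
theorem mE (w : V) : φ (il w) ∈ E.map φ := mem_map_of_mem φ (show il w ∈ E from ⟨trivial, rfl⟩)
theorem z_cen (m : P) : m * z = z * m := eq_mul_of_mul_inv_eq ((conj_il m _).trans (by rw [aS_255])) ▸ rfl
theorem cz (m : P) : φ m ∈ Cz (φ z) := mem_centralizer_singleton_iff.2 (by rw [← map_mul, z_cen, map_mul])
theorem in_z {g : G} {σ : Equiv.Perm (Fin 8)} (k : In φ g (pm σ)) : g ∈ Cz (φ z) :=
  mem_centralizer_singleton_iff.2 (eq_mul_of_mul_inv_eq ((k (vv 255)).trans (by rw [pm_255])) ▸ rfl)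
theorem fix {σ : Equiv.Perm (Fin 9)} (h : pm9 σ (vv 255) = vv 255) : ∃ τ, pm9 σ = pm τ :=
  pm9_fix (u9_inj (by rw [← pm9_u9, u9_last, h]))
theorem nm_cl {S : Set G} {g : G} (h : ∀ s ∈ S, g * s * g⁻¹ ∈ closure S) : g ∈ NN (closure S) :=
  mem_normalizer_fintype fun _ hy => (closure_le ((closure S).comap (MulAut.conj g).toMonoidHom)).2 h hy

end Hs1

open Hs1

theorem Fz.exists_in (h : Fz φ O) (σ : Equiv.Perm (Fin 9)) : ∃ g, In φ g (pm9 σ) := by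
  exact h.au.ge ⟨σ, rfl⟩
theorem Fz.of_norm (h : Fz φ O) {g : G} (hg : g ∈ NN (E.map φ)) : ∃ σ, In φ g (pm9 σ) := by
  obtain ⟨ψ, hψ, k⟩ := HA.exists_in h.inj hg
  obtain ⟨σ, rfl⟩ := h.au.le hψ
  exact ⟨σ, k⟩
/-- `pm9_u9`, `pm9_fix` -/
theorem Fz.of_norm_z (h : Fz φ O) {g : G} (hg : g ∈ NN (E.map φ)) (hz : g ∈ Cz (φ z)) : ∃ σ, In φ g (pm σ) := by
  obtain ⟨σ, k⟩ := h.of_norm hg
  obtain ⟨τ, e⟩ := fix (σ := σ) (il_inj (h.inj ((k _).symm.trans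
    (mul_inv_eq_of_eq_mul (mem_centralizer_singleton_iff.1 hz)))))
  exact ⟨τ, e ▸ k⟩
theorem Fz.w9_eq (h : Fz φ O) {u v : V} (e : IsConj (φ (il u)) (φ (il v))) : w9 u = w9 v := by
  obtain ⟨ψ, hψ, rfl⟩ := h.ctrl1 e
  obtain ⟨σ, rfl⟩ := h.au.le hψ
  exact (w9_pm9 σ u).symm
/-- `ctrl` for `W = ⟨u, 255⟩` -/
theorem Fz.pc_eq (h : Fz φ O) {g : G} (hg : g ∈ Cz (φ z)) {u v : V} (e : g * φ (il u) * g⁻¹ = φ (il v)) :
    pc u = pc v := by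
  have ez : g * φ (il (vv 255)) * g⁻¹ = φ (il (vv 255)) := mul_inv_eq_of_eq_mul (mem_centralizer_singleton_iff.1 hg)
  obtain ⟨n, ψ, hψ, -, k⟩ := h.ctrl ((E.map φ).comap ((MulAut.conj g).toMonoidHom.comp (φ.comp il))) fun _ hv => hv
  obtain ⟨σ, rfl⟩ := h.au.le hψ
  obtain ⟨τ, t⟩ := fix (σ := σ) (il_inj (h.inj ((k _ (show g * φ (il _) * g⁻¹ ∈ _ from
    ez ▸ mE _)).trans ez)))
  rw [← il_inj (h.inj ((k u (show g * φ (il _) * g⁻¹ ∈ _ from e ▸ mE _)).trans e)), t, pc_pm]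

/-- By `cl2` we may assume `m ∈ J`. `φ m ~ il u` and `φ (m z) ~ il (u 255)`, so (`cl1`, `w9_eq`) `w9 (ev m) = w9 u`,
`w9 (ev (m z)) = w9 (u 255)`. The sum is 4 for even `u`, 5 for odd `u`; for `m` with `k ≥ 1` bits in `m.t` it is `≥ 4 + k`. So `u` is odd
and `k = 1` (`decide`). -/
theorem Fz.sc0 (h : Fz φ O) {g : G} (hg : g ∈ Cz (φ z)) {u : V} {m : P} (e : g * φ (il u) * g⁻¹ = φ m)
    (ht : m.t ≠ 1) : par u = true ∧ ∃ k σ, In φ k (pm σ) ∧ ∃ (i : Fin 4) (v : V), k * φ m * k⁻¹ = φ ⟨v, ts (2 ^ i.1)⟩ := by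
  have sq : ∀ {g u m}, g * φ (il u) * g⁻¹ = φ m → m * m = 1 := fun e => h.inj (by
    rw [map_mul, ← e, conj_mul, ← map_mul, ← map_mul, SX.V.mul_self]; simp)
  obtain ⟨k, σ, hk, ⟨v, t⟩, hm, e1, t1⟩ := h.cl2 (sq e)
  obtain ⟨y, hy⟩ := h.y0
  have w : ∀ {g u m}, g * φ (il u) * g⁻¹ = φ m → m ∈ J → w9 u = w9 (ev m) := fun {g u m} e hm =>
    let ⟨a, _, ea⟩ := hy.cl1 (M := ⊤) le_top trivial hm (sq e)
    h.w9_eq (isConj_iff.2 ⟨a * g, by rw [← ea, ← e]; group⟩)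
  have e2 : k * g * φ (il u) * (k * g)⁻¹ = φ ⟨v, t⟩ := by rw [← e1, ← e]; group
  obtain ⟨b1, b2, b3⟩ := wB t hm.2 (t1 ht) v (sq e2)
  have e3 : k * g * φ (il (u * vv 255)) * (k * g)⁻¹ = φ (⟨v, t⟩ * z) := by
    rw [map_mul, map_mul, ← conj_mul, e2, map_mul]
    exact congrArg _ (mul_inv_eq_of_eq_mul (mem_centralizer_singleton_iff.1 (mul_mem (in_z hk) hg)))
  rw [← w e2 hm, ← w e3 b1, wA] at b2 b3
  cases hp : par u <;> rw [hp] at b2 b3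
  · exact absurd b2 (by decide)
  · obtain ⟨i, rfl⟩ := b3 rfl
    exact ⟨rfl, k, σ, hk, i, v, e1⟩

/-- `H = C(z)`, `E` is weakly closed in `H` (`wcE.mono`). Suppose `m.t ≠ 1`; by `sc0`, `m = ⟨v, 2 ^ i⟩`. `φ m ∈ g •ᶜ E`; `wc_choose` in
`L = H ⊓ C(φ m)` with `R = zpowers (φ (zb i))` gives a conjugate `B ∋ φ m` of `E` under `H` normalised by `φ (zb i)`.
If `φ (zb i) ∈ B` then `Y = ⟨φ m, φ (zb i)⟩ ≤ B` is normalised by `E` (`[E, m] = ⟨zb i⟩`) and by `B`, so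
`|E ⊓ Y| = |B ⊓ Y|` (`wc_meet`) gives `Y ≤ E`, false. Otherwise `wc_frame` gives `k ∈ H` with `k •ᶜ B = E`,
`k φ(zb i) k⁻¹ = φ m'`, `m'.t ≠ 1`, and `sc0` says that `zb i` has odd weight. -/
theorem Fz.sc (h : Fz φ O) {g : G} (hg : g ∈ Cz (φ z)) {u : V} {m : P} (e : g * φ (il u) * g⁻¹ = φ m) : m.t = 1 := by
  by_contra ht
  obtain ⟨-, k, σ, hk, i, v, e1⟩ := h.sc0 hg e ht
  obtain ⟨c1, c2, c3, c4⟩ := wC i
  have rz : φ.range ≤ Cz (φ z) := by rintro _ ⟨m, rfl⟩; exact cz m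
  have wc := h.wcE.mono ((map_le_range φ E).trans rz) le_top
  have ab : ∀ (a : G), ∀ p ∈ a •ᶜ E.map φ, ∀ q ∈ a •ᶜ E.map φ, p * q = q * p := by
    rintro a _ ⟨_, ⟨p, hp, rfl⟩, rfl⟩ _ ⟨_, ⟨q, hq, rfl⟩, rfl⟩
    rw [eq_il hp.2, eq_il hq.2]
    simp only [← map_mul, mul_comm]
  have hkg := mul_mem (in_z hk) hg
  have m1 : φ ⟨v, ts (2 ^ i.1)⟩ ∈ (k * g) •ᶜ E.map φ := mem_cj'.2 ⟨_, mE u, by rw [← e1, ← e]; group⟩
  have pR : IsPGroup 2 (zpowers (φ (zb i))) := (h.syl.pgroup).to_le (zpowers_le.2 ⟨_, rfl⟩)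
  have zm : zb i * ⟨v, ts (2 ^ i.1)⟩ = ⟨v, ts (2 ^ i.1)⟩ * zb i :=
    (eq_mul_of_mul_inv_eq ((conj_il _ _).trans (congrArg il c3))).symm
  obtain ⟨n, hn, nB⟩ := wc_choose (L := Cz (φ z) ⊓ Cz (φ ⟨v, ts (2 ^ i.1)⟩)) wc hkg inf_le_left
    (le_inf (cj_le_of_mem wc.le hkg) fun p hp => mem_centralizer_singleton_iff.2 (ab _ _ hp _ m1)) pR
    (zpowers_le.2 ⟨cz _, mem_centralizer_singleton_iff.2 (by rw [← map_mul, zm, map_mul])⟩)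
  have hB := mul_mem hn.1 hkg
  have m2 : φ ⟨v, ts (2 ^ i.1)⟩ ∈ (n * (k * g)) •ᶜ E.map φ := by
    rw [cj_mul]
    exact mem_cj'.2 ⟨_, m1, mul_inv_eq_of_eq_mul (mem_centralizer_singleton_iff.1 hn.2)⟩
  by_cases hz : φ (zb i) ∈ (n * (k * g)) •ᶜ E.map φ
  · let S : Set G := {φ ⟨v, ts (2 ^ i.1)⟩, φ (zb i)}
    have SB : closure S ≤ (n * (k * g)) •ᶜ E.map φ := (closure_le _).2 (by rintro _ (rfl | rfl); exacts [m2, hz])
    have s1 : φ ⟨v, ts (2 ^ i.1)⟩ ∈ closure S := subset_closure (.inl rfl)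
    have s2 : φ (zb i) ∈ closure S := subset_closure (.inr rfl)
    have := wc_meet (Y := closure S) wc hB (by
      rintro _ ⟨p, hp, rfl⟩
      refine nm_cl ?_
      rw [eq_il hp.2]
      rintro _ (rfl | rfl)
      · have : il p.v * ⟨v, ts (2 ^ i.1)⟩ * (il p.v)⁻¹ = il (p.v * aS (ts (2 ^ i.1)) p.v) * ⟨v, ts (2 ^ i.1)⟩ :=
          P.ext (by simp [one_aS, mul_assoc, mul_comm v]) (by simp)
        rw [← map_inv, ← map_mul, ← map_mul, this, map_mul]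
        rcases c4 p.v with c | c <;> rw [c]
        · simpa using s1
        · exact mul_mem s2 s1
      · rw [← map_inv, ← map_mul, ← map_mul, zb, conj_il, il_t, one_aS]; exact s2)
      fun p hp => nm_cl fun s hs => by
        rw [ab _ p hp s (SB (subset_closure hs)), mul_inv_cancel_right]; exact subset_closure hs
    rw [inf_eq_right.2 SB] at this
    obtain ⟨p, hp, ep⟩ := ((eq_of_le_of_card_ge inf_le_right this.ge).ge s1).1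
    exact c1 ((congrArg P.t (h.inj ep)).symm.trans hp.2)
  · obtain ⟨a, ha, a1, a2⟩ := wc_frame wc (h.syl.of_le rz le_top) (map_le_range φ E) hB pR (zpowers_le.2 (cz _)) nB
    obtain ⟨m', em⟩ := a2 (conj_mem_cj (mem_zpowers _))
    refine absurd (h.sc0 ha em.symm fun t => hz ?_).1 (by rw [c2]; decide)
    rw [← conj_mem_cj_iff (g := a), a1, ← em, eq_il t]
    exact mE _

end CL.HA
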