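import Cfsg.Agent.INV.HA.St
import Cfsg.Agent.KSG.AltAut
import Mathlib.GroupTheory.SpecificGroups.Alternating

/-!
Harada `E₁₆ · GL₄(2)`: centralisers of involutions with support 16 in `A₁₈`, `A₁₉`.
-/

set_option autoImplicit false
set_option maxHeartbeats 400000

namespace CL.HA
open Subgroup CL.MSS CL.PComp
open CL.SX (V vv e ZZ pc)



namespace Iso
open Equiv Equiv.Perm

theorem mem_e {K : Subgroup V} (h : ∀ p, e p ∈ K) (v : V) : v ∈ K := by
  have : ∀ i j, SX.bt (e i) v j ∈ K := fun i j => by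
    unfold SX.bt; cases v.n.testBit j
    exacts [one_mem _, h i]
  rw [← SX.lin_id v, SX.lin_apply]
  repeat first | exact this _ _ | apply mul_mem

theorem bound {X : Type*} [Group X] [Finite X] {s : X} {i : V →* X} {k : Perm (Fin 8) →* X}
    (ki : ∀ σ v, k σ * i v * (k σ)⁻¹ = i (pm σ v)) (ks : ∀ σ, k σ * s = s * k σ)
    (is : ∀ p, i (e p) * s * (i (e p))⁻¹ = s⁻¹) :
    Nat.card ↥((k.range ⊔ i.range) ⊔ zpowers s) ≤ orderOf s * (256 * 40320) := by
  have nz : ∀ g : X, g * s * g⁻¹ ∈ zpowers s → g ∈ normalizer (zpowers s : Set X) := fun g hg =>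
    mem_normalizer_fintype (by
      rintro _ ⟨n, rfl⟩
      simpa [conj_zpow] using zpow_mem hg n)
  have h1 := card_sup_dvd_of_le_normalizer (H := k.range) (N := i.range) (by
    rintro _ ⟨σ, rfl⟩
    exact mem_normalizer_fintype (by rintro _ ⟨v, rfl⟩; exact ⟨_, (ki σ v).symm⟩))
  have h2 := card_sup_dvd_of_le_normalizer (H := k.range ⊔ i.range) (N := zpowers s) (sup_le
    (by rintro _ ⟨σ, rfl⟩; exact nz _ (by rw [ks, mul_inv_cancel_right]; exact mem_zpowers s))
    (by rintro _ ⟨v, rfl⟩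
        exact mem_e (K := (normalizer (zpowers s : Set X)).comap i)
          (fun p => nz _ (by rw [is]; exact inv_mem (mem_zpowers s))) v))
  have c1 : Nat.card k.range ≤ 40320 := (Nat.card_le_card_of_surjective _ k.rangeRestrict_surjective).trans
    (by rw [Nat.card_perm]; simp [Nat.factorial])
  have c2 : Nat.card i.range ≤ 256 := (Nat.card_le_card_of_surjective _ i.rangeRestrict_surjective).trans SX.V.card.le
  rw [Nat.card_zpowers] at h2
  refine (Nat.le_of_dvd (Nat.mul_pos Nat.card_pos (orderOf_pos s)) h2).trans ?_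
  rw [mul_comm]
  exact Nat.mul_le_mul_left _ ((Nat.le_of_dvd (Nat.mul_pos Nat.card_pos Nat.card_pos) h1).trans
    (by rw [mul_comm]; exact Nat.mul_le_mul c2 c1))

def I0 : V →* Perm (Fin 8 × Bool) := MonoidHom.mk'
  (fun v => Function.Involutive.toPerm (fun x => (x.1, xor (v.n.testBit x.1) x.2)) fun x => by simp)
  fun a b => Equiv.ext fun x => Prod.ext rfl (by
    show xor ((a * b).n.testBit x.1) x.2 = xor (a.n.testBit x.1) (xor (b.n.testBit x.1) x.2)
    rw [SX.V.mul_n, Nat.testBit_xor, Bool.xor_assoc])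
theorem I0_apply (v : V) (x : Fin 8 × Bool) : I0 v x = (x.1, xor (v.n.testBit x.1) x.2) := rfl
def K0 : Perm (Fin 8) →* Perm (Fin 8 × Bool) := MonoidHom.mk' (fun σ => Equiv.prodCongrLeft fun _ => σ) fun _ _ => rfl
theorem K0_apply (σ : Perm (Fin 8)) (x : Fin 8 × Bool) : K0 σ x = (σ x.1, x.2) := rfl
theorem he : ∀ i j : Fin 8, (e i).n.testBit j.1 = decide (i = j) := by decide +kernel
theorem h255 : ∀ j : Fin 8, (vv 255).n.testBit j.1 = true := by decide +kernel
theorem bits : ∀ v : V, (∀ j : Fin 8, v.n.testBit j.1 = false) → v = 1 := by decide +kernel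
theorem I0_e (p : Fin 8) : I0 (e p) = swap (p, false) (p, true) := Equiv.ext (by revert p; decide +kernel)
theorem KI (σ : Perm (Fin 8)) (v : V) : K0 σ * I0 v * (K0 σ)⁻¹ = I0 (pm σ v) :=
  DFunLike.congr_fun (SX.hom_ext (f := (MulAut.conj (K0 σ)).toMonoidHom.comp I0) (g := I0.comp (pm σ).toMonoidHom)
    fun p => by
      show K0 σ * I0 (e p) * (K0 σ)⁻¹ = I0 (pm σ (e p))
      rw [pm_e, I0_e, I0_e, ← swap_apply_apply]; rfl) v
def I1 {β : Type*} (τ : Perm β) (h : τ * τ = 1) : V →* Perm β := MonoidHom.mk' (fun v => bif par v then τ else 1)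
  fun a b => by rw [par_mul]; cases par a <;> cases par b <;> simp [h]
theorem I1_e {β : Type*} (τ : Perm β) (h : τ * τ = 1) (p : Fin 8) : I1 τ h (e p) = τ := by
  show (bif par (e p) then τ else 1) = τ
  rw [(by decide +kernel : ∀ p, par (e p) = true)]; rfl

theorem gen {β : Type} [Fintype β] [DecidableEq β] {τ c : Perm β} (h1 : sign τ = -1) (h2 : τ * τ = 1) (h3 : c ^ 3 = 1)
    (h4 : τ * c * τ⁻¹ = c⁻¹) (h5 : (Fintype.card β).factorial = 2 * orderOf c) {n : ℕ}
    (hn : 16 + Fintype.card β = n) : ∃ zt : ↥(alternatingGroup (Fin n)), orderOf zt = 2 ∧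
    ∃ (s : ↥(Cz zt)) (i : V →* ↥(Cz zt)) (k : Perm (Fin 8) →* ↥(Cz zt)), orderOf s = orderOf c ∧ Pres s i k := by
  let q : (Fin 8 × Bool) ⊕ β ≃ Fin n := Fintype.equivFinOfCardEq (by simpa using hn)
  let J : Perm (Fin 8 × Bool) × Perm β →* Perm (Fin n) := q.permCongrHom.toMonoidHom.comp (sumCongrHom _ _)
  have iJ : Function.Injective J := q.permCongrHom.injective.comp sumCongrHom_injective
  have sJ : ∀ a b, sign (J (a, b)) = sign a * sign b := fun a b =>
    (sign_permCongr q _).trans (sign_sumCongr a b)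
  have sc : sign c = 1 := by
    have := congrArg sign h3
    rw [map_pow, map_one] at this
    rcases Int.units_eq_one_or (sign c) with h | h
    · exact h
    · rw [h] at this; exact absurd this (by decide)
  let z0 : Perm (Fin 8 × Bool) × Perm β := (I0 (vv 255), 1)
  let I := J.comp (I0.prod (I1 τ h2))
  let K := J.comp (K0.prod 1)
  have sI : ∀ v, I v ∈ alternatingGroup (Fin n) := mem_e (K := (alternatingGroup (Fin n)).comap I) fun p =>
    (sJ _ _).trans (by rw [I1_e, I0_e, h1, sign_swap (by simp)]; rfl)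
  have sK : ∀ σ, K σ ∈ alternatingGroup (Fin n) := fun σ => (sJ _ _).trans (by
    rw [show sign (K0 σ) = _ from sign_prodCongrLeft fun _ : Bool => σ]; simp)
  have zI : I (vv 255) = J z0 := congrArg J (Prod.ext rfl (by
    show (bif par (vv 255) then τ else 1) = 1
    rw [(by decide +kernel : par (vv 255) = false)]; rfl))
  let zt : alternatingGroup (Fin n) := ⟨J z0, zI ▸ sI _⟩
  have cz : ∀ (y) (hy : J y ∈ alternatingGroup (Fin n)), y.1 * I0 (vv 255) = I0 (vv 255) * y.1 →
      (⟨J y, hy⟩ : alternatingGroup (Fin n)) ∈ Cz zt := fun y hy h =>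
    mem_centralizer_singleton_iff.2 (Subtype.ext ((map_mul J _ _).symm.trans
      ((congrArg J (Prod.ext h (by simp [z0]))).trans (map_mul J _ _))))
  let s : Cz zt := ⟨⟨J (1, c), (sJ _ _).trans (by simp [sc])⟩, cz _ _ (by simp)⟩
  let i : V →* Cz zt := (I.codRestrict _ sI).codRestrict _ fun v => cz _ _ (by
    simp only [MonoidHom.prod_apply, ← map_mul, mul_comm])
  let k : Perm (Fin 8) →* Cz zt := (K.codRestrict _ sK).codRestrict _ fun σ => cz _ _
    (Equiv.ext fun x => by simp [I0_apply, K0_apply, h255])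
  let ι : Cz zt →* Perm (Fin n) := (Subgroup.subtype _).comp (Subgroup.subtype _)
  have iι : Function.Injective ι := Subtype.val_injective.comp Subtype.val_injective
  have es : ι s = J (1, c) := rfl
  have ei : ∀ v, ι (i v) = J (I0 v, I1 τ h2 v) := fun _ => rfl
  have ek : ∀ σ, ι (k σ) = J (K0 σ, 1) := fun _ => rfl
  have os : orderOf s = orderOf c := by
    rw [← orderOf_injective ι iι, es, orderOf_injective J iJ, Prod.orderOf_mk]; simp
  have z2 : J z0 ^ 2 = 1 := by rw [← zI, ← map_pow, sq, SX.V.mul_self, map_one]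
  have su : (J z0).cycleType.sum = 16 := by
    rw [sum_cycleType, show (J z0).support = Finset.univ.map (Function.Embedding.inl.trans q.toEmbedding) from ?_]
    · simp
    · ext x
      obtain ⟨x, rfl⟩ := q.surjective x
      rcases x with ⟨p, b⟩ | x <;> simp [J, z0, I0_apply, h255]
  have ct : (J z0).cycleType = Multiset.replicate 8 2 := by
    have := cycleType_of_pow_prime_eq_one z2
    rw [this, Multiset.sum_replicate, smul_eq_mul] at su
    rw [this, show (J z0).cycleType.card = 8 by omega]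
  have cd : Nat.card (Cz zt) = orderOf s * (256 * 40320) := by
    have := KSG.card_centralizer_alt (g := zt) fun h => by
      have := h (mem_centralizer_singleton_iff.2 (show J (1, τ) * J z0 = J z0 * J (1, τ) by
        rw [← map_mul, ← map_mul]; simp [z0]))
      rw [mem_alternatingGroup, sJ, h1] at this
      simp at this
    rw [nat_card_centralizer, show (zt : Perm (Fin n)) = J z0 from rfl, su, ct, Fintype.card_fin,
      show n - 16 = Fintype.card β by omega, h5] at this
    simp [Nat.factorial] at this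
    rw [os]
    exact Nat.eq_of_mul_eq_mul_left two_pos (this.trans (by ring))
  refine ⟨zt, orderOf_eq_prime (Subtype.ext z2) fun h => ?_, s, i, k, os, iι ?_, fun σ v => iι ?_, fun σ => iι ?_,
    fun p => iι ?_, fun h => ?_, cd⟩
  · rw [show J z0 = 1 from congrArg Subtype.val h] at su
    simp at su
  · rw [map_pow, es, ← map_pow, map_one, ← map_one J]; exact congrArg J (Prod.ext (one_pow 3) h3)
  · simp only [map_mul, map_inv, ei, ek]
    rw [← map_inv, ← map_mul, ← map_mul]
    refine congrArg J (Prod.ext (KI σ v) ?_)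
    simpa using DFunLike.congr_fun (SX.hom_ext (f := I1 τ h2) (g := (I1 τ h2).comp (pm σ).toMonoidHom)
      fun p => by simp [pm_e, I1_e]) v
  · simp only [map_mul, es, ek]
    rw [← map_mul, ← map_mul]; simp
  · simp only [map_mul, map_inv, es, ei]
    rw [← map_inv, ← map_inv, ← map_mul, ← map_mul]
    exact congrArg J (Prod.ext (by simp) (by simpa [I1_e] using h4))
  · let f : Fin (orderOf s) × V × Perm (Fin 8) → Cz zt := fun x => s ^ x.1.1 * i x.2.1 * k x.2.2
    have hf : Function.Injective f := by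
      rintro ⟨a, v, σ⟩ ⟨b, w, ρ⟩ e
      have e1 := congrArg ι e
      simp only [f, map_mul, map_pow, es, ei, ek] at e1
      simp only [← map_pow, ← map_mul] at e1
      have e2 : ∀ x, I0 v (K0 σ x) = I0 w (K0 ρ x) := fun x => by
        simpa using congrArg (fun y : Perm (Fin 8 × Bool) × Perm β => y.1 x) (iJ e1)
      obtain rfl : σ = ρ := Equiv.ext fun p => congrArg Prod.fst (e2 (p, false))
      obtain rfl : v = w := mul_inv_eq_one.1 (bits _ fun j => by
        have := congrArg Prod.snd (e2 (σ⁻¹ j, false))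
        simp [I0_apply, K0_apply] at this
        rw [SX.V.inv_eq, SX.V.mul_n, Nat.testBit_xor, this, Bool.xor_self])
      obtain rfl : a = b := Fin.ext (pow_injOn_Iio_orderOf a.2 b.2 (mul_right_cancel (mul_right_cancel e)))
      rfl
    obtain ⟨x, hx⟩ := ((Nat.bijective_iff_injective_and_card f).2 ⟨hf, by
      rw [cd, Nat.card_prod, Nat.card_prod, SX.V.card, Nat.card_perm]; simp [Nat.factorial]⟩).2 h
    exact ⟨_, _, _, hx.symm⟩

end Iso

/-- If `s = s' = 1`: both groups are images of `V ⋊[pm] S₈` (`SemidirectProduct.lift`), which has order `256 * 40320`. If the order is 3: both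
are images of `Multiplicative (ZMod 3) ⋊[χ] (V ⋊[pm] S₈)`, `χ (v, σ) = inversion ^ par v`. A surjection between finite groups of the same
order is bijective. -/
theorem Pres.iso {H H' : Type*} [Group H] [Finite H] [Group H'] [Finite H'] {s : H} {i : V →* H}
    {k : Equiv.Perm (Fin 8) →* H} {s' : H'} {i' : V →* H'} {k' : Equiv.Perm (Fin 8) →* H'} (h : Pres s i k)
    (h' : Pres s' i' k') (e : orderOf s = orderOf s') : Nonempty (H ≃* H') := by
  let Γ : Subgroup (H × H') := ((k.prod k').range ⊔ (i.prod i').range) ⊔ zpowers (s, s')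
  have hΓ : Nat.card Γ ≤ orderOf s * (256 * 40320) := by
    have := Iso.bound (s := (s, s')) (i := i.prod i') (k := k.prod k') (fun σ v => Prod.ext (h.ki σ v) (h'.ki σ v))
      (fun σ => Prod.ext (h.ks σ) (h'.ks σ)) fun p => Prod.ext (h.is p) (h'.is p)
    rwa [Prod.orderOf_mk, ← e, Nat.lcm_self] at this
  have m : ∀ (n : ℕ) v σ, (s ^ n * i v * k σ, s' ^ n * i' v * k' σ) ∈ Γ := fun n v σ =>
    show (s, s') ^ n * (i.prod i') v * (k.prod k') σ ∈ Γ from
    mul_mem (mul_mem (mem_sup_right (pow_mem (mem_zpowers (s, s')) n)) (mem_sup_left (mem_sup_right (MonoidHom.mem_range.2 ⟨v, rfl⟩))))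
      (mem_sup_left (mem_sup_left (MonoidHom.mem_range.2 ⟨σ, rfl⟩)))
  have s1 : Function.Surjective ((MonoidHom.fst H H').comp Γ.subtype) := fun x =>
    let ⟨n, v, σ, e⟩ := h.gen x; ⟨⟨_, m n v σ⟩, e.symm⟩
  have s2 : Function.Surjective ((MonoidHom.snd H H').comp Γ.subtype) := fun x =>
    let ⟨n, v, σ, e⟩ := h'.gen x; ⟨⟨_, m n v σ⟩, e.symm⟩
  exact ⟨(MulEquiv.ofBijective _ (s1.bijective_of_nat_card_le (h.card ▸ hΓ))).symm.trans
    (MulEquiv.ofBijective _ (s2.bijective_of_nat_card_le (by rw [h'.card, ← e]; exact hΓ)))⟩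

/-- Points `(p, ε) ∈ Fin 8 × Bool` and two more points `u, u'` (transport along an equivalence with `Fin 18`). `zt` flips all `ε`; `i (e p)` flips
`ε` at `p` and interchanges `u, u'`; `k σ` permutes the `p`. `i v * k σ = 1` only for `v = 1`, `σ = 1`, and the centraliser of `zt` in `S₁₈` has order
`2⁸ * 8! * 2` (`Equiv.Perm.nat_card_centralizer`), half of it in `A₁₈`; so the map from `V × S₈` is bijective. -/
theorem pres18 : ∃ zt : ↥(alternatingGroup (Fin 18)), orderOf zt = 2 ∧
    ∃ (i : V →* ↥(Cz zt)) (k : Equiv.Perm (Fin 8) →* ↥(Cz zt)), Pres 1 i k := by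
  obtain ⟨zt, o, s, i, k, os, h⟩ := Iso.gen (β := Fin 2) (τ := Equiv.swap 0 1) (c := 1) (n := 18) (by decide) (by decide)
    (by decide) (by decide) (by simp) (by simp)
  rw [orderOf_one, orderOf_eq_one_iff] at os
  exact ⟨zt, o, i, k, os ▸ h⟩

/-- the same with three more points and the 3-cycle `s` on them; the centraliser in `S₁₉` has order `2⁸ * 8! * 6` -/
theorem pres19 : ∃ zt : ↥(alternatingGroup (Fin 19)), orderOf zt = 2 ∧
    ∃ (s : ↥(Cz zt)) (i : V →* ↥(Cz zt)) (k : Equiv.Perm (Fin 8) →* ↥(Cz zt)), orderOf s = 3 ∧ Pres s i k := by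
  have : Fact (Nat.Prime 3) := ⟨Nat.prime_three⟩
  have oc : orderOf (Equiv.swap 0 1 * Equiv.swap 1 2 : Equiv.Perm (Fin 3)) = 3 := orderOf_eq_prime (by decide) (by decide)
  obtain ⟨zt, o, s, i, k, os, h⟩ := Iso.gen (β := Fin 3) (τ := Equiv.swap 0 1) (c := Equiv.swap 0 1 * Equiv.swap 1 2)
    (n := 19) (by decide) (by decide) (by decide) (by decide) (by simp [oc, Nat.factorial]) (by simp)
  exact ⟨zt, o, s, i, k, os.trans oc, h⟩

end CL.HA
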