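import Cfsg.Agent.INV.HA.Bas
import Cfsg.Agent.S1220
import Cfsg.Agent.S1221
import Cfsg.Agent.INV.ThompsonTransfer
import Cfsg.Agent.INV.Four

/-!
Harada `E₁₆ · GL₄(2)`: groups with a dihedral Sylow 2-subgroup of order 8 of type `S₄`, `S₅`.
-/

set_option autoImplicit false
set_option maxHeartbeats 400000

namespace CL.HA
open Subgroup CL.MSS CL.PComp
open CL.SX (V vv e ZZ pc)



namespace Ks0

variable {K : Type*} [Group K] [Finite K] {z t y : K} {V Y L X₀ : Subgroup K}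

/-- a Sylow four-group of `X₀` whose involutions are fused -/
structure Fo (X₀ V Y : Subgroup K) (z t y : K) : Prop where
  mem : ∀ c, c ∈ V ↔ c = 1 ∨ c = z ∨ c = t ∨ c = z * t
  z2 : z * z = 1
  t2 : t * t = 1
  zt : z * t = t * z
  z1 : z ≠ 1
  y1 : y * z * y⁻¹ = t
  y2 : y * t * y⁻¹ = z * t
  my : y ∈ X₀
  syl : SylIn 2 V X₀
  odd : Od Y
  le : Y ≤ X₀
  cen : ∀ g ∈ X₀, g ∈ Cz z → ∃ o ∈ Y, ∃ m ∈ V, g = o * m
  nz : X₀ ⊓ Cz z ≤ NN Y
  ny : y ∈ NN Y

omit [Finite K] in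
theorem one_of {o : K} (ho : Od Y) (hV : IsPGroup 2 V) (h1 : o ∈ Y) (h2 : o ∈ V) : o = 1 :=
  (isPGroup_iff_forall_mem.1 hV o h2).elim fun _ e => PComp.eq_one_of_coprime_of_pow (coprime_orderOf_of_mem ho h1) e

omit [Finite K] in
theorem odd_le (h : X₀.index = 2) (ho : Od Y) : Y ≤ X₀ := fun g hg => by
  obtain ⟨k, e⟩ := Nat.coprime_two_right.1 (coprime_orderOf_of_mem ho hg)
  have := pow_orderOf_eq_one g
  rw [e, pow_succ, pow_mul] at this
  rw [eq_inv_of_mul_eq_one_right this]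
  exact inv_mem (pow_mem (sq_mem_of_index_two h g) k)

namespace Fo

section
omit [Finite K]
variable (h : Fo X₀ V Y z t y)
include h

theorem mz : z ∈ V := (h.mem z).2 (by simp)
theorem mt : t ∈ V := (h.mem t).2 (by simp)
theorem t1 : t ≠ 1 := fun e => h.z1 (by simpa [e, mul_inv_eq_iff_eq_mul] using h.y1)
theorem zt1 : z * t ≠ 1 := fun e => h.t1 (by simpa [e, mul_inv_eq_iff_eq_mul] using h.y2)
theorem ne : z ≠ t := fun e => h.zt1 (by rw [← e, h.z2])
theorem y3 : y * (z * t) * y⁻¹ = z := by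
  rw [← conj_mul, h.y1, h.y2, h.zt, ← mul_assoc, h.t2, one_mul]
theorem V_eq : V = closure {z, t} := Subgroup.ext fun c =>
  (h.mem c).trans (Four.mem_closure_pair_iff_of_commute h.z2 h.t2 h.zt).symm
theorem k4 : IsKleinFour V := h.V_eq ▸ Four.isKleinFour_closure (orderOf_eq_prime (by rw [pow_two, h.z2]) h.z1)
  (orderOf_eq_prime (by rw [pow_two, h.t2]) h.t1) h.ne h.zt
theorem V_le : V ≤ Cz z := fun _ hc => mem_centralizer_singleton_iff.2 (Four.comm_of_mem h.k4 hc h.mz)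

theorem cj {v : K} (hv : v ∈ V) (h1 : v ≠ 1) : ∃ l ∈ zpowers y, l * z * l⁻¹ = v := by
  rcases (h.mem v).1 hv with e | e | e | e
  · exact absurd e h1
  · exact ⟨1, one_mem _, by simp [e]⟩
  · exact ⟨y, mem_zpowers y, h.y1.trans e.symm⟩
  · exact ⟨y * y, mul_mem (mem_zpowers y) (mem_zpowers y), by rw [e, ← h.y2, ← h.y1]; group⟩

end

theorem yN (h : Fo X₀ V Y z t y) : y ∈ NN V := mem_normalizer_of_cj_le (cj_le_iff_forall.2 fun v hv => by
  rcases (h.mem v).1 hv with e | e | e | e <;> rw [e]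
  · simp
  · exact h.y1 ▸ h.mt
  · exact h.y2 ▸ mul_mem h.mz h.mt
  · exact h.y3.symm ▸ h.mz)

theorem sub (h : Fo X₀ V Y z t y) : Fo ⊤ (V.subgroupOf X₀) (Y.subgroupOf X₀) ⟨z, h.syl.le h.mz⟩ ⟨t, h.syl.le h.mt⟩
    ⟨y, h.my⟩ :=
  ⟨fun c => by simp only [mem_subgroupOf, h.mem, Subtype.ext_iff]; rfl, Subtype.ext h.z2, Subtype.ext h.t2,
    Subtype.ext h.zt, fun e => h.z1 (congrArg Subtype.val e), Subtype.ext h.y1, Subtype.ext h.y2, trivial,
    by simpa using h.syl.subgroupOf le_rfl, by rw [Od, Nat.card_congr (subgroupOfEquivOfLe h.le).toEquiv]; exact h.odd,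
    le_top, fun g _ hg => by
      obtain ⟨o, ho, m, hm, e⟩ := h.cen g g.2 (mem_centralizer_singleton_iff.2
        (congrArg Subtype.val (mem_centralizer_singleton_iff.1 hg)))
      exact ⟨⟨o, h.le ho⟩, ho, ⟨m, h.syl.le hm⟩, hm, Subtype.ext e⟩,
    fun g hg => (subgroupOf_normalizer_eq h.le).le (h.nz (mem_inf.2 ⟨g.2, mem_centralizer_singleton_iff.2
      (congrArg Subtype.val (mem_centralizer_singleton_iff.1 (mem_inf.1 hg).2))⟩)),
    (subgroupOf_normalizer_eq h.le).le h.ny⟩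

theorem quot (h : Fo X₀ V Y z t y) [Y.Normal] : Fo (X₀.map (QuotientGroup.mk' Y)) (V.map (QuotientGroup.mk' Y)) ⊥
    (QuotientGroup.mk' Y z) (QuotientGroup.mk' Y t) (QuotientGroup.mk' Y y) := by
  have : Fact (Nat.Prime 2) := ⟨Nat.prime_two⟩
  refine ⟨fun c => ?_, by rw [← map_mul, h.z2, map_one], by rw [← map_mul, h.t2, map_one],
    by rw [← map_mul, h.zt, map_mul], fun e => h.z1 (one_of h.odd h.syl.pgroup ((QuotientGroup.eq_one_iff z).1 e) h.mz),
    by rw [← h.y1]; simp, by rw [← map_mul _ z, ← h.y2]; simp, mem_map_of_mem _ h.my, h.syl.map _, by simp [Od],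
    bot_le, ?_, by rw [NN, normalizer_eq_top]; exact le_top, by rw [NN, normalizer_eq_top]; trivial⟩
  · simp only [mem_map, h.mem]
    exact ⟨by rintro ⟨x, rfl | rfl | rfl | rfl, rfl⟩ <;> simp, by
      rintro (rfl | rfl | rfl | rfl)
      exacts [⟨1, by simp, rfl⟩, ⟨z, by simp, rfl⟩, ⟨t, by simp, rfl⟩, ⟨z * t, by simp, rfl⟩]⟩
  · rintro _ ⟨g, hg, rfl⟩ hc
    obtain ⟨o, ho, c⟩ := lift_cen h.odd (MSS.isPGroup_zpowers (k := 1) (x := z) (by rw [pow_one, pow_two, h.z2]))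
      (by rw [NN, normalizer_eq_top]; exact le_top) (g := g) (by rw [NN, normalizer_eq_top]; trivial) (by
        rintro _ ⟨i, rfl⟩
        refine (QuotientGroup.eq_one_iff _).1 ?_
        have := ((show Commute _ _ from mem_centralizer_singleton_iff.1 hc).zpow_right i).eq
        simp only [QuotientGroup.mk'_apply] at this
        simp [this])
    obtain ⟨o', ho', m, hm, e⟩ := h.cen _ (mul_mem (h.le ho) hg)
      (mem_centralizer_singleton_iff.2 (c z (mem_zpowers z)).symm)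
    refine ⟨1, one_mem _, _, mem_map_of_mem _ hm, ?_⟩
    have := congrArg (QuotientGroup.mk' Y) e
    rwa [map_mul, map_mul, QuotientGroup.mk'_apply Y o, QuotientGroup.mk'_apply Y o', (QuotientGroup.eq_one_iff o).2 ho,
      (QuotientGroup.eq_one_iff o').2 ho', one_mul] at this

theorem se (h : Fo ⊤ V Y z t y) (hz : Cz z ≤ L) (hy : y ∈ L) (hL : L ≠ ⊤) : Cfsg.IsStronglyEmbedded L := by
  have : Fact (Nat.Prime 2) := ⟨Nat.prime_two⟩
  have VL := h.V_le.trans hz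
  have key : ∀ u ∈ L, orderOf u = 2 → ∃ l ∈ L, l * z * l⁻¹ = u := fun u hu o => by
    obtain ⟨x, hx, c⟩ := (h.syl.of_le VL le_top).exists_conj_le
      (MSS.isPGroup_zpowers (k := 1) (x := u) (by rw [pow_one, ← o, pow_orderOf_eq_one])) (zpowers_le.2 hu)
    obtain ⟨l, hl, e⟩ := h.cj (c (conj_mem_cj (mem_zpowers u))) (fun e => by
      rw [mul_inv_eq_one, mul_eq_left] at e
      simp [e] at o)
    exact ⟨x⁻¹ * l, mul_mem (inv_mem hx) (zpowers_le.2 hy hl), by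
      rw [show x⁻¹ * l * z * (x⁻¹ * l)⁻¹ = x⁻¹ * (l * z * l⁻¹) * x by group, e]; group⟩
  refine ⟨hL, even_iff_two_dvd.2 ((show 2 ∣ Nat.card V by rw [h.k4.card_four]; norm_num).trans (card_dvd_of_le VL)),
    fun g hg => Nat.coprime_two_right.1 (coprime_card_of_forall fun u hu o => hg ?_)⟩
  obtain ⟨l, hl, e⟩ := key u (mem_inf.1 hu).1 o
  obtain ⟨l', hl', e'⟩ := key _ (mem_cj.1 (mem_inf.1 hu).2) (by
    rw [← o, show g⁻¹ * u * g = MulAut.conj g⁻¹ u by simp, MulEquiv.orderOf_eq])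
  have := hz (mem_centralizer_singleton_iff.2 (show l⁻¹ * g * l' * z = z * (l⁻¹ * g * l') by
    calc _ = l⁻¹ * g * (l' * z * l'⁻¹) * l' := by group
      _ = _ := by rw [e', ← e]; group))
  rwa [mul_mem_cancel_right hl', mul_mem_cancel_left (inv_mem hl)] at this

theorem core (h : Fo ⊤ V Y z t y) : Y = Cfsg.oddCore K := by
  have l : Y ≤ Cfsg.oddCore K := by
    by_cases e : NN Y = ⊤
    · have := normalizer_eq_top_iff.1 e
      exact le_pPrimeCore h.odd
    · exact (le_opOf le_normalizer le_rfl h.odd).trans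
        (Cfsg.Agent.S1221.result _ (h.se (fun g hg => h.nz (mem_inf.2 ⟨trivial, hg⟩)) h.ny e))
  refine le_antisymm l ?_
  have : IsMulCommutative V := ⟨⟨fun a b => Subtype.ext (Four.comm_of_mem h.k4 a.2 b.2)⟩⟩
  have := h.k4
  refine coprime_le_of_forall_centralizer_le V _ Y IsKleinFour.not_isCyclic (by rw [normalizer_eq_top]; exact le_top)
    (by rw [h.k4.card_four]; exact (Nat.Coprime.pow_right 2 (pPrimeCore_coprime 2)).symm) fun v hv h1 g hg => ?_
  obtain ⟨l, hl, rfl⟩ := h.cj hv h1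
  have m : l⁻¹ * g * l ∈ Cfsg.oddCore K := Normal.conj_mem' inferInstance g (mem_inf.1 hg).1 l
  obtain ⟨o, ho, c, hc, e⟩ := h.cen (l⁻¹ * g * l) trivial
    (mem_cj.1 ((cj_centralizer_singleton l z).ge (mem_inf.1 hg).2))
  rw [e] at m
  rw [one_of (pPrimeCore_coprime 2) h.syl.pgroup ((mul_mem_cancel_left (‹Y ≤ _› ho)).1 m) hc, mul_one] at e
  exact (cj_eq_of_mem_normalizer (zpowers_le.2 h.ny hl)).le (mem_cj.2 (e ▸ ho))

theorem card (h : Fo ⊤ V ⊥ z t y) :
    Nat.card (NN V) = 12 ∧ ((NN V).index = 1 ∨ (NN V).index = 5 ∨ (NN V).index = 13) := by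
  have cV : Cz z ≤ V := fun g hg => by
    obtain ⟨o, ho, m, hm, e⟩ := h.cen g trivial hg
    rwa [e, mem_bot.1 ho, one_mul]
  have c12 : Nat.card (NN V) = 12 := by
    letI : MulAction (NN V) K := MulAction.compHom K (MulAut.conj.comp (NN V).subtype)
    have sm : ∀ (g : NN V) (x : K), g • x = g * x * (g : K)⁻¹ := fun _ _ => rfl
    have i := MulAction.index_stabilizer (NN V) z
    rw [show MulAction.stabilizer (NN V) z = V.subgroupOf (NN V) from Subgroup.ext fun g => by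
        rw [MulAction.mem_stabilizer_iff, sm, mul_inv_eq_iff_eq_mul, mem_subgroupOf]
        exact ⟨fun e => cV (mem_centralizer_singleton_iff.2 e), fun e => mem_centralizer_singleton_iff.1 (h.V_le e)⟩,
      show MulAction.orbit (NN V) z = {z, t, z * t} from Set.ext fun x => ⟨by
        rintro ⟨g, rfl⟩
        exact ((h.mem _).1 (conj_mem_of_normalizes le_rfl g.2 h.mz)).resolve_left fun e => h.z1 (by
          rwa [mul_inv_eq_one, mul_eq_left] at e), fun e => by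
        obtain ⟨l, hl, e⟩ := h.cj ((h.mem x).2 (.inr e)) (by
          rcases e with rfl | rfl | rfl
          exacts [h.z1, h.t1, h.zt1])
        exact ⟨⟨l, zpowers_le.2 h.yN hl⟩, e⟩⟩,
      Set.ncard_eq_three.2 ⟨z, t, z * t, h.ne, fun e => h.t1 (left_eq_mul.1 e), fun e => h.z1 (right_eq_mul.1 e), rfl⟩] at i
    rw [← (V.subgroupOf (NN V)).index_mul_card, i, Nat.card_congr (subgroupOfEquivOfLe le_normalizer).toEquiv,
      h.k4.card_four]
  refine ⟨c12, ?_⟩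
  by_cases e : NN V = ⊤
  · exact .inl (index_eq_one.2 e)
  have se := h.se (cV.trans le_normalizer) h.yN e
  rcases Cfsg.Agent.S1220.result _ se with tr | ⟨-, tr⟩
  swap
  · rw [← h.core, bot_sup_eq] at tr
    exact absurd tr e
  obtain ⟨g, hg⟩ : ∃ g, g ∉ NN V := by simpa [eq_top_iff'] using e
  have i := MulAction.index_stabilizer (NN V) (g : K ⧸ NN V)
  have o := se.2.2 g hg
  rw [show MulAction.orbit (NN V) (g : K ⧸ NN V) = {((1 : K) : K ⧸ NN V)}ᶜ from Set.ext fun x => ⟨by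
      rintro ⟨k, rfl⟩ e
      have : ((k * g : K) : K ⧸ NN V) = (1 : K) := e
      rw [QuotientGroup.eq, mul_one, inv_mem_iff, mul_mem_cancel_left k.2] at this
      exact hg this, fun e => by
      obtain ⟨x, rfl⟩ := QuotientGroup.mk_surjective x
      obtain ⟨k, hk, e⟩ := tr g x hg fun a => e (QuotientGroup.eq.2 (by simpa using a))
      exact ⟨⟨k, hk⟩, (QuotientGroup.eq.2 e).symm⟩⟩,
    show MulAction.stabilizer (NN V) (g : K ⧸ NN V) = (NN V ⊓ g •ᶜ NN V).subgroupOf (NN V) from Subgroup.ext fun k => by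
      rw [MulAction.mem_stabilizer_iff, mem_subgroupOf, mem_inf, mem_cj, and_iff_right k.2, eq_comm, mul_assoc]
      exact QuotientGroup.eq] at i
  have c := ((NN V ⊓ g •ᶜ NN V).subgroupOf (NN V)).index_mul_card
  have n := Set.ncard_add_ncard_compl ({((1 : K) : K ⧸ NN V)} : Set _)
  rw [Set.ncard_singleton, ← i, ← index_eq_card] at n
  rw [Nat.card_congr (subgroupOfEquivOfLe inf_le_left).toEquiv, c12] at c
  change Odd (Nat.card ↥(NN V ⊓ g •ᶜ NN V)) at o
  generalize Nat.card ↥(NN V ⊓ g •ᶜ NN V) = d at c o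
  have : d ≤ 12 := Nat.le_of_dvd (by norm_num) (Dvd.intro_left _ c)
  obtain ⟨k, rfl⟩ := o
  have : k ≤ 5 := by omega
  interval_cases k <;> omega

/-- no element of order `5` or `13` of `X₀` commutes with `r` -/
theorem nop (h : Fo X₀ V ⊥ z t y) {r s u : K} (hu : u ∈ X₀) (h1 : r ∈ NN V) (h2 : u * r * u⁻¹ ∈ NN V) (hs : s ∈ X₀)
    (hp : (orderOf s).Prime) (h6 : (orderOf s).Coprime 12)
    (hi : (NN (V.subgroupOf X₀)).index = orderOf s) (c : r * s = s * r) (i : u * r * u⁻¹ * s * (u * r * u⁻¹)⁻¹ = s⁻¹) :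
    False := by
  have k := h.sub
  rw [bot_subgroupOf] at k
  have o : Nat.card (zpowers (⟨s, hs⟩ : X₀)) = orderOf s := by rw [Nat.card_zpowers, ← Subgroup.orderOf_coe]
  have cp : IsComplement' (zpowers (⟨s, hs⟩ : X₀)) (NN (V.subgroupOf X₀)) :=
    isComplement'_of_coprime (by rw [o, ← hi, index_mul_card]) (by rw [o, k.card.1]; exact h6)
  obtain ⟨⟨⟨_, j, rfl⟩, n, hn⟩, e⟩ := cp.2 ⟨u⁻¹ * s, mul_mem (inv_mem hu) hs⟩
  have e' : s ^ j * n = u⁻¹ * s := by simpa using congrArg Subtype.val e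
  have n' : (n : K) ∈ NN V := (subgroupOf_normalizer_eq h.syl.le).ge hn
  have m : s⁻¹ * s⁻¹ ∈ NN V := by
    have := mul_mem (conj_mem_of_normalizes' le_normalizer n' h1) (inv_mem h2)
    rwa [eq_inv_mul_of_mul_eq e', show ((s ^ j)⁻¹ * (u⁻¹ * s))⁻¹ * r * ((s ^ j)⁻¹ * (u⁻¹ * s)) * (u * r * u⁻¹)⁻¹ =
      s⁻¹ * (u * (s ^ j * r * (s ^ j)⁻¹) * u⁻¹ * s * (u * r * u⁻¹)⁻¹) by group,
      ← ((show Commute r s from c).zpow_right j).eq, mul_inv_cancel_right, i] at this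
  have := disjoint_def.1 cp.disjoint (mul_mem (inv_mem (mem_zpowers _)) (inv_mem (mem_zpowers _)))
    ((subgroupOf_normalizer_eq h.syl.le).le m)
  have s2 : s ^ 2 = 1 := by
    have : s⁻¹ * s⁻¹ = 1 := congrArg Subtype.val this
    rw [← inv_inj, ← inv_pow, pow_two, this, inv_one]
  exact hp.ne_one (Nat.Coprime.eq_one_of_dvd h6 ((orderOf_dvd_of_pow_eq_one s2).trans (by norm_num)))

theorem fin (h : Fo X₀ V ⊥ z t y) (h2 : X₀.index = 2) {r r' u : K} (hu : u ∈ X₀) (u1 : u * r * u⁻¹ = r')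
    (u2 : u * r' * u⁻¹ = r) (rr : r * r = 1) (e : z = r * r') (h0 : r ∈ NN V) (h1 : r' ∈ NN V) (ho : Od Y)
    (n0 : r ∈ NN Y) (n1 : r' ∈ NN Y) : Nat.card Y ∣ 3 := by
  have le := odd_le h2 ho
  have zN : z ∈ NN Y := e ▸ mul_mem n0 n1
  have iv : ∀ g ∈ Y, z * g * z⁻¹ = g⁻¹ := fun g hg => by
    let f : Y → Y := fun a => ⟨a⁻¹ * (z * a * z⁻¹), mul_mem (inv_mem a.2) (conj_mem_of_normalizes le_rfl zN a.2)⟩
    obtain ⟨a, ha⟩ := Finite.injective_iff_surjective.1 (show Function.Injective f from fun a b e => by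
      have e' : (a : K)⁻¹ * (z * a * z⁻¹) = (b : K)⁻¹ * (z * b * z⁻¹) := congrArg Subtype.val e
      have m := mul_mem b.2 (inv_mem a.2)
      obtain ⟨o, o1, c, hc, e⟩ := h.cen _ (le m) (mem_centralizer_singleton_iff.2 (by
        calc _ = b * ((a : K)⁻¹ * (z * a * z⁻¹)) * z * (a : K)⁻¹ := by group
          _ = _ := by rw [e']; group))
      rw [mem_bot.1 o1, one_mul] at e
      exact Subtype.ext (mul_inv_eq_one.1 (one_of ho h.syl.pgroup m (e ▸ hc))).symm) ⟨g, hg⟩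
    have : g = (a : K)⁻¹ * (z * a * z⁻¹) := (congrArg Subtype.val ha).symm
    rw [this]
    calc _ = z * (a : K)⁻¹ * z⁻¹ * (z * z) * a * (z * z)⁻¹ := by group
      _ = _ := by rw [h.z2]; group
  have cm : ∀ a ∈ Y, ∀ b ∈ Y, a * b = b * a := fun a ha b hb => by
    rw [← inv_inj, ← iv _ (mul_mem ha hb), ← conj_mul, iv a ha, iv b hb, mul_inv_rev]
  have k := h.sub
  rw [bot_subgroupOf] at k
  have d : Nat.card Y ∣ 12 * (NN (V.subgroupOf X₀)).index := by
    rw [← k.card.1, card_mul_index]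
    exact card_dvd_of_le le
  have np : ∀ p, p.Prime → p.Coprime 12 → (NN (V.subgroupOf X₀)).index = p → Nat.card Y ∣ 12 := fun p hp c i => by
    have : Fact p.Prime := ⟨hp⟩
    refine Nat.Coprime.dvd_of_dvd_mul_right (coprime_card_of_forall fun s hs o => ?_) (i ▸ d)
    have ri : r⁻¹ = r := inv_eq_of_mul_eq_one_right rr
    have er : r' = r * z := by rw [e, ← mul_assoc, rr, one_mul]
    have m := conj_mem_of_normalizes le_rfl n0 hs
    by_cases a : s * (r * s * r⁻¹) = 1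
    · refine h.nop hu h1 (u2.symm ▸ h0) (le hs) (o ▸ hp) (o ▸ c) (o ▸ i) ?_ (u2.symm ▸ eq_inv_of_mul_eq_one_right a)
      rw [← mul_inv_eq_iff_eq_mul, er, show r * z * s * (r * z)⁻¹ = r * (z * s * z⁻¹) * r⁻¹ by group, iv s hs,
        ← conj_inv, eq_inv_of_mul_eq_one_right a, inv_inv]
    · have o' : orderOf (s * (r * s * r⁻¹)) = p := orderOf_eq_prime (by
        rw [(show Commute _ _ from cm s hs _ m).mul_pow, conj_pow, ← o, pow_orderOf_eq_one]; simp) a
      have c' : r * (s * (r * s * r⁻¹)) * r⁻¹ = s * (r * s * r⁻¹) := by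
        rw [cm s hs _ m]
        nth_rw 1 [← cm s hs _ m]
        calc _ = r * s * r⁻¹ * (r * r) * s * (r * r)⁻¹ := by group
          _ = _ := by rw [rr]; group
      refine h.nop hu h0 (u1.symm ▸ h1) (le (mul_mem hs m)) (o' ▸ hp) (o' ▸ c) (o' ▸ i)
        (mul_inv_eq_iff_eq_mul.1 c') ?_
      rw [u1, er, show r * z * (s * (r * s * r⁻¹)) * (r * z)⁻¹ = r * (z * (s * (r * s * r⁻¹)) * z⁻¹) * r⁻¹ by group,
        iv _ (mul_mem hs m), ← conj_inv, c']
  have d12 : Nat.card Y ∣ 12 := by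
    rcases k.card.2 with i | i | i
    · rwa [i] at d
    · exact np 5 (by norm_num) (by norm_num) i
    · exact np 13 (by norm_num) (by norm_num) i
  exact (Nat.Coprime.pow_right 2 ho).dvd_of_dvd_mul_left d12

end Fo

end Ks0

open Ks0

/-- `z₀ = r₀ r₁`, `D₈ = ⟨r₀, r₁, t⟩`, `V₀ = ⟨t, z₀⟩`.
(1) `D₈` is Sylow (`step_up`: an element normalising `D₈` centralises `z₀`; a 2-element of `C(z₀) ⊓ N(D₈)` lies in `D₈`). The
involutions of `V₀` are conjugate, `r₀` is not conjugate into `V₀`: Thompson's lemma (`index_two_or_conj`) gives `X₀` of index 2, `r₀ ∉ X₀`,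
with Sylow subgroup `V₀`, `y ∈ X₀`, `C_{X₀}(z₀) ≤ Y₁ V₀`.
(2) `L = X₀ ⊓ N(Y₀)` contains `V₀, y` and the centraliser in `X₀` of each of its involutions (they are conjugate in `L`), so `L = X₀` or `L` is
strongly embedded in `X₀`; `S1221` gives `Y₀ ⊓ X₀ = Y₀ ≤ O(L) ≤ O(X₀)`. `O(X₀)` is generated by the centralisers of the involutions of `V₀`, which
lie in `Y₁` and its conjugates under `y`, so `O(X₀) = Y₀` is normal in `X`.
(3) In `X̄ = X / Y₀`: `C_{X̄₀}(z̄₀) = V̄₀` (`lift_cen`), `H = N_{X̄₀}(V̄₀)` has order 12, `O(X̄₀) = 1`. If `H ≠ X̄₀` it is strongly embedded, and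
`S1220` gives `n - 1 ∣ 12` for the index `n`, `n` odd, and `V̄₀` fixes one coset only, so `n ≡ 1 (4)`, `n ∈ {5, 13}`; order `156` has a normal
Sylow 13-subgroup. So `|X̄₀| ∈ {12, 60}`.
(4) `|Ȳ|` is odd and divides 60. If `5 ∣ |Ȳ|`, its Sylow 5-subgroup `⟨s⟩` is characteristic (order 5 or 15), normalised by `r₀, r₁`; `z₀` inverts
it, so one of `r₀, r₁` centralises it, say `r₀` (symmetry by `t`), and `r₁` inverts it. `|C_{X̄}(r₀)|` is divisible by 20, not by 8 (else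
`r₀` would be central in a Sylow subgroup, so conjugate to `z₀`), and it is not 60 (`X̄₀` has no subgroup of index 2: its involutions
are conjugate and `V̄₀ = [V̄₀, y]`). So the class of `r₀` has six elements, `r₀` and the `s ^ i r₁ s ^ (-i)`, all commuting with `r₀`;
by conjugation any two elements of the class commute, but `r₁` and `s r₁ s⁻¹` have product `s ^ (∓2)` of order 5. -/
theorem ks_abs {X : Type*} [Group X] [Finite X] {r₀ r₁ t y : X} (h0 : r₀ * r₀ = 1) (ht : t * t = 1)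
    (h1 : t * r₀ * t⁻¹ = r₁) (hc : r₀ * r₁ = r₁ * r₀) (hne : r₀ ≠ r₁) (y1 : y * (r₀ * r₁) * y⁻¹ = t)
    (y2 : y * t * y⁻¹ = t * (r₀ * r₁)) (hnc : ¬ IsConj r₀ (r₀ * r₁)) {Y₁ Y₀ : Subgroup X} (ho : Od Y₀) (hle : Y₁ ≤ Y₀)
    (hC : ∀ g ∈ Cz (r₀ * r₁), ∃ o ∈ Y₁, ∃ m ∈ closure {r₀, r₁, t}, g = o * m) (hn : Cz (r₀ * r₁) ≤ NN Y₀)
    (hy : y ∈ NN Y₀) {Y : Subgroup X} (hY : Od Y) (n0 : r₀ ∈ NN Y) (n1 : r₁ ∈ NN Y) : Y₀.relIndex Y ∣ 3 := by
  have : Fact (Nat.Prime 2) := ⟨Nat.prime_two⟩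
  obtain ⟨z, hz⟩ : ∃ z, z = r₀ * r₁ := ⟨_, rfl⟩
  rw [← hz] at y1 y2 hnc hC hn
  have ti : t⁻¹ = t := inv_eq_of_mul_eq_one_right ht
  have ri : r₀⁻¹ = r₀ := inv_eq_of_mul_eq_one_right h0
  have h1' : t * r₁ * t⁻¹ = r₀ := by rw [← h1, ti, mul_assoc, mul_assoc, ht, mul_one, ← mul_assoc, ht, one_mul]
  have r2 : r₁ * r₁ = 1 := by rw [← h1, conj_mul, h0, mul_one, mul_inv_cancel]
  have z2 : z * z = 1 := by rw [hz, mul_assoc, ← mul_assoc r₁, ← hc, mul_assoc, r2, mul_one, h0]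
  have zt : z * t = t * z := (mul_inv_eq_iff_eq_mul.1 (by rw [hz, ← conj_mul, h1, h1', hc])).symm
  have z1 : z ≠ 1 := fun e => hne (by rw [← ri, inv_eq_of_mul_eq_one_right (hz.symm.trans e)])
  have rz : r₀ * z * r₀⁻¹ = z := by rw [hz, hc, ← mul_assoc, mul_inv_cancel_right, hc]
  have rt : r₀ * t * r₀⁻¹ = z * t := by
    rw [hz, ← h1, ri, mul_assoc r₀ (t * r₀ * t⁻¹), inv_mul_cancel_right, mul_assoc]
  have y3 : y * (z * t) * y⁻¹ = z := by rw [← conj_mul, y1, y2, ← mul_assoc, ht, one_mul]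
  have er : r₁ = r₀ * z := by rw [hz, ← mul_assoc, h0, one_mul]
  obtain ⟨V, mem⟩ : ∃ V : Subgroup X, ∀ c, c ∈ V ↔ c = 1 ∨ c = z ∨ c = t ∨ c = z * t :=
    ⟨_, fun c => Four.mem_closure_pair_iff_of_commute z2 ht zt⟩
  have mz : z ∈ V := (mem z).2 (by simp)
  have mt : t ∈ V := (mem t).2 (by simp)
  have zt2 : z * t * (z * t) = 1 := by rw [mul_assoc, ← mul_assoc t, ← zt, mul_assoc, ht, mul_one, z2]
  have pV : IsPGroup 2 V := isPGroup_iff_forall_mem.2 fun c hc => ⟨1, by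
    rw [pow_one, pow_two]
    rcases (mem c).1 hc with e | e | e | e <;> rw [e]
    exacts [one_mul 1, z2, ht, zt2]⟩
  have rN : r₀ ∈ NN V := mem_normalizer_of_cj_le (cj_le_iff_forall.2 fun c hc => by
    rcases (mem c).1 hc with e | e | e | e <;> rw [e]
    · simp
    · exact rz.symm ▸ mz
    · exact rt.symm ▸ mul_mem mz mt
    · rw [← conj_mul, rz, rt]; exact mul_mem mz (mul_mem mz mt))
  have nc : ∀ g, g * r₀ * g⁻¹ ∉ V := fun g hg => by
    have c : IsConj r₀ (g * r₀ * g⁻¹) := isConj_iff.2 ⟨g, rfl⟩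
    rcases (mem _).1 hg with e | e | e | e <;> rw [e] at c
    · exact hne (by rw [← h1, isConj_one_left.1 c]; simp)
    · exact hnc c
    · exact hnc (c.trans (isConj_iff.2 ⟨y, y1⟩).symm)
    · exact hnc (c.trans (isConj_iff.2 ⟨y, y3⟩))
  have rV : r₀ ∉ V := by simpa using nc 1
  have mD : ∀ {g}, g ∈ V ⊔ zpowers r₀ ↔ g ∈ V ∨ g * r₀ ∈ V := mem_sup_zp rN (h0.symm ▸ one_mem V)
  have pD := pg_sup pV rN (h0.symm ▸ one_mem V)
  have lD : closure {r₀, r₁, t} ≤ V ⊔ zpowers r₀ := (closure_le _).2 (by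
    rintro _ (rfl | rfl | rfl)
    exacts [mem_sup_right (mem_zpowers _), er.symm ▸ mul_mem (mem_sup_right (mem_zpowers _)) (mem_sup_left mz),
      mem_sup_left mt])
  have sq : ∀ g ∈ V ⊔ zpowers r₀, g * g = 1 ∨ g * g = z := fun g hg => by
    rcases mD.1 hg with a | a
    · rcases (mem g).1 a with e | e | e | e <;> rw [e]
      exacts [.inl (one_mul 1), .inl z2, .inl ht, .inl zt2]
    · have : g * g = g * r₀ * (r₀ * (g * r₀) * r₀⁻¹) := by rw [mul_assoc g, ← mul_assoc r₀, ← mul_assoc r₀, h0]; group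
      rw [this]
      rcases (mem _).1 a with e | e | e | e <;> rw [e]
      · simp
      · exact .inl (by rw [rz, z2])
      · exact .inr (by rw [rt, zt, ← mul_assoc, ht, one_mul])
      · exact .inr (by rw [← conj_mul, rz, rt, ← mul_assoc z z, z2, one_mul, mul_assoc, ht, mul_one])
  have sD : SylIn 2 (V ⊔ zpowers r₀) ⊤ := by
    by_contra n
    obtain ⟨g, -, g1, g2, g3⟩ := step_up pD le_top n
    have e : g * z * g⁻¹ = g * (t * r₀) * g⁻¹ * (g * (t * r₀) * g⁻¹) := by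
      rw [conj_mul, mul_assoc t, ← mul_assoc r₀, ← congrArg (r₀ * t * ·) ri, rt, zt, ← mul_assoc t, ht, one_mul]
    obtain ⟨o, o1, m, hm, e'⟩ := hC g (mem_centralizer_singleton_iff.2 (mul_inv_eq_iff_eq_mul.1 (e.trans
      ((sq _ (conj_mem_of_normalizes le_rfl g1 (mul_mem_sup mt (mem_zpowers r₀)))).resolve_left fun a => z1 (by
        rwa [← e, mul_inv_eq_one, mul_eq_left] at a)))))
    rw [one_of ho (pg_sup pD g1 g3) (hle o1) (by
      rw [eq_mul_inv_of_mul_eq e'.symm]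
      exact mul_mem (mem_sup_right (mem_zpowers g)) (mem_sup_left (inv_mem (lD hm)))), one_mul] at e'
    exact g2 (e' ▸ lD hm)
  obtain ⟨X₀, nX, iX, rX⟩ := (ThompsonTransfer.index_two_or_conj sD.toSylowTop (Q := V) le_sup_left
    (relIndex_eq_two_iff.2 ⟨r₀, mem_sup_right (mem_zpowers _), fun b hb => by
      rcases mD.1 hb with a | a
      · exact .inr ⟨a, fun c => rV ((mul_mem_cancel_left a).1 c)⟩
      · exact .inl ⟨a, fun c => rV ((mul_mem_cancel_left c).1 a)⟩⟩) h0).resolve_right fun ⟨g, hg⟩ => nc g hg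
  have zX : z ∈ X₀ := by
    rw [hz, mul_mem_iff_of_index_two iX, ← h1]
    exact ⟨fun a => nX.conj_mem _ a t, fun a => by simpa [mul_assoc] using nX.conj_mem' _ a t⟩
  have tX : t ∈ X₀ := y1 ▸ nX.conj_mem _ zX y
  have VX : V ≤ X₀ := fun c hc => by
    rcases (mem c).1 hc with e | e | e | e <;> rw [e]
    exacts [one_mem _, zX, tX, mul_mem zX tX]
  have DX : ∀ m ∈ V ⊔ zpowers r₀, m ∈ X₀ → m ∈ V := fun m hm a =>
    (mD.1 hm).resolve_right fun b => rX ((mul_mem_cancel_left a).1 (VX b))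
  have YX := odd_le iX ho
  have F : Fo X₀ V Y₀ z (z * t) (y * y) :=
    ⟨fun c => by rw [mem, ← mul_assoc, z2, one_mul]; tauto, z2, zt2, by rw [mul_assoc, ← zt], z1,
      by rw [zt, ← y2, ← y1]; group, by
        rw [← mul_assoc z, z2, one_mul, show y * y * (z * t) * (y * y)⁻¹ = y * (y * (z * t) * y⁻¹) * y⁻¹ by group, y3, y1],
      mul_self_mem_of_index_two iX y, by
        have := sD.inf_normal_of_le (N := X₀) (by rw [normalizer_eq_top]) le_top
        rwa [le_antisymm (fun m hm => DX m (mem_inf.1 hm).1 (mem_inf.1 hm).2) (le_inf le_sup_left VX)] at this,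
      ho, YX, fun g hg c => by
        obtain ⟨o, o1, m, hm, e⟩ := hC g c
        exact ⟨o, hle o1, m, DX m (lD hm) ((mul_mem_cancel_left (YX (hle o1))).1 (e ▸ hg)), e⟩,
      inf_le_right.trans hn, mul_mem hy hy⟩
  have : Y₀.Normal := by
    rw [← map_subgroupOf_eq_of_le YX, F.sub.core, ← opOf_def, ← normalizer_eq_top_iff, eq_top_iff]
    exact le_trans (by rw [normalizer_eq_top]) (normalizer_le_normalizer_opOf 2 X₀)
  have := F.quot.fin (Y := Y.map (QuotientGroup.mk' Y₀)) (r := QuotientGroup.mk' Y₀ r₀) (r' := QuotientGroup.mk' Y₀ r₁)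
    (by rw [index_map_eq _ (QuotientGroup.mk'_surjective _) (by rw [QuotientGroup.ker_mk']; exact YX), iX])
    (mem_map_of_mem _ tX) (by rw [← h1]; simp) (by rw [← h1']; simp) (by rw [← map_mul, h0, map_one])
    (by rw [hz, map_mul]) (le_normalizer_map _ (mem_map_of_mem _ rN))
    (le_normalizer_map _ (mem_map_of_mem _ (er ▸ mul_mem rN (le_normalizer mz)))) (coprime_card_map _ hY)
    (le_normalizer_map _ (mem_map_of_mem _ n0)) (le_normalizer_map _ (mem_map_of_mem _ n1))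
  rwa [← relIndex_ker, QuotientGroup.ker_mk'] at this

end CL.HA
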