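import Cfsg.Agent.INV.HA.Bas2

/-!
Harada `E₁₆ · GL₄(2)`, case (c): helpers for the climb (`O ⊓ C(Q)`, lifts, the scalar product).
-/

set_option autoImplicit false
set_option maxHeartbeats 400000
set_option linter.unusedSectionVars false

namespace CL.HA
open Subgroup CL.MSS CL.PComp
open CL.SX (V vv e ZZ pc)

variable {G : Type*} [Group G] [Finite G] {s : P → G} {O : Subgroup G}

namespace K

theorem vv_xor (p q : ℕ) : vv (p ^^^ q) = vv p * vv q :=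
  SX.V.ext (Nat.xor_mod_two_pow (n := 8))

theorem dot_mul (v w μ : V) : dot (v * w) μ = xor (dot v μ) (dot w μ) := by
  rw [dot, SX.V.mul_n, Nat.and_xor_distrib_right, vv_xor, par_mul]; rfl
theorem dot_comm (v w : V) : dot v w = dot w v := by rw [dot, Nat.and_comm]; rfl
theorem mul_dot (v μ ν : V) : dot v (μ * ν) = xor (dot v μ) (dot v ν) := by
  rw [dot_comm, dot_mul, dot_comm μ, dot_comm ν]
theorem dot_one : ∀ v, dot v 1 = false := by decide +kernel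
theorem dot_RM : ∀ v, v ∈ RM → ∀ w, w ∈ RM → dot v w = false := by decide +kernel
theorem RM0_le : RM0 ≤ RM := show ∀ v, v ∈ RM0 → v ∈ RM by decide +kernel
theorem RM_le : RM ≤ Ev := show ∀ v, v ∈ RM → v ∈ Ev by decide +kernel
theorem Z1_le : Z1 ≤ RM := show ∀ v, v ∈ Z1 → v ∈ RM by decide +kernel
theorem mem_Z1 : ∀ v, v ∈ Z1 ↔ v = 1 ∨ v = vv 255 := by decide +kernel
theorem bc_Z1 (p : Bool) : bc p (vv 255) ∈ Z1 := by cases p <;> decide +kernel
theorem aS_Ev (t : TS) {v : V} (h : v ∈ Ev) : aS t v ∈ Ev := by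
  show (!par (aS t v)) = true
  rw [par_aS]; exact h
theorem aS_Z1 (t : TS) {v : V} (h : v ∈ Z1) : aS t v = v := by
  rcases (mem_Z1 v).1 h with rfl | rfl
  exacts [aS_one t, aS_255 t]
theorem fix_A0 : ∀ v, v ∈ Ev → aS (ts 15) v = v → aS (ts 48) v = v → aS (ts 64) v = v → v ∈ Z1 := by
  decide +kernel
theorem com_A0 : ∀ v, v ∈ Ev → ∀ t, t ∈ A0 → v * aS t v ∈ RM := by decide +kernel
theorem r_Ev : ∀ v, v ∈ Ev → r1V v ∈ Ev ∧ r2V v ∈ Ev := by decide +kernel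
theorem il_inv (v : V) : (il v)⁻¹ = il v := by rw [← map_inv]; rfl
theorem il_conj (v : V) (m : P) : il v * m * (il v)⁻¹ = il (v * aS m.t v) * m :=
  P.ext (by simp [one_aS, mul_comm, il_inv, mul_assoc]) (by simp)
theorem ir_Q {t : TS} (h : t ∈ A0) : ir t ∈ Q := ⟨one_mem _, h⟩
theorem il_A' {v : V} (h : v ∈ RM) : il v ∈ A' := ⟨h, one_mem _⟩
theorem il_T0 {v : V} (h : v ∈ RM) : il v ∈ T0 := ⟨h, one_mem _⟩
theorem z_A' : z ∈ A' := by decide +kernel
theorem Q_le_T00 : Q ≤ T00 := forall_sd.2 (by decide +kernel)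
theorem Q_le_T01 : Q ≤ T01 := forall_sd.2 (by decide +kernel)
theorem T00_le : T00 ≤ T0 := fun m hm => (T00_T0 m hm).1
theorem T01_le : T01 ≤ T0 := fun m hm => (T01_T0 m hm).1
theorem Q_nm : ∀ m ∈ T0, ∀ n ∈ Q, m * n * m⁻¹ ∈ Q :=
  nm_of_gen gen_T0 fun m hm => forall_sd.2 (by revert m; decide +kernel)
theorem rh_Q : ∀ m ∈ Q, rh m ∈ Q ∧ rh' m ∈ Q := forall_sd.2 (by decide +kernel)
theorem rh_A' : ∀ m ∈ A', rh m ∈ A' ∧ rh' m ∈ A' := forall_sd.2 (by decide +kernel)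
theorem rh_il (v : V) : rh (il v) = il (r1V v) := P.ext rfl (show ts (R1T >>> (7 * TS.n 1)) = 1 by decide +kernel)
theorem rh'_il (v : V) : rh' (il v) = il (r2V v) := P.ext rfl (show ts (R2T >>> (7 * TS.n 1)) = 1 by decide +kernel)
theorem rh_z : rh z = z ∧ rh' z = z := by decide +kernel

/-- `O(C(Q))` -/
def OQ (s : P → G) (O : Subgroup G) : Subgroup G := O ⊓ CC (im s Q)

end K
open K

theorem Ch.sz (h : Ch T0 s) : s z * s z = 1 ∧ s z ≠ 1 :=
  ⟨by rw [← h.mul _ (A'_le_T0 z_A') _ (A'_le_T0 z_A'), show z * z = 1 by decide +kernel, h.one],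
    fun k => absurd (h.inj _ (A'_le_T0 z_A') k) (by decide +kernel)⟩
theorem Ch.nQ (h : Ch T0 s) : im s T0 ≤ NN (im s Q) := im_le.2 fun m hm => h.norm Q_le_T0 hm (Q_nm m hm)
theorem Ch.nA' (h : Ch T0 s) : im s T0 ≤ NN (im s A') := im_le.2 fun m hm => h.norm A'_le_T0 hm (A'_nm m hm)
theorem Ch.A'_cen (h : Ch T0 s) : im s A' ≤ CC (im s A') := im_le.2 fun m hm => mem_CC_im.2 fun n hn =>
  (h.comm (A'_le_T0 hm) (A'_le_T0 hn)).2 (by rw [eq_il hm.2, eq_il hn.2, ← map_mul, ← map_mul, mul_comm])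

namespace N0

theorem odQ (h : N0 s O) : Od (OQ s O) := coprime_card_of_le inf_le_left h.odd

theorem cenQ' (h : N0 s O) {g : G} (hg : g ∈ CC (im s Q)) :
    ∃ y, (y = 1 ∨ y = s z) ∧ ∃ o ∈ OQ s O, g = y * o := by
  obtain ⟨m, hm, o, ho, hc, e⟩ := h.cenQ hg
  exact ⟨s m, hm.imp (fun k => by rw [k, h.ch.one]) (congrArg s), o, ⟨ho, hc⟩, e⟩

theorem nOQ (h : N0 s O) : NN (im s Q) ≤ NN (OQ s O) := fun g hg => SX.Hx.norm_of fun o ho => by
  obtain ⟨y, hy, o', ho', e⟩ := h.cenQ' (SX.Hx.conj_mem (normalizer_le_normalizer_centralizer _ hg) ho.2)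
  rcases hy with rfl | rfl
  · rw [e, one_mul]; exact ho'
  · obtain ⟨j, hj⟩ := Nat.coprime_two_right.1 h.odd
    have c : Commute (s z) o' := ho'.2 _ (mem_im s (A'_le_Q z_A'))
    have k := congrArg (· ^ Nat.card O) e
    simp only [conj_pow, c.mul_pow, orderOf_dvd_iff_pow_eq_one.1 (Subgroup.orderOf_dvd_natCard _ ho.1),
      orderOf_dvd_iff_pow_eq_one.1 (Subgroup.orderOf_dvd_natCard _ ho'.1)] at k
    rw [hj, pow_succ, pow_mul, sq, h.ch.sz.1] at k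
    exact absurd (by simpa using k.symm) h.ch.sz.2

/-- a 2-element that centralises `Q` -/
theorem cenQ2 (h : N0 s O) {Y : Subgroup G} (hY : IsPGroup 2 Y) {g : G} (hg : g ∈ Y)
    (hc : g ∈ CC (im s Q)) : g = 1 ∨ g = s z := by
  obtain ⟨m, hm, rfl⟩ := (h.ch.mem_im A_le_T0).1 (h.two_cen hY hg (centralizer_le (im_mono s A_le_Q) hc))
  have c : ∀ n ∈ Q, m * n = n * m := fun n hn => (h.ch.comm (A_le_T0 hm) (Q_le_T0 hn)).1 (mem_CC_im.1 hc n hn)
  exact (cenQ_chk m hm (c _ (by decide +kernel)) (c _ (by decide +kernel)) (c _ (by decide +kernel))).imp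
    (fun k => by rw [k, h.ch.one]) (congrArg s)

/-- adjust a lift by an element of `O(C(Q))` so that it normalises `S` -/
theorem lift (h : N0 s O) {X S : Subgroup G} (hS : SylIn 2 S X) (hX : X ≤ S ⊔ OQ s O) {T : Subgroup P}
    (hT : T ≤ T0) (hp : IsPGroup 2 (S ⊔ im s T0 : Subgroup G)) (hn : S ≤ NN (im s Q)) {g : G} {f : P → P}
    (ac : Ac g s T f) (hf : ∀ m ∈ T, f m ∈ T) (gX : g ∈ NN X)
    (oX : ∀ o ∈ OQ s O, (∀ y ∈ S, y ∈ g •ᶜ S → o * y = y * o) → o ∈ NN X) :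
    ∃ o, o * g ∈ NN S ∧ Ac (o * g) s T f ∧ ∀ y ∈ S, y ∈ g •ᶜ S → o * y = y * o := by
  have p1 : IsPGroup 2 (S ⊔ im s T : Subgroup G) := hp.to_le (sup_le_sup_left (im_mono s hT) _)
  have e : g •ᶜ (S ⊔ im s T) = g •ᶜ S ⊔ im s T := by
    rw [cj_sup, cj_eq_of_mem_normalizer (ac.norm le_rfl hf)]
  obtain ⟨o, ho, k1, k2⟩ := lift_syl h.odQ p1 (isPGroup_cj g p1)
    ((sup_le hn ((im_mono s hT).trans h.ch.nQ)).trans h.nOQ) (by
      rw [e]
      exact sup_le ((cj_le_of_mem_normalizer hS.le gX).trans (hX.trans (sup_le_sup_right le_sup_left _)))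
        (le_sup_right.trans le_sup_left))
  have k3 : ∀ y ∈ S, y ∈ g •ᶜ S → o * y = y * o := fun y hy hy' =>
    k2 y (mem_sup_left hy) (cj_mono g le_sup_left hy')
  refine ⟨o, mem_normalizer_of_cj_le ?_, fun m hm => ?_, k3⟩
  · rw [← hS.max (_ ⊓ X) (p1.to_le inf_le_left) (le_inf le_sup_left hS.le) inf_le_right]
    conv_lhs => rw [hS.max (_ ⊓ X) (p1.to_le inf_le_left) (le_inf le_sup_left hS.le) inf_le_right]
    exact le_inf (by rw [cj_mul]; exact (cj_mono o (cj_mono g le_sup_left)).trans k1)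
      (cj_le_of_mem_normalizer hS.le (mul_mem (oX o ho k3) gX))
  · have m1 : s (f m) ∈ im s T := mem_im s (hf m hm)
    have := k2 _ (mem_sup_right m1) (e ▸ mem_sup_right m1)
    calc o * g * s m * (o * g)⁻¹ = o * (g * s m * g⁻¹) * o⁻¹ := by group
      _ = _ := by rw [ac m hm, this, mul_inv_cancel_right]

end N0

end CL.HA
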