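import Cfsg.Agent.INV.HA.As

/-!
Harada `E₁₆ · GL₄(2)`, case (c): the element `r`.
-/

set_option autoImplicit false
set_option maxHeartbeats 400000
set_option linter.unusedSectionVars false

namespace CL.HA
open Subgroup CL.MSS CL.PComp
open CL.SX (V vv e ZZ pc)

variable {G : Type*} [Group G] [Finite G] {s : P → G} {O : Subgroup G}

variable {c : V → G} {g0 g1 g2 r : G} {E0 : Subgroup G} {s2 : P → G}

namespace RrA
open As

/-- `g` normalises `s D` and acts as `f` -/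
def AD (g : G) (s : P → G) (f : P → P) : Prop := Ac g s D f ∧ ∀ m ∈ D, f m ∈ D

theorem AD.mul {g k : G} {f f' : P → P} (h : AD g s f) (h' : AD k s f') : AD (g * k) s fun m => f (f' m) :=
  ⟨fun m hm => by rw [← h.1 _ (h'.2 m hm), ← h'.1 m hm]; group, fun m hm => h.2 _ (h'.2 m hm)⟩
theorem AD.inv {g : G} {f f' : P → P} (h : AD g s f) (k : ∀ m ∈ D, f' m ∈ D ∧ f (f' m) = m) : AD g⁻¹ s f' :=
  ⟨fun m hm => by
    conv_lhs => rw [← (k m hm).2, ← h.1 _ (k m hm).1]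
    group, fun m hm => (k m hm).1⟩
theorem AD.cen {g : G} {f : P → P} (h : AD g s f) {m : P} (hm : m ∈ D) (e : f m = m) : g * s m = s m * g := by
  have := h.1 m hm
  rw [e] at this
  exact mul_inv_eq_iff_eq_mul.1 this
theorem AD.cenD {g : G} {f : P → P} (h : AD g s f) (e : ∀ m ∈ D, f m = m) : g ∈ CC (im s D) :=
  mem_CC_im.2 fun m hm => h.cen hm (e m hm)
theorem AD.norm {g : G} {f : P → P} (h : AD g s f) : g ∈ NN (im s D) := h.1.norm le_rfl h.2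

def cj (n m : P) : P := n * m * n⁻¹
def lf (f : P → P) (m : P) : P := omg (f (omg (omg m)))
/-- the action of `r` on `D` -/
def dl (γ : V) (t : TS) : V :=
  bc (t.n.testBit 0) γ * bc (xor (t.n.testBit 1) (xor (t.n.testBit 2) (t.n.testBit 3))) (γ * vv 3)
def rB (γ : V) (m : P) : P := il (dl γ m.t) * m
def gF (m : P) : P := cj (il (vv 5)) (rB (vv 252) (lf (cj (il (vv 17))) (cj (il (vv 5)) (lf (cj (il (vv 17)))
  (lf (lf (rB (vv 252))) m)))))

theorem omg_D : ∀ m ∈ D, omg m ∈ D ∧ omg (omg (omg m)) = m := forall_sd.2 (by decide +kernel)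
theorem Lo_fix : ∀ t, t ∈ Lo → (∀ v, v ∈ ZZ → aS t v = v) ∧ ∀ u, u ∈ Lo → t * u = u * t := by decide +kernel
theorem D_comm : ∀ m ∈ D, ∀ n ∈ D, m * n = n * m := fun m hm n hn =>
  P.ext (by rw [P.mul_v, P.mul_v, (Lo_fix _ hm.2).1 _ hn.1, (Lo_fix _ hn.2).1 _ hm.1, mul_comm])
    ((Lo_fix _ hm.2).2 _ hn.2)
theorem dl_mul : ∀ γ, γ ∈ [vv 3, vv 252] → ∀ t, t ∈ Lo → dl γ t ∈ ZZ ∧
    ∀ u, u ∈ Lo → dl γ (t * u) = dl γ t * dl γ u := by decide +kernel
theorem cj_D : ∀ v ∈ [vv 5, vv 17], ∀ m ∈ D, cj (il v) m ∈ D := fun v hv =>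
  forall_sd.2 (by revert v; decide +kernel)
theorem rB_D : ∀ γ ∈ [vv 3, vv 252], ∀ m ∈ D, rB γ m ∈ D := fun γ hγ m hm =>
  mul_mem (show il (dl γ m.t) ∈ D from ⟨(dl_mul γ hγ _ hm.2).1, one_mem _⟩) hm
theorem rB_mul : ∀ γ ∈ [vv 3, vv 252], ∀ m ∈ D, ∀ n ∈ D, rB γ (m * n) = rB γ m * rB γ n := by
  intro γ hγ m hm n hn
  have := D_comm m hm (il (dl γ n.t)) ⟨(dl_mul γ hγ _ hn.2).1, one_mem _⟩
  rw [rB, rB, rB, P.mul_t, (dl_mul γ hγ _ hm.2).2 _ hn.2, map_mul, mul_assoc, mul_assoc, ← mul_assoc m, this,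
    mul_assoc]
theorem rB_gen : ∀ γ ∈ [vv 3, vv 252], (∀ m ∈ [z, e13, e14, e23, e24, d], rB γ m = m) ∧ rB γ a = d * a ∧
    rB γ x = il γ * x := by decide +kernel
theorem gF_R : ∀ m ∈ R, m ∈ D ∧ m ∈ RA ∧ gF m = m := forall_sd.2 (by decide +kernel)
theorem gF_D : ∀ m ∈ D, gF (gF m) = m := forall_sd.2 (by decide +kernel)
theorem r3_D : ∀ m ∈ D, rB (vv 3) (rB (vv 3) m) = m ∧ lf (rB (vv 3)) (lf (rB (vv 3)) m) = m ∧
    rB (vv 3) (lf (rB (vv 3)) (rB (vv 3) (lf (rB (vv 3)) (rB (vv 3) (lf (rB (vv 3)) m))))) = m ∧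
    rB (vv 3) (lf (rB (vv 3)) z) ≠ m * lf (rB (vv 3)) m * a := forall_sd.2 (by decide +kernel)
theorem gam : ∀ γ, γ ∈ ZZ → r1V γ = γ → vv 5 * aS (ts 48) γ = γ * vv 10 → γ ∈ [vv 3, vv 252] := by
  decide +kernel
theorem U0_spl : ∀ t, t ∈ U0 → t ∈ spl [ts 10, ts 12, ts 32] := by decide +kernel
theorem A0_spl : ∀ t, t ∈ A0 → t ∈ spl [ts 15, ts 48, ts 64] := by decide +kernel
theorem rh_Q : ∀ m ∈ Q, m ∈ T00 ∧ rh m ∈ Q ∧ rh (rh (rh m)) = m := forall_sd.2 (by decide +kernel)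
theorem rh'_Q : ∀ m ∈ Q, m ∈ T01 ∧ rh' m ∈ Q ∧ rh' (rh' (rh' m)) = m := forall_sd.2 (by decide +kernel)
theorem mu1 : ∀ t', t' ∈ A0 → ∃ t, t ∈ A0 ∧ ir t ∈ T00 ∧ rh (ir t) = ir t' ∧
    r1V (e 0 * e (pS t 0)) = e 0 * e (pS t' 0) := by decide +kernel
theorem mu2 : ∀ t', t' ∈ A0 → ∃ t, t ∈ A0 ∧ ir t ∈ T01 ∧ rh' (ir t) = ir t' ∧
    r2V (e 0 * e (pS t 0)) = e 0 * e (pS t' 0) := by decide +kernel
theorem mu3 : ∀ k ∈ [ts 10, ts 32], ∀ t', t' ∈ A0 → ∃ t, t ∈ A0 ∧ k * t * k⁻¹ = t' ∧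
    aS k (e 0 * e (pS t 0)) = e 0 * e (pS t' 0) := by decide +kernel

theorem D_ab (h : Ch DA s2) : ∀ u ∈ im s2 D, ∀ w ∈ im s2 D, u * w = w * u := fun u hu w hw => by
  obtain ⟨m, hm, rfl⟩ := (h.mem_im D_DA).1 hu
  obtain ⟨n, hn, rfl⟩ := (h.mem_im D_DA).1 hw
  exact (h.comm (D_DA hm) (D_DA hn)).2 (D_comm m hm n hn)

theorem AD.om (hD : Ds s c E0 g0 g1 s2) : AD g0 s2 omg := ⟨hD.a0'.mono D_DA, fun m hm => (omg_D m hm).1⟩
theorem AD.lf (hD : Ds s c E0 g0 g1 s2) {g : G} {f : P → P} (h : AD g s2 f) : AD (g0 * g * g0⁻¹) s2 (lf f) :=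
  ((AD.om hD).mul h).mul ((AD.om hD).inv (f' := fun m => omg (omg m))
    fun m hm => ⟨(omg_D _ (omg_D m hm).1).1, (omg_D m hm).2⟩)

theorem sA' (F : Fs s c g1 g2) (hE : Es s c g1 g2 E0) {v : V} (hv : v ∈ RM) : s (il v) ∈ E0 :=
  F.ext v hv ▸ hE.le (mem_im c (f1 v hv))

/-- `E0 ⊓ C(Q) = ⟨z⟩` -/
theorem cenE (h : N0 s O) (F : Fs s c g1 g2) (hE : Es s c g1 g2 E0) {w : G} (hw : w ∈ E0)
    (hc : ∀ t ∈ A0, s (ir t) * w = w * s (ir t)) : w = 1 ∨ w = s z := by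
  have hA : w ∈ CC (im s A) := mem_CC_im.2 fun m hm => by
    have e : s m = s (il m.v) * s (ir m.t) := by
      rw [← h.ch.mul (il m.v) ⟨(A_le_Q hm).1, one_mem _⟩ _ (ir_T0 (u5 _ hm.2)), il_mul_ir]
    rw [e, ← mul_assoc, hE.comm _ hw _ (sA' F hE (A_le_Q hm).1), mul_assoc, ← hc _ hm.2, mul_assoc]
  obtain ⟨m, hm, rfl⟩ := (h.ch.mem_im A_le_T0).1 (h.two_cen hE.syl.pgroup hw hA)
  have k : ∀ v ∈ RM, m * il v = il v * m := fun v hv =>
    (h.ch.comm (A_le_T0 hm) ⟨hv, one_mem _⟩).1 (hE.comm _ hw _ (sA' F hE hv))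
  rcases cenQ_chk m hm (k _ (by decide +kernel)) (k _ (by decide +kernel)) (k _ (by decide +kernel)) with
    rfl | rfl
  exacts [Or.inl h.ch.one, Or.inr rfl]

theorem mu (h : N0 s O) (F : Fs s c g1 g2) (hE : Es s c g1 g2 E0) (hr : Rr s c E0 r) {g : G} (hg : g ∈ NN E0)
    (k : ∀ t' ∈ A0, ∃ t ∈ A0, g * s (ir t) * g⁻¹ = s (ir t') ∧
      g * c (e 0 * e (pS t 0)) * g⁻¹ = c (e 0 * e (pS t' 0))) :
    g * r = r * g ∨ g * r = r * s z * g := by
  have h1 : g * r * g⁻¹ ∈ E0 := SX.Hx.conj_mem hg hr.mem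
  have := cenE h F hE (mul_mem (inv_mem hr.mem) h1) fun t' ht' => by
    obtain ⟨t, ht, e1, e2⟩ := k t' ht'
    have a1 := hr.qa t' ht'
    have a2 : s (ir t') * (g * r * g⁻¹) * (s (ir t'))⁻¹ = g * r * g⁻¹ * c (e 0 * e (pS t' 0)) := by
      rw [← e2, ← e1]
      calc _ = g * (s (ir t) * r * (s (ir t))⁻¹) * g⁻¹ := by group
        _ = _ := by rw [hr.qa t ht]; group
    have a3 := hE.comm _ (mul_mem (inv_mem hr.mem) h1) _ (hE.le (mem_im c (g3' t')))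
    calc _ = (s (ir t') * r * (s (ir t'))⁻¹)⁻¹ * (s (ir t') * (g * r * g⁻¹) * (s (ir t'))⁻¹) * s (ir t') := by
          group
      _ = (c (e 0 * e (pS t' 0)))⁻¹ * (r⁻¹ * (g * r * g⁻¹) * c (e 0 * e (pS t' 0))) * s (ir t') := by
          rw [a1, a2]; group
      _ = _ := by rw [a3, inv_mul_cancel_left]
  refine this.imp (fun e => ?_) fun e => ?_
  · calc g * r = r * (r⁻¹ * (g * r * g⁻¹)) * g := by group
      _ = _ := by rw [e, mul_one]
  · calc g * r = r * (r⁻¹ * (g * r * g⁻¹)) * g := by group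
      _ = _ := by rw [e]

theorem pm_mul {g k r w : G} (h1 : g * w = w * g) (h2 : w * w = 1) (a : g * r = r * g ∨ g * r = r * w * g)
    (b : k * r = r * k ∨ k * r = r * w * k) : g * k * r = r * (g * k) ∨ g * k * r = r * w * (g * k) := by
  rw [mul_assoc g]
  rcases a with a | a <;> rcases b with b | b <;> rw [b]
  · left; rw [← mul_assoc, a, mul_assoc]
  · right; rw [← mul_assoc, ← mul_assoc, a, mul_assoc r, h1]; group
  · right; rw [← mul_assoc, a, mul_assoc]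
  · left; rw [← mul_assoc, ← mul_assoc, a, mul_assoc _ g, h1, ← mul_assoc, mul_assoc r, h2]; group

theorem pm_sq {g r w : G} (h1 : g * w = w * g) (h2 : w * w = 1) (a : g * r = r * g ∨ g * r = r * w * g) :
    Commute (g * g) r := by
  rcases a with a | a
  · exact Commute.mul_left a a
  · show g * g * r = r * (g * g)
    rw [mul_assoc g, a, ← mul_assoc, ← mul_assoc, a, mul_assoc _ g, h1, ← mul_assoc, mul_assoc r, h2]; group

theorem cz_T0 (h : Ch T0 s) {m : P} (hm : m ∈ T0) : s m * s z = s z * s m := by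
  refine (h.comm hm (by decide +kernel)).2 ?_
  have := conj_il m (vv 255)
  rw [aS_255] at this
  exact mul_inv_eq_iff_eq_mul.1 this

theorem mu_three (h : N0 s O) (hE : Es s c g1 g2 E0) (hr : r ∈ E0) {g : G} (hg : g ∈ NN E0) {X : Subgroup P}
    {f : P → P} (ac : Ac g s X f) (k : ∀ m ∈ Q, m ∈ X ∧ f m ∈ Q ∧ f (f (f m)) = m) (kz : f z = z)
    (e : g * r = r * g ∨ g * r = r * s z * g) : g * r = r * g := by
  refine e.resolve_right fun e => ?_
  have zQ : z ∈ Q := by decide +kernel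
  have c3 : g * (g * g) ∈ CC E0 := hE.cQ _ (mul_mem hg (mul_mem hg hg)) (mem_CC_im.2 fun m hm => by
    conv_rhs => rw [← (k m hm).2.2, ← ac _ (k _ (k _ (k m hm).2.1).2.1).1, ← ac _ (k _ (k m hm).2.1).1,
      ← ac _ (k m hm).1]
    group)
  have cz : g * s z = s z * g := by
    have := ac z (k z zQ).1
    rw [kz] at this
    exact mul_inv_eq_iff_eq_mul.1 this
  have z2 : s z * s z = 1 := by
    rw [← h.ch.mul _ (Q_le_T0 zQ) _ (Q_le_T0 zQ), show z * z = 1 by decide +kernel, h.ch.one]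
  have e3 : g * (g * g) * r = r * s z * (g * (g * g)) := by
    have e2 := (pm_sq cz z2 (Or.inr e)).eq
    rw [mul_assoc g, e2, ← mul_assoc, e, mul_assoc]
  rw [← c3 r hr, mul_left_inj, left_eq_mul] at e3
  exact absurd (h.ch.inj z (Q_le_T0 zQ) e3) (by decide +kernel)

/-- the chart on `S1` -/
theorem exists_s1 (h : N0 s O) (F : Fc s c g1 g2 false) (hD : Ds s c E0 g0 g1 s2)
    (hX : Xs s c E0 g1 (s2 x)) : ∃ s' : P → G, Ch S1 s' ∧ (∀ m ∈ T0, s m = s' m) ∧ (∀ m ∈ DA, s2 m = s' m) ∧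
      ∀ v ∈ Ev, c v = s' (il v) := by
  obtain ⟨u, h1, h2, ca⟩ := exists_u h F hD hX
  refine ⟨fun m => c m.v * u m.t, ⟨fun m hm n hn => ?_, fun m hm k => ?_⟩, fun m hm => ?_, fun m hm => ?_,
    fun v _ => by simp⟩
  · show c (m.v * aS m.t n.v) * u (m.t * n.t) = c m.v * u m.t * (c n.v * u n.t)
    rw [F.mul _ hm.1 _ (aS_Ev _ _ hn.1), ← ca _ _ hn.1, map_mul]; group
  · have hv := hm.1
    have k' : u m.t = (c m.v)⁻¹ := eq_inv_of_mul_eq_one_right k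
    have ht : m.t = 1 := u6 _ fun v hw => by
      have : c (aS m.t v) = c v := by
        rw [← ca _ _ hw, k', inv_inv, mul_assoc, ← F.mul _ hw _ hv, mul_comm v, F.mul _ hv _ hw,
          inv_mul_cancel_left]
      have := F.inj _ (mul_mem (aS_Ev m.t v hw) hw) (by
        rw [F.mul _ (aS_Ev _ _ hw) _ hw, this, ← F.mul _ hw _ hw, SX.V.mul_self]; exact (mhom F.mul).map_one)
      rw [← mul_one (aS m.t v), ← SX.V.mul_self v, ← mul_assoc, this, one_mul]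
    have k2 : c m.v * u m.t = 1 := k
    rw [ht, map_one, mul_one] at k2
    exact P.ext (F.inj _ hv k2) ht
  · show s m = c m.v * u m.t
    rw [F.ext _ hm.1, h1 _ hm.2, ← h.ch.mul (il m.v) ⟨hm.1, one_mem _⟩ _ (ir_T0 hm.2), il_mul_ir]
  · show s2 m = c m.v * u m.t
    rw [← hD.ex2 _ hm.1, h2 _ hm.2, ← hD.ch.mul (il m.v) ⟨hm.1, one_mem _⟩ _ (ir_DA hm.2), il_mul_ir]

theorem D_S1 : D ≤ S1 := fun _ hm => ⟨f2 _ hm.1, trivial⟩

/-- `y r y⁻¹ = r k` gives `r y r⁻¹ = k y` -/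
theorem flip {r y k : G} (h : y * r * y⁻¹ = r * k) (h1 : k * k = 1) (h2 : r * k = k * r) :
    r * y * r⁻¹ = k * y := by
  have : r * y * r⁻¹ = r * (y * r * y⁻¹)⁻¹ * y := by group
  rw [this, h, h2, mul_inv_rev, mul_inv_cancel_left, inv_eq_of_mul_eq_one_right h1]

end RrA
open As RrA

/-- `k_t = e 0 * e (pS t 0)`; `E0 ⊓ C(Q) = ⟨z⟩`.
(1) Let `g ∈ {e23, e24, e34, g1, g2}`; it normalises `E0, F0`, acts on `F0` as a point permutation `σ` that fixes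
`0`, and `g s(ir t) g⁻¹ = s (ir (σ t σ⁻¹))` for `t ∈ A0`. Conjugating `qa` shows that `r⁻¹ g r g⁻¹ ∈ E0` centralises
`s A0`, so `g r g⁻¹ = r z ^ (μ g)`. `g1³, g2³ ∈ C(Q)` centralise `E0` (`cQ`), so `μ g1 = μ g2 = 0`. `μ` is additive,
`e24 = [e23, e34]` gives `μ e24 = 0`; `g1 e24 g1⁻¹ = e23`, `g2 e24 g2⁻¹ = e34` give the rest.
(2) `ξ r ξ⁻¹ = r c(γ)`, `γ ∈ ZZ` (`cE`). `g1` fixes `ξ, r`, so `r1V γ = γ`. Conjugate by `s b`
(`b ξ b = ξ s(a e24)`, `b r b = r c(k_b)`): `aS b γ = γ * 15`. So `γ ∈ {3, 252}`.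
(3) Actions on `D0` in the chart `s2` (all of `E0`, `g0` normalise `D0`): `c v` acts as `il v`; `r` centralises
`s2 Z`, acts on `s R` as `ε 0`, and `r ξ r⁻¹ = ξ c(γ)`. If `γ = 252`, then with `l u = g0 u g0⁻¹` the product
`g = c 5 * r * l (c 17) * c 5 * l (c 17) * l (l r)` centralises `s R`, maps `d` to `zb 1 zb 2 zb 3 a`, and `g²` centralises
`D0` (computer checked): contradiction with `cen_of_ab` for `D0` in `C(R)`. So `γ = 3` and `r` acts on `D0` as `ε 0`.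
(4) If `r² = z`: `r₁ = g0 r g0⁻¹`, `h = r r₁`; `h r h⁻¹` and `r₁` act on `D0` in the same way (computer checked), so
`h r h⁻¹ = δ o r₁` with `δ ∈ D0`, `o ∈ O_D = opOf 2 (C(D0))` (`cen_split`). Squaring,
`h z h⁻¹ = (δ * r₁ δ r₁⁻¹) (o * r₁ o r₁⁻¹) r₁²` with `r₁² = s a`, `h z h⁻¹ = s2 (x zb 1 zb 2 zb 3)`; the `O_D`-part is
trivial and `δ * r₁ δ r₁⁻¹ ∈ ⟨ξ⟩`, a contradiction. -/
theorem Fc.rs (h : N0 s O) (F : Fc s c g1 g2 false) (hE : Es s c g1 g2 E0) (hD : Ds s c E0 g0 g1 s2)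
    (hX : Xs s c E0 g1 (s2 x)) (hr : Rr s c E0 r) : Rs s c g1 g2 (s2 x) r := by
  obtain ⟨s', ch, e0, e2, ec⟩ := exists_s1 h F hD hX
  have rc : ∀ v ∈ Ev, r * c v = c v * r := fun v hv => hE.comm _ hr.mem _ (hE.le (mem_im c hv))
  have cc : ∀ v ∈ Ev, c v * c v = 1 := fun v hv => by
    rw [← F.mul _ hv _ hv, SX.V.mul_self]; exact (mhom F.mul).map_one
  -- (1)
  have c1 : g1 * r = r * g1 := mu_three h hE hr.mem hE.n1 F.a1 rh_Q (by decide +kernel)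
    (mu h F.toFs hE hr hE.n1 fun t' ht' => by
      obtain ⟨t, ht, k1, k2, k3⟩ := mu1 t' ht'
      exact ⟨t, ht, by rw [F.a1 _ k1, k2], by rw [tw0 F.t1 (g3' t), k3]⟩)
  have c2 : g2 * r = r * g2 := mu_three h hE hr.mem hE.n2 F.a2 rh'_Q (by decide +kernel)
    (mu h F.toFs hE hr hE.n2 fun t' ht' => by
      obtain ⟨t, ht, k1, k2, k3⟩ := mu2 t' ht'
      exact ⟨t, ht, by rw [F.a2 _ k1, k2], by rw [tw0 F.t2 (g3' t), k3]⟩)
  have m3 : ∀ k ∈ [ts 10, ts 32], k ∈ U → s (ir k) * r = r * s (ir k) ∨ s (ir k) * r = r * s z * s (ir k) :=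
    fun k hk hU => mu h F.toFs hE hr (hE.nT (mem_im s (ir_T0 hU))) fun t' ht' => by
      obtain ⟨t, ht, k1, k2⟩ := mu3 k hk t' ht'
      refine ⟨t, ht, ?_, ?_⟩
      · rw [h.ch.conj (ir_T0 hU) (ir_T0 (u5 t ht)), ← k1, map_mul, map_mul, map_inv]
      · rw [ec _ (g3' t), e0 _ (ir_T0 hU), ch.conj (m := ir k) ⟨one_mem _, trivial⟩
          (n := il _) ⟨g3' t, trivial⟩, conj_il, ir_t, k2, ec _ (g3' t')]
  have T23 : e23 ∈ T0 := by decide +kernel
  have T34 : e34 ∈ T0 := by decide +kernel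
  have c24 : s e24 * r = r * s e24 := by
    have zT : z ∈ T0 := by decide +kernel
    have z2 : s z * s z = 1 := by rw [← h.ch.mul _ zT _ zT, show z * z = 1 by decide +kernel, h.ch.one]
    have k := pm_mul (cz_T0 h.ch T23) z2 (m3 (ts 10) (by simp) T23.2) (m3 (ts 32) (by simp) T34.2)
    rw [show s e23 * s (ir (ts 32)) = s (e23 * e34) from (h.ch.mul _ T23 _ T34).symm] at k
    rw [show e24 = e23 * e34 * (e23 * e34) by decide +kernel, h.ch.mul _ (mul_mem T23 T34) _ (mul_mem T23 T34)]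
    exact pm_sq (cz_T0 h.ch (mul_mem T23 T34)) z2 k
  have cj' : ∀ {g y y' : G}, g * r = r * g → y * r = r * y → g * y * g⁻¹ = y' → y' * r = r * y' :=
    fun k1 k2 k3 => k3 ▸ (Commute.mul_left (Commute.mul_left k1 k2) (Commute.inv_left k1))
  have c23 : s e23 * r = r * s e23 :=
    cj' c1 c24 (by rw [F.a1 _ (by decide +kernel), show rh e24 = e23 by decide +kernel])
  have c34 : s e34 * r = r * s e34 :=
    cj' c2 c24 (by rw [F.a2 _ (by decide +kernel), show rh' e24 = e34 by decide +kernel])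
  have cU : ∀ t ∈ U0, s (ir t) * r = r * s (ir t) := fun t ht =>
    (spl_ind (fun t => t ∈ U ∧ s (ir t) * r = r * s (ir t)) ⟨one_mem _, by simp [h.ch.one]⟩
      (fun t t' k k' => ⟨mul_mem k.1 k'.1, by
        rw [map_mul, h.ch.mul _ (ir_T0 k.1) _ (ir_T0 k'.1)]; exact Commute.mul_left k.2 k'.2⟩) _
      (by simp only [List.forall_mem_cons]
          exact ⟨⟨T23.2, c23⟩, ⟨by decide +kernel, c24⟩, ⟨T34.2, c34⟩, by simp⟩) t (U0_spl t ht)).2
  -- (2)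
  obtain ⟨γ, hγ, eγ⟩ := (mem_im_iff fun v hv w hw => F.mul v (f2 v hv) w (f2 w hw)).1 (hX.cE r hr.mem)
  have gE := f2 γ hγ
  have cx : s2 x * r * (s2 x)⁻¹ = r * c γ := by rw [rc _ gE, eγ, inv_mul_cancel_right]
  have ra : s a * r * (s a)⁻¹ = r * c (vv 3) := hr.qa (ts 15) (by decide +kernel)
  have ceq : ∀ v ∈ Ev, ∀ w ∈ Ev, c v = c w → v = w := fun v hv w hw k => by
    rw [ec v hv, ec w hw] at k
    exact il_inj (ch.eq_of (m := il v) ⟨hv, trivial⟩ (n := il w) ⟨hw, trivial⟩ k)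
  have hγ' : γ ∈ [vv 3, vv 252] := by
    refine gam γ hγ (ceq _ (g2' γ gE).1 _ gE ?_) (ceq _ (mul_mem (by decide +kernel) (aS_Ev _ _ gE)) _
      (mul_mem gE (by decide +kernel)) ?_)
    · rw [← tw0 F.t1 gE, eγ]
      exact mul_inv_eq_iff_eq_mul.2 (Commute.mul_right (Commute.mul_right (Commute.mul_right hX.c1 c1)
        (Commute.inv_right hX.c1)) (Commute.inv_right c1))
    · have rb : s b * r * (s b)⁻¹ = r * c (vv 5) := hr.qa (ts 48) (by decide +kernel)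
      have xb : s b * s2 x * (s b)⁻¹ = s2 x * (s a * s e24) := by
        rw [e0 b (by decide +kernel), e2 x x_DA, e0 a (by decide +kernel), e0 e24 (by decide +kernel),
          ch.conj (by decide +kernel) (by decide +kernel), ← ch.mul _ (by decide +kernel) _ (by decide +kernel),
          ← ch.mul _ (by decide +kernel) _ (by decide +kernel)]
        exact congrArg s' (by decide +kernel)
      have q1 : s e24 * c (vv 5) * (s e24)⁻¹ = c (aS (ts 12) (vv 5)) := tw0 F.t24 (by decide +kernel)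
      have q2 : s a * c (aS (ts 12) (vv 5)) * (s a)⁻¹ = c (vv 10) :=
        (F.qa (ts 15) (by decide +kernel) _ (by decide +kernel)).trans (congrArg c (by decide +kernel))
      have q3 : s2 x * c (vv 9) * (s2 x)⁻¹ = c (vv 10) :=
        (hX.act _ (by decide +kernel)).trans (congrArg c (by decide +kernel))
      have q4 : c (vv 3) * c (vv 10) = c (vv 9) :=
        (F.mul _ (by decide +kernel) _ (by decide +kernel)).symm.trans (congrArg c (by decide +kernel))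
      have q5 : s b * c γ * (s b)⁻¹ = c (aS (ts 48) γ) := F.qa (ts 48) (by decide +kernel) _ gE
      rw [F.mul _ (by decide +kernel) _ (aS_Ev _ _ gE), F.mul _ gE _ (by decide +kernel), ← mul_right_inj r,
        ← mul_assoc, ← mul_assoc, ← rb, ← q5, ← cx, ← q3, ← q4]
      calc _ = s b * (r * c γ) * (s b)⁻¹ := by group
        _ = (s b * s2 x * (s b)⁻¹) * (s b * r * (s b)⁻¹) * (s b * s2 x * (s b)⁻¹)⁻¹ := by rw [← cx]; group
        _ = s2 x * (s a * (s e24 * r) * (s e24)⁻¹ * (s a)⁻¹ * (s a * (s e24 * c (vv 5) * (s e24)⁻¹) *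
            (s a)⁻¹)) * (s2 x)⁻¹ := by rw [xb, rb]; group
        _ = s2 x * (s a * r * (s a)⁻¹ * c (vv 10)) * (s2 x)⁻¹ := by rw [q1, q2, c24]; group
        _ = _ := by rw [ra]; group
  -- (3)
  have aR : AD r s2 (rB γ) := ⟨Ac.of_gen hD.ch D_DA (fun m hm => D_DA (rB_D γ hγ' m hm)) (rB_mul γ hγ')
    (by decide +kernel) gen_D (by
      obtain ⟨k1, k2, k3⟩ := rB_gen γ hγ'
      simp only [List.forall_mem_cons] at k1 ⊢
      have zz : ∀ v ∈ ZZ, r * s2 (il v) * r⁻¹ = s2 (il v) := fun v hv => by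
        rw [hD.ex2 v hv, rc _ (f2 v hv), mul_inv_cancel_right]
      refine ⟨?_, ?_, ?_, ?_, ?_, ?_, ?_, ?_, by simp⟩
      · rw [k1.1]; exact zz _ (by decide +kernel)
      · rw [k1.2.1]; exact zz _ (by decide +kernel)
      · rw [k1.2.2.1]; exact zz _ (by decide +kernel)
      · rw [k2, hD.ch.mul _ (by decide +kernel) _ (by decide +kernel), hD.ex1 a (by decide +kernel),
          show s2 d = c (vv 3) from hD.ex2 _ (by decide +kernel)]
        exact flip ra (cc _ (by decide +kernel)) (rc _ (by decide +kernel))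
      · rw [k1.2.2.2.1, hD.ex1 _ (by decide +kernel), ← c23, mul_inv_cancel_right]
      · rw [k1.2.2.2.2.1, hD.ex1 _ (by decide +kernel), ← c24, mul_inv_cancel_right]
      · rw [k1.2.2.2.2.2.1]; exact zz _ (by decide +kernel)
      · rw [k3, hD.ch.mul (il γ) ⟨hγ, one_mem _⟩ _ x_DA, hD.ex2 γ hγ]
        exact flip cx (cc _ gE) (rc _ gE)), rB_D γ hγ'⟩
  have aC : ∀ v ∈ [vv 5, vv 17], v ∈ Ev → AD (c v) s2 (cj (il v)) := fun v hv hv' =>
    ⟨fun m hm => by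
      rw [ec v hv', e2 m (D_DA hm), e2 _ (D_DA (cj_D v hv m hm)), ch.conj (m := il v) ⟨hv', trivial⟩ (D_S1 hm)]
      rfl, cj_D v hv⟩
  have dD : d ∈ D := by decide +kernel
  have h3 : γ = vv 3 := by
    rcases List.mem_cons.1 hγ' with k | k
    · exact k
    · exfalso
      rw [List.mem_singleton.1 k] at aR
      have a5 := aC (vv 5) (by simp) (by decide +kernel)
      have a17 := (aC (vv 17) (by simp) (by decide +kernel)).lf hD
      have aG : AD _ s2 gF := a5.mul (aR.mul (a17.mul (a5.mul (a17.mul ((aR.lf hD).lf hD)))))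
      have := cen_of_ab hD.syl (D_ab hD.ch) hD.syl.pgroup hD.syl.le
        (mem_CC_im.2 fun m hm => by
          rw [← hD.ex1 m (gF_R m hm).2.1]; exact aG.cen (gF_R m hm).1 (gF_R m hm).2.2)
        aG.norm ((aG.mul aG).cenD gF_D)
      have k := aG.1 d dD
      rw [mem_CC_im.1 this d dD, mul_inv_cancel_right] at k
      exact absurd (hD.ch.eq_of (D_DA dD) (D_DA (aG.2 d dD)) k) (by decide +kernel)
  subst h3
  refine ⟨hr.sq.resolve_right fun r2 => ?_, cU, cx, c1, c2⟩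
  -- (4)
  have a1 := aR.lf hD
  set r1 := g0 * r * g0⁻¹ with hr1
  have i0 : AD r⁻¹ s2 (rB (vv 3)) := aR.inv fun m hm => ⟨aR.2 m hm, (r3_D m hm).1⟩
  have i1 : AD r1⁻¹ s2 (lf (rB (vv 3))) := a1.inv fun m hm => ⟨a1.2 m hm, (r3_D m hm).2.1⟩
  have hk := (aR.mul (a1.mul (aR.mul (i1.mul (i0.mul i1))))).cenD fun m hm => (r3_D m hm).2.2.1
  have DC : im s2 D ≤ CC (im s2 D) := fun u hu w hw => D_ab hD.ch w hw u hu
  have RD : im s R ≤ im s2 D := im_le.2 fun m hm => hD.ex1 m (gF_R m hm).2.1 ▸ mem_im s2 (gF_R m hm).1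
  obtain ⟨δ, hδ, o, ho, k⟩ := cen_split (hD.syl.of_le DC (centralizer_le RD)) le_rfl hk
  obtain ⟨m, hm, rfl⟩ := (hD.ch.mem_im D_DA).1 hδ
  have zD : z ∈ D := by decide +kernel
  have aD : a ∈ D := by decide +kernel
  have r2' : r * r = s2 z := r2.trans (hD.ex1 z (by decide +kernel)).symm
  have r12 : r1 * r1 = s2 a := by
    rw [show a = omg z by decide +kernel, ← (AD.om hD).1 z zD, ← r2', hr1]; group
  have ho' : r1 * o * r1⁻¹ ∈ opOf 2 (CC (im s2 D)) := SX.Hx.conj_mem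
    (normalizer_le_normalizer_opOf 2 _ (normalizer_le_normalizer_centralizer _ a1.norm)) ho
  have oc : o * s2 (lf (rB (vv 3)) m) = s2 (lf (rB (vv 3)) m) * o :=
    mem_CC_im.1 (opOf_le 2 _ ho) _ (a1.2 m hm)
  have key : s2 (rB (vv 3) (lf (rB (vv 3)) z)) = s2 m * s2 (lf (rB (vv 3)) m) * (o * (r1 * o * r1⁻¹)) * s2 a := by
    rw [← (aR.mul a1).1 z zD, ← r2', ← r12, mul_assoc (s2 m), ← mul_assoc _ o, ← oc, ← a1.1 m hm]
    calc _ = (r * (r1 * (r * (r1⁻¹ * (r⁻¹ * r1⁻¹)))) * r1) * (r * (r1 * (r * (r1⁻¹ * (r⁻¹ * r1⁻¹)))) * r1) := by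
          group
      _ = _ := by rw [k]; group
  have o1 : o * (r1 * o * r1⁻¹) = 1 := by
    have h1 : o * (r1 * o * r1⁻¹) ∈ im s2 D := by
      have : o * (r1 * o * r1⁻¹) = (s2 m * s2 (lf (rB (vv 3)) m))⁻¹ * s2 (rB (vv 3) (lf (rB (vv 3)) z)) *
          (s2 a)⁻¹ := by rw [key]; group
      rw [this]
      exact mul_mem (mul_mem (inv_mem (mul_mem hδ (mem_im s2 (a1.2 m hm)))) (mem_im s2 ((aR.mul a1).2 z zD)))
        (inv_mem (mem_im s2 aD))
    exact mem_bot.1 (inf_eq_bot_of_isPGroup_of_coprime hD.syl.pgroup (opOf_coprime 2 _) ▸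
      (mem_inf.2 ⟨h1, mul_mem ho ho'⟩))
  rw [o1, mul_one, ← hD.ch.mul _ (D_DA hm) _ (D_DA (a1.2 m hm)),
    ← hD.ch.mul _ (D_DA (mul_mem hm (a1.2 m hm))) _ (D_DA aD)] at key
  exact (r3_D m hm).2.2.2 (hD.ch.eq_of (D_DA ((aR.mul a1).2 z zD))
    (D_DA (mul_mem (mul_mem hm (a1.2 m hm)) aD)) key)


end CL.HA
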