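import Cfsg.Agent.INV.HA.EA
import Cfsg.Agent.INV.HA.E1

/-!
Harada `E₁₆ · GL₄(2)`: the end of the climb.
-/

set_option autoImplicit false
set_option maxHeartbeats 400000

namespace CL.HA
open Subgroup CL.MSS CL.PComp
open CL.SX (V vv e ZZ pc)

variable {G : Type*} [Group G] [Finite G] {s : P → G} {O : Subgroup G}

namespace SylA

theorem z2 : ∀ t, aS t (vv 17) * vv 17 ∈ ZZ → ∀ v, (⟨v, t⟩ : P) * e34 * (⟨v, t⟩ : P)⁻¹ * e34⁻¹ ∈ D →
    (⟨v, t⟩ : P) * c * (⟨v, t⟩ : P)⁻¹ * c⁻¹ ∈ D → t ∈ Lo ∧ (v ∈ ZZ ∨ vv 0xAA * v ∈ ZZ) := by decide +kernel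
theorem f12 : ∀ t, vv 0xAA * aS t (vv 0xAA) ∈ ZZ := by decide +kernel
theorem free : ∀ v, vv 0xAA * v ∈ ZZ → (∀ t, t ∈ Lo → aS t v = v → t = 1) ∧ (v ∈ RM ∨ aS (ts 1) v ∈ RM) := by
  decide +kernel
theorem cZ : ∀ w, w ∈ ZZ → ∀ t, w * aS t w ∈ Zev := by decide +kernel
theorem zev : ∀ v, v ∈ Zev → v ∈ RM ∧ aS (ts 1) v ∈ RM := by decide +kernel
theorem T0_S1 : T0 ≤ S1 := fun _ hm => ⟨K.RM_le hm.1, trivial⟩
theorem D_S1 : D ≤ S1 := fun _ hm => ⟨K.ZZ_le hm.1, trivial⟩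

end SylA
open SylA

/-- Let `α` be the automorphism of `X` induced by `y` (`Ch.exists_aut`); `α D = D`. FINITE FACTS (computer checked; `S1` is
generated by `[e12, e23, e34, c, d, x, il (vv 17)]`): if `m ∈ P` has `[m, n] ∈ D` for these generators then `m ∈ D` or
`e12 * m ∈ D`; if `k ∈ D` and `(e12 k)² = 1` then `k ∈ Z`, and `C_D(e12 k) = Z`; `[Z, P] = sd Zev ⊥` is generated by
commutators `[k, n]`, `k ∈ Z`, `n ∈ S1`. So `α e12 = e12 k`, `k ∈ Z`, `α Z = Z`, `α Zev = Zev`, and `α A' = A'` (`k ∈ Zev`)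
or `α A' = x A' x⁻¹ = ⟨Zev, e12 d⟩`. Hence `y' = y` or `(s x)⁻¹ y` normalises `s A'`; `Y = im s X ⊔ zpowers y` is a
2-group (`pg_sup`); `flag'` gives `w = y' (s m)⁻¹ ∈ C(A') ⊓ Y`, and `im s (X ⊓ E) ⊔ zpowers w ≤ Y ⊓ C(A')` is a 2-group,
so `w ∈ im s (X ⊓ E)` by `sE`. -/
theorem Cl.sylA {X : Subgroup P} (h : Cl X s O) {y : G} (hX : y ∈ NN (im s X)) (hD : y ∈ NN (im s D))
    (h2 : y * y ∈ im s X) : y ∈ im s X := by
  obtain ⟨α, m1, ac, mu, -, su⟩ := h.ch.exists_aut hX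
  have DX := D_S1.trans h.le
  have TX := T0_S1.trans h.le
  have aD {m : P} (hm : m ∈ X) : α m ∈ D ↔ m ∈ D := by
    rw [← h.ch.mem_im' DX (m1 m hm), ← h.ch.mem_im' DX hm, ← ac m hm]
    exact (mem_normalizer_iff.1 hD _).symm
  have ai {m : P} (hm : m ∈ X) : α m⁻¹ = (α m)⁻¹ := (mhom mu).map_inv ⟨m, hm⟩
  have cm {m n : P} (hm : m ∈ X) (hn : n ∈ X) : α (m * n * m⁻¹ * n⁻¹) = α m * α n * (α m)⁻¹ * (α n)⁻¹ := by
    rw [mu _ (mul_mem (mul_mem hm hn) (inv_mem hm)) _ (inv_mem hn), mu _ (mul_mem hm hn) _ (inv_mem hm),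
      mu _ hm _ hn, ai hm, ai hn]
  have x12 : e12 ∈ X := TX (by decide +kernel)
  have k1 {n : P} (hn : n ∈ S1) : α e12 * n * (α e12)⁻¹ * n⁻¹ ∈ D := by
    obtain ⟨n, hn', rfl⟩ := su n (h.le hn)
    have : e12 * n * e12⁻¹ * n⁻¹ ∈ D := by
      rw [e12, K.il_conj, mul_inv_cancel_right]; exact ⟨f12 _, one_mem _⟩
    rw [← cm x12 hn']
    exact (aD (DX this)).2 this
  obtain ⟨tl, hv⟩ := z2 (α e12).t (by
    have := (k1 (n := il (vv 17)) (by decide +kernel)).1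
    rwa [conj_il, ← map_inv, ← map_mul] at this) (α e12).v (k1 (by decide +kernel)) (k1 (by decide +kernel))
  have hv := hv.resolve_left fun q => absurd ((aD x12).1 ⟨q, tl⟩) (by decide +kernel)
  have t1 : (α e12).t = 1 := (free _ hv).1 _ tl (eq_inv_of_mul_eq_one_right (congrArg P.v (show α e12 * α e12 = 1 by
    rw [← mu _ x12 _ x12, show e12 * e12 = 1 by decide +kernel]; exact (mhom mu).map_one)))
  have k2 {w : V} (hw : w ∈ ZZ) {n : P} (hn : n ∈ S1) :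
      ∃ u ∈ Zev, α (il w * n * (il w)⁻¹ * n⁻¹) = il u := by
    have wD : il w ∈ D := ⟨hw, one_mem _⟩
    have q := (aD (DX wD)).2 wD
    have c : α (il w) * α e12 = α e12 * α (il w) := by
      rw [← mu _ x12 _ (DX wD), ← mu _ (DX wD) _ x12, e12, ← map_mul, ← map_mul, mul_comm]
    have t2 : (α (il w)).t = 1 := (free _ hv).1 _ q.2 (il_inj (by
      rw [← conj_il, ← eq_il t1, c, mul_inv_cancel_right]))
    rw [cm (DX wD) (h.le hn), eq_il t2, K.il_conj, mul_inv_cancel_right]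
    exact ⟨_, cZ _ q.1 _, rfl⟩
  obtain ⟨u1, p1, q1⟩ := k2 (w := vv 15) (n := c) (by decide +kernel) (by decide +kernel)
  obtain ⟨u2, p2, q2⟩ := k2 (w := vv 12) (n := c) (by decide +kernel) (by decide +kernel)
  obtain ⟨u3, p3, q3⟩ := k2 (w := vv 48) (n := b) (by decide +kernel) (by decide +kernel)
  rw [show il (vv 15) * c * (il (vv 15))⁻¹ * c⁻¹ = z by decide +kernel] at q1
  rw [show il (vv 12) * c * (il (vv 12))⁻¹ * c⁻¹ = e13 by decide +kernel] at q2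
  rw [show il (vv 48) * b * (il (vv 48))⁻¹ * b⁻¹ = e14 by decide +kernel] at q3
  have pY := pg_sup (h.ch.pg le_rfl) hX h2
  have fin {n : P} (hn : n ∈ X) (k : ∀ l ∈ [z, e12, e13, e14], n * α l * n⁻¹ ∈ A') : y ∈ im s X := by
    have nA : s n * y ∈ NN (im s A') := by
      refine mem_normalizer_of_cj_le (map_le_iff_le_comap.2 (im_le.2
        (K.im_le_gen h.ch (A'_le_T0.trans TX) (by decide +kernel) gen_A' fun l hl => ?_)))
      have lX : l ∈ X := (A'_le_T0.trans TX) ((show ∀ l ∈ [z, e12, e13, e14], l ∈ A' by decide +kernel) l hl)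
      have := mem_im s (k l hl)
      rw [← h.ch.conj hn (m1 l lX), ← ac l lX] at this
      show s n * y * s l * (s n * y)⁻¹ ∈ im s A'
      convert this using 1; group
    have mY : s n * y ∈ im s X ⊔ zpowers y :=
      mul_mem (mem_sup_left (mem_im s hn)) (mem_sup_right (mem_zpowers y))
    obtain ⟨m, hm, e⟩ := flag' h.n0.ch pY ((im_mono s TX).trans le_sup_left) mY nA
    have := im_mono s inf_le_left (h.sE.max (_ ⊓ CC (im s A')) (pY.to_le inf_le_left)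
      (le_inf ((im_mono s inf_le_left).trans le_sup_left) h.sE.le) inf_le_right ▸
      mem_inf.2 ⟨mul_mem mY (mem_sup_left (inv_mem (mem_im s (TX hm)))), e⟩)
    exact (mul_mem_cancel_left (mem_im s hn)).1 ((mul_mem_cancel_right (inv_mem (mem_im s (TX hm)))).1 this)
  rcases (free _ hv).2 with q | q
  · refine fin (one_mem _) ?_
    simp only [List.forall_mem_cons, q1, q2, q3, one_mul, inv_one, mul_one]
    exact ⟨K.il_A' (zev _ p1).1, ⟨q, t1⟩, K.il_A' (zev _ p2).1, K.il_A' (zev _ p3).1, by simp⟩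
  · refine fin (n := x) (h.le (by decide +kernel)) ?_
    simp only [List.forall_mem_cons, q1, q2, q3, conj_il]
    rw [eq_il t1, conj_il]
    exact ⟨K.il_A' (zev _ p1).2, K.il_A' q, K.il_A' (zev _ p2).2, K.il_A' (zev _ p3).2, by simp⟩

/-- `step_up`; `α D` is elementary abelian of order 256 in `S1`, so `α D = D` (`ea16`, `EI_le_S1`) -/
theorem Cl.syl1 (h : Cl S1 s O) : SylIn 2 (im s S1) ⊤ := by
  by_contra hn
  obtain ⟨y, -, h1, h2, h3⟩ := step_up (h.ch.pg le_rfl) le_top hn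
  obtain ⟨α, m1, ac, mu, inj, -⟩ := h.ch.exists_aut h1
  have mu' : ∀ m ∈ D, ∀ n ∈ D, α (m * n) = α m * α n := fun m hm n hn => mu m (D_S1 hm) n (D_S1 hn)
  have a1 : α 1 = 1 := (mhom mu).map_one
  obtain ⟨I, e⟩ := ea16 (Y := im α D) (fun g hg => by
    obtain ⟨m, hm, rfl⟩ := (mem_im_iff mu').1 hg
    rw [← mu' m hm m hm, sq_EI 15 m (EI_full ▸ hm), a1]) (by
    rw [card_im mu' fun m hm k => inj m (D_S1 hm) 1 (one_mem _) (k.trans a1.symm), card_sd, card_ZZ, card_Lo])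
  rw [EI_le_S1 (I := I) (e ▸ im_le.2 fun m hm => m1 m (D_S1 hm)), EI_full] at e
  exact h2 (h.sylA h1 (ac.norm D_S1 fun m hm => e ▸ mem_im α hm) h3)

end CL.HA
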