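import Cfsg.Agent.INV.HA.S9
import Cfsg.Agent.INV.HA.Nu

/-!
Harada `E₁₆ · GL₄(2)`: transvections in groups with Sylow 2-subgroups inside `acS.range`.
-/

set_option autoImplicit false
set_option maxHeartbeats 400000

namespace CL.HA
open Subgroup CL.MSS CL.PComp
open CL.SX (V vv e ZZ pc)

variable {Φ : Subgroup (MulAut V)} {ψ ψ' : MulAut V} {c w c' w' : V}

theorem sy2_of_syl (h : SylIn 2 acS.range Φ) : Sy2 Φ := fun _ hX hp => by
  obtain ⟨g, -, l⟩ := h.exists_conj_le hp hX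
  exact ⟨g, fun _ hx => l (conj_mem_cj hx)⟩

theorem dot_mul (u v w : V) : dot (u * v) w = xor (dot u w) (dot v w) := K.dot_mul u v w
theorem dot_comm (u v : V) : dot u v = dot v u := K.dot_comm u v

namespace TV

theorem ex_dot : ∀ w : V, w ≠ 1 → ∃ i, dot (e i) w = true := by decide +kernel
theorem dual : ∀ b0 b1 b2 b3 b4 b5 b6 b7 : Bool, ∀ i, dot (e i) (bc b0 (e 0) * bc b1 (e 1) * bc b2 (e 2) *
    bc b3 (e 3) * bc b4 (e 4) * bc b5 (e 5) * bc b6 (e 6) * bc b7 (e 7)) = ![b0, b1, b2, b3, b4, b5, b6, b7] i := by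
  decide +kernel
theorem bc_inj {c : V} (h : c ≠ 1) {p q : Bool} (e : bc p c = bc q c) : p = q := by
  cases p <;> cases q <;> simp_all [bc, eq_comm]
theorem map_bc (α : MulAut V) (p : Bool) (c : V) : α (bc p c) = bc p (α c) := by
  cases p <;> simp [bc]
theorem dot_bc (p : Bool) (c w : V) : dot (bc p c) w = (p && dot c w) := by
  cases p
  · exact (dot_comm _ _).trans (K.dot_one _)
  · rfl
theorem dot_ext {w w' : V} (h : ∀ v, dot v w = dot v w') : w = w' := by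
  by_contra n
  obtain ⟨i, k⟩ := ex_dot (w * w') fun e => n (mul_inv_eq_one.1 e)
  simp [K.mul_dot, h] at k
theorem add_ext {f g : V → Bool} (hf : ∀ u v, f (u * v) = xor (f u) (f v))
    (hg : ∀ u v, g (u * v) = xor (g u) (g v)) (h : ∀ i, f (e i) = g (e i)) (v : V) : f v = g v :=
  bc_inj (c := e 0) (by decide +kernel) (DFunLike.congr_fun (SX.hom_ext
    (f := MonoidHom.mk' (fun v => bc (f v) (e 0)) fun a b => by rw [hf, bc_xor])
    (g := MonoidHom.mk' (fun v => bc (g v) (e 0)) fun a b => by rw [hg, bc_xor]) fun i => by simp [h]) v)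
theorem dot_e : ∀ i j, dot (e i) (e j) = decide (i = j) := by decide +kernel
theorem dot_pm (σ : Equiv.Perm (Fin 8)) (v w : V) : dot (pm σ v) (pm σ w) = dot v w :=
  add_ext (f := fun v => dot (pm σ v) (pm σ w)) (g := fun v => dot v w) (fun _ _ => by rw [map_mul, dot_mul])
    (fun _ _ => dot_mul _ _ _) (fun i => add_ext (f := fun w => dot (pm σ (e i)) (pm σ w))
      (fun _ _ => by rw [map_mul, K.mul_dot]) (K.mul_dot _) (fun j => by simp [pm_e, dot_e]) w) v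
theorem acS_chk : ∀ t c, c ≠ 1 → (∀ i, aS t (e i) = e i ∨ aS t (e i) = e i * c) →
    t = 1 ∨ ∃ i : Fin 4, t = ts (2 ^ i.1) ∧ c = vv (3 * 4 ^ i.1) := by decide +kernel

end TV
open TV

/-- every additive map `V → Bool` is a scalar product -/
theorem exists_dot {f : V → Bool} (h : ∀ u v, f (u * v) = xor (f u) (f v)) : ∃ w, ∀ v, f v = dot v w := by
  obtain ⟨w, hw⟩ : ∃ w, ∀ i, dot (e i) w = f (e i) := ⟨_, fun i => (dual (f (e 0)) (f (e 1)) (f (e 2)) (f (e 3))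
    (f (e 4)) (f (e 5)) (f (e 6)) (f (e 7)) i).trans (by fin_cases i <;> rfl)⟩
  exact ⟨w, add_ext h (fun _ _ => dot_mul _ _ _) fun i => (hw i).symm⟩

theorem IsTv.conj (h : IsTv ψ c w) (α : MulAut V) :
    ∃ w', IsTv (α * ψ * α⁻¹) (α c) w' ∧ ∀ v, dot (α v) w' = dot v w := by
  obtain ⟨w', k⟩ := exists_dot (f := fun v => dot (α⁻¹ v) w) fun u v => by rw [map_mul, dot_mul]
  have k' : ∀ v, dot (α v) w' = dot v w := fun v => by rw [← k, MulAut.inv_apply_self]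
  refine ⟨w', ⟨fun e => h.1 (by simpa using e), fun e => h.2.1 (dot_ext fun v => by
    rw [← k', e, K.dot_one, K.dot_one]), (k' c).trans h.2.2.1, fun v => ?_⟩, k'⟩
  rw [MulAut.mul_apply, MulAut.mul_apply, h.2.2.2, map_mul, map_bc, k, MulAut.apply_inv_self]

theorem IsTv.unique (h : IsTv ψ c w) (h' : IsTv ψ c' w') : c = c' ∧ w = w' := by
  have k : ∀ v, bc (dot v w) c = bc (dot v w') c' := fun v =>
    mul_left_cancel ((h.2.2.2 v).symm.trans (h'.2.2.2 v))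
  obtain ⟨i, hi⟩ := ex_dot w h.2.1
  have := k (e i)
  rw [hi] at this
  obtain rfl : c = c' := by
    cases e : dot (SX.e i) w' <;> rw [e] at this
    exacts [absurd this h.1, this]
  exact ⟨rfl, dot_ext fun v => bc_inj h.1 (k v)⟩

theorem IsTv.eq (h : IsTv ψ c w) (h' : IsTv ψ' c w) : ψ = ψ' :=
  MulEquiv.ext fun v => (h.2.2.2 v).trans (h'.2.2.2 v).symm

/-- the transvections of `acS.range` are the four `acS (ts (2 ^ i))` -/
theorem IsTv.of_acS {t : TS} (h : IsTv (acS t) c w) : ∃ i : Fin 4, t = ts (2 ^ i.1) ∧ c = vv (3 * 4 ^ i.1) := by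
  refine (acS_chk t c h.1 fun i => ?_).resolve_left fun k => ?_
  · rw [← acS_apply, h.2.2.2]
    cases dot (e i) w <;> simp [bc]
  · obtain ⟨i, hi⟩ := ex_dot w h.2.1
    have := h.2.2.2 (e i)
    rw [k, map_one, hi, MulAut.one_apply, left_eq_mul] at this
    exact h.1 this

/-- The automorphisms that preserve the forms `dot · (w j)` and fix their common kernel have square `1`. -/
theorem Sy2.indep (h : Sy2 Φ) {ι : Type} {ψ : ι → MulAut V} {c w : ι → V} (hm : ∀ i, ψ i ∈ Φ)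
    (ht : ∀ i, IsTv (ψ i) (c i) (w i)) (hc : ∀ i j, dot (c i) (w j) = false) :
    ∃ (α : MulAut V) (f : ι → Fin 4), (∀ i, α (c i) = vv (3 * 4 ^ (f i).1)) ∧ ∀ i j, f i = f j → c i = c j ∧ w i = w j := by
  let N : Subgroup (MulAut V) :=
    { carrier := {χ | (∀ v j, dot (χ v) (w j) = dot v (w j)) ∧ ∀ v, (∀ j, dot v (w j) = false) → χ v = v}
      one_mem' := ⟨fun _ _ => rfl, fun _ _ => rfl⟩
      mul_mem' := fun ha hb => ⟨fun v j => (ha.1 _ j).trans (hb.1 v j), fun v hv => by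
        rw [MulAut.mul_apply, hb.2 v hv, ha.2 v hv]⟩
      inv_mem' := fun {a} ha => ⟨fun v j => by rw [← ha.1, MulAut.apply_inv_self], fun v hv => by
        conv_lhs => rw [← ha.2 v hv, MulAut.inv_apply_self]⟩ }
  obtain ⟨α, k⟩ := h (Φ ⊓ N) inf_le_left (isPGroup_iff_forall_mem.2 fun χ hχ => ⟨1, MulEquiv.ext fun v => by
    have := hχ.2.2 (χ v * v) fun j => by simp [dot_mul, hχ.2.1]
    rw [map_mul, mul_comm, mul_left_cancel_iff] at this
    exact this⟩)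
  have : ∀ i, ∃ f : Fin 4, α * ψ i * α⁻¹ = acS (ts (2 ^ f.1)) ∧ α (c i) = vv (3 * 4 ^ f.1) := fun i => by
    obtain ⟨t, e⟩ := k (ψ i) ⟨hm i, fun v j => by simp [(ht i).2.2.2, dot_mul, dot_bc, hc],
      fun v hv => by simp [(ht i).2.2.2, hv, bc]⟩
    obtain ⟨w', k', -⟩ := (ht i).conj α
    obtain ⟨f, rfl, e'⟩ := (e ▸ k').of_acS
    exact ⟨f, e.symm, e'⟩
  choose f h1 h2 using this
  refine ⟨α, f, h2, fun i j e => (ht i).unique ?_⟩
  have := (h1 i).trans (e ▸ (h1 j).symm)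
  rw [mul_left_inj, mul_right_inj] at this
  exact this ▸ ht j

namespace TV

/-- centre and axis of a transvection of `Φ` -/
def Tr (Φ : Subgroup (MulAut V)) (p : V × V) : Prop := ∃ ψ ∈ Φ, IsTv ψ p.1 p.2
/-- too many or dependent commuting transvections -/
def Bad (L : List (V × V)) : Prop := L ≠ [] ∧ L.Nodup ∧ (∀ p ∈ L, ∀ q ∈ L, dot p.1 q.2 = false) ∧
  (5 ≤ L.length ∨ (L.map Prod.fst).prod = 1)
instance (priority := high) (L : List (V × V)) (p : V × V → Prop) [DecidablePred p] : Decidable (∀ x ∈ L, p x) :=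
  List.decidableBAll p L
instance (L : List (V × V)) : Decidable (Bad L) := inferInstanceAs (Decidable (_ ∧ _))

theorem zb_ind : ∀ s : Finset (Fin 4), ∏ i ∈ s, vv (3 * 4 ^ i.1) = 1 → s = ∅ := by decide +kernel

theorem nobad (h : Sy2 Φ) {L : List (V × V)} (hL : ∀ p ∈ L, Tr Φ p) : ¬ Bad L := by
  rintro ⟨h1, h2, h3, h4⟩
  choose ψ hm ht using fun i : Fin L.length => hL L[i.1] (List.getElem_mem _)
  obtain ⟨α, f, k1, k2⟩ := h.indep hm ht fun i j => h3 _ (List.getElem_mem _) _ (List.getElem_mem _)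
  have hf : Function.Injective f := fun i j e =>
    List.nodup_iff_injective_getElem.1 h2 (Prod.ext (k2 i j e).1 (k2 i j e).2)
  rcases h4 with h4 | h4
  · have := Fintype.card_le_of_injective f hf
    simp only [Fintype.card_fin] at this
    omega
  · have := zb_ind (Finset.univ.map ⟨f, hf⟩) (by
      simp only [Finset.prod_map, Function.Embedding.coeFn_mk, ← k1, ← map_prod]
      rw [Fin.prod_univ_fun_getElem, h4, map_one])
    rw [Finset.map_eq_empty, Finset.univ_eq_empty_iff] at this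
    exact this.false ⟨0, List.length_pos_iff.2 h1⟩

end TV

/-- If `dot c w' = false` and `dot c' w = true` then `ψ' ψ ψ'⁻¹` has centre `c` and another axis. -/
theorem Sy2.symm (h : Sy2 Φ) (h1 : ψ ∈ Φ) (h2 : ψ' ∈ Φ) (t1 : IsTv ψ c w) (t2 : IsTv ψ' c' w') :
    dot c w' = dot c' w := by
  have k : ∀ {ψ ψ' : MulAut V} {c w c' w' : V}, ψ ∈ Φ → ψ' ∈ Φ → IsTv ψ c w → IsTv ψ' c' w' →
      dot c w' = false → dot c' w = false := fun {ψ ψ' c w c' w'} h1 h2 t1 t2 e0 => by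
    obtain ⟨u, t3, k⟩ := t1.conj ψ'
    have e1 : ψ' c = c := by simp [t2.2.2.2, e0, bc]
    rw [e1] at t3
    obtain rfl : w = u := by
      by_contra n
      exact nobad h (L := [(c, w), (c, u)]) (by
        simp only [List.forall_mem_cons, List.not_mem_nil, false_imp_iff, implies_true, and_true]
        exact ⟨⟨_, h1, t1⟩, _, mul_mem (mul_mem h2 h1) (inv_mem h2), t3⟩)
        ⟨by simp, by simp [n], by simp [t1.2.2.1, t3.2.2.1], .inr (by simp)⟩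
    obtain ⟨i, hi⟩ := ex_dot w' t2.2.1
    have := k (e i)
    rw [t2.2.2.2, hi, dot_mul, dot_bc] at this
    revert this
    cases dot (e i) w <;> simp
  cases e1 : dot c w'
  · exact (k h1 h2 t1 t2 e1).symm
  · cases e2 : dot c' w
    · exact e1.symm.trans (k h2 h1 t2 t1 e2)
    · rfl

namespace TV

theorem perp : ∀ u : V, (∀ i j, i ≠ j → dot (e i * e j) u = false) → u = 1 ∨ u = vv 255 := by decide +kernel

/-- the type of a transvection -/
def ty (p : V × V) : ℕ × V := (pc p.1, p.1 * p.2)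
def pr (a b : ℕ) : V × V := (vv a, vv b)
def LL : List (List (V × V)) :=
  [[pr 15 15, pr 3 3, pr 12 12], [pr 63 63, pr 3 3, pr 12 12, pr 48 48],
    [pr 255 255, pr 3 3, pr 12 12, pr 48 48, pr 192 192], [pr 3 252, pr 3 3], [pr 15 240, pr 3 3, pr 12 12],
    [pr 63 192, pr 3 3, pr 12 12, pr 48 48], [pr 7 248, pr 28 227, pr 3 3, pr 24 24, pr 96 96],
    [pr 248 7, pr 227 28, pr 3 3, pr 24 24, pr 96 96]]
theorem LL_bad : ∀ L ∈ LL, Bad L := by decide +kernel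
theorem LL_chk : ∀ (c : V) (b : Bool), let u := bc b (vv 255); c ≠ 1 → c * u ≠ 1 → dot c (c * u) = false →
    (pc c = 2 ∧ u = 1 ∨ pc c = 1 ∧ u = vv 255 ∨ pc c = 7 ∧ u = vv 255) ∨
      ∃ L ∈ LL, ∀ q ∈ L, ty q = ty (pr 3 3) ∨ ty q = (pc c, u) := by decide +kernel

def L17 : List (V × V) := [pr 1 254, pr 253 2, pr 12 12, pr 48 48, pr 192 192]
theorem L17_bad : Bad L17 ∧ ∀ q ∈ L17, ty q = ty (pr 3 3) ∨ ty q = (1, vv 255) ∨ ty q = (7, vv 255) := by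
  decide +kernel

theorem ax (h : Sy2 Φ) (hp : pm.range ≤ Φ) (t : Tr Φ (c, w)) : ∃ b, w = c * bc b (vv 255) := by
  obtain ⟨ψ, h1, t⟩ := t
  have : w = c * (c * w) := by rw [← mul_assoc, SX.V.mul_self, one_mul]
  rcases perp (c * w) fun i j n => by
    rw [K.mul_dot, dot_comm, h.symm h1 (hp ⟨_, rfl⟩) t (tv_swap n), Bool.xor_self] with e | e
  exacts [⟨false, this.trans (congrArg _ e)⟩, ⟨true, this.trans (congrArg _ e)⟩]

theorem Tr.ty (h : Sy2 Φ) (hp : pm.range ≤ Φ) (t : Tr Φ (c, w)) {q : V × V} (e : ty q = ty (c, w)) : Tr Φ q := by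
  obtain ⟨σ, k⟩ := pm_trans (u := c) (v := q.1) (congrArg Prod.fst e).symm
  obtain ⟨b, rfl⟩ := ax h hp t
  obtain ⟨ψ, h1, t⟩ := t
  obtain ⟨w, t2, k'⟩ := t.conj (pm σ)
  have hσ : pm σ ∈ Φ := hp ⟨_, rfl⟩
  have e2 : q.1 * q.2 = c * (c * bc b (vv 255)) := congrArg Prod.snd e
  rw [← mul_assoc, SX.V.mul_self, one_mul, ← eq_inv_mul_iff_mul_eq, SX.V.inv_eq, ← k, ← pm_255 σ, ← map_bc,
    ← map_mul] at e2
  refine ⟨_, mul_mem (mul_mem hσ h1) (inv_mem hσ), ?_⟩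
  rw [e2, ← k, dot_ext (w := pm σ (c * bc b (vv 255))) (w' := w) fun v => by
    rw [← MulAut.apply_inv_self V (pm σ) v, dot_pm, k']]
  exact t2

theorem tr3 (hp : pm.range ≤ Φ) : Tr Φ (pr 3 3) := ⟨_, hp ⟨_, rfl⟩, tv_swap (i := 0) (j := 1) (by decide)⟩

theorem types (h : Sy2 Φ) (hp : pm.range ≤ Φ) (t : Tr Φ (c, w)) :
    pc c = 2 ∧ w = c ∨ pc c = 1 ∧ w = c * vv 255 ∨ pc c = 7 ∧ w = c * vv 255 := by
  obtain ⟨b, rfl⟩ := ax h hp t
  obtain ⟨ψ, -, t'⟩ := id t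
  rcases LL_chk c b t'.1 t'.2.1 t'.2.2.1 with (⟨k, e⟩ | ⟨k, e⟩ | ⟨k, e⟩) | ⟨L, hL, k⟩
  · exact .inl ⟨k, by rw [e, mul_one]⟩
  · exact .inr (.inl ⟨k, by rw [e]⟩)
  · exact .inr (.inr ⟨k, by rw [e]⟩)
  · refine absurd (LL_bad L hL) (nobad h fun q hq => (k q hq).elim ((tr3 hp).ty h hp) fun e => t.ty h hp ?_)
    rw [e, TV.ty, ← mul_assoc, SX.V.mul_self, one_mul]

theorem range_le {ρ : Equiv.Perm (Fin 9) →* MulAut V} (h1 : ∀ τ, τ 8 = 8 → ρ τ ∈ Φ)
    (h2 : ∀ i : Fin 8, ρ (Equiv.swap i.castSucc 8) ∈ Φ) : ρ.range ≤ Φ := by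
  rintro _ ⟨τ, rfl⟩
  rcases Fin.eq_castSucc_or_eq_last (τ 8) with ⟨i, e⟩ | e
  · have := h1 (Equiv.swap i.castSucc 8 * τ) (by simp [e])
    rwa [map_mul, mul_mem_cancel_left (h2 i)] at this
  · exact h1 τ e

theorem pc_e : ∀ i, pc (e i) = 1 ∧ pc (e i * vv 255) = 7 := by decide +kernel
theorem mul255 (c : V) : c * (c * vv 255) = vv 255 := by rw [← mul_assoc, SX.V.mul_self, one_mul]

theorem le9 (h : Sy2 Φ) (hp : pm.range ≤ Φ) (t : Tr Φ (c, c * vv 255)) (k : pc c = 1) : pm9.range ≤ Φ :=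
  range_le (fun τ e => by obtain ⟨σ, e⟩ := pm9_fix e; exact hp ⟨σ, e.symm⟩) fun i => by
    obtain ⟨ψ, h1, t⟩ := t.ty h hp (q := (e i, e i * vv 255)) (by simp [TV.ty, mul255, k, pc_e])
    exact t.eq (tv_swap9 i) ▸ h1

theorem le9' (h : Sy2 Φ) (hp : pm.range ≤ Φ) (t : Tr Φ (c, c * vv 255)) (k : pc c = 7) : pm9'.range ≤ Φ :=
  range_le (fun τ e => by
    obtain ⟨σ, e⟩ := pm9_fix e
    exact hp ⟨σ, by
      show _ = ζV * pm9 τ * ζV⁻¹
      rw [e, ζV_pm, mul_inv_cancel_right]⟩) fun i => by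
    obtain ⟨ψ, h1, t⟩ := t.ty h hp (q := (e i * vv 255, e i)) (by
      simp only [TV.ty, mul255, k, pc_e, mul_comm _ (e i)])
    exact t.eq (tv_swap9' i) ▸ h1

end TV

/-- `symm` with the transpositions gives `w = c` or `w = c * 255`; `nobad` excludes the other weights. -/
theorem Sy2.tvs (h : Sy2 Φ) (hp : pm.range ≤ Φ) :
    (∀ ψ ∈ Φ, ∀ c w, IsTv ψ c w → pc c = 2 ∧ w = c) ∨
    (pm9.range ≤ Φ ∧ ∀ ψ ∈ Φ, ∀ c w, IsTv ψ c w → pc c = 2 ∧ w = c ∨ pc c = 1 ∧ w = c * vv 255) ∨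
    (pm9'.range ≤ Φ ∧ ∀ ψ ∈ Φ, ∀ c w, IsTv ψ c w → pc c = 2 ∧ w = c ∨ pc c = 7 ∧ w = c * vv 255) := by
  by_cases h1 : ∃ c, Tr Φ (c, c * vv 255) ∧ pc c = 1 <;> by_cases h7 : ∃ c, Tr Φ (c, c * vv 255) ∧ pc c = 7
  · obtain ⟨c, t, k⟩ := h1
    obtain ⟨c', t', k'⟩ := h7
    refine absurd L17_bad.1 (nobad h fun q hq => ?_)
    rcases L17_bad.2 q hq with e | e | e
    exacts [(tr3 hp).ty h hp e, t.ty h hp (by rw [e, TV.ty, mul255, k]), t'.ty h hp (by rw [e, TV.ty, mul255, k'])]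
  · obtain ⟨c, t, k⟩ := h1
    refine .inr (.inl ⟨le9 h hp t k, fun ψ hψ c w t => ?_⟩)
    rcases types h hp ⟨ψ, hψ, t⟩ with e | e | ⟨e, rfl⟩
    exacts [.inl e, .inr e, absurd ⟨c, ⟨ψ, hψ, t⟩, e⟩ h7]
  · obtain ⟨c, t, k⟩ := h7
    refine .inr (.inr ⟨le9' h hp t k, fun ψ hψ c w t => ?_⟩)
    rcases types h hp ⟨ψ, hψ, t⟩ with e | ⟨e, rfl⟩ | e
    exacts [.inl e, absurd ⟨c, ⟨ψ, hψ, t⟩, e⟩ h1, .inr e]
  · refine .inl fun ψ hψ c w t => ?_
    rcases types h hp ⟨ψ, hψ, t⟩ with e | ⟨e, rfl⟩ | ⟨e, rfl⟩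
    exacts [e, absurd ⟨c, ⟨ψ, hψ, t⟩, e⟩ h1, absurd ⟨c, ⟨ψ, hψ, t⟩, e⟩ h7]

namespace TV

theorem st8 : ∀ u, pc u = 2 → ∀ v, pc v = 2 → dot u v = true → ∃ i j, u = e i * e j ∧ ∃ k, v = e i * e k ∧
    j ≠ i ∧ k ≠ i ∧ j ≠ k := by decide +kernel
theorem st8' : ∀ x, pc x = 2 → ∀ i j, dot x (e i * e j) = true → ∀ k, dot x (e i * e k) = true →
    j ≠ k → x ≠ e j * e k → ∃ l, l ≠ i ∧ x = e i * e l := by decide +kernel
theorem st9 : ∀ u, w9 u = 1 → ∀ v, w9 v = 1 → dot u (v * bc (par v) (vv 255)) = true →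
    ∃ i j, u = dd i * dd j ∧ ∃ k, v = dd i * dd k ∧ j ≠ i ∧ k ≠ i ∧ j ≠ k := by decide +kernel
theorem st9' : ∀ x, w9 x = 1 → ∀ i j, dot (dd i * dd j) (x * bc (par x) (vv 255)) = true →
    ∀ k, dot (dd i * dd k) (x * bc (par x) (vv 255)) = true → j ≠ k → x ≠ dd j * dd k →
    ∃ l, l ≠ i ∧ x = dd i * dd l := by decide +kernel

theorem star {n : ℕ} {d : Fin (n + 1) → V} {q : Fin n → V} (hq : Function.Injective q) {i : Fin (n + 1)}
    (h : ∀ k, ∃ l, l ≠ i ∧ q k = d i * d l) :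
    ∃ τ : Equiv.Perm (Fin (n + 1)), ∀ k, q k = d (τ k.castSucc) * d (τ (Fin.last n)) := by
  choose l h1 h2 using h
  refine ⟨Equiv.ofBijective (Fin.snoc (α := fun _ => Fin (n + 1)) l i) (Finite.injective_iff_bijective.1
    (Fin.snoc_injective_of_injective (fun a b e => hq (by rw [h2, h2, e])) fun ⟨k, e⟩ => h1 k e)), fun k => ?_⟩
  simp [h2, mul_comm]

theorem tri2 (h : Sy2 Φ) (hp : pm9.range ≤ Φ) : Φ = pm9.range := by
  have k : ∀ ψ ∈ Φ, ∀ c w, IsTv ψ c w → w9 c = 1 ∧ w = c * bc (par c) (vv 255) := fun ψ hψ c w t => by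
    rcases h.tvs (pm_le_pm9.trans hp) with k | ⟨-, k⟩ | ⟨-, k⟩
    · exact absurd (k _ (hp ⟨_, rfl⟩) _ _ (tv_swap9 0)).1 (by decide +kernel)
    · rcases k ψ hψ c w t with ⟨e, rfl⟩ | ⟨e, rfl⟩ <;> simp [w9, par, e, bc]
    · exact absurd (k _ (hp ⟨_, rfl⟩) _ _ (tv_swap9 0)) (by decide +kernel)
  refine le_antisymm (fun α hα => ?_) hp
  have k1 : ∀ i, w9 (α (e i)) = 1 ∧ ∀ j, j ≠ i → dot (α (e j)) (α (e i) * bc (par (α (e i))) (vv 255)) = true :=
    fun i => by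
      obtain ⟨w, t, k'⟩ := (tv_swap9 i).conj α
      obtain ⟨k1, rfl⟩ := k _ (mul_mem (mul_mem hα (hp ⟨_, rfl⟩)) (inv_mem hα)) _ _ t
      exact ⟨k1, fun j n => (k' _).trans (by clear * - n; revert i j; decide +kernel)⟩
  obtain ⟨i, j, e1, l, e2, n1, n2, n3⟩ := st9 _ (k1 0).1 _ (k1 1).1 ((k1 1).2 0 (by decide))
  obtain ⟨τ, k2⟩ := star (d := dd) (q := fun k => α (e k)) (fun a b e => e_inj _ _ (α.injective e)) (i := i)
    fun m => by
      by_cases m0 : m = 0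
      · exact ⟨j, n1, m0 ▸ e1⟩
      by_cases m1 : m = 1
      · exact ⟨l, n2, m1 ▸ e2⟩
      refine st9' _ (k1 m).1 i j (e1 ▸ (k1 m).2 0 (Ne.symm m0)) l (e2 ▸ (k1 m).2 1 (Ne.symm m1)) n3 fun e3 => ?_
      have : α (e m) = α (e 0 * e 1) := by rw [map_mul, e1, e2, e3, mul_mul_mul_comm, SX.V.mul_self, one_mul]
      exact absurd (α.injective this) (by clear * -; revert m; decide +kernel)
  exact ⟨τ, SX.aut_ext fun m => by rw [pm9_apply, SX.lin_e]; exact (k2 m).symm⟩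

theorem tv255 : IsTv ζV (vv 255) (vv 255) :=
  ⟨by decide +kernel, by decide +kernel, by decide +kernel, fun v => by
    rw [ζV_apply]; revert v; decide +kernel⟩

theorem tri1 (hp : pm.range ≤ Φ) (k : ∀ ψ ∈ Φ, ∀ c w, IsTv ψ c w → pc c = 2 ∧ w = c) : Φ = pm.range := by
  have k1 : ∀ α ∈ Φ, ∀ i : Fin 7, pc (α (e i.castSucc * e 7)) = 2 ∧
      ∀ v, dot (α v) (α (e i.castSucc * e 7)) = dot v (e i.castSucc * e 7) := fun α hα i => by
    obtain ⟨w, t, k'⟩ := (tv_swap (Fin.castSucc_ne_last i)).conj α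
    obtain ⟨k1, rfl⟩ := k _ (mul_mem (mul_mem hα (hp ⟨_, rfl⟩)) (inv_mem hα)) _ _ t
    exact ⟨k1, k'⟩
  refine le_antisymm (fun α hα => ?_) hp
  have k2 : ∀ i j : Fin 7, i ≠ j → dot (α (e i.castSucc * e 7)) (α (e j.castSucc * e 7)) = true :=
    fun i j n => ((k1 α hα j).2 _).trans (by revert i j; decide +kernel)
  obtain ⟨i, j, e1, l, e2, n1, n2, n3⟩ := st8 _ (k1 α hα 0).1 _ (k1 α hα 1).1 (k2 0 1 (by decide))
  obtain ⟨σ, k3⟩ := star (d := e) (q := fun k : Fin 7 => α (e k.castSucc * e 7))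
    (fun a b e => Fin.castSucc_injective _ (e_inj _ _ (mul_right_cancel (α.injective e)))) (i := i) fun m => by
      by_cases m0 : m = 0
      · exact ⟨j, n1, m0 ▸ e1⟩
      by_cases m1 : m = 1
      · exact ⟨l, n2, m1 ▸ e2⟩
      refine st8' _ (k1 α hα m).1 i j (e1 ▸ k2 m 0 m0) l (e2 ▸ k2 m 1 m1) n3 fun e3 => ?_
      have : α (e m.castSucc * e 7) = α (e (Fin.castSucc 0) * e 7 * (e (Fin.castSucc 1) * e 7)) := by
        rw [map_mul α (_ * _), e1, e2, e3, mul_mul_mul_comm, SX.V.mul_self, one_mul]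
      exact absurd (α.injective this) (by clear * -; revert m; decide +kernel)
  have hβ : (pm σ)⁻¹ * α ∈ Φ := mul_mem (inv_mem (hp ⟨σ, rfl⟩)) hα
  suffices (pm σ)⁻¹ * α = 1 from ⟨σ, inv_mul_eq_one.1 this⟩
  have k4 : ∀ m : Fin 7, ((pm σ)⁻¹ * α) (e m.castSucc * e 7) = e m.castSucc * e 7 := fun m => by
    rw [MulAut.mul_apply, k3, ← pm_e, ← pm_e, ← map_mul, MulAut.inv_apply_self]; rfl
  generalize (pm σ)⁻¹ * α = β at hβ k4
  have k5 : ∀ u : V, (∀ i : Fin 7, dot u (e i.castSucc * e 7) = dot (e 7) (e i.castSucc * e 7)) →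
      u = e 7 ∨ u = e 7 * vv 255 := by decide +kernel
  have k6 : ∀ u, β (e 7) = e 7 * u → ∀ m, β (e m) = e m * u := fun u e1 m => by
    rcases Fin.eq_castSucc_or_eq_last m with ⟨m, rfl⟩ | rfl
    · have := k4 m
      rw [map_mul, e1, mul_comm (e 7), ← mul_assoc, mul_left_inj] at this
      exact eq_mul_inv_of_mul_eq this
    · exact e1
  rcases k5 (β (e 7)) fun i => by rw [← (k1 β hβ i).2 (e 7), k4] with e1 | e1
  · exact SX.aut_ext fun m => (k6 1 (e1.trans (mul_one _).symm) m).trans (mul_one _)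
  · obtain rfl : β = ζV := SX.aut_ext fun m => (k6 _ e1 m).trans (SX.lin_e (fun i => e i * vv 255) m).symm
    exact absurd (k _ hβ _ _ tv255).1 (by decide +kernel)

end TV

/-- `α ∈ Φ` permutes the transvections, so it maps a star of pairs of points to a star. Third case: conjugate by
`ζV`. -/
theorem Sy2.tri (h : Sy2 Φ) (hp : pm.range ≤ Φ) : Φ = pm.range ∨ Φ = pm9.range ∨ Φ = pm9'.range := by
  rcases h.tvs hp with k | ⟨k, -⟩ | ⟨k, -⟩
  · exact .inl (tri1 hp k)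
  · exact .inr (.inl (tri2 h k))
  · have e : pm9'.range = ζV •ᶜ pm9.range := MonoidHom.range_comp _ _
    rw [e] at k ⊢
    refine .inr (.inr (cj_eq_iff.1 (tri2 (fun X hX hp => ?_) (le_cj_iff.2 (by rwa [inv_inv])))|>.trans
      (by rw [inv_inv])))
    obtain ⟨α, k⟩ := h (ζV •ᶜ X) (cj_le_iff.2 hX) (isPGroup_cj _ hp)
    exact ⟨α * ζV, fun g hg => by simpa [mul_assoc] using k _ (conj_mem_cj hg)⟩

end CL.HA
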