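import Cfsg.Agent.INV.HA.SylA
import Cfsg.Agent.INV.HA.Tv

/-!
Harada `E₁₆ · GL₄(2)`: Sylow type `S₁₆`.
-/

set_option autoImplicit false
set_option maxHeartbeats 400000

namespace CL.HA
open Subgroup CL.MSS CL.PComp
open CL.SX (V vv e ZZ pc)

variable {G : Type*} [Group G] [Finite G] {φ : P →* G} {O : Subgroup G}

namespace SylP

omit [Finite G] in
theorem E_map : E.map φ = (φ.comp il).range := by
  ext g
  exact ⟨fun ⟨m, hm, e⟩ => ⟨m.v, by rw [← e, MonoidHom.comp_apply, ← eq_il hm.2]⟩,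
    fun ⟨v, e⟩ => ⟨il v, ⟨trivial, rfl⟩, e⟩⟩

omit [Finite G] in
theorem mem_E {g : G} : g ∈ E.map φ ↔ ∃ v, φ (il v) = g := by rw [E_map]; rfl

omit [Finite G] in
theorem act {H : Type*} [Group H] {j : H →* G} (hj : Function.Injective j) : ∃ a : ↥(NN j.range) →* MulAut H,
    ∀ (g : ↥(NN j.range)) v, (g : G) * j v * (g : G)⁻¹ = j (a g v) :=
  ⟨(MulAut.congr (MonoidHom.ofInjective hj).symm).toMonoidHom.comp j.range.normalizerMonoidHom, fun g v =>
    (congrArg Subtype.val ((MonoidHom.ofInjective hj).apply_symm_apply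
      (j.range.normalizerMonoidHom g (MonoidHom.ofInjective hj v)))).symm⟩

omit [Finite G] in
theorem pg (φ : P →* G) : IsPGroup 2 φ.range := φ.range_eq_map ▸ (pgP ⊤).map φ

omit [Finite G] in
theorem im_top : im φ ⊤ = φ.range := (im_hom φ ⊤).trans φ.range_eq_map.symm

theorem le_NE (φ : P →* G) : φ.range ≤ NN (E.map φ) := by
  rintro _ ⟨m, rfl⟩
  refine mem_normalizer_fintype fun y hy => ?_
  obtain ⟨v, rfl⟩ := mem_E.1 hy
  exact mem_E.2 ⟨aS m.t v, by rw [← map_inv, ← map_mul, ← map_mul, conj_il]⟩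

omit [Finite G] in
theorem map_eq (hi : Function.Injective φ) {y : G} {α : MulAut P} (ha : ∀ m, y * φ m * y⁻¹ = φ (α m)) {X : Subgroup P}
    (hy : y ∈ NN (X.map φ)) : X.map α.toMonoidHom = X := by
  refine eq_of_le_of_card_ge ?_ (card_map_of_injective α.injective).ge
  rintro _ ⟨m, hm, rfl⟩
  obtain ⟨n, hn, e⟩ := (mem_normalizer_iff.1 hy (φ m)).1 ⟨m, hm, rfl⟩
  exact hi (e.trans (ha m)) ▸ hn

theorem bI_chk : ∀ t, bI t 0 = 0 ∧ bI t 15 = 15 := by decide +kernel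

theorem map_EI (α : MulAut P) {I : Fin 16} (h : I = 0 ∨ I = 15) :
    (EI I).map α.toMonoidHom = E ∨ (EI I).map α.toMonoidHom = D := by
  obtain ⟨K, hK⟩ := ea16 (Y := (EI I).map α.toMonoidHom) (by
    rintro _ ⟨m, hm, rfl⟩
    rw [← map_mul, sq_EI I m hm, map_one]) (by rw [card_map_of_injective α.injective, card_EI])
  have : (EI I).Normal := normal_of_cj fun m => by
    rw [cj_EI]
    rcases h with rfl | rfl
    · rw [(bI_chk _).1]
    · rw [(bI_chk _).2]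
  have n2 := this.map α.toMonoidHom α.surjective
  rw [hK] at n2 ⊢
  rcases EI_normal (I := K) fun m => le_normalizer_of_normal (K := ⊤) (mem_top m) with rfl | rfl
  · exact Or.inl EI_zero
  · exact Or.inr EI_full

theorem D_ne_E : D ≠ E := fun e => absurd (e.le (show a ∈ D by decide +kernel)) (by decide +kernel)
theorem rh_one : ts (R1T >>> (7 * (1 : TS).n)) = 1 ∧ ts (R2T >>> (7 * (1 : TS).n)) = 1 := by decide +kernel
theorem fix_all : ∀ v, (∀ t, aS t v = v) → v = 1 ∨ v = vv 255 := by decide +kernel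
theorem z_cen (m : P) : m * z * m⁻¹ = z := by rw [z, conj_il, aS_255]
theorem omg_D : ∀ m ∈ D, m ∈ DB ∧ omg m ∈ D := forall_sd.2 (by decide +kernel)
theorem omg_z : omg z = a := by decide +kernel
theorem fin : ∀ v, pc v = 8 ∨ pc v = 7 ∨ pc v = 1 → ∀ t, t ∈ Lo → ∀ u, u ∈ Lo →
    v = vv 255 ∨ aS t v = v ∨ aS u v = v ∨ aS t v = aS u v := by decide +kernel

end SylP

omit [Finite G] in
theorem In.mul {g k : G} {ψ χ : MulAut V} (h : In φ g ψ) (h' : In φ k χ) : In φ (g * k) (ψ * χ) := fun v => by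
  rw [MulAut.mul_apply, ← h, ← h']
  group
omit [Finite G] in
theorem In.inv {g : G} {ψ : MulAut V} (h : In φ g ψ) : In φ g⁻¹ ψ⁻¹ := fun v => by
  conv_lhs => rw [← MulAut.apply_inv_self V ψ v, ← h]
  group
omit [Finite G] in
theorem in_phi (φ : P →* G) (m : P) : In φ (φ m) (acS m.t) := fun v => by
  rw [← map_inv, ← map_mul, ← map_mul, conj_il, acS_apply]
omit [Finite G] in
theorem In.norm {g : G} {ψ : MulAut V} (h : In φ g ψ) : g ∈ NN (E.map φ) := by
  have k : ∀ {g : G} {ψ : MulAut V}, In φ g ψ → ∀ y ∈ E.map φ, g * y * g⁻¹ ∈ E.map φ := fun h y hy => by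
    obtain ⟨v, rfl⟩ := SylP.mem_E.1 hy
    exact SylP.mem_E.2 ⟨_, (h v).symm⟩
  refine mem_normalizer_iff.2 fun y => ⟨k h y, fun hy => ?_⟩
  have := k h.inv _ hy
  simpa [mul_assoc] using this
omit [Finite G] in
theorem In.cen {g : G} : In φ g 1 ↔ g ∈ CC (E.map φ) :=
  ⟨fun h y hy => by
    obtain ⟨v, rfl⟩ := SylP.mem_E.1 hy
    exact (mul_inv_eq_iff_eq_mul.1 (h v)).symm,
  fun h v => mul_inv_eq_iff_eq_mul.2 (h _ (SylP.mem_E.2 ⟨v, rfl⟩)).symm⟩
omit [Finite G] in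
theorem In.unique (hi : Function.Injective φ) {g : G} {ψ χ : MulAut V} (h : In φ g ψ) (h' : In φ g χ) : ψ = χ :=
  MulEquiv.ext fun v => il_inj (hi ((h v).symm.trans (h' v)))
omit [Finite G] in
/-- the action of the normaliser -/
theorem exists_act {j : V →* G} (hj : Function.Injective j) : ∃ a : ↥(NN j.range) →* MulAut V,
    (∀ (g : ↥(NN j.range)) v, (g : G) * j v * (g : G)⁻¹ = j (a g v)) ∧ a.range = Au j := by
  obtain ⟨a, ha⟩ := SylP.act hj
  refine ⟨a, ha, le_antisymm ?_ fun ψ ⟨g, hg⟩ => ?_⟩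
  · rintro _ ⟨g, rfl⟩
    exact ⟨g, ha g⟩
  · have : Finite j.range := Finite.of_surjective _ j.rangeRestrict_surjective
    refine ⟨⟨g, mem_normalizer_fintype ?_⟩, MulEquiv.ext fun v => hj ((ha _ v).symm.trans (hg v))⟩
    rintro _ ⟨v, rfl⟩
    exact ⟨_, (hg v).symm⟩
omit [Finite G] in
theorem exists_in (hi : Function.Injective φ) {g : G} (hg : g ∈ NN (E.map φ)) :
    ∃ ψ ∈ Au (φ.comp il), In φ g ψ := by
  obtain ⟨a, ha⟩ := SylP.act (j := φ.comp il) (hi.comp il_inj)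
  rw [SylP.E_map] at hg
  exact ⟨a ⟨g, hg⟩, ⟨g, ha ⟨g, hg⟩⟩, ha ⟨g, hg⟩⟩

/-- `step_up` gives `y ∈ N(E) ⊓ N(φ.range)`; its automorphism `α` maps `D` to a normal `EI I ≠ E` (`ea16`, `EI_normal`), so
`α D = D` and `sylA` applies. -/
theorem Cl.sylNE (h : Cl ⊤ φ O) : SylIn 2 φ.range (NN (E.map φ)) := by
  by_contra e
  have hi := h.ch.injective
  obtain ⟨y, hy, hn, hy', h2⟩ := step_up (SylP.pg φ) (SylP.le_NE φ) e
  obtain ⟨a, ha⟩ := SylP.act hi
  have e1 := SylP.map_eq hi (ha ⟨y, hn⟩) hy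
  have e0 := SylP.map_EI (a ⟨y, hn⟩) (I := 15) (Or.inr rfl)
  rw [EI_full] at e0
  have e2 : D.map (a ⟨y, hn⟩).toMonoidHom = D := e0.resolve_left fun e2 =>
    SylP.D_ne_E (map_injective (a ⟨y, hn⟩).injective (e2.trans e1.symm))
  have hn' := hn
  rw [← SylP.im_top] at hn' hy' h2
  refine hy' (h.sylA hn' (norm_im fun m hm => ?_) h2)
  rw [ha ⟨y, hn⟩ m]
  exact mem_im φ (e2.le ⟨m, hm, rfl⟩)

/-- `SylIn.map` along `exists_act` -/
theorem Cl.sylAu (h : Cl ⊤ φ O) : SylIn 2 acS.range (Au (φ.comp il)) := by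
  obtain ⟨a, ha, e⟩ := exists_act (j := φ.comp il) (h.ch.injective.comp il_inj)
  have k := h.sylNE
  rw [SylP.E_map] at k
  have k1 := (k.subgroupOf le_rfl).map a
  rw [subgroupOf_self, ← MonoidHom.range_eq_map, e] at k1
  convert k1 using 1
  ext ψ
  constructor
  · rintro ⟨t, rfl⟩
    exact ⟨⟨φ (ir t), k.le ⟨_, rfl⟩⟩, ⟨_, rfl⟩, In.unique h.ch.injective (ha _) (in_phi φ (ir t))⟩
  · rintro ⟨⟨_, hg⟩, ⟨m, rfl⟩, rfl⟩
    exact ⟨m.t, In.unique h.ch.injective (in_phi φ m) (ha ⟨_, hg⟩)⟩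

/-- `r1, r2` (`E ≤ DR, DR'`, `r1V_eq`), `gen_S8` -/
theorem Cl.pm_le (h : Cl ⊤ φ O) : pm.range ≤ Au (φ.comp il) := by
  obtain ⟨g1, h1⟩ := h.r1
  obtain ⟨g2, h2⟩ := h.r2
  have k : (Au (φ.comp il)).comap pm = ⊤ := by
    refine gen_S8 ?_ ⟨g1, fun v => ?_⟩ ⟨g2, fun v => ?_⟩
    · rintro _ ⟨t, rfl⟩
      exact ⟨φ (ir t), in_phi φ (ir t)⟩
    · rw [← r1V_eq]
      exact (h1 (il v) ⟨trivial, trivial, one_mem X0⟩).trans (congrArg φ (P.ext rfl SylP.rh_one.1))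
    · rw [← r2V_eq]
      exact (h2 (il v) ⟨trivial, trivial, one_mem X1⟩).trans (congrArg φ (P.ext rfl SylP.rh_one.2))
  rintro _ ⟨σ, rfl⟩
  exact k.ge (mem_top σ)

/-- `step_up` gives `y ∈ N(φ.range) ∖ φ.range` with automorphism `α`; `α E ∈ {E, D}`, and `α E = E` contradicts `sylNE`.
So `α E = D`, `α D = E`, `α z = z`. Let `α a = il v`. The commutators `[a, E]` take 16 values, hence so do the `[il v, D]`, which
forces `pc v = 4` (`decide`). With `g0` from `om`, `y g0 y⁻¹` normalises `E` and maps `z` to `il v`; this contradicts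
`Sy2.tri` and `pc_orb`. -/
theorem Cl.fx (h : Cl ⊤ φ O) : Fx φ O := by
  refine ⟨h, ?_, h.pm_le⟩
  by_contra e
  have hi := h.ch.injective
  obtain ⟨y, -, hn, hy', h2⟩ := step_up (SylP.pg φ) le_top e
  obtain ⟨act, ha⟩ := SylP.act hi
  replace ha : ∀ m, y * φ m * y⁻¹ = φ (act ⟨y, hn⟩ m) := ha ⟨y, hn⟩
  generalize act ⟨y, hn⟩ = α at ha
  have e1 : E.map α.toMonoidHom = D := (EI_zero ▸ SylP.map_EI α (Or.inl rfl)).resolve_left fun e1 => by
    have k : y ∈ NN (E.map φ) := mem_normalizer_fintype (by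
      rintro _ ⟨m, hm, rfl⟩
      exact ⟨_, e1.le ⟨m, hm, rfl⟩, (ha m).symm⟩)
    exact hy' ((h.sylNE.max _ (pg_sup (SylP.pg φ) hn h2) le_sup_left
      (sup_le (SylP.le_NE φ) (zpowers_le.2 k))).le (mem_sup_right (mem_zpowers y)))
  have e2 : D.map α.toMonoidHom = E := (EI_full ▸ SylP.map_EI α (Or.inr rfl)).resolve_right fun e2 =>
    SylP.D_ne_E (map_injective α.injective (e2.trans e1.symm))
  have mD : ∀ m ∈ D, α m = il (α m).v := fun m hm => eq_il (e2.le ⟨m, hm, rfl⟩).2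
  have az : α z = z := by
    have k := mD z (by decide +kernel)
    rcases SylP.fix_all (α z).v (fun t => il_inj (by
      obtain ⟨m, hm⟩ := α.surjective (ir t)
      rw [← ir_t t, ← conj_il, ← k, ← hm, ← map_inv, ← map_mul, ← map_mul, SylP.z_cen])) with e | e
    · rw [e, map_one, EmbeddingLike.map_eq_one_iff] at k
      exact absurd k (by decide +kernel)
    · rw [k, e]
      rfl
  obtain ⟨g, hg⟩ := h.om
  have k1 : y * g * y⁻¹ ∈ NN (E.map φ) := mem_normalizer_fintype (by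
    rintro _ ⟨_, hm0, rfl⟩
    obtain ⟨m, hm, rfl⟩ := e2.ge hm0
    refine ⟨_, e2.le ⟨omg m, (SylP.omg_D m hm).2, rfl⟩, ?_⟩
    change φ (α _) = _ * φ (α m) * _
    rw [← ha, ← ha, ← hg m (SylP.omg_D m hm).1]
    group)
  obtain ⟨ψ, hψ, k2⟩ := exists_in hi k1
  have k3 : α a = il (ψ (vv 255)) := hi (by
    rw [← k2, ← ha, ← SylP.omg_z, ← hg z (by decide +kernel)]
    change _ = _ * φ z * _
    conv_rhs => rw [← az, ← ha]
    group)
  have k4 : ∀ u, α (il u * a * (il u)⁻¹) = il (aS (α (il u)).t (ψ (vv 255))) := fun u => by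
    rw [map_mul, map_mul, map_inv, k3, conj_il]
  have k5 : ∀ u, (α (il u)).t ∈ Lo := fun u => (e1.le ⟨il u, ⟨trivial, rfl⟩, rfl⟩).2
  have k6 := pc_orb (ψ := ψ) ((Sy2.tri (sy2_of_syl h.sylAu) h.pm_le).imp (fun e => e.le hψ)
    (Or.imp (fun e => e.le hψ) fun e => e.le hψ))
  rcases SylP.fin _ k6 _ (k5 (vv 1)) _ (k5 (vv 4)) with e | e | e | e
  · rw [e] at k3
    exact absurd (α.injective (k3.trans az.symm)) (by decide +kernel)
  · have := k4 (vv 1)
    rw [e, ← k3] at this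
    exact absurd (α.injective this) (by decide +kernel)
  · have := k4 (vv 4)
    rw [e, ← k3] at this
    exact absurd (α.injective this) (by decide +kernel)
  · have := k4 (vv 1)
    rw [e, ← k4] at this
    exact absurd (α.injective this) (by decide +kernel)

end CL.HA
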