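import Cfsg.Agent.INV.HA.Rr
import Cfsg.Agent.INV.HA.Co

/-!
Harada `E₁₆ · GL₄(2)`, case (c): the twisted action does not occur.
-/

set_option autoImplicit false
set_option maxHeartbeats 400000
set_option linter.unusedSectionVars false

namespace CL.HA
open Subgroup CL.MSS CL.PComp
open CL.SX (V vv e ZZ pc)

variable {G : Type*} [Group G] [Finite G] {s : P → G} {O : Subgroup G}

variable {c : V → G} {g0 g1 g2 : G} {tw : Bool} {E0 : Subgroup G} {s2 : P → G}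

namespace TwA
open RrA K

/-- the action of `ξ` on `F0` -/
def Xf (γ γ' v : V) : V := v * (bc (dot v (vv 0xCC)) γ * bc (dot v (vv 0xF0)) γ' * bc (dot v (vv 0xC0)) (vv 3))
theorem Xf_mul (γ γ' v w : V) : Xf γ γ' (v * w) = Xf γ γ' v * Xf γ γ' w := by
  simp only [Xf, dot_mul, bc_xor]; ac_rfl
theorem bc_mem {W : Subgroup V} (p : Bool) {v : V} (h : v ∈ W) : bc p v ∈ W := by
  cases p
  exacts [one_mem _, h]
theorem Xf_Ev {γ γ' v : V} (h : γ ∈ ZZ) (h' : γ' ∈ ZZ) (hv : v ∈ Ev) : Xf γ γ' v ∈ Ev :=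
  mul_mem hv (mul_mem (mul_mem (bc_mem _ (As.f2 _ h)) (bc_mem _ (As.f2 _ h'))) (bc_mem _ (by decide +kernel)))
theorem Ev_spl' : ∀ v, v ∈ Ev → v ∈ spl [vv 3, vv 12, vv 48, vv 192, vv 0xAA, vv 5, vv 17] := by decide +kernel
theorem Xf_dot : (∀ v ∈ [vv 3, vv 12, vv 48, vv 192], v ∈ ZZ ∧ dot v (vv 0xCC) = false ∧ dot v (vv 0xF0) = false ∧
    dot v (vv 0xC0) = false) ∧ (dot (vv 0xAA) (vv 0xCC) = false ∧ dot (vv 0xAA) (vv 0xF0) = false ∧
    dot (vv 0xAA) (vv 0xC0) = true) ∧ (dot (vv 5) (vv 0xCC) = true ∧ dot (vv 5) (vv 0xF0) = false ∧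
    dot (vv 5) (vv 0xC0) = false) ∧ dot (vv 17) (vv 0xCC) = false ∧ dot (vv 17) (vv 0xF0) = true ∧
    dot (vv 17) (vv 0xC0) = false := by decide +kernel

def f23 (tw : Bool) : V → V := tf (aS (ts 10)) (bc tw (vv 0xf0))
def f24 (tw : Bool) : V → V := tf (aS (ts 12)) (bc tw (vv 0x3c))
def f34 (tw : Bool) : V → V := tf (aS (ts 32)) (bc tw (vv 0xaa))
def f2 (tw : Bool) : V → V := tf r2V (bc tw (vv 0xaa))

theorem fin4 : ∀ tw : Bool, ∀ γ, γ ∈ ZZ → ∀ γ', γ' ∈ ZZ →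
    Eq3 (fun v => tf r1V 1 (Xf γ γ' v)) (fun v => Xf γ γ' (tf r1V 1 v)) →
    Eq3 (fun v => f23 tw (Xf γ γ' v)) (fun v => Xf γ γ' (f23 tw v)) →
    Eq3 (fun v => f24 tw (Xf γ γ' v)) (fun v => Xf γ γ' (f24 tw v)) →
    Eq3 (fun v => aS (ts 48) (Xf γ γ' v)) (fun v => Xf γ γ' (aS (ts 15) (f24 tw (aS (ts 48) v)))) →
    Eq3 (fun v => aS (ts 64) (Xf γ γ' v)) (fun v => Xf γ γ' (aS (ts 15) (f23 tw (aS (ts 64) v)))) →
    Eq3 (fun v => f34 tw (Xf γ γ' v)) (fun v => Xf γ γ' (aS (bif tw then ts 15 else 1) (f34 tw v))) →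
    tw = false ∧ γ = vv 3 ∧ γ' = vv 3 ∨ tw = true ∧ γ = zz 11 ∧ γ' = zz 7 := by decide +kernel
theorem Xf_std : ∀ v, v ∈ Ev → Xf (vv 3) (vv 3) v = aS (ts 1) v := by decide +kernel
/-- `ξ g2` -/
def p5 (v : V) : V := Xf (zz 11) (zz 7) (f2 true v)
def g5 (v : V) : V := p5 (p5 (p5 (f2 true (p5 (f2 true (p5 (p5 (f23 true v))))))))
theorem fin5 : ∀ v, v ∈ Ev → g5 v = tf id (vv 0xf0) v := by decide +kernel
theorem fin5' : ∀ v, v ∈ Ev → tf id (vv 0xf0) (tf id (vv 0xf0) v) = v ∧ (v ∈ RM → tf id (vv 0xf0) v = v) := by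
  decide +kernel

theorem ra1 : ∀ m ∈ RA, m ∈ T02 ∧ m ∈ T00 ∧ omg m ∈ RA ∧ rh m ∈ RA ∧ cj e12 m ∈ RA ∧
    cj e12 (omg (cj e12 (omg m))) = m ∧ rh (omg m) = omg (rh m) := forall_sd.2 (by decide +kernel)
theorem cj12 : ∀ m ∈ D, cj e12 m ∈ D ∧ (cj e12 m = m → m.t = 1) := forall_sd.2 (by decide +kernel)
theorem cj12' : ∀ m ∈ [z, e13, e14, a, e23, e24], m ∈ RA ∧ cj e12 m ∈ RA := by decide +kernel

end TwA
open RrA K TwA

/-- `δ = c 3 = s2 d`, `ξ = s2 x = g0 δ g0⁻¹`, `D0 = im s2 D`. Elements of `N(D0)` that centralise `s RA` centralise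
`D0` (`cen`).
(1) `(e12 g0)²` centralises `s RA` (`decide`: `e12 * omg (e12 * omg m * e12) * e12 = m` on `RA`), so
`e12 ξ e12 = e12 g0 δ g0⁻¹ e12 = g0⁻¹ e12 δ e12 g0 = g0⁻¹ δ g0 = s2 (x * d)`. Hence `e12` acts on `D0` as in the
model, `C_{D0}(e12) = s2 Z = im c ZZ`.
(2) `cE`: for `u ∈ E0`, `u ξ u⁻¹ = ξ k` with `k ∈ s2 R1` (`u` normalises `D0` and `s2 R1` by `cR`, `comm`); `u` commutes
with `e12` and `δ`, so `e12` centralises `k`, `k ∈ im c ZZ`.
(3) `[e34, g0]` and `[g1, g0]` centralise `s RA` (`e34`, `rh` commute with `omg` on `RA`), so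
`e34 ξ e34 = g0 (e34 δ e34) g0⁻¹ = ξ` (`tw = false`) or `g0 (δ z) g0⁻¹ = ξ a` (`tw = true`), and `g1 ξ g1⁻¹ = ξ`.
(4) `ξ c(v) ξ⁻¹ = c (v * γ v)`, `γ : Ev → ZZ` additive, zero on `ZZ`, `γ 0xAA = 3`; so `γ` is given by `γ 5, γ 17`.
The action `X` of `ξ` on `F0` commutes with those of `e23, e24, a, g1`, and `b X b = X a e24`, `c X c = X a e23`
(chart `s2`), `e34 X e34 = X` or `X a`. FINITE FACT (computer checked): the only solution is `γ 5 = γ 17 = 3` for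
`tw = false` (then `X = aS (ts 1)`), and `γ 5 = zz 11`, `γ 17 = zz 7` for `tw = true`.
(5) If `tw = true`, the product `g = ξ g2 ξ g2 ξ g2 g2 ξ g2 g2 ξ g2 ξ g2 e23` acts on `F0` as
`v ↦ v * bc (dot v 0xf0) 255` (computer checked). So `g ∈ C(A') ⊓ N(F0)`, `g²` centralises `F0`, `g` does not:
this contradicts `cen_of_ab` (`E0` is an abelian Sylow subgroup of `C(A')`). -/
theorem Fc.untw (h : N0 s O) (F : Fc s c g1 g2 tw) (hE : Es s c g1 g2 E0) (hD : Ds s c E0 g0 g1 s2) :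
    tw = false ∧ Xs s c E0 g1 (s2 x) := by
  have dD : d ∈ D := by decide +kernel
  have xD : x ∈ D := by decide +kernel
  have T12 : e12 ∈ T0 := by decide +kernel
  have ed : s2 d = c (vv 3) := hD.ex2 _ (by decide +kernel)
  have e12' : s e12 = c (vv 0xAA) := (F.ext _ (by decide +kernel)).symm
  have om := AD.om hD
  have ex : g0 * s2 d * g0⁻¹ = s2 x := (om.1 d dD).trans (congrArg s2 (by decide +kernel))
  have dE : s2 d ∈ E0 := ed ▸ hE.le (mem_im c (by decide +kernel))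
  have E12 : s e12 ∈ E0 := e12' ▸ hE.le (mem_im c (by decide +kernel))
  -- (1)
  have k1 : s e12 * s2 x * (s e12)⁻¹ = s2 x * s2 d := by
    have n : s e12 * g0 ∈ NN (im s2 D) := mul_mem (hD.nT (mem_im s T12)) om.norm
    have ac : ∀ m ∈ RA, s e12 * g0 * s m * (s e12 * g0)⁻¹ = s (cj e12 (omg m)) := fun m hm => by
      rw [cj, ← h.ch.conj T12 (RA_le_T0 (ra1 m hm).2.2.1), ← hD.a0 m (ra1 m hm).1]; group
    have k := mem_CC_im.1 (hD.cen _ (mul_mem n n) (mem_CC_im.2 fun m hm => by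
      conv_rhs => rw [← (ra1 m hm).2.2.2.2.2.1, ← ac _ (ra1 _ (ra1 m hm).2.2.1).2.2.2.2.1, ← ac m hm]
      group)) d dD
    have e : g0 * (s2 x * s2 d) * g0⁻¹ = s2 d := by
      rw [← hD.ch.mul _ (As.D_DA xD) _ (As.D_DA dD), om.1 _ (mul_mem xD dD)]
      exact congrArg s2 (by decide +kernel)
    have cm := hE.comm _ E12 _ dE
    calc _ = (s e12 * g0)⁻¹ * (s e12 * g0 * (s e12 * g0) * s2 d) * (s e12 * g0)⁻¹ := by rw [← ex]; group
      _ = g0⁻¹ * ((s e12)⁻¹ * (s2 d * s e12)) * g0 := by rw [k]; group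
      _ = _ := by rw [← cm, inv_mul_cancel_left]; conv_lhs => rw [← e]
                  group
  have a12 : AD (s e12) s2 (cj e12) := ⟨Ac.of_gen hD.ch As.D_DA (fun m hm => As.D_DA (cj12 m hm).1)
    (fun m _ n _ => by simp only [cj]; group) (by decide +kernel) gen_D (fun m hm => by
      have : m ∈ [z, e13, e14, a, e23, e24] ∨ m = d ∨ m = x := by
        simp only [List.mem_cons, List.not_mem_nil, or_false] at hm ⊢
        tauto
      rcases this with k | rfl | rfl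
      · rw [hD.ex1 _ (cj12' m k).1, hD.ex1 _ (cj12' m k).2, h.ch.conj T12 (RA_le_T0 (cj12' m k).1), cj]
      · rw [hE.comm _ E12 _ dE, mul_inv_cancel_right]; exact congrArg s2 (by decide +kernel)
      · rw [k1, ← hD.ch.mul _ (As.D_DA xD) _ (As.D_DA dD)]; exact congrArg s2 (by decide +kernel)),
    fun m hm => (cj12 m hm).1⟩
  -- (2)
  have cE : ∀ u ∈ E0, s2 x * u * (s2 x)⁻¹ * u⁻¹ ∈ im c ZZ := fun u hu => by
    obtain ⟨k, hk, e⟩ := (hD.ch.mem_im As.D_DA).1 (mul_mem (SX.Hx.conj_mem (hD.nE hu) (mem_im s2 xD))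
      (inv_mem (mem_im s2 xD)))
    have c1 := hE.comm _ E12 _ hu
    have c2 := hE.comm _ dE _ hu
    have : s2 (cj e12 k) = s2 k := by
      rw [← a12.1 k hk, e]
      calc _ = (s e12 * u) * ((s e12)⁻¹ * (s e12 * s2 x * (s e12)⁻¹) * s e12) * (s e12 * u)⁻¹ *
            (s e12 * s2 x * (s e12)⁻¹)⁻¹ := by group
        _ = u * (s e12 * s2 x * (s e12)⁻¹) * u⁻¹ * (s e12 * s2 x * (s e12)⁻¹)⁻¹ := by rw [c1]; group
        _ = u * s2 x * u⁻¹ * (u * s2 d) * u⁻¹ * (s2 d)⁻¹ * (s2 x)⁻¹ := by rw [k1]; group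
        _ = _ := by rw [← c2]; group
    have ht := (cj12 k hk).2 (hD.ch.eq_of (As.D_DA (cj12 k hk).1) (As.D_DA hk) this)
    rw [eq_il ht, hD.ex2 _ hk.1] at e
    have : s2 x * u * (s2 x)⁻¹ * u⁻¹ = (c k.v)⁻¹ := by rw [e]; group
    rw [this]; exact inv_mem (mem_im c hk.1)
  -- (3)
  have c34 : s e34 * s2 x = s2 x * s (ir (bif tw then ts 15 else 1)) * s e34 := by
    have k : g0 * s e34 * g0⁻¹ = s e34 := (hD.a0 _ (by decide +kernel)).trans (congrArg s (by decide +kernel))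
    have k2 := F.t34 (vv 3) (by decide +kernel)
    have k3 : s e34 * s2 x * (s e34)⁻¹ = g0 * (s e34 * s2 d * (s e34)⁻¹) * g0⁻¹ := by
      rw [← ex]
      conv_lhs => rw [← k]
      group
    rw [← mul_inv_eq_iff_eq_mul, k3, ed, k2]
    cases tw
    · rw [show aS (ts 32) (vv 3) * bc (dot (vv 3) (bc false (vv 170))) (vv 255) = vv 3 by decide +kernel,
        ← ed, ex]
      simp [h.ch.one]
    · rw [show aS (ts 32) (vv 3) * bc (dot (vv 3) (bc true (vv 170))) (vv 255) = vv 252 by decide +kernel,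
        ← hD.ex2 _ (by decide +kernel), om.1 _ (by decide +kernel), ← hD.ex1 _ (by decide +kernel),
        ← hD.ch.mul _ (As.D_DA xD) _ (by decide +kernel)]
      exact congrArg s2 (by decide +kernel)
  have c1 : g1 * s2 x = s2 x * g1 := by
    have k := mem_CC_im.1 (hD.cen ((g0 * g1)⁻¹ * (g1 * g0))
      (mul_mem (inv_mem (mul_mem om.norm hD.n1)) (mul_mem hD.n1 om.norm)) (mem_CC_im.2 fun m hm => by
        have r := ra1 m hm
        have e1 : g1 * g0 * s m * (g1 * g0)⁻¹ = s (rh (omg m)) := by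
          rw [← F.a1 _ (ra1 _ r.2.2.1).2.1, ← hD.a0 m r.1]; group
        have e2 : g0 * g1 * s m * (g0 * g1)⁻¹ = s (rh (omg m)) := by
          rw [r.2.2.2.2.2.2, ← hD.a0 _ (ra1 _ r.2.2.2.1).1, ← F.a1 m r.2.1]; group
        calc _ = (g0 * g1)⁻¹ * (g1 * g0 * s m * (g1 * g0)⁻¹) * (g1 * g0) := by group
          _ = _ := by rw [e1, ← e2]; group)) d dD
    have k2 : g1 * s2 d * g1⁻¹ = s2 d := by
      rw [ed, As.tw0 F.t1 (by decide +kernel)]; exact congrArg c (by decide +kernel)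
    calc _ = g0 * g1 * ((g0 * g1)⁻¹ * (g1 * g0) * s2 d) * g0⁻¹ := by rw [← ex]; group
      _ = g0 * (g1 * s2 d * g1⁻¹) * g0⁻¹ * g1 := by rw [k]; group
      _ = _ := by rw [k2, ex]
  -- (4)
  have mZ : ∀ {g : G}, g ∈ im c ZZ ↔ ∃ v ∈ ZZ, c v = g :=
    mem_im_iff fun v hv w hw => F.mul v (As.f2 v hv) w (As.f2 w hw)
  have ga : ∀ v ∈ Ev, ∃ γ ∈ ZZ, s2 x * c v * (s2 x)⁻¹ = c (v * γ) := fun v hv => by
    obtain ⟨γ, hγ, e⟩ := mZ.1 (cE _ (hE.le (mem_im c hv)))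
    exact ⟨γ, hγ, by rw [mul_comm, F.mul _ (As.f2 _ hγ) _ hv, e, inv_mul_cancel_right]⟩
  obtain ⟨γ, hγ, e5⟩ := ga (vv 5) (by decide +kernel)
  obtain ⟨γ', hγ', e17⟩ := ga (vv 17) (by decide +kernel)
  have cD : ∀ m ∈ D, s2 m * s2 x = s2 x * s2 m := fun m hm => D_ab hD.ch _ (mem_im s2 hm) _ (mem_im s2 xD)
  have aX : Av c (s2 x) (Xf γ γ') := fun v hv => ⟨Xf_Ev hγ hγ' hv,
    (spl_ind (fun v => v ∈ Ev ∧ s2 x * c v * (s2 x)⁻¹ = c (Xf γ γ' v))
      ⟨one_mem _, by simp [Xf, F.toFs.one, dot_comm 1, dot_one, bc]⟩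
      (fun v w k k' => ⟨mul_mem k.1 k'.1, by
        rw [Xf_mul, F.mul _ k.1 _ k'.1, F.mul _ (Xf_Ev hγ hγ' k.1) _ (Xf_Ev hγ hγ' k'.1), ← k.2, ← k'.2]
        group⟩) _ (fun v hv => by
      obtain ⟨q1, q2, q3, q4⟩ := Xf_dot
      have : v ∈ [vv 3, vv 12, vv 48, vv 192] ∨ v = vv 0xAA ∨ v = vv 5 ∨ v = vv 17 := by
        simp only [List.mem_cons, List.not_mem_nil, or_false] at hv ⊢
        tauto
      rcases this with k | rfl | rfl | rfl
      · obtain ⟨r0, r1, r2, r3⟩ := q1 v k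
        refine ⟨As.f2 v r0, ?_⟩
        simp only [Xf, r1, r2, r3, bc, cond_false, mul_one]
        rw [← hD.ex2 v r0, ← cD (il v) ⟨r0, one_mem _⟩, mul_inv_cancel_right]
      · refine ⟨by decide +kernel, ?_⟩
        simp only [Xf, q2.1, q2.2.1, q2.2.2, bc, cond_false, cond_true, one_mul]
        rw [mul_comm, F.mul _ (by decide +kernel) _ (by decide +kernel), ← ed, ← e12']
        exact flip k1 (by rw [ed]; exact F.toFs.sq (by decide +kernel)) (cD d dD).symm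
      · refine ⟨by decide +kernel, ?_⟩
        simpa only [Xf, q3.1, q3.2.1, q3.2.2, bc, cond_false, cond_true, mul_one] using e5
      · refine ⟨by decide +kernel, ?_⟩
        simpa only [Xf, q4.1, q4.2.1, q4.2.2, bc, cond_false, cond_true, mul_one, one_mul] using e17)
      v (Ev_spl' v hv)).2⟩
  have a23 : Av c (s e23) (f23 tw) := av_of F.t23 fun v => aS_Ev _
  have a24 : Av c (s e24) (f24 tw) := av_of F.t24 fun v => aS_Ev _
  have a34 : Av c (s e34) (f34 tw) := av_of F.t34 fun v => aS_Ev _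
  have a1 : Av c g1 (tf r1V 1) := av_of F.t1 fun v hv => (r_Ev v hv).1
  have a2 : Av c g2 (f2 tw) := av_of F.t2 fun v hv => (r_Ev v hv).2
  have a0 : ∀ t ∈ A0, Av c (s (ir t)) (aS t) := fun t ht v hv => ⟨aS_Ev t hv, F.qa t ht v hv⟩
  have cb : ∀ m ∈ [b, HA.c], ∀ n ∈ [e23, e24], m * x = x * (a * (n * m)) →
      s m * s2 x = s2 x * (s a * (s n * s m)) := fun m hm n hn k => by
    have hm' : m ∈ RA ∧ m ∈ DA := by clear k; revert m; decide +kernel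
    have hn' : n ∈ RA ∧ n ∈ DA := by clear k; revert n; decide +kernel
    have ha : a ∈ RA ∧ a ∈ DA := by decide +kernel
    rw [← hD.ex1 m hm'.1, ← hD.ex1 n hn'.1, ← hD.ex1 a ha.1, ← hD.ch.mul _ hm'.2 _ As.x_DA, k,
      hD.ch.mul _ As.x_DA _ (mul_mem ha.2 (mul_mem hn'.2 hm'.2)), hD.ch.mul _ ha.2 _ (mul_mem hn'.2 hm'.2),
      hD.ch.mul _ hn'.2 _ hm'.2]
  have A15 := a0 (ts 15) (by decide +kernel)
  have A48 := a0 (ts 48) (by decide +kernel)
  have A64 := a0 (ts 64) (by decide +kernel)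
  rcases fin4 tw γ hγ γ' hγ' ((a1.mul aX).eq F.toFs (aX.mul a1) c1)
    ((a23.mul aX).eq F.toFs (aX.mul a23) (hD.ex1 e23 (by decide +kernel) ▸ cD e23 (by decide +kernel)))
    ((a24.mul aX).eq F.toFs (aX.mul a24) (hD.ex1 e24 (by decide +kernel) ▸ cD e24 (by decide +kernel)))
    ((A48.mul aX).eq F.toFs (aX.mul (A15.mul (a24.mul A48))) (cb b (by simp) e24 (by simp) (by decide +kernel)))
    ((A64.mul aX).eq F.toFs (aX.mul (A15.mul (a23.mul A64)))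
      (cb HA.c (by simp) e23 (by simp) (by decide +kernel)))
    ((a34.mul aX).eq F.toFs (aX.mul ((a0 _ (by cases tw <;> decide +kernel)).mul a34))
      (c34.trans (mul_assoc _ _ _))) with ⟨rfl, rfl, rfl⟩ | ⟨rfl, rfl, rfl⟩
  · refine ⟨rfl, fun v hv => by rw [(aX v hv).2, Xf_std v hv], ?_, c1, cE⟩
    simpa [h.ch.one] using c34
  -- (5)
  · exfalso
    have p : Av c _ p5 := aX.mul a2
    have q : Av c _ g5 := p.mul (p.mul (p.mul (a2.mul (p.mul (a2.mul (p.mul (p.mul a23)))))))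
    generalize s2 x * g2 * (s2 x * g2 * (s2 x * g2 * (g2 * (s2 x * g2 * (g2 * (s2 x * g2 * (s2 x * g2 *
      s e23))))))) = g at q
    have q' : Av c g (tf id (vv 0xf0)) := fun v hv => fin5 v hv ▸ q v hv
    have := cen_of_ab hE.syl hE.comm F.syl.pgroup (hE.le.trans hE.syl.le) (g := g)
      (mem_CC_im.2 fun m hm => by
        rw [eq_il hm.2, ← F.ext _ hm.1, ← mul_inv_eq_iff_eq_mul, (q' _ (RM_le hm.1)).2,
          (fin5' _ (RM_le hm.1)).2 hm.1])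
      (SX.Hx.norm_of fun y hy => by
        obtain ⟨v, hv, rfl⟩ := F.toFs.mem.1 hy
        rw [(q' v hv).2]; exact mem_im c (q' v hv).1)
      (mem_CC_im.2 fun v hv => by
        rw [← mul_inv_eq_iff_eq_mul, ((q'.mul q') v hv).2]; exact congrArg c (fin5' v hv).1)
    exact absurd ((Av.cen this).eq F.toFs q' rfl) (by decide +kernel)


end CL.HA
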