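import Cfsg.Agent.INV.HA.SylP

/-!
Harada `E₁₆ · GL₄(2)`, type `S₁₆`: weak closure of `E`.
-/

set_option autoImplicit false
set_option maxHeartbeats 400000
set_option linter.unusedSectionVars false

namespace CL.HA
open Subgroup CL.MSS CL.PComp
open CL.SX (V vv e ZZ pc)

variable {G : Type*} [Group G] [Finite G] {φ : P →* G} {O : Subgroup G}

theorem Fx.inj (h : Fx φ O) : Function.Injective φ := h.ch.injective

/-- an elementary abelian subgroup of order 256 inside `φ.range` -/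
theorem Fx.ea (h : Fx φ O) {Y : Subgroup G} (h1 : Y ≤ φ.range) (h2 : ∀ y ∈ Y, y * y = 1) (h3 : 256 ≤ Nat.card Y) :
    ∃ I, Y = (EI I).map φ := by
  have e := map_comap_eq_self h1
  obtain ⟨I, hI⟩ := ea16 (Y := Y.comap φ) (fun y hy => h.inj (by rw [map_mul, map_one]; exact h2 _ hy))
    (by rwa [← card_map_of_injective h.inj, e])
  exact ⟨I, by rw [← hI, e]⟩

namespace WCk

theorem ea_cj (h : Fx φ O) {g : G} {I : Fin 16} (hg : g •ᶜ (EI I).map φ ≤ φ.range) :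
    ∃ K, g •ᶜ (EI I).map φ = (EI K).map φ := by
  refine h.ea hg ?_ (by rw [card_cj, card_map_of_injective h.inj, card_EI])
  rintro _ ⟨_, ⟨y, hy, rfl⟩, rfl⟩
  rw [← map_mul, ← map_mul, sq_EI I y hy, map_one, map_one]

omit [Finite G] in
theorem comm (φ : P →* G) (I : Fin 16) : (EI I).map φ ≤ CC ((EI I).map φ) := by
  rintro _ ⟨_, ⟨u, rfl⟩, rfl⟩ _ ⟨_, ⟨v, rfl⟩, rfl⟩
  rw [← map_mul, ← map_mul, ← map_mul, ← map_mul, mul_comm]

omit [Finite G] in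
theorem cj_phi (φ : P →* G) (m : P) (I : Fin 16) : φ m •ᶜ (EI I).map φ = (EI (bI m.t I)).map φ := by
  rw [← map_cj, cj_EI]

omit [Finite G] in
theorem nm_phi (φ : P →* G) {I : Fin 16} (hI : I = 0 ∨ I = 15) : φ.range ≤ NN ((EI I).map φ) := by
  rintro _ ⟨m, rfl⟩
  have : ∀ t, bI t 0 = 0 ∧ bI t 15 = 15 := by decide +kernel
  rw [mem_normalizer_iff_cj, cj_phi]
  rcases hI with rfl | rfl
  exacts [by rw [(this _).1], by rw [(this _).2]]

omit [Finite G] in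
theorem nmJ (φ : P →* G) : φ.range ≤ NN (J.map φ) := by
  rw [J_eq, Subgroup.map_sup, ← EI_zero, ← EI_full]
  exact le_normalizer_sup (nm_phi φ (.inl rfl)) (nm_phi φ (.inr rfl))

/-- the distance -/
def ds (I K : Fin 16) : ℕ := SX.pc4 (I.1 ^^^ K.1)
/-- the complement -/
def cp (I : Fin 16) : Fin 16 := ⟨15 - I.1, by omega⟩

theorem perm (h : Fx φ O) {n : G} (hn : n ∈ NN (J.map φ)) : ∃ f : Fin 16 → Fin 16,
    (∀ K, n •ᶜ (EI K).map φ = (EI (f K)).map φ) ∧ ∀ K L, ds (f K) (f L) = ds K L := by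
  choose f hf using fun K => ea_cj h (g := n) (I := K)
    ((cj_le_of_mem_normalizer (map_mono (EI_le K)) hn).trans (map_le_range φ J))
  refine ⟨f, hf, fun K L => ?_⟩
  have e := card_inf_EI (f K) (f L)
  rw [← card_map_of_injective h.inj, map_inf _ _ _ h.inj, ← hf, ← hf, ← cj_inf, card_cj, ← map_inf _ _ _ h.inj,
    card_map_of_injective h.inj, card_inf_EI] at e
  have l : ∀ K L, ds K L ≤ 4 := by decide +kernel
  have := Nat.pow_right_injective le_rfl e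
  have l1 := l K L
  have l2 := l (f K) (f L)
  simp only [ds] at *
  omega

omit [Finite G] in
theorem hinj (h : Function.Injective φ) {I K : Fin 16} (e : (EI I).map φ = (EI K).map φ) : I = K := by
  have c := card_inf_EI I K
  rw [← map_injective h e, inf_idem, card_EI] at c
  clear e
  revert c I K
  decide +kernel

theorem fin {Ω : Fin 16 → Prop} (h0 : Ω 0) (ha : ∀ I, Ω I → ¬ Ω (cp I)) (hb : ∀ t I, Ω I → Ω (bI t I))
    {f : Fin 16 → Fin 16} (hf : ∀ K, Ω K → Ω (f K)) (hd : ∀ K L, ds (f K) (f L) = ds K L) : f 0 = 0 := by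
  have d : ∀ I K : Fin 16, (ds 0 I = 2 → ∃ i < 8, bI (ts (16 * i)) I = cp I) ∧
      (ds 0 I = ds 0 K → ds 0 I ≠ 2 → ∃ i < 8, bI (ts (16 * i)) I = K) ∧ ds 0 (cp I) = 4 - ds 0 I := by
    decide +kernel
  have h2 : ∀ I, Ω I → ds 0 I ≠ 2 := fun I hI e => by
    obtain ⟨i, -, e⟩ := (d I I).1 e
    exact ha I hI (e ▸ hb _ I hI)
  have tr : ∀ I K, Ω I → ds 0 I = ds 0 K → Ω K := fun I K hI e => by
    obtain ⟨i, -, e⟩ := (d I K).2.1 e (h2 I hI)
    exact e ▸ hb _ I hI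
  have h4 : ∀ I K, Ω I → Ω K → ds 0 I + ds 0 K ≠ 4 := fun I K hI hK e =>
    ha K hK (tr I _ hI (by rw [(d K K).2.2]; omega))
  by_contra c
  have hI := hf 0 h0
  have key : ∀ K, ds 0 (f 0) = ds 0 K → f K = 0 := fun K e => by
    have hK := hf K (tr _ K hI e)
    have : ∀ I M : Fin 16, I ≠ 0 → ds 0 I ≠ 2 → ds 0 M ≠ 2 → ds 0 0 + ds 0 I ≠ 4 → ds 0 0 + ds 0 M ≠ 4 →
        ds 0 I + ds 0 M ≠ 4 → ds I M = ds 0 I → M = 0 := by decide +kernel
    exact this _ _ c (h2 _ hI) (h2 _ hK) (h4 _ _ h0 hI) (h4 _ _ h0 hK) (h4 _ _ hI hK) ((hd 0 K).trans e.symm)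
  obtain ⟨K, L, e1, e2, e3⟩ := (by decide +kernel : ∀ I : Fin 16, I ≠ 0 → ds 0 0 + ds 0 I ≠ 4 →
    ∃ K L, ds 0 I = ds 0 K ∧ ds 0 I = ds 0 L ∧ ds 0 0 ≠ ds K L) _ c (h4 _ _ h0 hI)
  exact e3 (by rw [← hd K L, key K e1, key L e2])

end WCk
open WCk

theorem Fx.wcJ (h : Fx φ O) : WC 2 (J.map φ) ⊤ := wc_of_sylIn h.syl (map_le_range φ J) fun g _ hg => by
  have k : ∀ I, g •ᶜ (EI I).map φ ≤ J.map φ := fun I => by
    obtain ⟨K, e⟩ := ea_cj h ((cj_mono g (map_mono (EI_le I))).trans hg)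
    exact e ▸ map_mono (EI_le K)
  refine cj_eq_of_le ?_
  conv_lhs => rw [J_eq, Subgroup.map_sup, cj_sup, ← EI_zero, ← EI_full]
  exact sup_le (k 0) (k 15)

theorem WCk.not15 (h : Fx φ O) (g : G) : g •ᶜ (EI 0).map φ ≠ (EI 15).map φ := fun e => by
  have s1 := h.syl.of_le (nm_phi φ (.inr rfl)) le_top
  have s2 : SylIn 2 (g •ᶜ φ.range) (NN ((EI 15).map φ)) := (h.syl.cj_of_mem (mem_top g)).of_le
    (e ▸ (cj_mono g (nm_phi φ (.inl rfl))).trans (cj_normalizer _ _).le) le_top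
  obtain ⟨y, hy, e'⟩ := s2.exists_conj s1
  rw [← cj_mul, ← mem_normalizer_iff_cj] at e'
  have e1 : (y * g) •ᶜ (EI 0).map φ = (EI 15).map φ := by rw [cj_mul, e, cj_eq_of_mem_normalizer hy]
  generalize y * g = m at e' e1
  obtain ⟨f, hf, hd⟩ := perm h (h.wcJ.normalizer_le h.syl.pgroup (map_le_range φ J) e')
  have f0 : f 0 = 15 := hinj h.inj ((hf 0).symm.trans e1)
  have f1 : f 15 = 0 := (by decide +kernel : ∀ K, ds 15 K = ds 0 15 → K = 0) _ (f0 ▸ hd 0 15)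
  have e2 : m ^ 2 ∈ NN ((EI 0).map φ) := by rw [mem_normalizer_iff_cj, sq, cj_mul, e1, hf, f1]
  obtain ⟨n, k, hk⟩ := exists_two_pow m
  have e3 := nm_phi φ (.inl rfl) (h.syl.le_of_normalizes (isPGroup_zpowers hk) le_top
    (zpowers_le.2 (pow_mem e' _)) (mem_zpowers _))
  rw [mem_normalizer_iff_cj, pow_succ', cj_mul, pow_mul, cj_eq_of_mem_normalizer (pow_mem e2 n), e1] at e3
  exact absurd (hinj h.inj e3) (by decide)

theorem Fx.wcE (h : Fx φ O) : WC 2 (E.map φ) ⊤ := wc_of_sylIn h.syl (map_le_range φ E) fun g _ hg => by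
  rw [← EI_zero] at hg ⊢
  obtain ⟨I, e⟩ := ea_cj h hg
  have nJ : ∀ I, J.map φ ≤ NN ((EI I).map φ) := fun I => by
    rintro _ ⟨m, hm, rfl⟩
    rw [mem_normalizer_iff_cj, ← map_cj, cj_eq_of_mem_normalizer (J_norm I hm)]
  obtain ⟨k, hk, e'⟩ := h.wcJ.exists_conj (nJ I) le_top (mem_top g)
    (e ▸ (cj_mono g (nJ 0)).trans (cj_normalizer _ _).le)
  have hn : k⁻¹ * g ∈ NN (J.map φ) := by rw [mem_normalizer_iff_cj, cj_mul, e', inv_cj_cj]
  obtain ⟨f, hf, hd⟩ := perm h hn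
  have f0 : f 0 = I := hinj h.inj (by rw [← hf, cj_mul, e, cj_eq_of_mem_normalizer (inv_mem hk)])
  rw [e, ← f0, WCk.fin (Ω := fun I => ∃ n ∈ NN (J.map φ), n •ᶜ (EI 0).map φ = (EI I).map φ)
    ⟨1, one_mem _, cj_one _⟩ ?_ ?_ ?_ hd]
  · rintro K ⟨n, hn, e1⟩ ⟨n', -, e2⟩
    obtain ⟨f, hf, hd⟩ := perm h hn
    have f0 : f 0 = K := hinj h.inj ((hf 0).symm.trans e1)
    have f1 : f 15 = cp K := (by decide +kernel : ∀ K L, ds K L = ds 0 15 → L = cp K) _ _ (f0 ▸ hd 0 15)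
    exact not15 h (n⁻¹ * n') (by rw [cj_mul, e2, ← f1, ← hf, inv_cj_cj])
  · rintro t K ⟨n, hn, e1⟩
    exact ⟨φ (ir t) * n, mul_mem (nmJ φ ⟨_, rfl⟩) hn, by rw [cj_mul, e1, cj_phi, ir_t]⟩
  · rintro K ⟨n, hn', e1⟩
    exact ⟨_, mul_mem hn hn', by rw [cj_mul, e1, hf]⟩

theorem Fx.ctrl (h : Fx φ O) (W : Subgroup V) {g : G} (hg : ∀ v ∈ W, g * φ (il v) * g⁻¹ ∈ E.map φ) :
    ∃ n, ∃ ψ ∈ Au (φ.comp il), In φ n ψ ∧ ∀ v ∈ W, φ (il (ψ v)) = g * φ (il v) * g⁻¹ := by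
  obtain ⟨n, -, hn, e⟩ := wc_ctrl h.wcE (fun u hu w hw => ((EI_zero ▸ comm φ 0) hu w hw).symm)
    (Y := W.map (φ.comp il)) (by rintro _ ⟨v, -, rfl⟩; exact ⟨il v, ⟨trivial, rfl⟩, rfl⟩) (mem_top g)
    (by rintro _ ⟨_, ⟨v, hv, rfl⟩, rfl⟩; exact hg v hv)
  obtain ⟨ψ, h1, h2⟩ := exists_in h.inj hn
  exact ⟨n, ψ, h1, h2, fun v hv => (h2 v).symm.trans (e _ ⟨v, hv, rfl⟩)⟩

theorem Fx.ctrl1 (h : Fx φ O) {u v : V} (e : IsConj (φ (il u)) (φ (il v))) : ∃ ψ ∈ Au (φ.comp il), ψ u = v := by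
  obtain ⟨g, hg⟩ := isConj_iff.1 e
  obtain ⟨-, ψ, h1, -, h2⟩ := h.ctrl (zpowers u) (g := g) (by
    rintro _ ⟨k, rfl⟩
    rw [map_zpow, map_zpow, ← conj_zpow, hg]
    exact zpow_mem (mem_map_of_mem φ (show il v ∈ E from ⟨trivial, rfl⟩)) k)
  exact ⟨ψ, h1, il_inj (h.inj ((h2 u (mem_zpowers u)).trans hg))⟩

theorem Fx.sy2 (h : Fx φ O) (I : Fin 16) : Sy2 (Au (φ.comp (jI I))) := fun X hX h2 => by
  have ji (I : Fin 16) : Function.Injective (φ.comp (jI I)) := h.inj.comp (jI_inj I)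
  have jr (I : Fin 16) : (φ.comp (jI I)).range = (EI I).map φ := (MonoidHom.map_range φ (jI I)).symm
  obtain ⟨a, ha, har⟩ := exists_act (ji I)
  obtain ⟨R, hR, hle⟩ := exists_sylIn_ge (p := 2) (H := X.comap a)
    (isPGroup_subgroupOf (jr I ▸ (pgP (EI I)).map φ) (NN (φ.comp (jI I)).range)) (by
      rintro ⟨_, hy⟩ ⟨u, rfl⟩
      have : a ⟨_, hy⟩ = 1 := MulEquiv.ext fun v => ji I (by
        rw [← ha, ← map_inv, ← map_mul, ← map_mul, mul_comm u, mul_inv_cancel_right]; rfl)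
      exact mem_comap.2 (this ▸ one_mem X))
  have e : R.map a = X := by
    have := hR.map a
    rw [map_comap_eq_self (har ▸ hX)] at this
    exact this.eq_of_isPGroup h2
  obtain ⟨g, -, hg⟩ := h.syl.exists_conj_le (hR.pgroup.map (Subgroup.subtype _)) le_top
  obtain ⟨K, eK⟩ := ea_cj h (g := g) (I := I) ((cj_mono g fun y hy => mem_map.2
    ⟨⟨y, le_normalizer ((jr I).ge hy)⟩, hle (mem_subgroupOf.2 ((jr I).ge hy)), rfl⟩).trans hg)
  rw [← jr, ← jr] at eK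
  choose f hf using fun v => eK.le (conj_mem_cj ⟨v, rfl⟩)
  let f' : V →* V := MonoidHom.mk' f fun u v => ji K (by rw [map_mul, hf, hf, hf, map_mul]; group)
  have fi : Function.Injective f' := fun u v e => ji I (by
    have := (hf u).symm.trans ((congrArg _ e).trans (hf v))
    simpa using this)
  refine ⟨MulEquiv.ofBijective f' (Finite.injective_iff_bijective.1 fi), ?_⟩
  rw [← e]
  rintro _ ⟨r, hr, rfl⟩
  obtain ⟨m, hm⟩ := hg (conj_mem_cj ⟨r, hr, rfl⟩)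
  have hm' : φ m = g * (r : G) * g⁻¹ := hm
  have : m ∈ NN (EI K) := by
    rw [mem_normalizer_iff_cj, ← (map_injective h.inj).eq_iff, map_cj, ← jr, ← eK, hm', ← cj_mul,
      inv_mul_cancel_right, cj_mul, cj_eq_of_mem_normalizer r.2]
  obtain ⟨t, ht⟩ := norm_EI this
  refine ⟨t, eq_mul_inv_iff_mul_eq.2 (MulEquiv.ext fun u => ji K ?_)⟩
  show φ (jI K (acS t (f u))) = φ.comp (jI K) (f (a r u))
  rw [acS_apply, ← ht, map_mul, map_mul, map_inv, hm', hf, ← ha, show φ (jI K (f u)) = _ from hf u]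
  group

theorem Fx.sylE (h : Fx φ O) : SylIn 2 (E.map φ) (CC (E.map φ)) := by
  have := h.sE
  rw [top_inf_eq, im_hom, im_hom] at this
  exact this.of_le (EI_zero ▸ comm φ 0) (centralizer_le (map_mono fun m hm => ⟨trivial, hm.2⟩))

theorem Fx.sylD (h : Fx φ O) : SylIn 2 (D.map φ) (CC (D.map φ)) := by
  have := h.sD
  rw [im_hom, im_hom] at this
  exact this.of_le (EI_full ▸ comm φ 15) (centralizer_le (map_mono (forall_sd.2 (by decide +kernel))))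

end CL.HA
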