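import Cfsg.Agent.INV.HA.WC

/-!
Harada `E₁₆ · GL₄(2)`, type `S₁₆`: a 3-cycle.
-/

set_option autoImplicit false
set_option maxHeartbeats 400000

namespace CL.HA
open Subgroup CL.MSS CL.PComp
open CL.SX (V vv e ZZ pc)

variable {G : Type*} [Group G] [Finite G] {φ : P →* G} {O : Subgroup G}

namespace Yy

theorem zet_S1 {m : P} (h : m ∈ S1) : zet m = m := by
  have : par m.v = false := by simpa using (show (!par m.v) = true from h.1)
  rw [zet_apply, this]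
  exact P.ext (mul_one _) rfl
theorem zet_il (v : V) : zet (il v) = il (ζV v) := by rw [ζV_apply]; rfl
theorem zet_chk : ∀ v, v * bc (par v) (vv 255) * bc (par (v * bc (par v) (vv 255))) (vv 255) = v ∧
    r1V (v * bc (par v) (vv 255)) = r1V v * bc (par (r1V v)) (vv 255) ∧
    r2V (v * bc (par v) (vv 255)) = r2V v * bc (par (r2V v)) (vv 255) := by decide +kernel
theorem zet_zet (m : P) : zet (zet m) = m := P.ext (zet_chk m.v).1 rfl
theorem ZZ_Ev : ∀ v, v ∈ ZZ → v ∈ Ev := by decide +kernel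
theorem RM_Ev : ∀ v, v ∈ RM → v ∈ Ev := by decide +kernel
theorem T0_S1 : T0 ≤ S1 := fun _ h => ⟨RM_Ev _ h.1, trivial⟩
theorem DB_S1 : DB ≤ S1 := fun _ h => ⟨ZZ_Ev _ h.1, trivial⟩
theorem D_DB : D ≤ DB := fun _ h => ⟨h.1, trivial⟩
theorem omg_S1 : ∀ m ∈ DB, omg m ∈ S1 := forall_sd.2 (by decide +kernel)
theorem R_T0 : R ≤ T0 := forall_sd.2 (by decide +kernel)

end Yy

open Yy in
/-- `zet` is the identity on `S1`, maps `E` to `E`, is an involution, commutes with `rh`, `rh'` and acts on `V` as `ζV` -/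
theorem Fx.zeta (h : Fx φ O) : Fx (φ.comp zet) O := by
  have i {X : Subgroup P} (k : X ≤ S1) : im (φ.comp zet) X = im φ X :=
    im_congr fun m hm => congrArg φ (zet_S1 (k hm))
  have iE : im (φ.comp zet) (⊤ ⊓ E) = im φ (⊤ ⊓ E) := le_antisymm
    (im_le.2 fun m hm => mem_im φ (m := zet m) ⟨trivial, trivial, hm.2.2⟩)
    (im_le.2 fun m hm => zet_zet m ▸ mem_im (φ.comp zet) (m := zet m) ⟨trivial, trivial, hm.2.2⟩)
  refine ⟨⟨le_top, .of_hom (h.inj.comp (Function.LeftInverse.injective zet_zet)),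
    h.n0.congr fun m hm => congrArg φ (zet_S1 (T0_S1 hm)).symm, ?_, ?_, h.om.imp fun g k m hm => ?_,
    h.r1.imp fun g k m hm => ?_, h.r2.imp fun g k m hm => ?_⟩, ?_, ?_⟩
  · rw [iE, i (A'_le_T0.trans T0_S1)]; exact h.sE
  · rw [i (D_DB.trans DB_S1), i (R_T0.trans T0_S1)]; exact h.sD
  · rw [MonoidHom.comp_apply, MonoidHom.comp_apply, zet_S1 (DB_S1 hm), zet_S1 (omg_S1 m hm), k m hm]
  · exact (k (zet m) ⟨trivial, trivial, hm.2.2⟩).trans (congrArg φ (P.ext (zet_chk m.v).2.1 rfl))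
  · exact (k (zet m) ⟨trivial, trivial, hm.2.2⟩).trans (congrArg φ (P.ext (zet_chk m.v).2.2 rfl))
  · rw [MonoidHom.range_comp, MonoidHom.range_eq_top.2 (Function.RightInverse.surjective zet_zet),
      ← MonoidHom.range_eq_map]
    exact h.syl
  · rintro _ ⟨σ, rfl⟩
    obtain ⟨g, k⟩ := h.pm ⟨σ, rfl⟩
    refine ⟨g, fun v => ?_⟩
    simp only [MonoidHom.comp_apply, zet_il] at k ⊢
    rw [k, ← MulAut.mul_apply, ← ζV_pm, MulAut.mul_apply]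

namespace Yy

/-- `d ↦ x ↦ x d` on `D` -/
def η (m : P) : P := m * (bif m.v.n.testBit 0 then x * d else 1) * (bif m.t.n.testBit 0 then d else 1)
/-- conjugation -/
def cg (n m : P) : P := n * m * n⁻¹

section
variable {H : Type*} [Group H] {ψ : P →* H} {g y y' : H} {f f' : P → P}

theorem ac_mul (h : Ac g ψ D f) (k : Ac y ψ D f') (e : ∀ m ∈ D, f' m ∈ D) :
    Ac (g * y) ψ D fun m => f (f' m) := fun m hm => by
  rw [← h _ (e m hm), ← k m hm]; group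

theorem ac_cj (h : Ac g ψ D f) (k : Ac y ψ D f') (j : P → P) {f'' : P → P}
    (e : ∀ m ∈ D, j m ∈ D ∧ f (j m) = m ∧ f' (j m) ∈ D ∧ f (f' (j m)) = f'' m) : Ac (g * y * g⁻¹) ψ D f'' :=
  fun m hm => by
    obtain ⟨e1, e2, e3, e4⟩ := e m hm
    rw [← e4, ← h _ e3, ← k _ e1]
    conv_lhs => rw [← e2, ← h _ e1]
    group

theorem ac_eq (h : Ac g ψ D f) (e : ∀ m ∈ D, f m = f' m) : Ac g ψ D f' := fun m hm => e m hm ▸ h m hm

theorem ac_cg (n : P) : Ac (ψ n) ψ D (cg n) := fun m _ => by rw [cg, map_mul, map_mul, map_inv]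

theorem c1 : ∀ m ∈ D, η m ∈ D ∧ η (η (η m)) = m ∧ m * m = 1 ∧
    (m * η m * η (η m) = 1 → m ∈ [1, d, x, x * d]) := forall_sd.2 (by decide +kernel)
theorem c2 : ∀ m ∈ D, omg (omg m) ∈ D ∧ omg (omg (omg m)) = m ∧ cg (ε 0) (omg (omg m)) ∈ D ∧
    omg (cg (ε 0) (omg (omg m))) = cg (ε 0) (η m) := forall_sd.2 (by decide +kernel)
theorem c3 : ∀ m ∈ D, cg (ε 0) m ∈ D ∧ cg (ε 0) (cg (ε 0) m) = m ∧ η (η (cg (ε 0) m)) ∈ D ∧
    cg (ε 0) (η (η (cg (ε 0) m))) = η m := forall_sd.2 (by decide +kernel)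
theorem c4 : ∀ m ∈ D, cg (ε 2) m ∈ D ∧ cg (ε 2) (cg (ε 2) m) = m ∧ η (cg (ε 2) m) ∈ D ∧
    cg (ε 2) (η (cg (ε 2) m)) = η m := forall_sd.2 (by decide +kernel)
theorem c5 : ∀ m ∈ D, rh (rh m) ∈ D ∧ rh (rh (rh m)) = m ∧ η (rh (rh m)) ∈ D ∧
    rh (η (rh (rh m))) = η m := forall_sd.2 (by decide +kernel)
theorem c6 : ∀ m ∈ D, m ∈ DR ∧ rh m ∈ D ∧ omg m ∈ D := forall_sd.2 (by decide +kernel)
theorem c7 : ∀ k ∈ [1, d, x, x * d], k ∈ D ∧ rh k = k ∧ cg (ε 0) k ∈ D ∧ (∀ n ∈ [ε 2, ε 4, ε 6], n * k = k * n) ∧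
    (η (cg (ε 0) k) = k → k = 1 ∨ k = x * d) := by decide +kernel
theorem c8 : ∀ m ∈ [zb 1, zb 2, zb 3, ab 1, ab 2, ab 3], m ∈ D ∧ η m = m ∧ zet m = m := by decide +kernel
theorem gen_J' : J' ≤ closure {m | m ∈ [zb 1, zb 2, zb 3, ab 1, ab 2, ab 3, ε 2, ε 4, ε 6]} :=
  gen_sd [vv 12, vv 48, vv 192, e 2, e 4, e 6] [ts 2, ts 4, ts 8] (by decide +kernel)
theorem D_comm {m n : P} (hm : m ∈ D) (hn : n ∈ D) : m * n = n * m := by
  rw [← inv_eq_of_mul_eq_one_right (c1 _ (mul_mem hm hn)).2.2.1, mul_inv_rev,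
    inv_eq_of_mul_eq_one_right (c1 _ hm).2.2.1, inv_eq_of_mul_eq_one_right (c1 _ hn).2.2.1]

theorem y0_of {χ : P →* H} (h1 : y * χ d * y⁻¹ = χ x) (h2 : y * χ x * y⁻¹ = χ (x * d))
    (h : ∀ m ∈ [zb 1, zb 2, zb 3, ab 1, ab 2, ab 3, ε 2, ε 4, ε 6], χ m * y = y * χ m) : Y0 χ y :=
  ⟨h1, h2, fun _ hm => (mem_centralizer_singleton_iff.1 ((closure_le ((Cz y).comap χ)).2
    (fun m hm => mem_centralizer_singleton_iff.2 (h m hm)) (gen_J' hm))).symm⟩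

variable (hi : Function.Injective ψ) (cen : ∀ q, Ac q ψ D (fun m => m) → ∃ m ∈ D, q = ψ m)
include hi cen

theorem key (h : Ac y ψ D η) (h' : Ac y' ψ D η) (h3 : y ^ 3 = 1) (h3' : y' ^ 3 = 1) :
    ∃ k ∈ [1, d, x, x * d], y' = ψ k * y := by
  obtain ⟨k, hk, e⟩ := cen _ (ac_eq (ac_mul h' (ac_mul h h fun m hm => (c1 m hm).1)
    fun m hm => (c1 _ (c1 m hm).1).1) fun m hm => (c1 m hm).2.1)
  have e' : y' = ψ k * y := by rw [← e, mul_assoc, ← pow_two, ← pow_succ, h3, mul_one]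
  refine ⟨k, (c1 k hk).2.2.2 (hi ?_), e'⟩
  rw [map_mul, map_mul, ← h _ (c1 k hk).1, ← h k hk, map_one, ← h3', e']
  calc _ = (ψ k * y) ^ 3 * (y ^ 3)⁻¹ := by simp only [pow_succ, pow_zero]; group
    _ = _ := by rw [h3, inv_one, mul_one]

theorem main {g0 g1 : H} (h0 : Ac g0 ψ D omg) (h1 : Ac g1 ψ D rh) (e2 : g1 * ψ (ε 2) * g1⁻¹ = ψ (ε 4))
    (e4 : g1 * ψ (ε 4) * g1⁻¹ = ψ (ε 6)) : ∃ y, Y0 ψ y ∨ Y0 (ψ.comp zet) y := by
  have a1 : Ac (ψ (ε 0) * (g0 * ψ (ε 0) * g0⁻¹)) ψ D η :=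
    ac_eq (ac_mul (ac_cg _) (ac_cj h0 (ac_cg _) _ c2) fun m hm => (c3 _ (c1 m hm).1).1)
      fun m hm => (c3 _ (c1 m hm).1).2.1
  generalize ψ (ε 0) * (g0 * ψ (ε 0) * g0⁻¹) = y at a1
  obtain ⟨y, a, y3⟩ : ∃ y, Ac y ψ D η ∧ y ^ 3 = 1 := by
    obtain ⟨k, hk, e⟩ := cen _ (ac_eq (ac_mul a1 (ac_mul a1 a1 fun m hm => (c1 m hm).1)
      fun m hm => (c1 _ (c1 m hm).1).1) fun m hm => (c1 m hm).2.1)
    refine ⟨ψ k * y, ac_eq (ac_mul (ac_cg k) a1 fun m hm => (c1 m hm).1) fun m hm => by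
      rw [cg, D_comm hk (c1 m hm).1, mul_inv_cancel_right], ?_⟩
    calc _ = y * (y * y) * (y * (y * y)) * (y * (y * y) * (y * (y * y))) := by
          rw [← e]; simp only [pow_succ, pow_zero, one_mul, mul_assoc]
      _ = _ := by rw [e, ← map_mul, (c1 k hk).2.2.1, map_one, one_mul]
  have cj : ∀ g w : H, w ^ 3 = 1 → (g * w * g⁻¹) ^ 3 = 1 := fun g w e => by rw [conj_pow, e]; group
  have yy : y * (y * y) = 1 := by rw [← y3]; simp only [pow_succ, pow_zero, one_mul, mul_assoc]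
  obtain ⟨k, hk, f⟩ := key hi cen a (ac_cj (ac_cg (ε 2)) a _ c4) y3 (cj _ _ y3)
  obtain ⟨k0, hk0, f0⟩ := key hi cen a (ac_cj (ac_cg (ε 0)) (ac_mul a a fun m hm => (c1 m hm).1) _ c3) y3
    (cj _ _ (by rw [(Commute.refl y).mul_pow, y3, one_mul]))
  obtain ⟨k1, hk1, f1⟩ := key hi cen a (ac_cj h1 a _ c5) y3 (cj _ _ y3)
  obtain ⟨kD, kr, k0D, kc, kk⟩ := c7 k hk
  have cm : ∀ {p q : P}, p * q = q * p → ψ p * ψ q = ψ q * ψ p := fun e => by rw [← map_mul, e, map_mul]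
  have k2 : ψ k * ψ k = 1 := by rw [← map_mul, (c1 k kD).2.2.1, map_one]
  replace kk := kk (hi (by
    have s1 : ψ (ε 2) * (y * y) * (ψ (ε 2))⁻¹ = y * y * ψ k := by
      rw [← eq_inv_of_mul_eq_one_right yy |>.symm, ← conj_inv, f, mul_inv_rev, inv_eq_of_mul_eq_one_right k2]
    have s2 : ψ (ε 2) * (ψ k0 * y) * (ψ (ε 2))⁻¹ = ψ k0 * y * ψ (cg (ε 0) k) := by
      rw [← f0, ← ac_cg (ε 0) k kD]
      calc _ = ψ (ε 2) * ψ (ε 0) * (y * y) * (ψ (ε 2) * ψ (ε 0))⁻¹ := by group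
        _ = ψ (ε 0) * (ψ (ε 2) * (y * y) * (ψ (ε 2))⁻¹) * (ψ (ε 0))⁻¹ := by
          rw [cm (show ε 2 * ε 0 = ε 0 * ε 2 by decide +kernel)]; group
        _ = _ := by rw [s1]; group
    rw [← mul_assoc, cm ((c7 k0 hk0).2.2.2.1 (ε 2) (by simp)), mul_assoc, mul_assoc, mul_assoc,
      mul_right_inj, ← mul_assoc, f] at s2
    rw [← a _ k0D, ← s2, mul_inv_cancel_right]))
  have st : ∀ n n', g1 * ψ n * g1⁻¹ = ψ n' → n' ∈ [ε 2, ε 4, ε 6] → ψ n * y * (ψ n)⁻¹ = ψ k * y →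
      ψ n' * y * (ψ n')⁻¹ = ψ k * y := fun n n' e hn s => by
    have s1 : ψ n' * (ψ k1 * y) * (ψ n')⁻¹ = ψ k * (ψ k1 * y) := by
      rw [← f1, ← e, ← kr, ← h1 k kD]
      calc _ = g1 * (ψ n * y * (ψ n)⁻¹) * g1⁻¹ := by group
        _ = _ := by rw [s]; group
    rw [← mul_assoc, cm ((c7 k1 hk1).2.2.2.1 n' hn), ← mul_assoc (ψ k), cm (D_comm kD (c7 k1 hk1).1)] at s1
    simpa only [mul_assoc, mul_right_inj] using s1
  have f4 := st _ _ e2 (by simp) f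
  have f6 := st _ _ e4 (by simp) f4
  have fB : ∀ m ∈ [zb 1, zb 2, zb 3, ab 1, ab 2, ab 3], ψ m * y = y * ψ m := fun m hm => by
    rw [mul_inv_eq_iff_eq_mul.1 (a m (c8 m hm).1), (c8 m hm).2.1]
  have ad : y * ψ d * y⁻¹ = ψ x := (a d (by decide +kernel)).trans (congrArg ψ (by decide +kernel))
  have ax : y * ψ x * y⁻¹ = ψ (x * d) := (a x (by decide +kernel)).trans (congrArg ψ (by decide +kernel))
  refine ⟨y, kk.imp (fun e => ?_) fun e => ?_⟩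
  · rw [e, map_one, one_mul, mul_inv_eq_iff_eq_mul] at f f4 f6
    refine y0_of ad ax ?_
    simp only [List.forall_mem_cons] at fB ⊢
    exact ⟨fB.1, fB.2.1, fB.2.2.1, fB.2.2.2.1, fB.2.2.2.2.1, fB.2.2.2.2.2.1, f, f4, f6, by simp⟩
  · have zt : ∀ n ∈ [ε 2, ε 4, ε 6], ψ n * y * (ψ n)⁻¹ = ψ k * y → ψ (zet n) * y = y * ψ (zet n) := fun n hn s => by
      have s0 : zet n = n * d * (zb 1 * zb 2 * zb 3) ∧ n * d * x = x * d * n := by clear s; revert n; decide +kernel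
      have s1 : ψ (zb 1 * zb 2 * zb 3) * y = y * ψ (zb 1 * zb 2 * zb 3) := by
        rw [map_mul, map_mul, mul_assoc, fB _ (by simp), ← mul_assoc, mul_assoc (ψ (zb 1)), fB _ (by simp),
          ← mul_assoc, fB _ (by simp)]
        simp only [mul_assoc]
      have s2 : ψ n * ψ d * ψ x = ψ k * ψ n := by rw [← map_mul, ← map_mul, s0.2, e, map_mul]
      rw [s0.1, map_mul, mul_assoc, s1, ← mul_assoc, ← mul_assoc, mul_left_inj, map_mul]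
      rw [mul_inv_eq_iff_eq_mul] at s ad
      have s3 : ψ x * ψ x = 1 := by rw [← map_mul, show x * x = 1 by decide +kernel, map_one]
      calc _ = ψ n * ψ d * (ψ x * ψ x) * y := by rw [s3, mul_one]
        _ = ψ k * (ψ n * y) * ψ d := by rw [← mul_assoc, s2, mul_assoc, ← ad]; group
        _ = _ := by rw [s, ← mul_assoc, ← mul_assoc, k2, one_mul, mul_assoc]
    have zd : zet d = d ∧ zet x = x ∧ zet (x * d) = x * d := by decide +kernel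
    refine y0_of (by simpa only [MonoidHom.comp_apply, zd.1, zd.2.1] using ad)
      (by simpa only [MonoidHom.comp_apply, zd.2.2, zd.2.1] using ax) ?_
    have fB' : ∀ m ∈ [zb 1, zb 2, zb 3, ab 1, ab 2, ab 3], ψ (zet m) * y = y * ψ (zet m) := fun m hm => by
      rw [(c8 m hm).2.2, fB m hm]
    simp only [List.forall_mem_cons] at fB' ⊢
    exact ⟨fB'.1, fB'.2.1, fB'.2.2.1, fB'.2.2.2.1, fB'.2.2.2.2.1, fB'.2.2.2.2.2.1, zt _ (by simp) f,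
      zt _ (by simp) f4, zt _ (by simp) f6, by simp⟩

end

theorem D_nm (m : P) : ∀ n ∈ D, m * n * m⁻¹ ∈ D := by
  have : ∀ t, ∀ u, u ∈ Lo → t * u * t⁻¹ ∈ Lo ∧ ∀ v, v * aS u v ∈ ZZ := by decide +kernel
  have h2 : ∀ t v, v ∈ ZZ → aS t v ∈ ZZ := by decide +kernel
  refine fun n hn => ⟨?_, (this m.t n.t hn.2).1⟩
  simp only [P.mul_v, P.mul_t, P.inv_v, ← mul_aS]
  rw [mul_right_comm]
  exact mul_mem ((this 1 _ (this m.t n.t hn.2).1).2 _) (h2 _ _ hn.1)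

theorem lift {N Q Y : Subgroup G} (hQ : Od Q) (hY : IsPGroup 2 Y) (QC : Q ≤ CC Y) (hN : N ≤ NN Y)
    (hN' : N ≤ NN Q) [(Q.subgroupOf N).Normal] (χ : P →* N) (hd : ∀ m ∈ [d, x, x * d], (χ m : G) ∈ Y) {y : N}
    (h : Y0 ((QuotientGroup.mk' (Q.subgroupOf N)).comp χ) y) : ∃ y', Y0 (N.subtype.comp χ) y' := by
  obtain ⟨o, ho, k⟩ := lift_cen (Y := J'.map (N.subtype.comp χ)) hQ ((pgP J').map _)
    (by rintro _ ⟨m, -, rfl⟩; exact hN' (χ m).2) (hN' y.2) (by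
      rintro _ ⟨m, hm, rfl⟩
      have := QuotientGroup.eq.1 (show ((χ m * y : N) : N ⧸ Q.subgroupOf N) = (y * χ m : N) from (h.cen m hm).symm)
      have := SX.Hx.conj_mem (hN' (χ m * y).2) this
      simpa [mul_assoc] using this)
  have s : ∀ m ∈ [d, x, x * d], ∀ n ∈ [d, x, x * d], ((y * χ m * y⁻¹ : N) : N ⧸ Q.subgroupOf N) = χ n →
      o * y * χ m * (o * y)⁻¹ = χ n := fun m hm n hn e => by
    have h1 := SX.Hx.conj_mem (hN y.2) (hd m hm)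
    have h2 : ((y : G) * χ m * (y : G)⁻¹)⁻¹ * χ n = 1 := mem_bot.1 (inf_eq_bot_of_isPGroup_of_coprime hY hQ ▸
      mem_inf.2 ⟨mul_mem (inv_mem h1) (hd n hn), mem_subgroupOf.1 (QuotientGroup.eq.1 e)⟩)
    rw [← inv_mul_eq_one.1 h2]
    calc _ = o * (y * χ m * (y : G)⁻¹) * o⁻¹ := by group
      _ = _ := by rw [← QC ho _ h1, mul_inv_cancel_right]
  exact ⟨o * y, s d (by simp) x (by simp) h.h1, s x (by simp) (x * d) (by simp) h.h2,
    fun m hm => (k _ ⟨m, hm, rfl⟩).symm⟩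

end Yy

open Yy in
/-- `O_D = opOf 2 (C(D))`, `C(D) = D × O_D` (`sylD`, `cen_split`); `≡` is congruence modulo `O_D` in `N(D)`. `r = φ (ε 0)`, `g0` from `om`,
`y₁ = r * (g0 r g0⁻¹)` acts on `D` as `d ↦ x ↦ x d` and centralises `B₀ = D ⊓ J'`. `y₁³ = δ o`; `y = y₁⁴` acts in the same way and
`y³ ∈ O_D`. KEY: if `y'` acts on `D` as `y` and `y'³ ∈ O_D` then `y' ≡ k y k⁻¹` for a unique `k ∈ V₀ = φ ⟨d, x⟩`:
`y' = δ o y`, cubing gives `δ y(δ) y²(δ) = 1`, so `δ ∈ V₀`, and `k ↦ k y(k)⁻¹` is a bijection of `V₀`.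
For `b ∈ B` this gives `κ b ∈ V₀` with `b y b⁻¹ ≡ κ(b) y κ(b)⁻¹`; `κ` is a homomorphism, trivial on `B ⊓ D`. `r y⁻¹ r⁻¹ ≡ k' y k'⁻¹`
and `[r, b] = 1` give `r κ(b) r⁻¹ = κ b`, so `κ b ∈ ⟨d⟩`. With `g1` from `r1` (it fixes `d, x`, normalises `D`):
`g1 y g1⁻¹ ≡ k₁ y k₁⁻¹`, so `κ (rh b) = κ b`. Hence `κ (ε p)` is the same for `p = 2, …, 7`. If it is 1 take `φ' = φ`; if it is
`d` take `φ' = φ.comp zet` (`zet (ε p) = ε p * z = ε p * d * (zb 1 zb 2 zb 3)`). Then `[y, φ' m] ∈ O_D` for `m ∈ J'`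
(generated by `B` and `B₀`), and `lift_cen` gives `o ∈ O_D` with `o y ∈ C(φ' J')`. -/
theorem Fx.yy (h : Fx φ O) : ∃ φ' : P →* G, Fy φ' O := by
  let Y := D.map φ
  let Q := opOf 2 (CC Y)
  have hN' : NN Y ≤ NN Q := (normalizer_le_normalizer_centralizer _).trans (normalizer_le_normalizer_opOf 2 _)
  have := normal_subgroupOf_of_le_normalizer hN'
  have hY : IsPGroup 2 Y := (pgP D).map φ
  have b0 := inf_eq_bot_of_isPGroup_of_coprime hY (opOf_coprime 2 (CC Y))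
  let χ : P →* NN Y := φ.codRestrict _ fun m => SX.Hx.norm_map (SX.Hx.norm_of (D_nm m))
  let π := QuotientGroup.mk' (Q.subgroupOf (NN Y))
  obtain ⟨g0, k0⟩ := h.om
  obtain ⟨g1, k1⟩ := h.r1
  have n0 := k0.norm D_DB fun m hm => (c6 m hm).2.2
  have n1 := k1.norm (Y := D) (fun m hm => ⟨trivial, (c6 m hm).1⟩) fun m hm => (c6 m hm).2.1
  rw [im_hom] at n0 n1
  have q : ∀ {g} (n : g ∈ NN Y) {m m'}, g * φ m * g⁻¹ = φ m' →
      π ⟨g, n⟩ * π.comp χ m * (π ⟨g, n⟩)⁻¹ = π.comp χ m' := fun n m m' e => by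
    rw [MonoidHom.comp_apply, ← map_inv, ← map_mul, ← map_mul]
    exact congrArg π (Subtype.ext e)
  obtain ⟨y, hy⟩ := main (ψ := π.comp χ) ((injective_iff_map_eq_one _).2 fun m e => h.inj (by
      rw [map_one]
      exact mem_bot.1 (inf_eq_bot_of_isPGroup_of_coprime h.syl.pgroup (opOf_coprime 2 (CC Y)) ▸
        (⟨⟨m, rfl⟩, (QuotientGroup.eq_one_iff (χ m)).1 e⟩ : φ m ∈ φ.range ⊓ Q))))
    (fun g k => by
      obtain ⟨g, rfl⟩ := QuotientGroup.mk'_surjective _ g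
      obtain ⟨_, ⟨m, hm, rfl⟩, o, ho, e⟩ := cen_split h.sylD le_rfl (g := g) (by
        rintro _ ⟨m, hm, rfl⟩
        have h1 := SX.Hx.conj_mem g.2 (mem_map_of_mem φ hm)
        have h2 : ((g : G) * φ m * (g : G)⁻¹)⁻¹ * φ m = 1 := mem_bot.1 (b0 ▸ mem_inf.2
          ⟨mul_mem (inv_mem h1) (mem_map_of_mem φ hm), mem_subgroupOf.1 (QuotientGroup.eq.1
            (show ((g * χ m * g⁻¹ : NN Y) : NN Y ⧸ Q.subgroupOf (NN Y)) = χ m from k m hm))⟩)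
        exact (mul_inv_eq_iff_eq_mul.1 (inv_mul_eq_one.1 h2)).symm)
      exact ⟨m, hm, (QuotientGroup.eq.2 (by
        change (φ m)⁻¹ * g ∈ Q
        rwa [e, inv_mul_cancel_left])).symm⟩)
    (fun m hm => q n0 (k0 m (D_DB hm))) (fun m hm => q n1 (k1 m ⟨trivial, (c6 m hm).1⟩))
    (q n1 ((k1 _ (mem_inf.2 ⟨trivial, by decide +kernel⟩)).trans (congrArg φ (by decide +kernel))))
    (q n1 ((k1 _ (mem_inf.2 ⟨trivial, by decide +kernel⟩)).trans (congrArg φ (by decide +kernel))))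
  obtain ⟨y, rfl⟩ := QuotientGroup.mk_surjective y
  have hd : ∀ m ∈ [d, x, x * d], m ∈ D ∧ zet m ∈ D := by decide +kernel
  rcases hy with k | k
  · exact ⟨φ, h, lift (opOf_coprime 2 _) hY (opOf_le 2 _) le_rfl hN' χ (fun m hm => ⟨m, (hd m hm).1, rfl⟩) k⟩
  · exact ⟨φ.comp zet, h.zeta, lift (opOf_coprime 2 _) hY (opOf_le 2 _) le_rfl hN' (χ.comp zet)
      (fun m hm => ⟨zet m, (hd m hm).2, rfl⟩) k⟩

end CL.HA
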